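import Mathlib
import Cfsg.Agent.H17.SUGen
import Cfsg.Agent.H44.RepEig

/-!
# S2334 / S2335 (team project, helper97): Landazuri–Seitz bounds for `SU_n(q)` — definitions and
exact statements of the pieces.

Everything happens in `Cfsg.SU n F q` itself (orthonormal model), with helper17's toolkit
(`Cfsg.Agent.H17`: `suAct`, `su_ext`, `ex_E`, `b1`, `exists_std_pair`, `hermForm_*`, `frob_*`,
`exists_trace_neg`, `exists_norm_eq`, `transv_param`, ...).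

Notation: `h = Cfsg.hermForm n F q` (linear in the first variable, `h (x, s y) = s^q h (x, y)`,
`h (y, x) = h (x, y)^q`), `K = {c | c^q = -c}`, `N s = s^(q+1)`.
`IsE e a c g` : `g z = z + h(z,e) a - h(z,a) e + c h(z,e) e` (exactly the shape of `H17.ex_E`;
it exists when `h(e,e) = 0`, `h(a,e) = 0`, `c + c^q + h(a,a) = 0`).  The root group of an
isotropic `e` is `{g | IsE e 0 c g, c ∈ K}`.
-/

set_option autoImplicit false

namespace Cfsg.Agent.H97.SuL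

open Module Cfsg.Agent.H17

universe u w

section Defs

variable {F : Type u} [Field F] [Fintype F] {q n : ℕ}

/-- Eichler / Heisenberg elements, by their action (the shape of `H17.ex_E`). -/
def IsE (e a : Fin n → F) (c : F) (g : ↥(Cfsg.SU n F q)) : Prop :=
  ∀ z, suAct g z = z + (Cfsg.hermForm n F q z e • a + (-Cfsg.hermForm n F q z a) • e +
    (c * Cfsg.hermForm n F q z e) • e)

/-- Unitary transvections, by their action. -/
def IsTv (g : ↥(Cfsg.SU n F q)) : Prop :=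
  ∃ (e : Fin n → F) (c : F), Cfsg.hermForm n F q e e = 0 ∧
    ∀ z, suAct g z = z + (c * Cfsg.hermForm n F q z e) • e

/-- The joint eigenspace of the root group of `e` for the "character" `lam` of `K`. -/
def zEig {V : Type} [AddCommGroup V] [Module ℂ V] (ρ : Representation ℂ ↥(Cfsg.SU n F q) V)
    (e : Fin n → F) (lam : F → ℂ) : Submodule ℂ V where
  carrier := {v | ∀ (c : F) (g : ↥(Cfsg.SU n F q)), c ^ q = -c → IsE e 0 c g → ρ g v = lam c • v}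
  add_mem' := by
    intro v w hv hw c g hc hg
    rw [map_add, hv c g hc hg, hw c g hc hg, smul_add]
  zero_mem' := by
    intro c g _ _
    simp
  smul_mem' := by
    intro x v hv c g hc hg
    rw [map_smul, hv c g hc hg, smul_comm]

theorem mem_zEig {V : Type} [AddCommGroup V] [Module ℂ V]
    (ρ : Representation ℂ ↥(Cfsg.SU n F q) V) (e : Fin n → F) (lam : F → ℂ) (v : V) :
    v ∈ zEig ρ e lam ↔
      ∀ (c : F) (g : ↥(Cfsg.SU n F q)), c ^ q = -c → IsE e 0 c g → ρ g v = lam c • v := Iff.rfl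

/-- The root group of `e` acts nontrivially. -/
def RootNT {V : Type} [AddCommGroup V] [Module ℂ V] (ρ : Representation ℂ ↥(Cfsg.SU n F q) V)
    (e : Fin n → F) : Prop :=
  ∃ (c : F) (g : ↥(Cfsg.SU n F q)), c ^ q = -c ∧ IsE e 0 c g ∧ ρ g ≠ 1

/-- `F^m → F^(m+2)`, zero on the last two coordinates. -/
def emb (m : ℕ) (u : Fin m → F) : Fin (m + 2) → F := Fin.append u (0 : Fin 2 → F)

/-- Vectors of `F^(m+2)` supported on the last two coordinates. -/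
def InPl (m : ℕ) (e : Fin (m + 2) → F) : Prop := ∃ w : Fin 2 → F, e = Fin.append (0 : Fin m → F) w

end Defs

/-! ## Group calculus (any `n`) -/

/-- (EMUL) the Heisenberg law. -/
def StEMul : Prop :=
  ∀ {F : Type u} [Field F] [Fintype F] {q n : ℕ}, Fintype.card F = q ^ 2 →
    ∀ (e a b : Fin n → F) (c d : F) (g g' : ↥(Cfsg.SU n F q)),
      Cfsg.hermForm n F q e e = 0 → Cfsg.hermForm n F q a e = 0 → Cfsg.hermForm n F q b e = 0 →
      IsE e a c g → IsE e b d g' → IsE e (a + b) (c + d - Cfsg.hermForm n F q b a) (g * g')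

/-- (ECONJ) conjugation. -/
def StEConj : Prop :=
  ∀ {F : Type u} [Field F] [Fintype F] {q n : ℕ}, Fintype.card F = q ^ 2 →
    ∀ (t g : ↥(Cfsg.SU n F q)) (e a : Fin n → F) (c : F),
      IsE e a c g → IsE (suAct t e) (suAct t a) c (t * g * t⁻¹)

/-- (ESCAL) rescaling the isotropic vector of a root element. -/
def StEScal : Prop :=
  ∀ {F : Type u} [Field F] [Fintype F] {q n : ℕ}, Fintype.card F = q ^ 2 →
    ∀ (s : F) (e : Fin n → F) (c : F) (g : ↥(Cfsg.SU n F q)),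
      IsE (s • e) 0 c g → IsE e 0 (s ^ (q + 1) * c) g

/-- (AMOVE) the commutator of two Heisenberg elements. -/
def StAMove : Prop :=
  ∀ {F : Type u} [Field F] [Fintype F] {q n : ℕ}, Fintype.card F = q ^ 2 →
    ∀ (e a b : Fin n → F) (c d : F) (g g' z : ↥(Cfsg.SU n F q)),
      Cfsg.hermForm n F q e e = 0 → Cfsg.hermForm n F q a e = 0 → Cfsg.hermForm n F q b e = 0 →
      IsE e a c g → IsE e b d g' →
      IsE e 0 (Cfsg.hermForm n F q a b - Cfsg.hermForm n F q b a) z → g * g' = g' * g * z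

/-- (COMM) the commutation relation behind step (II). -/
def StComm : Prop :=
  ∀ {F : Type u} [Field F] [Fintype F] {q n : ℕ}, Fintype.card F = q ^ 2 →
    ∀ (e₁ e₂ f₁ : Fin n → F) (β d : F) (τ g a z : ↥(Cfsg.SU n F q)),
      Cfsg.hermForm n F q e₁ e₁ = 0 → Cfsg.hermForm n F q e₂ e₂ = 0 →
      Cfsg.hermForm n F q e₁ e₂ = 0 → Cfsg.hermForm n F q f₁ f₁ = 0 →
      Cfsg.hermForm n F q e₁ f₁ = 1 → Cfsg.hermForm n F q f₁ e₂ = 0 → d ^ q = -d →
      IsE e₁ 0 d τ → IsE e₂ (β • f₁) 0 g → IsE e₂ ((d * β) • e₁) 0 a →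
      IsE e₂ 0 (d * β ^ (q + 1)) z → τ * g = g * τ * a * z

/-! ## The model `n = m + 2` -/

/-- (FORMEMB) the form on `F^m ⊕ F^2`. -/
def StFormEmb : Prop :=
  ∀ {F : Type u} [Field F] [Fintype F] {q : ℕ}, Fintype.card F = q ^ 2 →
    ∀ (m : ℕ) (x x' : Fin m → F) (w w' : Fin 2 → F),
      Cfsg.hermForm (m + 2) F q (Fin.append x w) (Fin.append x' w') =
        Cfsg.hermForm m F q x x' + Cfsg.hermForm 2 F q w w'

/-- (VEC) a hyperbolic pair in the last two coordinates. -/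
def StVec : Prop :=
  ∀ {F : Type u} [Field F] [Fintype F] {q : ℕ}, Fintype.card F = q ^ 2 →
    ∀ (m : ℕ), ∃ e f : Fin (m + 2) → F, InPl m e ∧ InPl m f ∧
      Cfsg.hermForm (m + 2) F q e e = 0 ∧ Cfsg.hermForm (m + 2) F q f f = 0 ∧
      Cfsg.hermForm (m + 2) F q e f = 1

/-- (EMB) the block embedding `SU_m → SU_{m+2}`. -/
def StEmb : Prop :=
  ∀ {F : Type u} [Field F] [Fintype F] {q : ℕ}, Fintype.card F = q ^ 2 →
    ∀ (m : ℕ), ∃ φ : ↥(Cfsg.SU m F q) →* ↥(Cfsg.SU (m + 2) F q),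
      ∀ (g : ↥(Cfsg.SU m F q)) (x : Fin m → F) (w : Fin 2 → F),
        suAct (φ g) (Fin.append x w) = Fin.append (suAct g x) w

/-- (EMBE) the embedding maps root elements to root elements. -/
def StEmbE : Prop :=
  ∀ {F : Type u} [Field F] [Fintype F] {q : ℕ}, Fintype.card F = q ^ 2 →
    ∀ (m : ℕ) (φ : ↥(Cfsg.SU m F q) →* ↥(Cfsg.SU (m + 2) F q)),
      (∀ (g : ↥(Cfsg.SU m F q)) (x : Fin m → F) (w : Fin 2 → F),
        suAct (φ g) (Fin.append x w) = Fin.append (suAct g x) w) →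
      ∀ (e' : Fin m → F) (d : F) (τ' : ↥(Cfsg.SU m F q)),
        IsE e' 0 d τ' → IsE (emb m e') 0 d (φ τ')

/-! ## Torus elements -/

/-- (TOR1) a torus element scaling `e` by `s` with prescribed norm. -/
def StTor1 : Prop :=
  ∀ {F : Type u} [Field F] [Fintype F] {q n : ℕ}, Fintype.card F = q ^ 2 → 3 ≤ n →
    ∀ (e : Fin n → F), e ≠ 0 → Cfsg.hermForm n F q e e = 0 →
    ∀ r : F, r ^ q = r → r ≠ 0 →
      ∃ (t : ↥(Cfsg.SU n F q)) (s : F), s ≠ 0 ∧ s ^ (q + 1) = r ∧ suAct t e = s • e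

/-- (TOR2) the torus of `SL_2(F)` acting on the span of two orthogonal isotropic vectors. -/
def StTor2 : Prop :=
  ∀ {F : Type u} [Field F] [Fintype F] {q n : ℕ}, Fintype.card F = q ^ 2 →
    ∀ (e f e₂ f₂ : Fin n → F),
      Cfsg.hermForm n F q e e = 0 → Cfsg.hermForm n F q f f = 0 → Cfsg.hermForm n F q e f = 1 →
      Cfsg.hermForm n F q e₂ e₂ = 0 → Cfsg.hermForm n F q f₂ f₂ = 0 →
      Cfsg.hermForm n F q e₂ f₂ = 1 →
      Cfsg.hermForm n F q e e₂ = 0 → Cfsg.hermForm n F q e f₂ = 0 →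
      Cfsg.hermForm n F q f e₂ = 0 → Cfsg.hermForm n F q f f₂ = 0 →
      ∀ s : F, s ≠ 0 → ∃ t : ↥(Cfsg.SU n F q), suAct t e = s⁻¹ • e ∧ suAct t e₂ = s • e₂

/-! ## Finite field facts -/

/-- (ENUM) an enumeration of `F_q^×`. -/
def StEnum : Prop :=
  ∀ {F : Type u} [Field F] [Fintype F] {q : ℕ}, Fintype.card F = q ^ 2 →
    ∃ f : Fin (q - 1) → F, Function.Injective f ∧ ∀ i, f i ^ q = f i ∧ f i ≠ 0

/-- (ENUMM) an enumeration of `F_q^m`. -/
def StEnumM : Prop :=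
  ∀ {F : Type u} [Field F] [Fintype F] {q : ℕ}, Fintype.card F = q ^ 2 →
    ∀ (m : ℕ), ∃ f : Fin (q ^ m) → (Fin m → F), Function.Injective f ∧ ∀ j i, f j i ^ q = f j i

/-- (ZINJ) the characters `c ↦ lam (r c)`, `r ∈ F_q`, of `K` are pairwise distinct. -/
def StZInj : Prop :=
  ∀ {F : Type u} [Field F] [Fintype F] {q : ℕ}, Fintype.card F = q ^ 2 →
    ∀ (lam : F → ℂ), lam 0 = 1 →
      (∀ c d : F, c ^ q = -c → d ^ q = -d → lam (c + d) = lam c * lam d) →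
      (∃ c : F, c ^ q = -c ∧ lam c ≠ 1) →
      ∀ r r' : F, r ^ q = r → r' ^ q = r' → r ≠ r' →
        ∃ c : F, c ^ q = -c ∧ lam (r * c) ≠ lam (r' * c)

/-- (FSEP) separation of the characters of `F_q^m` coming from the commutator pairing. -/
def StFSep : Prop :=
  ∀ {F : Type u} [Field F] [Fintype F] {q : ℕ}, Fintype.card F = q ^ 2 →
    ∀ (m : ℕ) (lam : F → ℂ), lam 0 = 1 →
      (∀ c d : F, c ^ q = -c → d ^ q = -d → lam (c + d) = lam c * lam d) →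
      (∃ c : F, c ^ q = -c ∧ lam c ≠ 1) →
      ∀ ω : F, ω ^ q ≠ ω → ∀ b b' : Fin m → F, (∀ i, b i ^ q = b i) → (∀ i, b' i ^ q = b' i) →
        b ≠ b' →
        ∃ x : Fin m → F, (∀ i, x i ^ q = x i) ∧
          lam ((ω ^ q - ω) * ∑ i, x i * b i) ≠ lam ((ω ^ q - ω) * ∑ i, x i * b' i)

/-- (CSA) every character of `K` is `d ↦ lam (m d)`, `m ∈ F_q`. -/
def StCSA : Prop :=
  ∀ {F : Type u} [Field F] [Fintype F] {q : ℕ}, Fintype.card F = q ^ 2 →
    ∀ (lam mu : F → ℂ), lam 0 = 1 →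
      (∀ c d : F, c ^ q = -c → d ^ q = -d → lam (c + d) = lam c * lam d) →
      (∃ c : F, c ^ q = -c ∧ lam c ≠ 1) → mu 0 = 1 →
      (∀ c d : F, c ^ q = -c → d ^ q = -d → mu (c + d) = mu c * mu d) →
      ∃ m : F, m ^ q = m ∧ ∀ d : F, d ^ q = -d → mu d = lam (m * d)

/-- (CSB) `F_q`-linear maps `F → F_q` are trace forms. -/
def StCSB : Prop :=
  ∀ {F : Type u} [Field F] [Fintype F] {q : ℕ}, Fintype.card F = q ^ 2 →
    ∀ (κ : F → F), (∀ x, κ x ^ q = κ x) → (∀ x y, κ (x + y) = κ x + κ y) →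
      (∀ r x : F, r ^ q = r → κ (r * x) = r * κ x) →
      ∃ κ₀ : F, ∀ x, κ x = κ₀ * x + (κ₀ * x) ^ q

/-- (CSOLVE) the character equation of step (II). -/
def StCSolve : Prop :=
  ∀ {F : Type u} [Field F] [Fintype F] {q : ℕ}, Fintype.card F = q ^ 2 →
    ∀ (lam mu al : F → ℂ), lam 0 = 1 →
      (∀ c d : F, c ^ q = -c → d ^ q = -d → lam (c + d) = lam c * lam d) →
      (∃ c : F, c ^ q = -c ∧ lam c ≠ 1) → mu 0 = 1 →
      (∀ c d : F, c ^ q = -c → d ^ q = -d → mu (c + d) = mu c * mu d) →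
      al 0 = 1 → (∀ x y : F, al (x + y) = al x * al y) →
      ∃ β : F, ∀ d : F, d ^ q = -d → mu d * al (d * β) * lam (d * β ^ (q + 1)) = 1

/-- (ARITH) the arithmetic of the two bounds. -/
def StArith : Prop :=
  ∀ (q m : ℕ), 1 ≤ q → 1 ≤ m →
    (q ^ (m + 2) - q) / (q + 1) = (q ^ m - q) / (q + 1) + (q - 1) * q ^ m ∧
    (q ^ (m + 2) - 1) / (q + 1) = (q ^ m - 1) / (q + 1) + (q - 1) * q ^ m ∧
    (q ^ 3 - q) / (q + 1) = (q - 1) * q ∧
    (q ^ 4 - 1) / (q + 1) = (q - 1) + (q - 1) * q ^ 2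

/-! ## Generic representation theory -/

/-- (RIND) joint eigenspaces for distinct eigen-functions are independent (dimension form). -/
def StRInd : Prop :=
  ∀ {B : Type w} {V : Type} [AddCommGroup V] [Module ℂ V] [FiniteDimensional ℂ V]
    (T : B → V →ₗ[ℂ] V) {I : Type} [Fintype I] (μ : I → B → ℂ), Function.Injective μ →
    ∀ (U : I → Submodule ℂ V), (∀ i, U i ≤ Cfsg.Agent.H44.eigSub T (μ i)) →
    ∀ W : Submodule ℂ V, (∀ i, U i ≤ W) → ∑ i, finrank ℂ (U i) ≤ finrank ℂ W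

/-- (REIG) a finite commutative subgroup has a joint eigenvector in every nonzero stable
subspace. -/
def StREig : Prop :=
  ∀ {G : Type w} [Group G] [Finite G] {V : Type} [AddCommGroup V] [Module ℂ V]
    [FiniteDimensional ℂ V] (ρ : Representation ℂ G V) (A : Subgroup G),
    (∀ a ∈ A, ∀ b ∈ A, a * b = b * a) → ∀ U : Submodule ℂ V, U ≠ ⊥ →
    (∀ a ∈ A, ∀ x ∈ U, ρ a x ∈ U) →
    ∃ v ∈ U, v ≠ 0 ∧ ∃ χ : G → ℂ, ∀ a ∈ A, ρ a v = χ a • v

/-- (RNT) ... and one with a nontrivial character if the subgroup acts nontrivially. -/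
def StRNt : Prop :=
  ∀ {G : Type w} [Group G] [Finite G] {V : Type} [AddCommGroup V] [Module ℂ V]
    [FiniteDimensional ℂ V] (ρ : Representation ℂ G V) (A : Subgroup G),
    (∀ a ∈ A, ∀ b ∈ A, a * b = b * a) → ∀ U : Submodule ℂ V,
    (∀ a ∈ A, ∀ x ∈ U, ρ a x ∈ U) → (∃ a ∈ A, ∃ x ∈ U, ρ a x ≠ x) →
    ∃ v ∈ U, v ≠ 0 ∧ ∃ χ : G → ℂ, (∀ a ∈ A, ρ a v = χ a • v) ∧ ∃ a ∈ A, χ a ≠ 1

/-! ## Characters of root groups (any `n`) -/

/-- (ZCHAR) a root group acting nontrivially on a stable subspace `C` has a joint eigenvector in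
`C` with nontrivial character. -/
def StZChar : Prop :=
  ∀ {F : Type u} [Field F] [Fintype F] {q n : ℕ}, Fintype.card F = q ^ 2 →
    ∀ (e : Fin n → F), Cfsg.hermForm n F q e e = 0 →
    ∀ {V : Type} [AddCommGroup V] [Module ℂ V] [FiniteDimensional ℂ V]
      (ρ : Representation ℂ ↥(Cfsg.SU n F q) V) (C : Submodule ℂ V),
      (∀ (c : F) (g : ↥(Cfsg.SU n F q)), c ^ q = -c → IsE e 0 c g → ∀ x ∈ C, ρ g x ∈ C) →
      (∃ (c : F) (g : ↥(Cfsg.SU n F q)), c ^ q = -c ∧ IsE e 0 c g ∧ ∃ x ∈ C, ρ g x ≠ x) →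
      ∃ (lam : F → ℂ) (v : V), v ≠ 0 ∧ v ∈ C ∧ v ∈ zEig ρ e lam ∧ ∃ c : F, c ^ q = -c ∧ lam c ≠ 1

/-- (ZMULT) an occurring character of a root group is multiplicative on `K`. -/
def StZMult : Prop :=
  ∀ {F : Type u} [Field F] [Fintype F] {q n : ℕ}, Fintype.card F = q ^ 2 →
    ∀ (e : Fin n → F), Cfsg.hermForm n F q e e = 0 →
    ∀ {V : Type} [AddCommGroup V] [Module ℂ V] [FiniteDimensional ℂ V]
      (ρ : Representation ℂ ↥(Cfsg.SU n F q) V) (lam : F → ℂ) (v : V), v ≠ 0 →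
      v ∈ zEig ρ e lam →
      lam 0 = 1 ∧ ∀ c d : F, c ^ q = -c → d ^ q = -d → lam (c + d) = lam c * lam d

/-- (ALMULT) the character of the group `{E(e₂, γ e₁, 0)}` is multiplicative. -/
def StAlMult : Prop :=
  ∀ {F : Type u} [Field F] [Fintype F] {q n : ℕ}, Fintype.card F = q ^ 2 →
    ∀ (e₁ e₂ : Fin n → F), Cfsg.hermForm n F q e₁ e₁ = 0 → Cfsg.hermForm n F q e₂ e₂ = 0 →
      Cfsg.hermForm n F q e₁ e₂ = 0 →
    ∀ {V : Type} [AddCommGroup V] [Module ℂ V] [FiniteDimensional ℂ V]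
      (ρ : Representation ℂ ↥(Cfsg.SU n F q) V) (al : F → ℂ) (v : V), v ≠ 0 →
      (∀ (γ : F) (a : ↥(Cfsg.SU n F q)), IsE e₂ (γ • e₁) 0 a → ρ a v = al γ • v) →
      al 0 = 1 ∧ ∀ x y : F, al (x + y) = al x * al y

/-- (ZMOVE) moving a root-group eigenvector by an element scaling `e`. -/
def StZMove : Prop :=
  ∀ {F : Type u} [Field F] [Fintype F] {q n : ℕ}, Fintype.card F = q ^ 2 →
    ∀ (e : Fin n → F) {V : Type} [AddCommGroup V] [Module ℂ V] [FiniteDimensional ℂ V]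
      (ρ : Representation ℂ ↥(Cfsg.SU n F q) V) (lam : F → ℂ) (v : V)
      (t : ↥(Cfsg.SU n F q)) (s : F), s ≠ 0 → suAct t e = s • e → v ∈ zEig ρ e lam →
      ρ t v ∈ zEig ρ e (fun c => lam ((s ^ (q + 1))⁻¹ * c))

/-- (ROOTCONJ) if some transvection acts nontrivially, every root group does. -/
def StRootConj : Prop :=
  ∀ {F : Type u} [Field F] [Fintype F] {q n : ℕ}, Fintype.card F = q ^ 2 → 3 ≤ n →
    ∀ {V : Type} [AddCommGroup V] [Module ℂ V] [FiniteDimensional ℂ V]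
      (ρ : Representation ℂ ↥(Cfsg.SU n F q) V),
      (∃ g : ↥(Cfsg.SU n F q), IsTv g ∧ ρ g ≠ 1) →
      ∀ (e : Fin n → F), e ≠ 0 → Cfsg.hermForm n F q e e = 0 → RootNT ρ e

/-! ## The Heisenberg bound (step (I)) -/

/-- (ASUB) the maximal abelian subgroup `A = {E(e, emb x, c) | x ∈ F_q^m}` of the Heisenberg
group of `e`. -/
def StASub : Prop :=
  ∀ {F : Type u} [Field F] [Fintype F] {q : ℕ}, Fintype.card F = q ^ 2 →
    ∀ (m : ℕ) (e : Fin (m + 2) → F), InPl m e → Cfsg.hermForm (m + 2) F q e e = 0 →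
    ∃ A : Subgroup ↥(Cfsg.SU (m + 2) F q), (∀ a ∈ A, ∀ b ∈ A, a * b = b * a) ∧
      (∀ (x : Fin m → F) (c : F) (g : ↥(Cfsg.SU (m + 2) F q)), (∀ i, x i ^ q = x i) →
        IsE e (emb m x) c g → g ∈ A) ∧
      (∀ g ∈ A, ∃ (x : Fin m → F) (c : F), (∀ i, x i ^ q = x i) ∧ IsE e (emb m x) c g)

/-- (HEIS) an occurring nontrivial character of the root group of `e` has an eigenspace of
dimension at least `q^m`. -/
def StHeis : Prop :=
  ∀ {F : Type u} [Field F] [Fintype F] {q : ℕ}, Fintype.card F = q ^ 2 →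
    ∀ (m : ℕ) (e : Fin (m + 2) → F), InPl m e → Cfsg.hermForm (m + 2) F q e e = 0 →
    ∀ {V : Type} [AddCommGroup V] [Module ℂ V] [FiniteDimensional ℂ V]
      (ρ : Representation ℂ ↥(Cfsg.SU (m + 2) F q) V) (lam : F → ℂ) (v : V), v ≠ 0 →
      v ∈ zEig ρ e lam → (∃ c : F, c ^ q = -c ∧ lam c ≠ 1) →
      q ^ m ≤ finrank ℂ (zEig ρ e lam)

/-- (STI) step (I): `dim V ≥ dim C_V(Z) + (q - 1) q^m`. -/
def StI : Prop :=
  ∀ {F : Type u} [Field F] [Fintype F] {q : ℕ}, Fintype.card F = q ^ 2 →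
    ∀ (m : ℕ), 1 ≤ m → ∀ (e : Fin (m + 2) → F), InPl m e → e ≠ 0 →
      Cfsg.hermForm (m + 2) F q e e = 0 →
    ∀ {V : Type} [AddCommGroup V] [Module ℂ V] [FiniteDimensional ℂ V]
      (ρ : Representation ℂ ↥(Cfsg.SU (m + 2) F q) V), RootNT ρ e →
      finrank ℂ (zEig ρ e (fun _ => 1)) + (q - 1) * q ^ m ≤ finrank ℂ V

/-! ## Step (II) -/

/-- (JOINT) a joint eigenvector of the three commuting groups. -/
def StJoint : Prop :=
  ∀ {F : Type u} [Field F] [Fintype F] {q n : ℕ}, Fintype.card F = q ^ 2 →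
    ∀ (e₁ e₂ : Fin n → F), Cfsg.hermForm n F q e₁ e₁ = 0 → Cfsg.hermForm n F q e₂ e₂ = 0 →
      Cfsg.hermForm n F q e₁ e₂ = 0 →
    ∀ {V : Type} [AddCommGroup V] [Module ℂ V] [FiniteDimensional ℂ V]
      (ρ : Representation ℂ ↥(Cfsg.SU n F q) V), RootNT ρ e₂ →
      ∃ (v : V) (lam mu al : F → ℂ), v ≠ 0 ∧ v ∈ zEig ρ e₂ lam ∧ v ∈ zEig ρ e₁ mu ∧
        (∀ (γ : F) (a : ↥(Cfsg.SU n F q)), IsE e₂ (γ • e₁) 0 a → ρ a v = al γ • v) ∧
        ∃ c : F, c ^ q = -c ∧ lam c ≠ 1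

/-- (TFIX) step (II): a vector fixed by the root group of `e₁` and not by that of `e₂`. -/
def StTFix : Prop :=
  ∀ {F : Type u} [Field F] [Fintype F] {q n : ℕ}, Fintype.card F = q ^ 2 →
    ∀ (e₁ e₂ f₁ : Fin n → F),
      Cfsg.hermForm n F q e₁ e₁ = 0 → Cfsg.hermForm n F q e₂ e₂ = 0 →
      Cfsg.hermForm n F q e₁ e₂ = 0 → Cfsg.hermForm n F q f₁ f₁ = 0 →
      Cfsg.hermForm n F q e₁ f₁ = 1 → Cfsg.hermForm n F q f₁ e₂ = 0 →
    ∀ {V : Type} [AddCommGroup V] [Module ℂ V] [FiniteDimensional ℂ V]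
      (ρ : Representation ℂ ↥(Cfsg.SU n F q) V), RootNT ρ e₂ →
      ∃ x : V, x ∈ zEig ρ e₁ (fun _ => 1) ∧
        ∃ (c : F) (g : ↥(Cfsg.SU n F q)), c ^ q = -c ∧ IsE e₂ 0 c g ∧ ρ g x ≠ x

/-! ## Step (IV) -/

/-- (CT) if the root group of `e₂` acts nontrivially on `C_V(Z_e)`, then `dim C_V(Z_e) ≥ q - 1`. -/
def StCT : Prop :=
  ∀ {F : Type u} [Field F] [Fintype F] {q n : ℕ}, Fintype.card F = q ^ 2 →
    ∀ (e f e₂ f₂ : Fin n → F),
      Cfsg.hermForm n F q e e = 0 → Cfsg.hermForm n F q f f = 0 → Cfsg.hermForm n F q e f = 1 →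
      Cfsg.hermForm n F q e₂ e₂ = 0 → Cfsg.hermForm n F q f₂ f₂ = 0 →
      Cfsg.hermForm n F q e₂ f₂ = 1 →
      Cfsg.hermForm n F q e e₂ = 0 → Cfsg.hermForm n F q e f₂ = 0 →
      Cfsg.hermForm n F q f e₂ = 0 → Cfsg.hermForm n F q f f₂ = 0 →
    ∀ {V : Type} [AddCommGroup V] [Module ℂ V] [FiniteDimensional ℂ V]
      (ρ : Representation ℂ ↥(Cfsg.SU n F q) V),
      (∃ x : V, x ∈ zEig ρ e (fun _ => 1) ∧
        ∃ (c : F) (g : ↥(Cfsg.SU n F q)), c ^ q = -c ∧ IsE e₂ 0 c g ∧ ρ g x ≠ x) →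
      q - 1 ≤ finrank ℂ (zEig ρ e (fun _ => 1))

end Cfsg.Agent.H97.SuL
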