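import Mathlib

/-!
# A semisimple class `C` of `PSp_4(q)` with `C * C` covering all non-identity elements:
definitions (helper97, team project S2460)

`x = diag(C, C^{-T})` with `C` the companion matrix of `X^2 - τ X + δ`.  A non-central `g` is a
product of two conjugates of `x` as soon as it has `Flex` data (a Lagrangian plane `⟨w₁, w₂⟩` on
which `Ω = (B(w_i, g w_j))` is invertible, and a symmetric `S` with `S Ω` a product of two
`2 × 2` matrices with characteristic polynomial `X^2 - τ X + δ`) or `Para` data (a Lagrangian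
plane fixed pointwise).
-/

set_option autoImplicit false

namespace Cfsg.Agent.H97.Sp4

open Matrix

variable {F : Type*} [Field F]

/-- `2 × 2` matrices with characteristic polynomial `X^2 - τ X + δ` that are not scalar. -/
def Good2 (τ δ : F) (M : Matrix (Fin 2) (Fin 2) F) : Prop :=
  M.trace = τ ∧ M.det = δ ∧ ∀ c : F, M ≠ c • (1 : Matrix (Fin 2) (Fin 2) F)

/-- some symmetric `S` makes `S * Ω` a product of two `Good2` matrices -/
def Target (τ δ : F) (Ω : Matrix (Fin 2) (Fin 2) F) : Prop :=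
  ∃ S M₁ M₂ : Matrix (Fin 2) (Fin 2) F, Sᵀ = S ∧ S * Ω = M₁ * M₂ ∧ Good2 τ δ M₁ ∧ Good2 τ δ M₂

/-- the alternating case -/
def HAlt (τ δ : F) : Prop := ∀ r : F, r ≠ 0 → Target τ δ !![0, r; -r, 0]

/-- the case `g = g₁ ⊕ 1` -/
def HT3 (τ δ : F) : Prop := ∀ c q₀ : F, c ≠ 2 → q₀ ≠ 0 →
  ∃ α : F, Target τ δ !![q₀, q₀ * (α + c - 1); q₀ * (α + 1), q₀ * (α ^ 2 + α * c + 1)]

/-- `X^2 - τ X + δ` is coprime to its reciprocal polynomial -/
def N1 (τ δ : F) : Prop := δ ≠ 0 ∧ (δ - 1) * ((δ + 1) ^ 2 - τ ^ 2) ≠ 0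

section Abstract

variable {V : Type*} [AddCommGroup V] [Module F V]

/-- `g` is an isometry of the nondegenerate alternating form `B` on a space of dimension four -/
structure SpData (B : LinearMap.BilinForm F V) (g : Module.End F V) : Prop where
  alt : ∀ v, B v v = 0
  nondeg : B.Nondegenerate
  dim : Module.finrank F V = 4
  isom : ∀ u v, B (g u) (g v) = B u v

/-- a Lagrangian plane `⟨w₁, w₂⟩` with `Target` matrix `(B(w_i, g w_j))` -/
def Flex (B : LinearMap.BilinForm F V) (g : Module.End F V) (τ δ : F) : Prop :=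
  ∃ w₁ w₂ : V, B w₁ w₂ = 0 ∧
    Target τ δ !![B w₁ (g w₁), B w₁ (g w₂); B w₂ (g w₁), B w₂ (g w₂)]

/-- a Lagrangian plane fixed pointwise -/
def Para (B : LinearMap.BilinForm F V) (g : Module.End F V) : Prop :=
  ∃ w₁ w₂ : V, LinearIndependent F ![w₁, w₂] ∧ B w₁ w₂ = 0 ∧ g w₁ = w₁ ∧ g w₂ = w₂

end Abstract

/-- the companion matrix of `X^2 - τ X + δ` -/
def Cm (τ δ : F) : Matrix (Fin 2) (Fin 2) F := !![0, -δ; 1, τ]

/-- the symplectic form of Mathlib's `J`, as a function -/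
def bf (u v : Fin 2 ⊕ Fin 2 → F) : F := u ⬝ᵥ (J (Fin 2) F *ᵥ v)

/-- the matrix of the semisimple element `x = diag(C, C^{-T})` -/
noncomputable def xm (τ δ : F) : Matrix (Fin 2 ⊕ Fin 2) (Fin 2 ⊕ Fin 2) F :=
  fromBlocks (Cm τ δ) 0 0 ((Cm τ δ)⁻¹)ᵀ

/-- conjugate to `xm τ δ` in the symplectic group -/
def IsConjX (τ δ : F) (b : Matrix (Fin 2 ⊕ Fin 2) (Fin 2 ⊕ Fin 2) F) : Prop :=
  ∃ k ∈ symplecticGroup (Fin 2) F, b * k = k * xm τ δ

end Cfsg.Agent.H97.Sp4
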