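import Mathlib
import Cfsg.Agent.H97.Ord120
import Cfsg.Agent.S3377
import Cfsg.Agent.H38.QdNat3
import Cfsg.Agent.H7.SL2

set_option autoImplicit false

namespace Cfsg.Agent.H97.Ord120

open Matrix MatrixGroups

universe u

/-- the relators of the presentation of SL(2,5) -/
abbrev rels3 : Set (FreeGroup (Fin 3)) :=
  {FreeGroup.of (0 : Fin 3) ^ 3, FreeGroup.of (1 : Fin 3) ^ 5, FreeGroup.of (2 : Fin 3) ^ 2,
    (FreeGroup.of (2 : Fin 3))⁻¹ * FreeGroup.of 0 * FreeGroup.of 2 * (FreeGroup.of (0 : Fin 3))⁻¹,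
    (FreeGroup.of (2 : Fin 3))⁻¹ * FreeGroup.of 1 * FreeGroup.of 2 * (FreeGroup.of (1 : Fin 3))⁻¹,
    (FreeGroup.of (0 : Fin 3) * FreeGroup.of 1) ^ 2 * (FreeGroup.of (2 : Fin 3))⁻¹}

abbrev P3 := PresentedGroup rels3

def px : P3 := PresentedGroup.of 0
def py : P3 := PresentedGroup.of 1
def pz : P3 := PresentedGroup.of 2

theorem px3 : px ^ 3 = 1 := by
  have h : PresentedGroup.mk rels3 (FreeGroup.of (0 : Fin 3) ^ 3) = 1 :=
    PresentedGroup.one_of_mem (by simp [rels3])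
  rw [map_pow] at h
  exact h

theorem py5 : py ^ 5 = 1 := by
  have h : PresentedGroup.mk rels3 (FreeGroup.of (1 : Fin 3) ^ 5) = 1 :=
    PresentedGroup.one_of_mem (by simp [rels3])
  rw [map_pow] at h
  exact h

theorem pz2 : pz ^ 2 = 1 := by
  have h : PresentedGroup.mk rels3 (FreeGroup.of (2 : Fin 3) ^ 2) = 1 :=
    PresentedGroup.one_of_mem (by simp [rels3])
  rw [map_pow] at h
  exact h

theorem pzx : pz⁻¹ * px * pz * px⁻¹ = 1 := by
  have h : PresentedGroup.mk rels3 ((FreeGroup.of (2 : Fin 3))⁻¹ * FreeGroup.of 0 *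
      FreeGroup.of 2 * (FreeGroup.of (0 : Fin 3))⁻¹) = 1 :=
    PresentedGroup.one_of_mem (by simp [rels3])
  rw [map_mul, map_mul, map_mul, map_inv, map_inv] at h
  exact h

theorem pzy : pz⁻¹ * py * pz * py⁻¹ = 1 := by
  have h : PresentedGroup.mk rels3 ((FreeGroup.of (2 : Fin 3))⁻¹ * FreeGroup.of 1 *
      FreeGroup.of 2 * (FreeGroup.of (1 : Fin 3))⁻¹) = 1 :=
    PresentedGroup.one_of_mem (by simp [rels3])
  rw [map_mul, map_mul, map_mul, map_inv, map_inv] at h
  exact h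

theorem pxyz : (px * py) ^ 2 * pz⁻¹ = 1 := by
  have h : PresentedGroup.mk rels3 ((FreeGroup.of (0 : Fin 3) * FreeGroup.of 1) ^ 2 *
      (FreeGroup.of (2 : Fin 3))⁻¹) = 1 :=
    PresentedGroup.one_of_mem (by simp [rels3])
  rw [map_mul, map_pow, map_mul, map_inv] at h
  exact h

/-- the universal property of the presentation -/
def toGrp {H : Type*} [Group H] (x y z : H) (h1 : x ^ 3 = 1) (h2 : y ^ 5 = 1) (h3 : z ^ 2 = 1)
    (h4 : z⁻¹ * x * z * x⁻¹ = 1) (h5 : z⁻¹ * y * z * y⁻¹ = 1) (h6 : (x * y) ^ 2 * z⁻¹ = 1) :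
    P3 →* H :=
  PresentedGroup.toGroup (f := ![x, y, z]) (by
    intro r hr
    simp only [rels3, Set.mem_insert_iff, Set.mem_singleton_iff] at hr
    rcases hr with rfl | rfl | rfl | rfl | rfl | rfl
    · simpa using h1
    · simpa using h2
    · simpa using h3
    · simpa using h4
    · simpa using h5
    · simpa using h6)

theorem toGrp_px {H : Type*} [Group H] (x y z : H) (h1 : x ^ 3 = 1) (h2 : y ^ 5 = 1)
    (h3 : z ^ 2 = 1) (h4 : z⁻¹ * x * z * x⁻¹ = 1) (h5 : z⁻¹ * y * z * y⁻¹ = 1)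
    (h6 : (x * y) ^ 2 * z⁻¹ = 1) : toGrp x y z h1 h2 h3 h4 h5 h6 px = x := by
  simp [toGrp, px]

theorem toGrp_py {H : Type*} [Group H] (x y z : H) (h1 : x ^ 3 = 1) (h2 : y ^ 5 = 1)
    (h3 : z ^ 2 = 1) (h4 : z⁻¹ * x * z * x⁻¹ = 1) (h5 : z⁻¹ * y * z * y⁻¹ = 1)
    (h6 : (x * y) ^ 2 * z⁻¹ = 1) : toGrp x y z h1 h2 h3 h4 h5 h6 py = y := by
  simp [toGrp, py]

theorem toGrp_pz {H : Type*} [Group H] (x y z : H) (h1 : x ^ 3 = 1) (h2 : y ^ 5 = 1)
    (h3 : z ^ 2 = 1) (h4 : z⁻¹ * x * z * x⁻¹ = 1) (h5 : z⁻¹ * y * z * y⁻¹ = 1)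
    (h6 : (x * y) ^ 2 * z⁻¹ = 1) : toGrp x y z h1 h2 h3 h4 h5 h6 pz = z := by
  simp [toGrp, pz]

theorem pz_central (g : P3) : g * pz = pz * g := by
  have hle : (⊤ : Subgroup P3) ≤ Subgroup.centralizer {pz} := by
    rw [← PresentedGroup.closure_range_of rels3, Subgroup.closure_le]
    rintro _ ⟨i, rfl⟩
    rw [SetLike.mem_coe, Subgroup.mem_centralizer_iff]
    rintro h rfl
    fin_cases i
    · have h1 : pz⁻¹ * px * pz = px := by
        have := pzx
        rw [mul_inv_eq_one] at this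
        exact this
      show pz * px = px * pz
      calc pz * px = pz * (pz⁻¹ * px * pz) := by rw [h1]
        _ = px * pz := by group
    · have h1 : pz⁻¹ * py * pz = py := by
        have := pzy
        rw [mul_inv_eq_one] at this
        exact this
      show pz * py = py * pz
      calc pz * py = pz * (pz⁻¹ * py * pz) := by rw [h1]
        _ = py * pz := by group
    · rfl
  have := hle (Subgroup.mem_top g)
  exact (Subgroup.mem_centralizer_iff.mp this pz rfl).symm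

instance zpowers_pz_normal : (Subgroup.zpowers pz).Normal := by
  refine ⟨fun n hn g => ?_⟩
  obtain ⟨k, rfl⟩ := Subgroup.mem_zpowers_iff.mp hn
  have hc : Commute g pz := pz_central g
  have : g * pz ^ k * g⁻¹ = pz ^ k := by
    rw [(hc.zpow_right k).eq, mul_inv_cancel_right]
  rw [this]
  exact Subgroup.zpow_mem_zpowers pz k

theorem pxy2 : (px * py) ^ 2 = pz := by
  have := pxyz
  rw [mul_inv_eq_one] at this
  exact this

/-- the (2,3,5) group maps onto the quotient by the central involution -/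
def psi0 : PresentedGroup Cfsg.Agent.S3377.rels →* P3 ⧸ Subgroup.zpowers pz :=
  PresentedGroup.toGroup (f := ![QuotientGroup.mk px, QuotientGroup.mk py]) (by
    intro r hr
    simp only [Cfsg.Agent.S3377.rels, Set.mem_insert_iff, Set.mem_singleton_iff] at hr
    rcases hr with rfl | rfl | rfl
    · have : (QuotientGroup.mk px : P3 ⧸ Subgroup.zpowers pz) ^ 3 = 1 := by
        rw [← QuotientGroup.mk_pow, px3]; rfl
      simpa using this
    · have : (QuotientGroup.mk py : P3 ⧸ Subgroup.zpowers pz) ^ 5 = 1 := by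
        rw [← QuotientGroup.mk_pow, py5]; rfl
      simpa using this
    · have : ((QuotientGroup.mk px : P3 ⧸ Subgroup.zpowers pz) * QuotientGroup.mk py) ^ 2 = 1 := by
        rw [← QuotientGroup.mk_mul, ← QuotientGroup.mk_pow, pxy2]
        exact (QuotientGroup.eq_one_iff pz).mpr (Subgroup.mem_zpowers pz)
      simpa using this)

theorem psi0_surj : Function.Surjective psi0 := by
  intro q
  obtain ⟨g, rfl⟩ := QuotientGroup.mk_surjective q
  have hle : (⊤ : Subgroup P3) ≤ psi0.range.comap (QuotientGroup.mk' (Subgroup.zpowers pz)) := by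
    rw [← PresentedGroup.closure_range_of rels3, Subgroup.closure_le]
    rintro _ ⟨i, rfl⟩
    rw [SetLike.mem_coe, Subgroup.mem_comap]
    fin_cases i
    · exact ⟨PresentedGroup.of 0, by simp [psi0]; rfl⟩
    · exact ⟨PresentedGroup.of 1, by simp [psi0]; rfl⟩
    · have : (QuotientGroup.mk' (Subgroup.zpowers pz)) (PresentedGroup.of 2) = 1 :=
        (QuotientGroup.eq_one_iff _).mpr (Subgroup.mem_zpowers pz)
      show (QuotientGroup.mk' (Subgroup.zpowers pz)) (PresentedGroup.of 2) ∈ psi0.range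
      rw [this]
      exact Subgroup.one_mem _
  exact hle (Subgroup.mem_top g)

theorem P3_finite_card : Finite P3 ∧ Nat.card P3 ≤ 120 := by
  obtain ⟨hfin, hcard⟩ := Cfsg.Agent.S3377.finite_card_le
  have hfq : Finite (P3 ⧸ Subgroup.zpowers pz) := Finite.of_surjective psi0 psi0_surj
  have hcq : Nat.card (P3 ⧸ Subgroup.zpowers pz) ≤ 60 :=
    (Nat.card_le_card_of_surjective psi0 psi0_surj).trans hcard
  have hord : orderOf pz ∣ 2 := orderOf_dvd_of_pow_eq_one pz2
  have hN : Nat.card (Subgroup.zpowers pz) ≤ 2 := by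
    rw [Nat.card_zpowers]
    exact Nat.le_of_dvd (by norm_num) hord
  have hfN : Finite (Subgroup.zpowers pz) := by
    apply Nat.finite_of_card_ne_zero
    rw [Nat.card_zpowers]
    intro h0
    rw [h0] at hord
    norm_num at hord
  have hf : Finite P3 := Finite.of_subgroup_quotient (Subgroup.zpowers pz)
  refine ⟨hf, ?_⟩
  have h1 := Subgroup.card_mul_index (Subgroup.zpowers pz)
  have h2 : (Subgroup.zpowers pz).index = Nat.card (P3 ⧸ Subgroup.zpowers pz) := rfl
  rw [h2] at h1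
  calc Nat.card P3 = Nat.card (Subgroup.zpowers pz) * Nat.card (P3 ⧸ Subgroup.zpowers pz) :=
        h1.symm
    _ ≤ 2 * 60 := Nat.mul_le_mul hN hcq

instance fact_five : Fact (Nat.Prime 5) := ⟨by norm_num⟩

def mX : SL(2, ZMod 5) := ⟨!![0, -1; 1, -1], by simp [Matrix.det_fin_two_of]⟩
def mY : SL(2, ZMod 5) := Cfsg.Agent.H7.slUpper 1
def mZ : SL(2, ZMod 5) := ⟨!![-1, 0; 0, -1], by simp [Matrix.det_fin_two_of]⟩

/-- the map from the presented group onto SL(2,5) -/
def phi5 : P3 →* SL(2, ZMod 5) :=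
  toGrp mX mY mZ (by decide) (by decide) (by decide) (by decide) (by decide) (by decide)

theorem phi5_surj : Function.Surjective phi5 := by
  rw [← MonoidHom.range_eq_top, eq_top_iff, ← Cfsg.Agent.H38.sl2_closure_eq_top (p := 5),
    Subgroup.closure_le]
  rintro g (rfl | rfl)
  · exact ⟨py, toGrp_py _ _ _ _ _ _ _ _ _⟩
  · refine ⟨px * py * py⁻¹ * (px * py)⁻¹, ?_⟩
    show phi5 (px * py * py⁻¹ * (px * py)⁻¹) = _
    rw [map_mul, map_mul, map_mul, map_inv, map_inv, map_mul]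
    have h1 : phi5 px = mX := toGrp_px _ _ _ _ _ _ _ _ _
    have h2 : phi5 py = mY := toGrp_py _ _ _ _ _ _ _ _ _
    rw [h1, h2]
    decide

theorem card_SL25 : Nat.card SL(2, ZMod 5) = 120 := by
  rw [Cfsg.Agent.H7.card_SL2, ZMod.card]
  norm_num

/-- the presented group is SL(2,5) -/
theorem pres_iso : Nonempty (P3 ≃* SL(2, ZMod 5)) := by
  obtain ⟨hfin, hcard⟩ := P3_finite_card
  have hbij : Function.Bijective phi5 :=
    phi5_surj.bijective_of_nat_card_le (by rw [card_SL25]; exact hcard)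
  exact ⟨MulEquiv.ofBijective phi5 hbij⟩

/-- a nonsolvable group of order 120 with quaternion Sylow 2-subgroups is the presented group -/
theorem iso_of_120 (G : Type u) [Group G] [Finite G] (h120 : Nat.card G = 120)
    (hns : ¬ Group.IsSolvable G)
    (hQ : ∀ P : Sylow 2 G, Nonempty ((P : Subgroup G) ≃* QuaternionGroup 2)) :
    Nonempty (G ≃* P3) := by
  obtain ⟨Z, hZn, hZ2, hsimp, h60⟩ := exists_central G h120 hns hQ
  obtain ⟨⟨z, hzZ⟩, hz1', huniq⟩ := (Nat.card_eq_two_iff' (1 : Z)).mp hZ2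
  have hz1 : z ≠ 1 := fun h => hz1' (Subtype.ext h)
  have huniq' : ∀ w ∈ Z, w ≠ 1 → w = z := by
    intro w hw hw1
    have := huniq ⟨w, hw⟩ (fun h => hw1 (congrArg Subtype.val h))
    exact congrArg Subtype.val this
  have hzz : z * z = 1 := by
    by_contra h
    have h1 := huniq' (z * z) (Z.mul_mem hzZ hzZ) h
    apply hz1
    calc z = z⁻¹ * (z * z) := by group
      _ = 1 := by rw [h1, inv_mul_cancel]
  have hzc : ∀ g : G, g * z = z * g := by
    intro g
    have hmem : g * z * g⁻¹ ∈ Z := hZn.conj_mem z hzZ g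
    have hne : g * z * g⁻¹ ≠ 1 := by
      intro h
      apply hz1
      calc z = g⁻¹ * (g * z * g⁻¹) * g := by group
        _ = 1 := by rw [h]; group
    have h1 := huniq' _ hmem hne
    calc g * z = (g * z * g⁻¹) * g := by group
      _ = z * g := by rw [h1]
  obtain ⟨e1⟩ := Cfsg.Agent.S0494.result (G := G ⧸ Z) h60
  obtain ⟨e2⟩ := Cfsg.Agent.S3377.result
  let f : PresentedGroup Cfsg.Agent.S3377.rels ≃* G ⧸ Z := e2.trans e1.symm
  obtain ⟨x1, hx1⟩ := QuotientGroup.mk_surjective (f (PresentedGroup.of 0))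
  obtain ⟨y1, hy1⟩ := QuotientGroup.mk_surjective (f (PresentedGroup.of 1))
  have hfx3 : (f (PresentedGroup.of 0)) ^ 3 = 1 := by
    rw [← map_pow]
    have : (PresentedGroup.of 0 : PresentedGroup Cfsg.Agent.S3377.rels) ^ 3 = 1 := by
      rw [pow_succ, pow_two]; exact Cfsg.Agent.S3377.hx3
    rw [this, map_one]
  have hfy5 : (f (PresentedGroup.of 1)) ^ 5 = 1 := by
    rw [← map_pow]
    have : (PresentedGroup.of 1 : PresentedGroup Cfsg.Agent.S3377.rels) ^ 5 = 1 := by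
      rw [pow_succ, pow_succ, pow_succ, pow_two]; exact Cfsg.Agent.S3377.hy5
    rw [this, map_one]
  have hfxy : (f (PresentedGroup.of 0) * f (PresentedGroup.of 1)) ^ 2 = 1 := by
    rw [← map_mul, ← map_pow]
    have : ((PresentedGroup.of 0 : PresentedGroup Cfsg.Agent.S3377.rels) *
        PresentedGroup.of 1) ^ 2 = 1 := by
      rw [pow_two, ← mul_assoc]; exact Cfsg.Agent.S3377.hxy
    rw [this, map_one]
  have hz3 : z ^ 3 = z := by rw [pow_succ, pow_two, hzz, one_mul]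
  have hz5 : z ^ 5 = z := by
    calc z ^ 5 = z * z * z * z * z := by rw [pow_succ, pow_succ, pow_succ, pow_two]
      _ = z := by rw [hzz, one_mul, hzz, one_mul]
  have hxex : ∃ x : G, (x : G ⧸ Z) = f (PresentedGroup.of 0) ∧ x ^ 3 = 1 := by
    have hmem : x1 ^ 3 ∈ Z := by
      rw [← QuotientGroup.eq_one_iff, QuotientGroup.mk_pow, hx1, hfx3]
    by_cases h : x1 ^ 3 = 1
    · exact ⟨x1, hx1, h⟩
    · have h' := huniq' _ hmem h
      refine ⟨x1 * z, ?_, ?_⟩
      · rw [QuotientGroup.mk_mul, hx1, (QuotientGroup.eq_one_iff z).mpr hzZ, mul_one]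
      · have hc : Commute x1 z := hzc x1
        rw [hc.mul_pow, h', hz3, hzz]
  have hyex : ∃ y : G, (y : G ⧸ Z) = f (PresentedGroup.of 1) ∧ y ^ 5 = 1 := by
    have hmem : y1 ^ 5 ∈ Z := by
      rw [← QuotientGroup.eq_one_iff, QuotientGroup.mk_pow, hy1, hfy5]
    by_cases h : y1 ^ 5 = 1
    · exact ⟨y1, hy1, h⟩
    · have h' := huniq' _ hmem h
      refine ⟨y1 * z, ?_, ?_⟩
      · rw [QuotientGroup.mk_mul, hy1, (QuotientGroup.eq_one_iff z).mpr hzZ, mul_one]
      · have hc : Commute y1 z := hzc y1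
        rw [hc.mul_pow, h', hz5, hzz]
  obtain ⟨x, hx, hx3⟩ := hxex
  obtain ⟨y, hy, hy5⟩ := hyex
  have hxyZ : (x * y) ^ 2 ∈ Z := by
    rw [← QuotientGroup.eq_one_iff, QuotientGroup.mk_pow, QuotientGroup.mk_mul, hx, hy, hfxy]
  have hgen : ∀ q : G ⧸ Z,
      q ∈ Subgroup.closure ({(x : G ⧸ Z), (y : G ⧸ Z)} : Set (G ⧸ Z)) := by
    intro q
    have h1 : f.symm q ∈ Subgroup.closure
        (Set.range (PresentedGroup.of (rels := Cfsg.Agent.S3377.rels))) := by
      rw [PresentedGroup.closure_range_of]; trivial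
    have h2 : f.toMonoidHom (f.symm q) ∈ (Subgroup.closure
        (Set.range (PresentedGroup.of (rels := Cfsg.Agent.S3377.rels)))).map f.toMonoidHom :=
      Subgroup.mem_map_of_mem _ h1
    rw [MonoidHom.map_closure] at h2
    have h3 : f.toMonoidHom (f.symm q) = q := f.apply_symm_apply q
    rw [h3] at h2
    refine Subgroup.closure_mono ?_ h2
    rintro _ ⟨_, ⟨i, rfl⟩, rfl⟩
    fin_cases i
    · left; exact hx.symm
    · right; exact hy.symm
  have hxy2 : (x * y) ^ 2 = z := by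
    by_contra hne
    have h1 : (x * y) ^ 2 = 1 := by
      by_contra h1
      exact hne (huniq' _ hxyZ h1)
    have hxyZ' : x * y ∈ Z := by
      by_cases hc : x * y = 1
      · rw [hc]; exact Z.one_mem
      · have := inv_unique G hQ (x * y) z (by rw [← pow_two]; exact h1) hzz hc hz1 (hzc (x * y))
        rw [this]; exact hzZ
    have h2 : (x : G ⧸ Z) * (y : G ⧸ Z) = 1 := by
      rw [← QuotientGroup.mk_mul]; exact (QuotientGroup.eq_one_iff _).mpr hxyZ'
    have hqx3 : (x : G ⧸ Z) ^ 3 = 1 := by rw [← QuotientGroup.mk_pow, hx3]; rfl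
    have hqy5 : (y : G ⧸ Z) ^ 5 = 1 := by rw [← QuotientGroup.mk_pow, hy5]; rfl
    have hxinv : (x : G ⧸ Z) = (y : G ⧸ Z)⁻¹ := eq_inv_of_mul_eq_one_left h2
    have hqy3 : (y : G ⧸ Z) ^ 3 = 1 := by
      have := hqx3
      rw [hxinv, inv_pow, inv_eq_one] at this
      exact this
    have hy1' : (y : G ⧸ Z) = 1 := by
      calc (y : G ⧸ Z) = ((y : G ⧸ Z) ^ 3) ^ 2 * ((y : G ⧸ Z) ^ 5)⁻¹ := by group
        _ = 1 := by rw [hqy3, hqy5]; simp
    have hx1' : (x : G ⧸ Z) = 1 := by rw [hy1', mul_one] at h2; exact h2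
    have hall : ∀ q : G ⧸ Z, q = 1 := by
      intro q
      have := hgen q
      rw [hx1', hy1'] at this
      have h' : q ∈ Subgroup.closure ({1} : Set (G ⧸ Z)) := by simpa using this
      rw [Subgroup.closure_singleton_one, Subgroup.mem_bot] at h'
      exact h'
    have hc1 : Nat.card (G ⧸ Z) = 1 :=
      Nat.card_eq_one_iff_unique.mpr ⟨⟨fun a b => (hall a).trans (hall b).symm⟩, ⟨1⟩⟩
    omega
  have hr4 : z⁻¹ * x * z * x⁻¹ = 1 := by
    have := hzc x
    calc z⁻¹ * x * z * x⁻¹ = z⁻¹ * (x * z) * x⁻¹ := by group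
      _ = 1 := by rw [this]; group
  have hr5 : z⁻¹ * y * z * y⁻¹ = 1 := by
    have := hzc y
    calc z⁻¹ * y * z * y⁻¹ = z⁻¹ * (y * z) * y⁻¹ := by group
      _ = 1 := by rw [this]; group
  obtain ⟨ψ, hψx, hψy, hψz⟩ : ∃ ψ : P3 →* G, ψ px = x ∧ ψ py = y ∧ ψ pz = z :=
    ⟨toGrp x y z hx3 hy5 (by rw [pow_two]; exact hzz) hr4 hr5 (by rw [hxy2, mul_inv_cancel]),
      toGrp_px _ _ _ _ _ _ _ _ _, toGrp_py _ _ _ _ _ _ _ _ _, toGrp_pz _ _ _ _ _ _ _ _ _⟩
  have hψsurj : Function.Surjective ψ := by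
    intro g
    have hg := hgen (g : G ⧸ Z)
    have hle : Subgroup.closure ({(x : G ⧸ Z), (y : G ⧸ Z)} : Set (G ⧸ Z)) ≤
        ψ.range.map (QuotientGroup.mk' Z) := by
      rw [Subgroup.closure_le]
      rintro _ (rfl | rfl)
      · exact ⟨x, ⟨px, hψx⟩, rfl⟩
      · exact ⟨y, ⟨py, hψy⟩, rfl⟩
    obtain ⟨h, ⟨w, rfl⟩, hw⟩ := hle hg
    have hmem : (ψ w)⁻¹ * g ∈ Z := by
      rw [← QuotientGroup.eq_one_iff, QuotientGroup.mk_mul, QuotientGroup.mk_inv]
      have hw' : ((ψ w : G) : G ⧸ Z) = (g : G ⧸ Z) := hw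
      rw [hw', inv_mul_cancel]
    by_cases h1 : (ψ w)⁻¹ * g = 1
    · exact ⟨w, by rw [inv_mul_eq_one] at h1; exact h1⟩
    · have h2 := huniq' _ hmem h1
      refine ⟨w * pz, ?_⟩
      rw [map_mul, hψz]
      exact (eq_mul_of_inv_mul_eq h2).symm
  obtain ⟨hfin, hcard⟩ := P3_finite_card
  have hbij := hψsurj.bijective_of_nat_card_le (by rw [h120]; exact hcard)
  exact ⟨(MulEquiv.ofBijective _ hbij).symm⟩

end Cfsg.Agent.H97.Ord120
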