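import Mathlib

set_option autoImplicit false

namespace Cfsg.Agent.H97.ABA

open QuadraticAlgebra

variable {F : Type*} [Field F] {d : F}

/-- left multiplication matrix on `QuadraticAlgebra F d 1` -/
def psi (z : QuadraticAlgebra F d 1) : Matrix (Fin 2) (Fin 2) F :=
  !![z.re, d * z.im; z.im, z.re + z.im]

/-- matrix of conjugation -/
def Smat (F : Type*) [Field F] : Matrix (Fin 2) (Fin 2) F := !![1, 1; 0, -1]

lemma psi_mul (z w : QuadraticAlgebra F d 1) : psi (z * w) = psi z * psi w := by
  ext i j; fin_cases i <;> fin_cases j <;>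
    simp [psi, Matrix.mul_apply, Fin.sum_univ_two] <;> ring

lemma psi_add (z w : QuadraticAlgebra F d 1) : psi (z + w) = psi z + psi w := by
  ext i j; fin_cases i <;> fin_cases j <;> simp [psi] <;> ring

lemma psi_smul (c : F) (z : QuadraticAlgebra F d 1) : psi (c • z) = c • psi z := by
  ext i j; fin_cases i <;> fin_cases j <;> simp [psi] <;> ring

lemma psi_one : psi (1 : QuadraticAlgebra F d 1) = 1 := by
  ext i j; fin_cases i <;> fin_cases j <;> simp [psi]

lemma det_psi (z : QuadraticAlgebra F d 1) : (psi z).det = norm z := by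
  simp [psi, Matrix.det_fin_two, norm_def]; ring

lemma psi_injective : Function.Injective (psi : QuadraticAlgebra F d 1 → _) := by
  intro z w h
  have h0 := congrFun (congrFun h 0) 0
  have h1 := congrFun (congrFun h 1) 0
  simp [psi] at h0 h1
  exact QuadraticAlgebra.ext h0 h1

lemma S_psi (z : QuadraticAlgebra F d 1) : Smat F * psi z = psi (star z) * Smat F := by
  ext i j; fin_cases i <;> fin_cases j <;>
    simp [psi, Smat, Matrix.mul_apply, Fin.sum_univ_two] <;> ring

lemma upper_eq (h2 : (2 : F) = 0) (t : F) :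
    (!![1, t; 0, 1] : Matrix (Fin 2) (Fin 2) F) = (1 + t) • (1 : Matrix (Fin 2) (Fin 2) F) + t • Smat F := by
  ext i j; fin_cases i <;> fin_cases j <;> simp [Smat]
  linear_combination (-t) * h2

/-- the decomposition of an arbitrary matrix -/
lemma decomp (h2 : (2 : F) = 0) (g : Matrix (Fin 2) (Fin 2) F) :
    g = psi (⟨g 0 0 - (g 0 1 - d * (g 1 1 - g 0 0) + d * (g 1 0 - g 1 1 + g 0 0)), g 1 1 - g 0 0⟩ :
          QuadraticAlgebra F d 1) +
        psi (⟨g 0 1 - d * (g 1 1 - g 0 0) + d * (g 1 0 - g 1 1 + g 0 0), g 1 0 - g 1 1 + g 0 0⟩ :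
          QuadraticAlgebra F d 1) * Smat F := by
  ext i j; fin_cases i <;> fin_cases j <;>
    simp [psi, Smat]
  linear_combination (-(2 * d * g 1 1 - g 0 1 - 2 * d * g 0 0 - d * g 1 0)) * h2

lemma det_decomp (α β : QuadraticAlgebra F d 1) :
    (psi α + psi β * Smat F).det = norm α - norm β := by
  simp [psi, Smat, Matrix.det_fin_two, norm_def]; ring


section char2

lemma sq_inj {R : Type*} [CommRing R] [NoZeroDivisors R] (h2 : (2 : R) = 0) {x y : R}
    (h : x * x = y * y) : x = y := by
  have h0 : (x - y) * (x - y) = 0 := by linear_combination h + (y * y - x * y) * h2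
  exact sub_eq_zero.mp (mul_self_eq_zero.mp h0)

lemma sq_surj {R : Type*} [CommRing R] [NoZeroDivisors R] [Finite R] (h2 : (2 : R) = 0) (y : R) :
    ∃ x, x * x = y :=
  Finite.surjective_of_injective (f := fun x : R => x * x) (fun _ _ h => sq_inj h2 h) y

lemma two_eq_zero_of_even {F : Type*} [Field F] [Fintype F] (h2 : 2 ∣ Fintype.card F) :
    (2 : F) = 0 := by
  obtain ⟨p, hp⟩ := CharP.exists F
  have := hp
  have : Fact p.Prime := ⟨CharP.char_is_prime F p⟩
  obtain ⟨n, hpn, hn⟩ := FiniteField.card F p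
  rw [hn] at h2
  have h3 : 2 ∣ p := Nat.Prime.dvd_of_dvd_pow Nat.prime_two h2
  have h4 : p = 2 := ((Nat.prime_dvd_prime_iff_eq Nat.prime_two hpn).mp h3).symm
  subst h4
  exact_mod_cast CharP.cast_eq_zero F 2

end char2

section field

variable [Hd : Fact (∀ r : F, r ^ 2 ≠ d + 1 * r)]

lemma two_eq_zero_K (h2 : (2 : F) = 0) : (2 : QuadraticAlgebra F d 1) = 0 := by
  have : (2 : QuadraticAlgebra F d 1) = algebraMap F _ 2 := (map_ofNat (algebraMap F _) 2).symm
  rw [this, h2, map_zero]

omit Hd in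
lemma norm_smul' (c : F) (z : QuadraticAlgebra F d 1) : norm (c • z) = c * c * norm z := by
  simp [norm_def]; ring

instance finiteK [Finite F] : Finite (QuadraticAlgebra F d 1) :=
  Finite.of_equiv (F × F) (equivProd d 1).symm

lemma exists_tuv [Finite F] (h2 : (2 : F) = 0) (α β : QuadraticAlgebra F d 1)
    (h : norm α - norm β = 1) :
    ∃ (t : F) (u v : QuadraticAlgebra F d 1), norm u = 1 ∧ norm v = 1 ∧
      (1 + t) • (u * v) = α ∧ t • (u * star v) = β := by
  have h2K := two_eq_zero_K (d := d) h2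
  obtain ⟨t, ht⟩ := sq_surj h2 (norm β)
  have ht1 : (1 + t) * (1 + t) = norm α := by linear_combination ht - h + t * h2
  by_cases hα : α = 0
  · have h10 : 1 + t = 0 := by
      rw [hα, QuadraticAlgebra.norm_zero] at ht1
      exact mul_self_eq_zero.mp ht1
    have hb : norm β = 1 := by
      rw [hα, QuadraticAlgebra.norm_zero] at h
      linear_combination -h - h2
    have ht' : t = 1 := by linear_combination h10 - h2
    refine ⟨t, β, 1, hb, map_one _, ?_, ?_⟩
    · rw [h10, zero_smul, hα]
    · rw [ht', star_one, mul_one, one_smul]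
  by_cases hβ : β = 0
  · have ht0 : t = 0 := by
      rw [hβ, QuadraticAlgebra.norm_zero] at ht
      exact mul_self_eq_zero.mp ht
    have ha : norm α = 1 := by
      rw [hβ, QuadraticAlgebra.norm_zero] at h
      linear_combination h
    refine ⟨t, α, 1, ha, map_one _, ?_, ?_⟩
    · rw [ht0, add_zero, one_smul, mul_one]
    · rw [ht0, zero_smul, hβ]
  have hNα : norm α ≠ 0 := fun h0 => hα (norm_eq_zero_iff_eq_zero.mp h0)
  have hNβ : norm β ≠ 0 := fun h0 => hβ (norm_eq_zero_iff_eq_zero.mp h0)
  have ht0 : t ≠ 0 := by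
    rintro rfl
    rw [mul_zero] at ht
    exact hNβ ht.symm
  have ht10 : 1 + t ≠ 0 := by
    intro h0
    rw [h0, mul_zero] at ht1
    exact hNα ht1.symm
  set r : QuadraticAlgebra F d 1 := (1 + t)⁻¹ • α with hr
  set s : QuadraticAlgebra F d 1 := t⁻¹ • β with hs
  have hNr : norm r = 1 := by
    rw [hr, norm_smul', ← ht1]; field_simp
  have hNs : norm s = 1 := by
    rw [hs, norm_smul', ← ht]; field_simp
  obtain ⟨u, hu⟩ := sq_surj h2K (r * s)
  obtain ⟨v, hv⟩ := sq_surj h2K (r * star s)
  have hNu : norm u = 1 := by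
    apply sq_inj h2
    rw [← map_mul, hu, map_mul, hNr, hNs]
  have hNv : norm v = 1 := by
    apply sq_inj h2
    rw [← map_mul, hv, map_mul, QuadraticAlgebra.norm_star, hNr, hNs]
  have hss : s * star s = 1 := by rw [← algebraMap_norm_eq_mul_star, hNs, map_one]
  have hrr : r * star r = 1 := by rw [← algebraMap_norm_eq_mul_star, hNr, map_one]
  have huv : u * v = r := by
    apply sq_inj h2K
    calc (u * v) * (u * v) = (u * u) * (v * v) := by ring
      _ = (r * s) * (r * star s) := by rw [hu, hv]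
      _ = r * r * (s * star s) := by ring
      _ = r * r := by rw [hss, mul_one]
  have huv' : u * star v = s := by
    apply sq_inj h2K
    calc (u * star v) * (u * star v) = (u * u) * star (v * v) := by rw [star_mul]; ring
      _ = (r * s) * star (r * star s) := by rw [hu, hv]
      _ = s * s * (r * star r) := by rw [star_mul, star_star]; ring
      _ = s * s := by rw [hrr, mul_one]
  refine ⟨t, u, v, hNu, hNv, ?_, ?_⟩
  · rw [huv, hr, smul_smul, mul_inv_cancel₀ ht10, one_smul]
  · rw [huv', hs, smul_smul, mul_inv_cancel₀ ht0, one_smul]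

end field

lemma aba_matrix (h2 : (2 : F) = 0) (t : F) (u v : QuadraticAlgebra F d 1) :
    psi u * !![1, t; 0, 1] * psi v =
      psi ((1 + t) • (u * v)) + psi (t • (u * star v)) * Smat F := by
  rw [upper_eq h2, psi_smul, psi_smul, psi_mul, psi_mul, Matrix.mul_add, Matrix.add_mul]
  congr 1
  · simp
  · rw [Matrix.mul_smul, Matrix.smul_mul, Matrix.smul_mul, Matrix.mul_assoc (psi u), S_psi,
      ← Matrix.mul_assoc]


section grp

open Matrix

variable [Fintype F] [Hd : Fact (∀ r : F, r ^ 2 ≠ d + 1 * r)]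

local notation "K" => QuadraticAlgebra F d 1

/-- the norm-one subgroup of `Kˣ` -/
abbrev normOne (F : Type*) [Field F] (d : F) [Fact (∀ r : F, r ^ 2 ≠ d + 1 * r)] :
    Subgroup (QuadraticAlgebra F d 1)ˣ :=
  (Units.map (QuadraticAlgebra.norm : QuadraticAlgebra F d 1 →* F)).ker

omit [Fintype F] in
lemma norm_of_mem (u : normOne F d) : norm ((u : Kˣ) : K) = 1 := by
  have h := u.2
  rw [MonoidHom.mem_ker] at h
  exact congrArg Units.val h

/-- the torus hom -/
def torusHom (F : Type*) [Field F] (d : F) [Fact (∀ r : F, r ^ 2 ≠ d + 1 * r)] :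
    normOne F d →* SpecialLinearGroup (Fin 2) F where
  toFun u := ⟨psi ((u : (QuadraticAlgebra F d 1)ˣ) : QuadraticAlgebra F d 1), by
    rw [det_psi]; exact norm_of_mem u⟩
  map_one' := by
    apply Subtype.ext
    simp [psi_one]
  map_mul' u v := by
    apply Subtype.ext
    exact psi_mul _ _

omit [Fintype F] in
lemma torusHom_injective : Function.Injective (torusHom F d) := by
  intro u v h
  have h1 := congrArg Subtype.val h
  apply Subtype.ext
  apply Units.ext
  exact psi_injective h1

/-- the unipotent hom -/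
def upperHom (F : Type*) [Field F] : Multiplicative F →* SpecialLinearGroup (Fin 2) F where
  toFun t := ⟨!![1, Multiplicative.toAdd t; 0, 1], by simp [Matrix.det_fin_two]⟩
  map_one' := by
    apply Subtype.ext
    ext i j; fin_cases i <;> fin_cases j <;> simp
  map_mul' s t := by
    apply Subtype.ext
    show (!![1, Multiplicative.toAdd (s * t); 0, 1] : Matrix (Fin 2) (Fin 2) F) =
      !![1, Multiplicative.toAdd s; 0, 1] * !![1, Multiplicative.toAdd t; 0, 1]
    ext i j; fin_cases i <;> fin_cases j <;> simp [Matrix.mul_apply, Fin.sum_univ_two, add_comm]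

omit [Fintype F] Hd in
lemma upperHom_injective : Function.Injective (upperHom F) := by
  intro s t h
  have h1 := congrArg Subtype.val h
  have h2 : Multiplicative.toAdd s = Multiplicative.toAdd t := congrFun (congrFun h1 0) 1
  exact Multiplicative.toAdd.injective h2

omit [Fintype F] Hd in
lemma center_eq_bot (h2 : (2 : F) = 0) :
    Subgroup.center (SpecialLinearGroup (Fin 2) F) = ⊥ := by
  rw [eq_bot_iff]
  intro A hA
  rw [Matrix.SpecialLinearGroup.mem_center_iff] at hA
  obtain ⟨r, hr, hA⟩ := hA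
  have hr1 : r = 1 := by
    apply sq_inj h2
    simpa [pow_two] using hr
  rw [Subgroup.mem_bot]
  apply Subtype.ext
  rw [← hA, hr1]
  simp

omit [Fintype F] Hd in
lemma mk_injective (h2 : (2 : F) = 0) :
    Function.Injective (QuotientGroup.mk' (Subgroup.center (SpecialLinearGroup (Fin 2) F))) := by
  rw [← MonoidHom.ker_eq_bot_iff, QuotientGroup.ker_mk', center_eq_bot h2]

lemma card_normOne (h2 : (2 : F) = 0) : Nat.card (normOne F d) = Fintype.card F + 1 := by
  rw [← Nat.card_eq_fintype_card (α := F)]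
  have hsurj : Function.Surjective (Units.map (QuadraticAlgebra.norm : K →* F)) := by
    intro c
    obtain ⟨x, hx⟩ := sq_surj h2 (c : F)
    have hx0 : x ≠ 0 := by
      rintro rfl
      rw [mul_zero] at hx
      exact c.ne_zero hx.symm
    refine ⟨Units.map (algebraMap F K).toMonoidHom (Units.mk0 x hx0), ?_⟩
    apply Units.ext
    simp [pow_two, hx]
  have h1 := Subgroup.card_mul_index (normOne F d)
  rw [Subgroup.index_ker, MonoidHom.range_eq_top.mpr hsurj, Subgroup.card_top, Nat.card_units,
    Nat.card_units, Nat.card_congr (equivProd d 1), Nat.card_prod] at h1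
  have hq : 2 ≤ Nat.card F := by
    rw [Nat.card_eq_fintype_card]; exact Fintype.one_lt_card
  have h3 : Nat.card F * Nat.card F - 1 = (Nat.card F + 1) * (Nat.card F - 1) := by
    obtain ⟨m, hm⟩ := Nat.exists_eq_add_of_le hq
    rw [hm]
    have : (2 + m) * (2 + m) - 1 = (2 + m + 1) * (2 + m - 1) := by
      have e1 : 2 + m - 1 = m + 1 := by omega
      rw [e1]
      have e2 : (2 + m) * (2 + m) = (2 + m + 1) * (m + 1) + 1 := by ring
      rw [e2]; rfl
    exact this
  rw [h3] at h1
  exact Nat.eq_of_mul_eq_mul_right (by omega) h1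

theorem main_aux (d : F) [Hd : Fact (∀ r : F, r ^ 2 ≠ d + 1 * r)] (h2' : 2 ∣ Fintype.card F) :
    ∃ A B : Subgroup (Matrix.ProjectiveSpecialLinearGroup (Fin 2) F),
      IsCyclic A ∧ Nat.card A = Fintype.card F + 1 ∧ IsMulCommutative B ∧ (∀ b ∈ B, b * b = 1) ∧
        Nat.card B = Fintype.card F ∧
        ∀ g : Matrix.ProjectiveSpecialLinearGroup (Fin 2) F,
          ∃ a ∈ A, ∃ b ∈ B, ∃ c ∈ A, g = a * b * c := by
  have h2 : (2 : F) = 0 := two_eq_zero_of_even h2'
  set π := QuotientGroup.mk' (Subgroup.center (SpecialLinearGroup (Fin 2) F)) with hπ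
  have hπi : Function.Injective π := mk_injective h2
  refine ⟨(π.comp (torusHom F d)).range, (π.comp (upperHom F)).range, ?_, ?_, ?_, ?_, ?_, ?_⟩
  · exact isCyclic_of_surjective (π.comp (torusHom F d)).rangeRestrict
      (MonoidHom.rangeRestrict_surjective _)
  · rw [← card_normOne (d := d) h2]
    exact (Nat.card_congr (MonoidHom.ofInjective
      (f := π.comp (torusHom F d)) (hπi.comp torusHom_injective)).toEquiv).symm
  · refine ⟨⟨?_⟩⟩
    rintro ⟨_, ⟨s, rfl⟩⟩ ⟨_, ⟨t, rfl⟩⟩
    apply Subtype.ext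
    simp only [Subgroup.coe_mul]
    rw [← map_mul, ← map_mul, mul_comm]
  · rintro _ ⟨t, rfl⟩
    rw [← map_mul]
    have : t * t = 1 := by
      apply Multiplicative.toAdd.injective
      simp only [toAdd_mul, toAdd_one]
      linear_combination (Multiplicative.toAdd t) * h2
    rw [this, map_one]
  · have := (Nat.card_congr (MonoidHom.ofInjective
      (f := π.comp (upperHom F)) (hπi.comp upperHom_injective)).toEquiv).symm
    rw [this]
    simp [Nat.card_eq_fintype_card]
  · intro g
    obtain ⟨gt, rfl⟩ := QuotientGroup.mk_surjective g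
    have hdec := decomp (d := d) h2 (gt : Matrix (Fin 2) (Fin 2) F)
    set α : QuadraticAlgebra F d 1 := ⟨gt.1 0 0 - (gt.1 0 1 - d * (gt.1 1 1 - gt.1 0 0) + d * (gt.1 1 0 - gt.1 1 1 + gt.1 0 0)),
      gt.1 1 1 - gt.1 0 0⟩ with hα
    set β : QuadraticAlgebra F d 1 := ⟨gt.1 0 1 - d * (gt.1 1 1 - gt.1 0 0) + d * (gt.1 1 0 - gt.1 1 1 + gt.1 0 0),
      gt.1 1 0 - gt.1 1 1 + gt.1 0 0⟩ with hβ
    have hdet : norm α - norm β = 1 := by
      rw [← det_decomp, ← hdec]
      exact gt.2
    obtain ⟨t, u, v, hu, hv, h1, h3⟩ := exists_tuv h2 α β hdet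
    have huu : u * star u = 1 := by rw [← algebraMap_norm_eq_mul_star, hu, map_one]
    have hvv : v * star v = 1 := by rw [← algebraMap_norm_eq_mul_star, hv, map_one]
    let uu : normOne F d := ⟨Units.mkOfMulEqOne u (star u) huu, by
      rw [MonoidHom.mem_ker]; apply Units.ext; simpa using hu⟩
    let vv : normOne F d := ⟨Units.mkOfMulEqOne v (star v) hvv, by
      rw [MonoidHom.mem_ker]; apply Units.ext; simpa using hv⟩
    refine ⟨π (torusHom F d uu), ⟨uu, rfl⟩, π (upperHom F (Multiplicative.ofAdd t)), ⟨_, rfl⟩,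
      π (torusHom F d vv), ⟨vv, rfl⟩, ?_⟩
    rw [← map_mul, ← map_mul]
    congr 1
    apply Subtype.ext
    have e := aba_matrix (d := d) h2 t u v
    rw [h1, h3, ← hdec] at e
    rw [← e]
    rfl

omit Hd in
theorem main (h2' : 2 ∣ Fintype.card F) :
    ∃ A B : Subgroup (Matrix.ProjectiveSpecialLinearGroup (Fin 2) F),
      IsCyclic A ∧ Nat.card A = Fintype.card F + 1 ∧ IsMulCommutative B ∧ (∀ b ∈ B, b * b = 1) ∧
        Nat.card B = Fintype.card F ∧
        ∀ g : Matrix.ProjectiveSpecialLinearGroup (Fin 2) F,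
          ∃ a ∈ A, ∃ b ∈ B, ∃ c ∈ A, g = a * b * c := by
  have hni : ¬ Function.Injective (fun r : F => r ^ 2 - r) := by
    intro h
    have := @h 0 1 (by simp)
    exact zero_ne_one this
  have hns : ¬ Function.Surjective (fun r : F => r ^ 2 - r) := fun h =>
    hni (Finite.injective_iff_surjective.mpr h)
  simp only [Function.Surjective, not_forall, not_exists] at hns
  obtain ⟨d, hd⟩ := hns
  have : Fact (∀ r : F, r ^ 2 ≠ d + 1 * r) := ⟨fun r h => hd r (by rw [h]; ring)⟩
  exact main_aux d h2'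

end grp

end Cfsg.Agent.H97.ABA
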