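import Mathlib
import Cfsg.Agent.H50.AutPSLSylow

/-!
# The big cell of `SL_n(2)` and intersections of Sylow 2-subgroups

For `U` the upper unitriangular subgroup of `SL_n(2)`, the set of `m` with `U ∩ m U m⁻¹ = 1` is a
single `(U, U)`-double coset.
-/

set_option autoImplicit false
open Matrix

namespace Cfsg.Agent.H97.BigCell

open Cfsg.Agent.H50.AutPSL Cfsg.Agent.H50.GraphAut

variable {n : ℕ}

section Field

variable {F : Type*} [Field F]

theorem isUT_tvM_of (a φ : Fin n → F) (i : ℕ) (ha : ∀ k : Fin n, i ≤ k.val → a k = 0)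
    (hφ : ∀ l : Fin n, l.val + 1 < i → φ l = 0) (h0 : a ⬝ᵥ φ = 0) : IsUT (tvM a φ) := by
  constructor
  · intro k l hlk
    rw [tvM_apply, if_neg (ne_of_gt hlk), zero_add]
    by_cases hk : i ≤ k.val
    · rw [ha k hk, zero_mul]
    · rw [hφ l (by have : l.val < k.val := hlk; omega), mul_zero]
  · intro k
    rw [tvM_apply, if_pos rfl]
    by_cases hk : i ≤ k.val
    · rw [ha k hk, zero_mul, add_zero]
    · by_cases hk2 : k.val + 1 < i
      · rw [hφ k hk2, mul_zero, add_zero]
      · have h1 : a ⬝ᵥ φ = a k * φ k := by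
          rw [dotProduct, Finset.sum_eq_single k]
          · intro j _ hjk
            by_cases hj : i ≤ j.val
            · rw [ha j hj, zero_mul]
            · rw [hφ j (by have : j.val ≠ k.val := fun h => hjk (Fin.ext h); omega), mul_zero]
          · intro h
            exact absurd (Finset.mem_univ k) h
        rw [← h1, h0, add_zero]

theorem exists_col (M : Matrix (Fin n) (Fin n) F) (k : Fin n) :
    ∃ v : Fin n → F, v ≠ 0 ∧ (∀ l : Fin n, n ≤ l.val + k.val → v l = 0) ∧
      (∀ r : Fin n, k.val < r.val → (M *ᵥ v) r = 0) := by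
  let f : (Fin n → F) →ₗ[F] ((Fin k.val → F) × (Fin (n - 1 - k.val) → F)) :=
    LinearMap.prod
      (LinearMap.pi (fun r : Fin k.val =>
        LinearMap.proj (⟨n - k.val + r.val, by have := r.2; have := k.2; omega⟩ : Fin n)))
      (LinearMap.pi (fun r : Fin (n - 1 - k.val) =>
        (LinearMap.proj (⟨k.val + 1 + r.val, by have := r.2; omega⟩ : Fin n)) ∘ₗ
          Matrix.mulVecLin M))
  have hlt : Module.finrank F ((Fin k.val → F) × (Fin (n - 1 - k.val) → F)) <
      Module.finrank F (Fin n → F) := by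
    rw [Module.finrank_prod, Module.finrank_fin_fun, Module.finrank_fin_fun,
      Module.finrank_fin_fun]
    have := k.2
    omega
  have hker := LinearMap.ker_ne_bot_of_finrank_lt (f := f) hlt
  obtain ⟨v, hv, hv0⟩ := (Submodule.ne_bot_iff _).mp hker
  have hfv : f v = 0 := LinearMap.mem_ker.mp hv
  refine ⟨v, hv0, ?_, ?_⟩
  · intro l hl
    have h1 : (f v).1 ⟨l.val + k.val - n, by have := l.2; omega⟩ = 0 := by
      rw [hfv]; rfl
    have h2 : (f v).1 ⟨l.val + k.val - n, by have := l.2; omega⟩ = v l := by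
      show v ⟨n - k.val + (l.val + k.val - n), _⟩ = v l
      congr 1
      apply Fin.ext
      show n - k.val + (l.val + k.val - n) = l.val
      have := k.2
      omega
    rw [← h2, h1]
  · intro r hr
    have h1 : (f v).2 ⟨r.val - (k.val + 1), by have := r.2; omega⟩ = 0 := by
      rw [hfv]; rfl
    have h2 : (f v).2 ⟨r.val - (k.val + 1), by have := r.2; omega⟩ = (M *ᵥ v) r := by
      show (M *ᵥ v) ⟨k.val + 1 + (r.val - (k.val + 1)), _⟩ = (M *ᵥ v) r
      congr 1
      apply Fin.ext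
      show k.val + 1 + (r.val - (k.val + 1)) = r.val
      omega
    rw [← h2, h1]

end Field

/-- opposite position of the standard flag and its image under `M` -/
def Opp (M : Matrix (Fin n) (Fin n) (ZMod 2)) : Prop :=
  ∀ (i : ℕ) (v : Fin n → ZMod 2), (∀ l : Fin n, n ≤ l.val + i → v l = 0) →
    (∀ r : Fin n, i ≤ r.val → (M *ᵥ v) r = 0) → v = 0

/-- the reversal permutation matrix -/
def W0 (n : ℕ) : Matrix (Fin n) (Fin n) (ZMod 2) :=
  Matrix.of fun k j => if k = Fin.rev j then 1 else 0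

theorem zmod2_eq_one (x : ZMod 2) (h : x ≠ 0) : x = 1 := by
  revert x
  decide

theorem exists_decomp (m : Matrix.SpecialLinearGroup (Fin n) (ZMod 2)) (h : Opp m.1) :
    ∃ B ∈ Uni n (ZMod 2), ∃ C ∈ Uni n (ZMod 2), (B⁻¹ * m * C).1 = W0 n := by
  choose V hV0 hV1 hV2 using exists_col (F := ZMod 2) m.1
  set b : Matrix (Fin n) (Fin n) (ZMod 2) := Matrix.of (fun r k => (m.1 *ᵥ V k) r) with hb
  set c : Matrix (Fin n) (Fin n) (ZMod 2) := Matrix.of (fun l j => V (Fin.rev j) l) with hc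
  have hbUT : IsUT b := by
    constructor
    · intro r k hkr
      exact hV2 k r hkr
    · intro k
      apply zmod2_eq_one
      intro h0
      apply hV0 k
      apply h k.val (V k) (hV1 k)
      intro r hr
      rcases Nat.eq_or_lt_of_le hr with h1 | h1
      · have : r = k := Fin.ext h1.symm
        rw [this]
        exact h0
      · exact hV2 k r h1
  have hcUT : IsUT c := by
    constructor
    · intro l j hjl
      show V (Fin.rev j) l = 0
      apply hV1
      rw [Fin.val_rev]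
      have h1 : j.val < l.val := hjl
      have := l.2
      omega
    · intro j
      apply zmod2_eq_one
      intro h0
      have h0' : V (Fin.rev j) j = 0 := h0
      apply hV0 (Fin.rev j)
      apply h ((Fin.rev j).val + 1) (V (Fin.rev j))
      · intro l hl
        by_cases hl2 : n ≤ l.val + (Fin.rev j).val
        · exact hV1 _ l hl2
        · have : l = j := by
            apply Fin.ext
            rw [Fin.val_rev] at hl hl2
            have := j.2
            omega
          rw [this]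
          exact h0'
      · intro r hr
        exact hV2 _ r (by omega)
  have hmc : m.1 * c = b * W0 n := by
    ext r j
    rw [Matrix.mul_apply, Matrix.mul_apply]
    have h1 : ∑ k, b r k * W0 n k j = b r (Fin.rev j) := by
      rw [Finset.sum_eq_single (Fin.rev j)]
      · simp [W0]
      · intro k _ hk
        simp [W0, hk]
      · intro h
        exact absurd (Finset.mem_univ _) h
    rw [h1]
    rfl
  set B : Matrix.SpecialLinearGroup (Fin n) (ZMod 2) := ⟨b, hbUT.det⟩ with hB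
  set C : Matrix.SpecialLinearGroup (Fin n) (ZMod 2) := ⟨c, hcUT.det⟩ with hC
  have hB1 : B.1 = b := rfl
  have hC1 : C.1 = c := rfl
  refine ⟨B, hbUT, C, hcUT, ?_⟩
  rw [Matrix.SpecialLinearGroup.coe_mul, Matrix.SpecialLinearGroup.coe_mul, mul_assoc, hC1, hmc,
    ← mul_assoc]
  have h2 : (B⁻¹).1 * b = 1 := by
    have h3 : (B⁻¹ * B).1 = 1 := by
      rw [inv_mul_cancel]; rfl
    rw [Matrix.SpecialLinearGroup.coe_mul, hB1] at h3
    exact h3
  rw [h2, one_mul]

theorem exists_of_not_opp (m : Matrix.SpecialLinearGroup (Fin n) (ZMod 2)) (h : ¬ Opp m.1) :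
    ∃ g ∈ Uni n (ZMod 2), g ≠ 1 ∧ m⁻¹ * g * m ∈ Uni n (ZMod 2) := by
  unfold Opp at h
  push Not at h
  obtain ⟨i, v, hv1, hv2, hv0⟩ := h
  have hdet : m.1.det ≠ 0 := by
    rw [m.2]
    exact one_ne_zero
  have ha0 : m.1 *ᵥ v ≠ 0 := fun h0 => hv0 (Matrix.eq_zero_of_mulVec_eq_zero hdet h0)
  have hi1 : 1 ≤ i := by
    by_contra hi
    apply ha0
    funext r
    exact hv2 r (by omega)
  have hi2 : i + 1 ≤ n := by
    by_contra hi
    apply hv0
    funext l
    exact hv1 l (by omega)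
  let f : (Fin n → ZMod 2) →ₗ[ZMod 2]
      ((Fin (i - 1) → ZMod 2) × (Fin (n - i - 1) → ZMod 2) × (Fin 1 → ZMod 2)) :=
    LinearMap.prod
      (LinearMap.pi (fun l : Fin (i - 1) =>
        LinearMap.proj (⟨l.val, by have := l.2; omega⟩ : Fin n)))
      (LinearMap.prod
        (LinearMap.pi (fun l : Fin (n - i - 1) =>
          (LinearMap.proj (⟨l.val, by have := l.2; omega⟩ : Fin n)) ∘ₗ Matrix.vecMulLinear m.1))
        (Matrix.mulVecLin (Matrix.of (fun (_ : Fin 1) k => (m.1 *ᵥ v) k))))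
  have hlt : Module.finrank (ZMod 2)
      ((Fin (i - 1) → ZMod 2) × (Fin (n - i - 1) → ZMod 2) × (Fin 1 → ZMod 2)) <
      Module.finrank (ZMod 2) (Fin n → ZMod 2) := by
    rw [Module.finrank_prod, Module.finrank_prod, Module.finrank_fin_fun, Module.finrank_fin_fun,
      Module.finrank_fin_fun, Module.finrank_fin_fun]
    omega
  have hker := LinearMap.ker_ne_bot_of_finrank_lt (f := f) hlt
  obtain ⟨φ, hφ, hφ0⟩ := (Submodule.ne_bot_iff _).mp hker
  have hfφ : f φ = 0 := LinearMap.mem_ker.mp hφ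
  have h1 : ∀ l : Fin n, l.val + 1 < i → φ l = 0 := by
    intro l hl
    have e1 : (f φ).1 ⟨l.val, by omega⟩ = 0 := by rw [hfφ]; rfl
    exact e1
  have h2 : ∀ l : Fin n, l.val + 1 < n - i → (φ ᵥ* m.1) l = 0 := by
    intro l hl
    have e1 : (f φ).2.1 ⟨l.val, by omega⟩ = 0 := by rw [hfφ]; rfl
    exact e1
  have h3 : (m.1 *ᵥ v) ⬝ᵥ φ = 0 := by
    have e1 : (f φ).2.2 0 = 0 := by rw [hfφ]; rfl
    exact e1
  have hG : IsUT (tvM (m.1 *ᵥ v) φ) := isUT_tvM_of _ φ i hv2 h1 h3
  have hG' : IsUT (tvM v (φ ᵥ* m.1)) := by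
    apply isUT_tvM_of v _ (n - i) (fun l hl => hv1 l (by omega)) h2
    rw [dotProduct_comm, ← Matrix.dotProduct_mulVec, dotProduct_comm]
    exact h3
  set G : Matrix.SpecialLinearGroup (Fin n) (ZMod 2) := ⟨tvM (m.1 *ᵥ v) φ, hG.det⟩ with hGdef
  set G' : Matrix.SpecialLinearGroup (Fin n) (ZMod 2) := ⟨tvM v (φ ᵥ* m.1), hG'.det⟩ with hG'def
  have hrel : m * G' = G * m := by
    apply Subtype.ext
    rw [Matrix.SpecialLinearGroup.coe_mul, Matrix.SpecialLinearGroup.coe_mul]
    show m.1 * tvM v (φ ᵥ* m.1) = tvM (m.1 *ᵥ v) φ * m.1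
    rw [tvM, tvM, mul_add, mul_one, add_mul, one_mul, Matrix.mul_vecMulVec, Matrix.vecMulVec_mul]
  refine ⟨G, hG, ?_, ?_⟩
  · intro hG1
    have e1 : tvM (m.1 *ᵥ v) φ = 1 := congrArg Subtype.val hG1
    obtain ⟨k, hk⟩ : ∃ k, (m.1 *ᵥ v) k ≠ 0 := by
      by_contra hcon
      push Not at hcon
      exact ha0 (funext hcon)
    obtain ⟨l, hl⟩ : ∃ l, φ l ≠ 0 := by
      by_contra hcon
      push Not at hcon
      exact hφ0 (funext hcon)
    have e2 := congrFun (congrFun e1 k) l
    rw [tvM_apply, Matrix.one_apply] at e2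
    have e3 : (m.1 *ᵥ v) k * φ l = 0 := by
      have := add_left_cancel (a := (if k = l then (1 : ZMod 2) else 0)) (b := (m.1 *ᵥ v) k * φ l)
        (c := 0) (by rw [add_zero]; exact e2)
      exact this
    rcases mul_eq_zero.mp e3 with h | h
    · exact hk h
    · exact hl h
  · have e1 : m⁻¹ * G * m = G' := by
      rw [mul_assoc, ← hrel, ← mul_assoc, inv_mul_cancel, one_mul]
    rw [e1]
    exact hG'

/-- `P` meets its `m`-conjugate trivially -/
def TrivInt {Γ : Type*} [Group Γ] (P : Subgroup Γ) (m : Γ) : Prop :=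
  ∀ g ∈ P, m⁻¹ * g * m ∈ P → g = 1

/-- the elements `m` with `P ∩ m P m⁻¹ = 1` form at most one `(P, P)`-double coset -/
def Star {Γ : Type*} [Group Γ] (P : Subgroup Γ) : Prop :=
  ∀ m m' : Γ, TrivInt P m → TrivInt P m' → ∃ u ∈ P, ∃ u' ∈ P, m' = u * m * u'

theorem star_uni : Star (Uni n (ZMod 2)) := by
  intro m m' hm hm'
  have hopp : ∀ x : Matrix.SpecialLinearGroup (Fin n) (ZMod 2), TrivInt (Uni n (ZMod 2)) x →
      Opp x.1 := by
    intro x hx
    by_contra hcon
    obtain ⟨g, hg, hg1, hg2⟩ := exists_of_not_opp x hcon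
    exact hg1 (hx g hg hg2)
  obtain ⟨B, hB, C, hC, h1⟩ := exists_decomp m (hopp m hm)
  obtain ⟨B', hB', C', hC', h2⟩ := exists_decomp m' (hopp m' hm')
  have h3 : B'⁻¹ * m' * C' = B⁻¹ * m * C := Subtype.ext (by rw [h1, h2])
  refine ⟨B' * B⁻¹, Subgroup.mul_mem _ hB' (Subgroup.inv_mem _ hB), C * C'⁻¹,
    Subgroup.mul_mem _ hC (Subgroup.inv_mem _ hC'), ?_⟩
  have h4 : m' = B' * (B'⁻¹ * m' * C') * C'⁻¹ := by group
  rw [h4, h3]
  group

theorem Star.of_equiv {Γ Γ' : Type*} [Group Γ] [Group Γ'] (φ : Γ ≃* Γ') (P : Subgroup Γ)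
    (h : Star (P.map φ.toMonoidHom)) : Star P := by
  have hmem : ∀ x : Γ, φ x ∈ P.map φ.toMonoidHom → x ∈ P := by
    intro x hx
    obtain ⟨y, hy, hyx⟩ := hx
    have : y = x := φ.injective hyx
    rw [← this]
    exact hy
  have htriv : ∀ m : Γ, TrivInt P m → TrivInt (P.map φ.toMonoidHom) (φ m) := by
    intro m hm g' hg' hg''
    obtain ⟨g, hg, rfl⟩ := hg'
    have e1 : (φ m)⁻¹ * φ.toMonoidHom g * φ m = φ (m⁻¹ * g * m) := by
      rw [map_mul, map_mul, map_inv]; rfl
    rw [e1] at hg''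
    have := hm g hg (hmem _ hg'')
    rw [this, map_one]
  intro m m' hm hm'
  obtain ⟨u, hu, u', hu', heq⟩ := h (φ m) (φ m') (htriv m hm) (htriv m' hm')
  obtain ⟨u₀, hu₀, rfl⟩ := hu
  obtain ⟨u₀', hu₀', rfl⟩ := hu'
  refine ⟨u₀, hu₀, u₀', hu₀', ?_⟩
  apply φ.injective
  rw [heq, map_mul, map_mul]
  rfl

end Cfsg.Agent.H97.BigCell
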