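import Mathlib
import Cfsg.Agent.H97.BigCell

set_option autoImplicit false
open scoped Pointwise

namespace Cfsg.Agent.H97.BigCell

open Cfsg.Agent.H50.AutPSL

theorem mem_conj_smul {G : Type*} [Group G] (H : Subgroup G) (x g : G) :
    g ∈ MulAut.conj x • H ↔ x⁻¹ * g * x ∈ H := by
  rw [Subgroup.mem_pointwise_smul_iff_inv_smul_mem]
  have : (MulAut.conj x)⁻¹ • g = x⁻¹ * g * x := by
    rw [MulAut.smul_def, MulAut.conj_inv_apply]
  rw [this]

theorem meet_of_star {G : Type*} [Group G] [Finite G] (N : Subgroup G) [N.Normal]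
    (hidx : N.index = 2) (H : Sylow 2 G) (hstar : Star ((H : Subgroup G).subgroupOf N)) (x : G) :
    (H : Subgroup G) ⊓ MulAut.conj x • (H : Subgroup G) ≠ ⊥ := by
  -- an element of H outside N
  obtain ⟨t, htH, htN⟩ : ∃ t, t ∈ (H : Subgroup G) ∧ t ∉ N := by
    by_contra hcon
    push Not at hcon
    have hle : (H : Subgroup G) ≤ N := fun t ht => hcon t ht
    have h1 := Subgroup.index_dvd_of_le hle
    rw [hidx] at h1
    exact H.not_dvd_index h1
  -- core claim
  have core : ∀ m : G, m ∈ N → ∃ g, g ≠ 1 ∧ g ∈ (H : Subgroup G) ∧ m⁻¹ * g * m ∈ (H : Subgroup G) := by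
    intro m hm
    by_cases hT : TrivInt ((H : Subgroup G).subgroupOf N) ⟨m, hm⟩
    · have hτ : t * m * t⁻¹ ∈ N := Subgroup.Normal.conj_mem inferInstance m hm t
      have hT' : TrivInt ((H : Subgroup G).subgroupOf N) ⟨t * m * t⁻¹, hτ⟩ := by
        intro g hg hg'
        rw [Subgroup.mem_subgroupOf] at hg hg'
        have hg1N : t⁻¹ * (g : G) * t ∈ N := by
          have := Subgroup.Normal.conj_mem (inferInstance : N.Normal) (g : G) g.2 t⁻¹
          rwa [inv_inv] at this
        have hg1H : t⁻¹ * (g : G) * t ∈ (H : Subgroup G) :=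
          Subgroup.mul_mem _ (Subgroup.mul_mem _ (Subgroup.inv_mem _ htH) hg) htH
        have hg2 : (t * m * t⁻¹)⁻¹ * (g : G) * (t * m * t⁻¹) ∈ (H : Subgroup G) := hg'
        have hg3 : m⁻¹ * (t⁻¹ * (g : G) * t) * m ∈ (H : Subgroup G) := by
          have e1 : m⁻¹ * (t⁻¹ * (g : G) * t) * m =
              t⁻¹ * ((t * m * t⁻¹)⁻¹ * (g : G) * (t * m * t⁻¹)) * t := by group
          rw [e1]
          exact Subgroup.mul_mem _ (Subgroup.mul_mem _ (Subgroup.inv_mem _ htH) hg2) htH
        have h5 := hT ⟨t⁻¹ * (g : G) * t, hg1N⟩ (Subgroup.mem_subgroupOf.mpr hg1H)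
          (Subgroup.mem_subgroupOf.mpr hg3)
        have h6 : t⁻¹ * (g : G) * t = 1 := congrArg Subtype.val h5
        apply Subtype.ext
        have h7 : (g : G) = t * (t⁻¹ * (g : G) * t) * t⁻¹ := by group
        rw [h7, h6]
        simp
      obtain ⟨u, hu, u', hu', heq⟩ := hstar ⟨m, hm⟩ ⟨t * m * t⁻¹, hτ⟩ hT hT'
      rw [Subgroup.mem_subgroupOf] at hu hu'
      have heq' : t * m * t⁻¹ = (u : G) * m * (u' : G) := congrArg Subtype.val heq
      refine ⟨(u : G)⁻¹ * t, ?_, Subgroup.mul_mem _ (Subgroup.inv_mem _ hu) htH, ?_⟩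
      · intro h1
        apply htN
        have : t = (u : G) := by
          have := congrArg (fun z => (u : G) * z) h1
          simpa using this
        rw [this]
        exact u.2
      · have e1 : m⁻¹ * ((u : G)⁻¹ * t) * m = m⁻¹ * (u : G)⁻¹ * (t * m * t⁻¹) * t := by group
        rw [e1, heq']
        have e2 : m⁻¹ * (u : G)⁻¹ * ((u : G) * m * (u' : G)) * t = (u' : G) * t := by group
        rw [e2]
        exact Subgroup.mul_mem _ hu' htH
    · unfold TrivInt at hT
      push Not at hT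
      obtain ⟨g, hg, hg', hg1⟩ := hT
      rw [Subgroup.mem_subgroupOf] at hg hg'
      refine ⟨(g : G), fun h => hg1 (Subtype.ext h), hg, hg'⟩
  -- decompose x
  obtain ⟨m, hm, t', ht', hx⟩ : ∃ m, m ∈ N ∧ ∃ t', t' ∈ (H : Subgroup G) ∧ x = m * t' := by
    by_cases hxN : x ∈ N
    · exact ⟨x, hxN, 1, Subgroup.one_mem _, by rw [mul_one]⟩
    · refine ⟨x * t⁻¹, ?_, t, htH, by group⟩
      rw [Subgroup.mul_mem_iff_of_index_two hidx]
      constructor
      · intro h; exact absurd h hxN
      · intro h; exact absurd ((Subgroup.inv_mem_iff N).mp h) htN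
  obtain ⟨g, hg1, hgH, hgm⟩ := core m hm
  intro hbot
  apply hg1
  have hmem : g ∈ (H : Subgroup G) ⊓ MulAut.conj x • (H : Subgroup G) := by
    refine Subgroup.mem_inf.mpr ⟨hgH, ?_⟩
    rw [mem_conj_smul, hx]
    have e1 : (m * t')⁻¹ * g * (m * t') = t'⁻¹ * (m⁻¹ * g * m) * t' := by group
    rw [e1]
    exact Subgroup.mul_mem _ (Subgroup.mul_mem _ (Subgroup.inv_mem _ ht') hgm) ht'
  rw [hbot] at hmem
  exact Subgroup.mem_bot.mp hmem

theorem star_of_equiv_SL {G : Type*} [Group G] [Finite G] {n : ℕ} (hn : 0 < n) (N : Subgroup G)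
    [N.Normal] (e : N ≃* Matrix.SpecialLinearGroup (Fin n) (ZMod 2)) (hidx : N.index = 2)
    (H : Sylow 2 G) : Star ((H : Subgroup G).subgroupOf N) := by
  have hnot : ¬ (H : Subgroup G) ≤ N := by
    intro hle
    have h1 := Subgroup.index_dvd_of_le hle
    rw [hidx] at h1
    exact H.not_dvd_index h1
  have hidxP : ((H : Subgroup G).subgroupOf N).index = (H : Subgroup G).index := by
    have h1 := Subgroup.relIndex_inf_mul_relIndex (H : Subgroup G) N ⊤
    have h2 := Subgroup.relIndex_inf_mul_relIndex N (H : Subgroup G) ⊤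
    rw [inf_top_eq, Subgroup.relIndex_top_right, Subgroup.relIndex_top_right] at h1 h2
    have h3 : N.relIndex (H : Subgroup G) ∣ 2 := by
      have := Subgroup.relIndex_dvd_index_of_normal N (H : Subgroup G)
      rwa [hidx] at this
    have h4 : N.relIndex (H : Subgroup G) ≠ 1 := fun h => hnot (Subgroup.relIndex_eq_one.mp h)
    have h5 : N.relIndex (H : Subgroup G) = 2 := by
      rcases (Nat.dvd_prime Nat.prime_two).mp h3 with h | h
      · exact absurd h h4
      · exact h
    rw [inf_comm, ← h1, h5, hidx] at h2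
    show (H : Subgroup G).relIndex N = _
    omega
  have hP2 : IsPGroup 2 ((H : Subgroup G).subgroupOf N) := H.isPGroup'.comap_subtype
  have hU2 : IsPGroup 2 (Uni n (ZMod 2)) :=
    IsPGroup.of_card (n := ∑ j : Fin n, (j : ℕ)) (by rw [card_Uni, ZMod.card])
  have hUidx : ¬ 2 ∣ (Uni n (ZMod 2)).index :=
    not_dvd_index (p := 2) (f := 1) (by rw [ZMod.card]; rfl) le_rfl hn
  have hUN2 : IsPGroup 2 ((Uni n (ZMod 2)).comap e.toMonoidHom) :=
    hU2.comap_of_injective e.toMonoidHom e.injective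
  have hUNidx : ¬ 2 ∣ ((Uni n (ZMod 2)).comap e.toMonoidHom).index := by
    rw [Subgroup.index_comap_of_surjective _ e.surjective]
    exact hUidx
  obtain ⟨s, hs⟩ := MulAction.exists_smul_eq N
    (hP2.toSylow (by rw [hidxP]; exact H.not_dvd_index)) (hUN2.toSylow hUNidx)
  have hs' : MulAut.conj s • ((H : Subgroup G).subgroupOf N) =
      (Uni n (ZMod 2)).comap e.toMonoidHom := by
    have h1 := congrArg (fun S : Sylow 2 N => (S : Subgroup N)) hs
    simp only [Sylow.coe_subgroup_smul, IsPGroup.toSylow_coe] at h1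
    exact h1
  have hstarUN : Star ((Uni n (ZMod 2)).comap e.toMonoidHom) := by
    apply Star.of_equiv e
    rw [Subgroup.map_comap_eq_self_of_surjective e.surjective]
    exact star_uni
  apply Star.of_equiv (MulAut.conj s)
  have h2 : ((H : Subgroup G).subgroupOf N).map (MulAut.conj s).toMonoidHom =
      (Uni n (ZMod 2)).comap e.toMonoidHom := by
    rw [← hs']
    rfl
  rw [h2]
  exact hstarUN

end Cfsg.Agent.H97.BigCell
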