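import Mathlib

/-!
# Products of two conjugates of a semisimple element in `SL_3(F)`: matrix toolkit (helper97)

Normal forms of non-scalar `3 × 3` matrices (companion matrix, or `2 × 2` companion block plus
a `1 × 1` block), the characteristic polynomial data `Good t` (determinant one, trace `t`,
trace of the adjugate `t`), and explicit factorisations of the normal forms as a product of two
matrices with that data.
-/

set_option autoImplicit false

namespace Cfsg.Agent.H97.CC3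

open Matrix

variable {F : Type*} [Field F]

omit [Field F] in
theorem ext3 {a0 a1 a2 b0 b1 b2 c0 c1 c2 a0' a1' a2' b0' b1' b2' c0' c1' c2' : F}
    (h1 : a0 = a0') (h2 : a1 = a1') (h3 : a2 = a2') (h4 : b0 = b0') (h5 : b1 = b1')
    (h6 : b2 = b2') (h7 : c0 = c0') (h8 : c1 = c1') (h9 : c2 = c2') :
    (!![a0, a1, a2; b0, b1, b2; c0, c1, c2] : Matrix (Fin 3) (Fin 3) F) =
      !![a0', a1', a2'; b0', b1', b2'; c0', c1', c2'] := by
  subst h1 h2 h3 h4 h5 h6 h7 h8 h9; rfl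

/-- companion matrix of `X^3 - c₂ X^2 - c₁ X - c₀` -/
def comp3 (c₀ c₁ c₂ : F) : Matrix (Fin 3) (Fin 3) F := !![0, 0, c₀; 1, 0, c₁; 0, 1, c₂]

/-- `2 × 2` companion block plus a `1 × 1` block -/
def blk (p q r : F) : Matrix (Fin 3) (Fin 3) F := !![0, p, 0; 1, q, 0; 0, 0, r]

/-- characteristic polynomial `X^3 - t X^2 + t X - 1` -/
def Good (t : F) (M : Matrix (Fin 3) (Fin 3) F) : Prop :=
  M.det = 1 ∧ M.trace = t ∧ M.adjugate.trace = t

theorem trace_conj {M M' P : Matrix (Fin 3) (Fin 3) F} (h : M * P = P * M') (hP : P.det ≠ 0) :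
    M.trace = M'.trace := by
  have hu : IsUnit P.det := isUnit_iff_ne_zero.mpr hP
  have h1 : M' = P⁻¹ * M * P := by
    rw [Matrix.mul_assoc, h, ← Matrix.mul_assoc, Matrix.nonsing_inv_mul _ hu, Matrix.one_mul]
  rw [h1, Matrix.trace_mul_comm, ← Matrix.mul_assoc, Matrix.mul_nonsing_inv _ hu, Matrix.one_mul]

theorem det_conj {M M' P : Matrix (Fin 3) (Fin 3) F} (h : M * P = P * M') (hP : P.det ≠ 0) :
    M.det = M'.det := by
  have h1 := congrArg Matrix.det h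
  rw [Matrix.det_mul, Matrix.det_mul, mul_comm] at h1
  exact mul_left_cancel₀ hP h1

theorem good_conj {t : F} {M M' P : Matrix (Fin 3) (Fin 3) F} (h : M * P = P * M')
    (hP : P.det ≠ 0) : Good t M ↔ Good t M' := by
  have h1 : M.det = M'.det := det_conj h hP
  have h2 : M.trace = M'.trace := trace_conj h hP
  have h3 : M'.adjugate.trace = M.adjugate.trace := by
    have h' : M'.adjugate * P.adjugate = P.adjugate * M.adjugate := by
      rw [← Matrix.adjugate_mul_distrib, ← Matrix.adjugate_mul_distrib, h]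
    refine trace_conj h' ?_
    rw [Matrix.det_adjugate]
    exact pow_ne_zero _ hP
  unfold Good
  rw [h1, h2, h3]

/-- the matrix with columns `v`, `M v`, `w` -/
def colM (M : Matrix (Fin 3) (Fin 3) F) (v w : Fin 3 → F) : Matrix (Fin 3) (Fin 3) F :=
  !![v 0, (M *ᵥ v) 0, w 0; v 1, (M *ᵥ v) 1, w 1; v 2, (M *ᵥ v) 2, w 2]

theorem exists_cyc (M : Matrix (Fin 3) (Fin 3) F) (hM : ∀ c : F, M ≠ c • 1) :
    ∃ v w : Fin 3 → F, (colM M v w).det ≠ 0 := by
  by_contra hcon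
  have key : ∀ v w : Fin 3 → F, (colM M v w).det = 0 := by
    intro v w
    by_contra h
    exact hcon ⟨v, w, h⟩
  have h1 := key ![1, 0, 0] ![0, 1, 0]
  have h2 := key ![1, 0, 0] ![0, 0, 1]
  have h3 := key ![0, 1, 0] ![1, 0, 0]
  have h4 := key ![0, 1, 0] ![0, 0, 1]
  have h5 := key ![0, 0, 1] ![1, 0, 0]
  have h6 := key ![0, 0, 1] ![0, 1, 0]
  have h7 := key ![1, 1, 0] ![0, 0, 1]
  have h8 := key ![0, 1, 1] ![1, 0, 0]
  simp only [colM, Matrix.det_fin_three, Matrix.mulVec, dotProduct, Fin.sum_univ_three,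
    Matrix.of_apply, Matrix.cons_val', Matrix.cons_val_zero, Matrix.cons_val_one,
    Matrix.cons_val_two, Matrix.empty_val', Matrix.cons_val_fin_one, Matrix.head_cons,
    Matrix.tail_cons, Matrix.head_fin_const] at h1 h2 h3 h4 h5 h6 h7 h8
  simp at h1 h2 h3 h4 h5 h6 h7 h8
  apply hM (M 0 0)
  ext i j
  fin_cases i <;> fin_cases j <;> simp <;> first
    | assumption
    | linear_combination h7 - h2 + h4
    | linear_combination h8 + h7 - h3 + h5 - h2 + h4

theorem exists_N (M : Matrix (Fin 3) (Fin 3) F) (hM : ∀ c : F, M ≠ c • 1) :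
    ∃ (P : Matrix (Fin 3) (Fin 3) F) (x₁ x₂ x₃ y₁ y₂ y₃ : F), P.det ≠ 0 ∧
      M * P = P * !![0, x₁, y₁; 1, x₂, y₂; 0, x₃, y₃] := by
  obtain ⟨v, w, hvw⟩ := exists_cyc M hM
  have hu : IsUnit (colM M v w).det := isUnit_iff_ne_zero.mpr hvw
  have hPx : colM M v w *ᵥ ((colM M v w)⁻¹ *ᵥ (M *ᵥ (M *ᵥ v))) = M *ᵥ (M *ᵥ v) := by
    rw [Matrix.mulVec_mulVec, Matrix.mul_nonsing_inv _ hu, Matrix.one_mulVec]
  have hPy : colM M v w *ᵥ ((colM M v w)⁻¹ *ᵥ (M *ᵥ w)) = M *ᵥ w := by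
    rw [Matrix.mulVec_mulVec, Matrix.mul_nonsing_inv _ hu, Matrix.one_mulVec]
  generalize (colM M v w)⁻¹ *ᵥ (M *ᵥ (M *ᵥ v)) = x at hPx
  generalize (colM M v w)⁻¹ *ᵥ (M *ᵥ w) = y at hPy
  refine ⟨colM M v w, x 0, x 1, x 2, y 0, y 1, y 2, hvw, ?_⟩
  ext i j
  have hxi := congrFun hPx i
  have hyi := congrFun hPy i
  simp only [colM, Matrix.mulVec, dotProduct, Fin.sum_univ_three] at hxi hyi
  fin_cases j
  · fin_cases i <;>
      simp [colM, Matrix.mul_apply, Fin.sum_univ_three, Matrix.mulVec, dotProduct]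
  · fin_cases i <;>
      simp [colM, Matrix.mul_apply, Fin.sum_univ_three, Matrix.mulVec, dotProduct] <;>
      simp at hxi <;>
      linear_combination -hxi
  · fin_cases i <;>
      simp [colM, Matrix.mul_apply, Fin.sum_univ_three, Matrix.mulVec, dotProduct] <;>
      simp at hyi <;>
      linear_combination -hyi

/-- a non-scalar matrix is conjugate to a companion matrix or to a `2 + 1` block matrix -/
theorem normal_form (M : Matrix (Fin 3) (Fin 3) F) (hM : ∀ c : F, M ≠ c • 1) :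
    ∃ P : Matrix (Fin 3) (Fin 3) F, P.det ≠ 0 ∧
      ((∃ c₀ c₁ c₂ : F, M * P = P * comp3 c₀ c₁ c₂) ∨ (∃ p q r : F, M * P = P * blk p q r)) := by
  obtain ⟨P, x₁, x₂, x₃, y₁, y₂, y₃, hP, hMP⟩ := exists_N M hM
  by_cases hx₃ : x₃ = 0
  · subst hx₃
    by_cases hy : y₁ + y₃ * y₂ = 0
    · refine ⟨P * !![1, 0, -y₂; 0, 1, 0; 0, 0, 1], ?_, Or.inr ⟨x₁, x₂, y₃, ?_⟩⟩
      · rw [Matrix.det_mul]
        refine mul_ne_zero hP ?_
        simp [Matrix.det_fin_three]
      · rw [← Matrix.mul_assoc, hMP, Matrix.mul_assoc, Matrix.mul_assoc]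
        congr 1
        simp only [blk, Matrix.mul_fin_three]
        refine ext3 ?_ ?_ ?_ ?_ ?_ ?_ ?_ ?_ ?_ <;> first | ring1 | linear_combination hy
    · refine ⟨P * !![-y₂, y₁, y₃ * y₁; 0, 0, y₁ + y₃ * y₂; 1, y₃, y₃ ^ 2], ?_,
        Or.inl ⟨-(x₁ * y₃), x₁ - x₂ * y₃, x₂ + y₃, ?_⟩⟩
      · rw [Matrix.det_mul]
        refine mul_ne_zero hP ?_
        have h2 : (!![-y₂, y₁, y₃ * y₁; 0, 0, y₁ + y₃ * y₂; 1, y₃, y₃ ^ 2] :
            Matrix (Fin 3) (Fin 3) F).det = (y₁ + y₃ * y₂) ^ 2 := by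
          simp [Matrix.det_fin_three]; ring
        rw [h2]
        exact pow_ne_zero _ hy
      · rw [← Matrix.mul_assoc, hMP, Matrix.mul_assoc, Matrix.mul_assoc]
        congr 1
        simp only [comp3, Matrix.mul_fin_three]
        refine ext3 ?_ ?_ ?_ ?_ ?_ ?_ ?_ ?_ ?_ <;> ring
  · refine ⟨P * !![1, 0, x₁; 0, 1, x₂; 0, 0, x₃], ?_,
      Or.inl ⟨y₁ * x₃ - x₁ * y₃, x₁ + y₂ * x₃ - x₂ * y₃, x₂ + y₃, ?_⟩⟩
    · rw [Matrix.det_mul]
      refine mul_ne_zero hP ?_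
      have h2 : (!![1, 0, x₁; 0, 1, x₂; 0, 0, x₃] : Matrix (Fin 3) (Fin 3) F).det = x₃ := by
        simp [Matrix.det_fin_three]
      rw [h2]
      exact hx₃
    · rw [← Matrix.mul_assoc, hMP, Matrix.mul_assoc, Matrix.mul_assoc]
      congr 1
      simp only [comp3, Matrix.mul_fin_three]
      refine ext3 ?_ ?_ ?_ ?_ ?_ ?_ ?_ ?_ ?_ <;> ring

theorem good_comp3_iff {t c₀ c₁ c₂ : F} :
    Good t (comp3 c₀ c₁ c₂) ↔ c₀ = 1 ∧ c₂ = t ∧ -c₁ = t := by
  have h1 : (comp3 c₀ c₁ c₂).det = c₀ := by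
    simp [comp3, Matrix.det_fin_three]
  have h2 : (comp3 c₀ c₁ c₂).trace = c₂ := by
    simp [comp3, Matrix.trace_fin_three]
  have h3 : (comp3 c₀ c₁ c₂).adjugate.trace = -c₁ := by
    simp [comp3, Matrix.adjugate_fin_three, Matrix.trace_fin_three]
  unfold Good
  rw [h1, h2, h3]

theorem good_blk_iff {t p q r : F} :
    Good t (blk p q r) ↔ -(p * r) = 1 ∧ q + r = t ∧ q * r - p = t := by
  have h1 : (blk p q r).det = -(p * r) := by
    simp [blk, Matrix.det_fin_three]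
  have h2 : (blk p q r).trace = q + r := by
    simp [blk, Matrix.trace_fin_three]
  have h3 : (blk p q r).adjugate.trace = q * r - p := by
    simp [blk, Matrix.adjugate_fin_three, Matrix.trace_fin_three]; ring
  unfold Good
  rw [h1, h2, h3]

/-- factorisation of a companion matrix of determinant one -/
theorem fact_comp (t c₁ c₂ : F) :
    ∃ A B : Matrix (Fin 3) (Fin 3) F, comp3 1 c₁ c₂ = A * B ∧ Good t A ∧ Good t B := by
  refine ⟨!![1, 0, -1; 1 + c₁ + t, 1, -4 - c₁ + c₂ - t; 3 - t, 0, -2 + t],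
    !![0, 1, -2 + c₂ + t; 1, 3 - c₂, -10 + 6 * c₂ + 2 * t - c₂ * t - c₂ ^ 2; 0, 1, -3 + c₂ + t],
    ?_, ⟨?_, ?_, ?_⟩, ⟨?_, ?_, ?_⟩⟩
  · simp only [comp3, Matrix.mul_fin_three]
    refine ext3 ?_ ?_ ?_ ?_ ?_ ?_ ?_ ?_ ?_ <;> ring
  · simp [Matrix.det_fin_three]; ring
  · simp [Matrix.trace_fin_three]; ring
  · simp [Matrix.adjugate_fin_three, Matrix.trace_fin_three]; ring
  · simp [Matrix.det_fin_three]; ring
  · simp [Matrix.trace_fin_three]; ring
  · simp [Matrix.adjugate_fin_three, Matrix.trace_fin_three]; ring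

/-- factorisation of a block matrix of determinant one -/
theorem fact_blk (t p q r : F) (h : p * r = -1) :
    ∃ A B : Matrix (Fin 3) (Fin 3) F, blk p q r = A * B ∧ Good t A ∧ Good t B := by
  refine ⟨!![0, 0, p; -p + t + p * t, 1,
      q - t + p * t - p ^ 2 - p * t ^ 2 + 2 * p ^ 2 * t - p ^ 2 * t ^ 2; r, 0, p * r - p * r * t],
    !![0, -p + p * t, 1; 1, t, p - t - p * t; 0, 1, 0],
    ?_, ⟨?_, ?_, ?_⟩, ⟨?_, ?_, ?_⟩⟩
  · simp only [blk, Matrix.mul_fin_three]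
    refine ext3 ?_ ?_ ?_ ?_ ?_ ?_ ?_ ?_ ?_ <;> ring
  · simp [Matrix.det_fin_three]; linear_combination (-1 : F) * h
  · simp [Matrix.trace_fin_three]; linear_combination (1 - t) * h
  · simp [Matrix.adjugate_fin_three, Matrix.trace_fin_three]; linear_combination (-t) * h
  · simp [Matrix.det_fin_three]
  · simp [Matrix.trace_fin_three]
  · simp [Matrix.adjugate_fin_three, Matrix.trace_fin_three]; ring

end Cfsg.Agent.H97.CC3
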