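import Mathlib
import Cfsg.Agent.H97.CC3a

/-!
# Products of two conjugates of a semisimple element in `SL_3(F)` and `PSL_3(F)` (helper97)

If `(t - 3) (t + 1) ≠ 0`, every matrix with characteristic polynomial `X^3 - t X^2 + t X - 1`
is `SL_3`-conjugate to the companion matrix `Ct t`, and every non-scalar element of `SL_3(F)` is
a product of two conjugates of it.
-/

set_option autoImplicit false

namespace Cfsg.Agent.H97.CC3

open Matrix

variable {F : Type*} [Field F]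

/-- companion matrix of `X^3 - t X^2 + t X - 1` -/
def Ct (t : F) : Matrix (Fin 3) (Fin 3) F := comp3 1 (-t) t

theorem det_Ct (t : F) : (Ct t).det = 1 := by
  simp [Ct, comp3, Matrix.det_fin_three]

theorem good_comp3_eq {t c₀ c₁ c₂ : F} (h : Good t (comp3 c₀ c₁ c₂)) :
    comp3 c₀ c₁ c₂ = Ct t := by
  obtain ⟨h0, h2, h1⟩ := good_comp3_iff.mp h
  have h1' : c₁ = -t := by rw [← h1, neg_neg]
  rw [h0, h2, h1']
  rfl

theorem not_scalar_of_good {t : F} (ht : (t - 3) * (t + 1) ≠ 0) {M : Matrix (Fin 3) (Fin 3) F}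
    (h : Good t M) : ∀ c : F, M ≠ c • 1 := by
  intro c hc
  subst hc
  obtain ⟨h1, h2, h3⟩ := h
  have e : (c • (1 : Matrix (Fin 3) (Fin 3) F)) = !![c, 0, 0; 0, c, 0; 0, 0, c] := by
    ext i j
    fin_cases i <;> fin_cases j <;> simp
  rw [e] at h1 h2 h3
  simp [Matrix.det_fin_three] at h1
  simp [Matrix.trace_fin_three] at h2
  simp [Matrix.adjugate_fin_three, Matrix.trace_fin_three] at h3
  have h4 : (t - 3) * t = 0 := by linear_combination (-(t + 3 * c)) * h2 + 3 * h3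
  rcases mul_eq_zero.mp h4 with h5 | h5
  · exact ht (by rw [h5, zero_mul])
  · have h6 : (3 : F) * c = 0 := by linear_combination h2 + h5
    rcases mul_eq_zero.mp h6 with h7 | h7
    · apply ht
      rw [h5]
      linear_combination (-1 : F) * h7
    · rw [h7] at h1
      simp at h1

theorem blk_chi_ne {t p q r : F} (ht : (t - 3) * (t + 1) ≠ 0) (h : Good t (blk p q r)) :
    r ^ 2 - q * r - p ≠ 0 := by
  obtain ⟨h1, h2, h3⟩ := good_blk_iff.mp h
  intro h4
  have hf : (r - 1) * (r ^ 2 + (1 - t) * r + 1) = 0 := by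
    linear_combination h1 + r ^ 2 * h2 - r * h3
  have hf' : (r - 1) * (2 * r + 1 - t) + (r ^ 2 + (1 - t) * r + 1) = 0 := by
    linear_combination h4 + 2 * r * h2 - h3
  rcases mul_eq_zero.mp hf with hr | hh
  · apply ht
    linear_combination (-(t + 1)) * hf' + ((t + 1) * (2 * r + 1 - t) + (t + 1) * (r + 2 - t)) * hr
  · have hf'' : (r - 1) * (2 * r + 1 - t) = 0 := by linear_combination hf' - hh
    rcases mul_eq_zero.mp hf'' with hr | he
    · apply ht
      linear_combination (-(t + 1)) * hh + ((t + 1) * (r + 2 - t)) * hr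
    · apply ht
      linear_combination (2 * r + 1 - t) * he - 4 * hh

/-- a matrix with characteristic polynomial `X^3 - t X^2 + t X - 1` is conjugate in `SL_3` to the
companion matrix -/
theorem conj_lemma {t : F} (ht : (t - 3) * (t + 1) ≠ 0) {M : Matrix (Fin 3) (Fin 3) F}
    (h : Good t M) : ∃ U : Matrix (Fin 3) (Fin 3) F, U.det = 1 ∧ M * U = U * Ct t := by
  have key : ∃ P : Matrix (Fin 3) (Fin 3) F, P.det ≠ 0 ∧ M * P = P * Ct t := by
    obtain ⟨P, hP, hc | hb⟩ := normal_form M (not_scalar_of_good ht h)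
    · obtain ⟨c₀, c₁, c₂, hMP⟩ := hc
      have hg := (good_conj hMP hP).mp h
      rw [good_comp3_eq hg] at hMP
      exact ⟨P, hP, hMP⟩
    · obtain ⟨p, q, r, hMP⟩ := hb
      have hg := (good_conj hMP hP).mp h
      have hchi := blk_chi_ne ht hg
      have hD : blk p q r * !![1, 0, p; 0, 1, q; 1, r, r ^ 2] =
          !![1, 0, p; 0, 1, q; 1, r, r ^ 2] * comp3 (-(p * r)) (p - q * r) (q + r) := by
        simp only [blk, comp3, Matrix.mul_fin_three]
        refine ext3 ?_ ?_ ?_ ?_ ?_ ?_ ?_ ?_ ?_ <;> ring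
      have hdet : (!![1, 0, p; 0, 1, q; 1, r, r ^ 2] : Matrix (Fin 3) (Fin 3) F).det =
          r ^ 2 - q * r - p := by
        simp [Matrix.det_fin_three]
      have hP4 : (!![1, 0, p; 0, 1, q; 1, r, r ^ 2] : Matrix (Fin 3) (Fin 3) F).det ≠ 0 := by
        rw [hdet]; exact hchi
      have hg2 := (good_conj hD hP4).mp hg
      rw [good_comp3_eq hg2] at hD
      refine ⟨P * !![1, 0, p; 0, 1, q; 1, r, r ^ 2], ?_, ?_⟩
      · rw [Matrix.det_mul]; exact mul_ne_zero hP hP4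
      · rw [← Matrix.mul_assoc, hMP, Matrix.mul_assoc, hD, Matrix.mul_assoc]
  obtain ⟨P, hP, hMP⟩ := key
  have h3t : (3 - t) ≠ 0 := by
    intro h0
    apply ht
    linear_combination (-(t + 1)) * h0
  obtain ⟨e, he⟩ : ∃ e : F, 1 + (3 - t) * e = (P.det)⁻¹ :=
    ⟨((P.det)⁻¹ - 1) / (3 - t), by field_simp; ring⟩
  have hcdet : (!![1 + e, e, e; e - e * t, 1 + e - e * t, e - e * t; e, e, 1 + e] :
      Matrix (Fin 3) (Fin 3) F).det = 1 + (3 - t) * e := by
    simp [Matrix.det_fin_three]; ring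
  have hcomm : Ct t * !![1 + e, e, e; e - e * t, 1 + e - e * t, e - e * t; e, e, 1 + e] =
      !![1 + e, e, e; e - e * t, 1 + e - e * t, e - e * t; e, e, 1 + e] * Ct t := by
    simp only [Ct, comp3, Matrix.mul_fin_three]
    refine ext3 ?_ ?_ ?_ ?_ ?_ ?_ ?_ ?_ ?_ <;> ring
  refine ⟨P * !![1 + e, e, e; e - e * t, 1 + e - e * t, e - e * t; e, e, 1 + e], ?_, ?_⟩
  · rw [Matrix.det_mul, hcdet, he]
    exact mul_inv_cancel₀ hP
  · rw [← Matrix.mul_assoc, hMP, Matrix.mul_assoc, hcomm, Matrix.mul_assoc]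

/-- every non-scalar element of `SL_3(F)` is a product of two conjugates of `c` -/
theorem sl3_main {t : F} (ht : (t - 3) * (t + 1) ≠ 0) (c : SpecialLinearGroup (Fin 3) F)
    (hc : c.1 = Ct t) (g : SpecialLinearGroup (Fin 3) F) (hg : ∀ a : F, g.1 ≠ a • 1) :
    ∃ u v : SpecialLinearGroup (Fin 3) F, g = (u * c * u⁻¹) * (v * c * v⁻¹) := by
  obtain ⟨P, hP, hN⟩ := normal_form g.1 hg
  have hu : IsUnit P.det := isUnit_iff_ne_zero.mpr hP
  have hfac : ∃ A B : Matrix (Fin 3) (Fin 3) F, g.1 * P = P * (A * B) ∧ Good t A ∧ Good t B := by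
    rcases hN with ⟨c₀, c₁, c₂, hMP⟩ | ⟨p, q, r, hMP⟩
    · have hd := det_conj hMP hP
      rw [g.2] at hd
      have h0 : c₀ = 1 := by
        have h9 : (comp3 c₀ c₁ c₂).det = c₀ := by simp [comp3, Matrix.det_fin_three]
        rw [h9] at hd
        exact hd.symm
      subst h0
      obtain ⟨A, B, hAB, hA, hB⟩ := fact_comp t c₁ c₂
      exact ⟨A, B, by rw [← hAB]; exact hMP, hA, hB⟩
    · have hd := det_conj hMP hP
      rw [g.2] at hd
      have h0 : p * r = -1 := by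
        have h9 : (blk p q r).det = -(p * r) := by simp [blk, Matrix.det_fin_three]
        rw [h9] at hd
        linear_combination hd
      obtain ⟨A, B, hAB, hA, hB⟩ := fact_blk t p q r h0
      exact ⟨A, B, by rw [← hAB]; exact hMP, hA, hB⟩
  obtain ⟨A, B, hgP, hA, hB⟩ := hfac
  have hA' : Good t (P * A * P⁻¹) := by
    refine (good_conj (P := P) ?_ hP).mpr hA
    rw [Matrix.mul_assoc, Matrix.nonsing_inv_mul _ hu, Matrix.mul_one]
  have hB' : Good t (P * B * P⁻¹) := by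
    refine (good_conj (P := P) ?_ hP).mpr hB
    rw [Matrix.mul_assoc, Matrix.nonsing_inv_mul _ hu, Matrix.mul_one]
  have hg' : g.1 = (P * A * P⁻¹) * (P * B * P⁻¹) := by
    have h9 : g.1 = P * (A * B) * P⁻¹ := by
      rw [← hgP, Matrix.mul_assoc, Matrix.mul_nonsing_inv _ hu, Matrix.mul_one]
    rw [h9]
    simp only [Matrix.mul_assoc]
    rw [Matrix.nonsing_inv_mul_cancel_left _ _ hu]
  obtain ⟨U, hU, hAU⟩ := conj_lemma ht hA'
  obtain ⟨V, hV, hBV⟩ := conj_lemma ht hB'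
  have e1 : ∀ (W : SpecialLinearGroup (Fin 3) F) (X : Matrix (Fin 3) (Fin 3) F),
      X * W.1 = W.1 * Ct t → (W * c * W⁻¹).1 = X := by
    intro W X hX
    have h9 : (W * c * W⁻¹).1 = W.1 * c.1 * (W⁻¹).1 := rfl
    rw [h9, hc, ← hX, Matrix.mul_assoc]
    have h8 : W.1 * (W⁻¹).1 = 1 := congrArg Subtype.val (mul_inv_cancel W)
    rw [h8, Matrix.mul_one]
  obtain ⟨U', hU'⟩ : ∃ U' : SpecialLinearGroup (Fin 3) F, U'.1 = U := ⟨⟨U, hU⟩, rfl⟩
  obtain ⟨V', hV'⟩ : ∃ V' : SpecialLinearGroup (Fin 3) F, V'.1 = V := ⟨⟨V, hV⟩, rfl⟩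
  rw [← hU'] at hAU
  rw [← hV'] at hBV
  refine ⟨U', V', ?_⟩
  apply Subtype.ext
  show g.1 = (U' * c * U'⁻¹).1 * (V' * c * V'⁻¹).1
  rw [e1 U' _ hAU, e1 V' _ hBV]
  exact hg'

/-- every non-identity element of `PSL_3(F)` is a product of two conjugates of the image of `c` -/
theorem psl3_main {t : F} (ht : (t - 3) * (t + 1) ≠ 0) (c : SpecialLinearGroup (Fin 3) F)
    (hc : c.1 = Ct t) (g : Matrix.ProjectiveSpecialLinearGroup (Fin 3) F) (hg : g ≠ 1) :
    ∃ u v : Matrix.ProjectiveSpecialLinearGroup (Fin 3) F,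
      g = (u * (QuotientGroup.mk c) * u⁻¹) * (v * (QuotientGroup.mk c) * v⁻¹) := by
  obtain ⟨g', rfl⟩ := QuotientGroup.mk_surjective g
  have hns : ∀ a : F, g'.1 ≠ a • 1 := by
    intro a ha
    apply hg
    rw [QuotientGroup.eq_one_iff, Subgroup.mem_center_iff]
    intro h
    apply Subtype.ext
    show h.1 * g'.1 = g'.1 * h.1
    rw [ha]
    simp
  obtain ⟨u, v, huv⟩ := sl3_main ht c hc g' hns
  refine ⟨QuotientGroup.mk u, QuotientGroup.mk v, ?_⟩
  rw [huv]
  rfl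

theorem Ct_zero_cube : Ct (0 : F) * Ct 0 * Ct 0 = 1 := by
  rw [Matrix.one_fin_three]
  simp only [Ct, comp3, Matrix.mul_fin_three]
  refine ext3 ?_ ?_ ?_ ?_ ?_ ?_ ?_ ?_ ?_ <;> ring

theorem Ct_one_fourth : Ct (1 : F) * Ct 1 * (Ct 1 * Ct 1) = 1 := by
  rw [Matrix.one_fin_three]
  simp only [Ct, comp3, Matrix.mul_fin_three]
  refine ext3 ?_ ?_ ?_ ?_ ?_ ?_ ?_ ?_ ?_ <;> ring

theorem c_cube (c : SpecialLinearGroup (Fin 3) F) (hc : c.1 = Ct 0) : c ^ 3 = 1 := by
  apply Subtype.ext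
  have h1 : c ^ 3 = c * c * c := by rw [pow_succ, pow_succ, pow_one]
  have h2 : (c * c * c).1 = c.1 * c.1 * c.1 := rfl
  rw [h1, h2, hc]
  exact Ct_zero_cube

theorem c_fourth (c : SpecialLinearGroup (Fin 3) F) (hc : c.1 = Ct 1) : c ^ 4 = 1 := by
  apply Subtype.ext
  have h1 : c ^ 4 = c * c * (c * c) := by
    rw [pow_succ, pow_succ, pow_succ, pow_one, mul_assoc (c * c)]
  have h2 : (c * c * (c * c)).1 = c.1 * c.1 * (c.1 * c.1) := rfl
  rw [h1, h2, hc]
  exact Ct_one_fourth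

end Cfsg.Agent.H97.CC3
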