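import Mathlib

set_option autoImplicit false

namespace Cfsg.Agent.H97

section EigOne

theorem index_le_card_of_map {Gp β : Type*} [Group Gp] [Finite β] (S : Subgroup Gp) (g : Gp → β)
    (hg : ∀ a b, g a = g b → a⁻¹ * b ∈ S) : S.index ≤ Nat.card β := by
  rw [Subgroup.index]
  apply Nat.card_le_card_of_injective (fun q : Gp ⧸ S => g q.out)
  intro q₁ q₂ hq
  have := hg _ _ hq
  rw [← QuotientGroup.eq] at this
  rwa [QuotientGroup.out_eq', QuotientGroup.out_eq'] at this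

theorem card_ne_zero_subtype {M : Type*} [Zero M] [Finite M] :
    Nat.card {x : M // x ≠ 0} = Nat.card M - 1 := by
  classical
  have := Fintype.ofFinite M
  rw [Nat.card_eq_fintype_card, Nat.card_eq_fintype_card,
    Fintype.card_subtype_compl (fun x : M => x = 0)]
  simp

theorem exists_fixed_of_coset_fixed {F V : Type*} [Field F] [AddCommGroup V] [Module F V]
    [Finite V] (h : V ≃ₗ[F] V) (W : Submodule F V) (hW : ∀ w ∈ W, h w ∈ W) (v : V)
    (hv : v ∉ W) (hvW : h v - v ∈ W) : ∃ u : V, u ≠ 0 ∧ h u = u := by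
  by_contra hcon
  push Not at hcon
  let f' : W → W := fun w => ⟨h w - w, W.sub_mem (hW w w.2) w.2⟩
  have hinj : Function.Injective f' := by
    intro w₁ w₂ h12
    have h1 : h (w₁ : V) - w₁ = h (w₂ : V) - w₂ := congrArg Subtype.val h12
    have h2 : h ((w₁ : V) - w₂) = (w₁ : V) - w₂ := by
      rw [map_sub]; exact sub_eq_sub_iff_sub_eq_sub.mp h1
    by_contra hne
    exact hcon _ (sub_ne_zero.mpr (fun e => hne (Subtype.ext e))) h2
  obtain ⟨w, hw⟩ := (Finite.injective_iff_surjective.mp hinj) ⟨h v - v, hvW⟩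
  have h1 : h (w : V) - w = h v - v := congrArg Subtype.val hw
  have h2 : h ((w : V) - v) = (w : V) - v := by
    rw [map_sub]; exact sub_eq_sub_iff_sub_eq_sub.mp h1
  by_cases hwv : (w : V) = v
  · exact hv (hwv ▸ w.2)
  · exact hcon _ (sub_ne_zero.mpr hwv) h2

variable {F V : Type*} [Field F] [Fintype F] [AddCommGroup V] [Module F V]
  [FiniteDimensional F V]

/-- Case I: a nonzero vector in an invariant subspace `W`. -/
theorem eig_one_index_le_sub (H : Subgroup (V ≃ₗ[F] V)) (W : Submodule F V)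
    (hW : ∀ h ∈ H, ∀ w ∈ W, h w ∈ W) (v : V) (hvW : v ∈ W) (hv0 : v ≠ 0) :
    (Subgroup.closure {h : ↥H | ∃ v : V, v ≠ 0 ∧ (h : V ≃ₗ[F] V) v = v}).index + 1
      ≤ Fintype.card F ^ Module.finrank F W := by
  classical
  have : Finite V := Module.finite_of_finite F
  have : Finite (V ≃ₗ[F] V) := Finite.of_injective (fun f => (f : V → V)) DFunLike.coe_injective
  let S : Subgroup ↥H :=
    { carrier := {h | (h : V ≃ₗ[F] V) v = v}
      one_mem' := rfl
      mul_mem' := by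
        intro a b ha hb
        show ((a : V ≃ₗ[F] V) * (b : V ≃ₗ[F] V)) v = v
        rw [LinearEquiv.mul_apply, show (b : V ≃ₗ[F] V) v = v from hb]
        exact ha
      inv_mem' := by
        intro a ha
        show ((a : V ≃ₗ[F] V)⁻¹) v = v
        have h1 : (a : V ≃ₗ[F] V) v = v := ha
        have h2 : ((a : V ≃ₗ[F] V)⁻¹ * (a : V ≃ₗ[F] V)) v = v := by rw [inv_mul_cancel]; rfl
        rw [LinearEquiv.mul_apply, h1] at h2
        exact h2 }
  have hSR : S ≤ Subgroup.closure {h : ↥H | ∃ v : V, v ≠ 0 ∧ (h : V ≃ₗ[F] V) v = v} := by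
    intro h hh
    exact Subgroup.subset_closure ⟨v, hv0, hh⟩
  let g : ↥H → {w : W // w ≠ 0} := fun h =>
    ⟨⟨(h : V ≃ₗ[F] V) v, hW h h.2 v hvW⟩, fun h0 => hv0 (by
      have : (h : V ≃ₗ[F] V) v = 0 := congrArg Subtype.val h0
      exact (LinearEquiv.map_eq_zero_iff _).mp this)⟩
  have hg : ∀ a b, g a = g b → a⁻¹ * b ∈ S := by
    intro a b hab
    have h1 : (a : V ≃ₗ[F] V) v = (b : V ≃ₗ[F] V) v := congrArg (fun x : {w : W // w ≠ 0} => ((x : W) : V)) hab
    show ((a : V ≃ₗ[F] V)⁻¹ * (b : V ≃ₗ[F] V)) v = v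
    rw [LinearEquiv.mul_apply, ← h1]
    have h2 : ((a : V ≃ₗ[F] V)⁻¹ * (a : V ≃ₗ[F] V)) v = v := by rw [inv_mul_cancel]; rfl
    rwa [LinearEquiv.mul_apply] at h2
  have h1 := index_le_card_of_map S g hg
  have h2 : (Subgroup.closure {h : ↥H | ∃ v : V, v ≠ 0 ∧ (h : V ≃ₗ[F] V) v = v}).index
      ≤ S.index := Nat.le_of_dvd (Nat.pos_of_ne_zero Subgroup.index_ne_zero_of_finite)
        (Subgroup.index_dvd_of_le hSR)
  rw [card_ne_zero_subtype, Module.natCard_eq_pow_finrank (K := F) (V := W),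
    Nat.card_eq_fintype_card] at h1
  have h3 : 0 < Fintype.card F ^ Module.finrank F W := pow_pos Fintype.card_pos _
  omega

/-- Case II: a vector outside an invariant subspace `W`. -/
theorem eig_one_index_le_quot (H : Subgroup (V ≃ₗ[F] V)) (W : Submodule F V)
    (hW : ∀ h ∈ H, ∀ w ∈ W, h w ∈ W) (v : V) (hvW : v ∉ W) :
    (Subgroup.closure {h : ↥H | ∃ v : V, v ≠ 0 ∧ (h : V ≃ₗ[F] V) v = v}).index + 1
      ≤ Fintype.card F ^ (Module.finrank F V - Module.finrank F W) := by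
  classical
  have : Finite V := Module.finite_of_finite F
  have : Finite (V ≃ₗ[F] V) := Finite.of_injective (fun f => (f : V → V)) DFunLike.coe_injective
  have : Finite (V ⧸ W) := Module.finite_of_finite F
  have hWinv : ∀ h ∈ H, ∀ w ∈ W, (h⁻¹ : V ≃ₗ[F] V) w ∈ W := fun h hh => hW _ (H.inv_mem hh)
  have hinvmul : ∀ (a : V ≃ₗ[F] V) (x : V), (a⁻¹) (a x) = x := by
    intro a x
    have h2 : (a⁻¹ * a) x = x := by rw [inv_mul_cancel]; rfl
    rwa [LinearEquiv.mul_apply] at h2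
  let S : Subgroup ↥H :=
    { carrier := {h | (h : V ≃ₗ[F] V) v - v ∈ W}
      one_mem' := by
        show v - v ∈ W
        rw [sub_self]; exact W.zero_mem
      mul_mem' := by
        intro a b ha hb
        show ((a : V ≃ₗ[F] V) * (b : V ≃ₗ[F] V)) v - v ∈ W
        have h1 : ((a : V ≃ₗ[F] V) * (b : V ≃ₗ[F] V)) v - v
            = (a : V ≃ₗ[F] V) ((b : V ≃ₗ[F] V) v - v) + ((a : V ≃ₗ[F] V) v - v) := by
          rw [LinearEquiv.mul_apply, map_sub]; abel
        rw [h1]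
        exact W.add_mem (hW a a.2 _ hb) ha
      inv_mem' := by
        intro a ha
        show ((a : V ≃ₗ[F] V)⁻¹) v - v ∈ W
        have h1 : ((a : V ≃ₗ[F] V)⁻¹) v - v
            = -((a : V ≃ₗ[F] V)⁻¹) ((a : V ≃ₗ[F] V) v - v) := by
          rw [map_sub, hinvmul]; abel
        rw [h1]
        exact W.neg_mem (hWinv a a.2 _ ha) }
  have hSR : S ≤ Subgroup.closure {h : ↥H | ∃ v : V, v ≠ 0 ∧ (h : V ≃ₗ[F] V) v = v} := by
    intro h hh
    exact Subgroup.subset_closure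
      (exists_fixed_of_coset_fixed (h : V ≃ₗ[F] V) W (hW h h.2) v hvW hh)
  let g : ↥H → {x : V ⧸ W // x ≠ 0} := fun h =>
    ⟨Submodule.Quotient.mk ((h : V ≃ₗ[F] V) v), fun h0 => hvW (by
      have h1 : (h : V ≃ₗ[F] V) v ∈ W := (Submodule.Quotient.mk_eq_zero W).mp h0
      have h2 := hWinv h h.2 _ h1
      rwa [hinvmul] at h2)⟩
  have hg : ∀ a b, g a = g b → a⁻¹ * b ∈ S := by
    intro a b hab
    have h1 : (Submodule.Quotient.mk ((a : V ≃ₗ[F] V) v) : V ⧸ W)
        = Submodule.Quotient.mk ((b : V ≃ₗ[F] V) v) := congrArg Subtype.val hab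
    have h2 : (a : V ≃ₗ[F] V) v - (b : V ≃ₗ[F] V) v ∈ W := (Submodule.Quotient.eq W).mp h1
    show ((a : V ≃ₗ[F] V)⁻¹ * (b : V ≃ₗ[F] V)) v - v ∈ W
    have h3 : ((a : V ≃ₗ[F] V)⁻¹ * (b : V ≃ₗ[F] V)) v - v
        = -((a : V ≃ₗ[F] V)⁻¹) ((a : V ≃ₗ[F] V) v - (b : V ≃ₗ[F] V) v) := by
      rw [LinearEquiv.mul_apply, map_sub, hinvmul]; abel
    rw [h3]
    exact W.neg_mem (hWinv a a.2 _ h2)
  have h1 := index_le_card_of_map S g hg
  have h2 : (Subgroup.closure {h : ↥H | ∃ v : V, v ≠ 0 ∧ (h : V ≃ₗ[F] V) v = v}).index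
      ≤ S.index := Nat.le_of_dvd (Nat.pos_of_ne_zero Subgroup.index_ne_zero_of_finite)
        (Subgroup.index_dvd_of_le hSR)
  have hfr : Module.finrank F (V ⧸ W) = Module.finrank F V - Module.finrank F W := by
    have := Submodule.finrank_quotient_add_finrank W
    omega
  rw [card_ne_zero_subtype, Module.natCard_eq_pow_finrank (K := F) (V := V ⧸ W),
    Nat.card_eq_fintype_card, hfr] at h1
  have h3 : 0 < Fintype.card F ^ (Module.finrank F V - Module.finrank F W) :=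
    pow_pos Fintype.card_pos _
  omega

end EigOne

end Cfsg.Agent.H97
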