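import Mathlib

/-!
# Products of two regular unipotents: linear-algebra toolkit

Avoidance lemmas (a vector space over a field with at least four elements is not covered by four
proper subspaces), regular unipotent operators, and the Schur complement of an operator with
respect to a vector `e` and a functional `ε` (one step of Gaussian elimination).
-/

set_option autoImplicit false
set_option linter.unusedSectionVars false
open Module

namespace Cfsg.Agent.H97.Lev


section Avoid

variable {K : Type*} [Field K] {V : Type*} [AddCommGroup V] [Module K V]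

theorem exists_notMem_finset (hK : 4 ≤ Cardinal.mk K) (t : Finset K) (ht : t.card < 4) :
    ∃ x : K, x ∉ t := by
  by_contra hcon
  push Not at hcon
  have h1 : Cardinal.mk K = (t.card : Cardinal) := by
    rw [← Cardinal.mk_coe_finset]
    exact Cardinal.mk_congr (Equiv.subtypeUnivEquiv hcon).symm
  rw [h1] at hK
  have : (4 : ℕ) ≤ t.card := by exact_mod_cast hK
  omega

/-- a subspace is not covered by at most four subspaces not containing it -/
theorem avoid_list (hK : 4 ≤ Cardinal.mk K) (P : Submodule K V) :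
    ∀ (l : List (Submodule K V)), l.length ≤ 4 → (∀ S ∈ l, ¬ P ≤ S) →
      ∃ v ∈ P, ∀ S ∈ l, v ∉ S := by
  classical
  intro l
  induction l with
  | nil => intro _ _; exact ⟨0, P.zero_mem, by simp⟩
  | cons S l ih =>
    intro hlen hS
    obtain ⟨x, hxP, hx⟩ := ih (by simp at hlen; omega) (fun S' hS' => hS S' (List.mem_cons_of_mem _ hS'))
    by_cases hxS : x ∈ S
    · have hPS := hS S (List.mem_cons_self)
      obtain ⟨y, hyP, hyS⟩ := SetLike.not_le_iff_exists.mp hPS
      -- bad parameters
      let bad : Submodule K V → K := fun S' =>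
        if h : ∃ t : K, y + t • x ∈ S' then h.choose else 0
      have hcard : (l.map bad).toFinset.card < 4 := by
        have h1 := List.toFinset_card_le (l.map bad)
        simp at hlen h1
        omega
      obtain ⟨t, ht⟩ := exists_notMem_finset hK _ hcard
      refine ⟨y + t • x, P.add_mem hyP (P.smul_mem _ hxP), ?_⟩
      intro S' hS'
      rcases List.mem_cons.mp hS' with rfl | hS'
      · intro hmem
        apply hyS
        have := S'.sub_mem hmem (S'.smul_mem t hxS)
        simpa using this
      · intro hmem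
        have hex : ∃ t : K, y + t • x ∈ S' := ⟨t, hmem⟩
        have hb : y + bad S' • x ∈ S' := by
          simp only [bad, dif_pos hex]
          exact hex.choose_spec
        have hne : t ≠ bad S' := by
          intro h
          apply ht
          rw [h]
          exact List.mem_toFinset.mpr (List.mem_map_of_mem hS')
        have h2 : (t - bad S') • x ∈ S' := by
          have := S'.sub_mem hmem hb
          rw [sub_smul]
          simpa using this
        have h3 : x ∈ S' := by
          have := S'.smul_mem (t - bad S')⁻¹ h2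
          rwa [smul_smul, inv_mul_cancel₀ (sub_ne_zero.mpr hne), one_smul] at this
        exact hx S' hS' h3
    · refine ⟨x, hxP, ?_⟩
      intro S' hS'
      rcases List.mem_cons.mp hS' with rfl | hS'
      · exact hxS
      · exact hx S' hS'

theorem avoid4 (hK : 4 ≤ Cardinal.mk K) (P S1 S2 S3 S4 : Submodule K V)
    (h1 : ¬ P ≤ S1) (h2 : ¬ P ≤ S2) (h3 : ¬ P ≤ S3) (h4 : ¬ P ≤ S4) :
    ∃ v ∈ P, v ∉ S1 ∧ v ∉ S2 ∧ v ∉ S3 ∧ v ∉ S4 := by
  obtain ⟨v, hv, h⟩ := avoid_list hK P [S1, S2, S3, S4] (by simp) (by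
    intro S hS
    simp at hS
    rcases hS with rfl | rfl | rfl | rfl <;> assumption)
  exact ⟨v, hv, h S1 (by simp), h S2 (by simp), h S3 (by simp), h S4 (by simp)⟩

theorem avoid3 (hK : 4 ≤ Cardinal.mk K) (P S1 S2 S3 : Submodule K V)
    (h1 : ¬ P ≤ S1) (h2 : ¬ P ≤ S2) (h3 : ¬ P ≤ S3) :
    ∃ v ∈ P, v ∉ S1 ∧ v ∉ S2 ∧ v ∉ S3 := by
  obtain ⟨v, hv, a, b, c, _⟩ := avoid4 hK P S1 S2 S3 S3 h1 h2 h3 h3
  exact ⟨v, hv, a, b, c⟩

theorem avoid2 (hK : 4 ≤ Cardinal.mk K) (P S1 S2 : Submodule K V)
    (h1 : ¬ P ≤ S1) (h2 : ¬ P ≤ S2) :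
    ∃ v ∈ P, v ∉ S1 ∧ v ∉ S2 := by
  obtain ⟨v, hv, a, b, _, _⟩ := avoid4 hK P S1 S2 S2 S2 h1 h2 h2 h2
  exact ⟨v, hv, a, b⟩

/-- dual avoidance: a functional killing `z` and nonzero on four vectors outside `K z` -/
theorem dual_avoid4 (hK : 4 ≤ Cardinal.mk K) (z v1 v2 v3 v4 : V)
    (h1 : v1 ∉ Submodule.span K {z}) (h2 : v2 ∉ Submodule.span K {z})
    (h3 : v3 ∉ Submodule.span K {z}) (h4 : v4 ∉ Submodule.span K {z}) :
    ∃ ε : Module.Dual K V, ε z = 0 ∧ ε v1 ≠ 0 ∧ ε v2 ≠ 0 ∧ ε v3 ≠ 0 ∧ ε v4 ≠ 0 := by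
  let ev : V → Submodule K (Module.Dual K V) := fun v => LinearMap.ker (Module.Dual.eval K V v)
  have key : ∀ v, v ∉ Submodule.span K {z} → ¬ ev z ≤ ev v := by
    intro v hv hle
    obtain ⟨f, hf, hfz⟩ := Submodule.exists_dual_map_eq_bot_of_notMem hv inferInstance
    have hz : f z = 0 := by
      have : f z ∈ (Submodule.span K {z}).map f := ⟨z, Submodule.mem_span_singleton_self z, rfl⟩
      rw [hfz] at this
      simpa using this
    have : f ∈ ev v := hle (by simpa [ev] using hz)
    exact hf (by simpa [ev] using this)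
  obtain ⟨ε, hε, a, b, c, d⟩ := avoid4 hK (ev z) (ev v1) (ev v2) (ev v3) (ev v4)
    (key v1 h1) (key v2 h2) (key v3 h3) (key v4 h4)
  refine ⟨ε, by simpa [ev] using hε, ?_, ?_, ?_, ?_⟩
  · simpa [ev] using a
  · simpa [ev] using b
  · simpa [ev] using c
  · simpa [ev] using d

end Avoid



section RegUnip

variable {K : Type*} [Field K] {V : Type*} [AddCommGroup V] [Module K V]

/-- regular unipotent: `u - 1` nilpotent with one-dimensional kernel -/
def RegUnip (u : V →ₗ[K] V) : Prop :=
  IsNilpotent (u - 1) ∧ finrank K (LinearMap.ker (u - 1)) = 1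

theorem exists_ker_mem_of_nilp (N : V →ₗ[K] V) (hN : IsNilpotent N) (S : Submodule K V)
    (hS : ∀ x ∈ S, N x ∈ S) (x : V) (hx : x ∈ S) (hx0 : x ≠ 0) :
    ∃ y ∈ S, y ≠ 0 ∧ N y = 0 := by
  obtain ⟨m, hm⟩ := hN
  have hex : ∃ j, (N ^ j) x = 0 := ⟨m, by rw [hm]; rfl⟩
  classical
  let j := Nat.find hex
  have hj : (N ^ j) x = 0 := Nat.find_spec hex
  have hj0 : j ≠ 0 := by
    intro h
    rw [h] at hj
    exact hx0 (by simpa using hj)
  obtain ⟨i, hi⟩ := Nat.exists_eq_succ_of_ne_zero hj0
  have hmem : ∀ i : ℕ, (N ^ i) x ∈ S := by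
    intro i
    induction i with
    | zero => simpa using hx
    | succ i ih =>
      rw [pow_succ', Module.End.mul_apply]
      exact hS _ ih
  refine ⟨(N ^ i) x, hmem i, ?_, ?_⟩
  · intro h
    have : i < j := by omega
    exact Nat.find_min hex this h
  · rw [← Module.End.mul_apply, ← pow_succ']
    have : i + 1 = j := by omega
    rw [this]
    exact hj

theorem finrank_range_pow_of_ker [FiniteDimensional K V] (N : V →ₗ[K] V) (hN : IsNilpotent N)
    (hk : finrank K (LinearMap.ker N) = 1) (k : ℕ) :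
    finrank K (LinearMap.range (N ^ k)) = finrank K V - k := by
  induction k with
  | zero =>
    rw [pow_zero, Module.End.one_eq_id, LinearMap.range_id, finrank_top, Nat.sub_zero]
  | succ k ih =>
    set S := LinearMap.range (N ^ k) with hSdef
    have hr : LinearMap.range (N ^ (k + 1)) = LinearMap.range (N.domRestrict S) := by
      rw [pow_succ', Module.End.mul_eq_comp, LinearMap.range_comp, LinearMap.range_domRestrict]
    rw [hr]
    have hrn := LinearMap.finrank_range_add_finrank_ker (N.domRestrict S)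
    rw [ih] at hrn
    have hinv : ∀ x ∈ S, N x ∈ S := by
      rintro x ⟨y, rfl⟩
      refine ⟨N y, ?_⟩
      rw [← Module.End.mul_apply, ← Module.End.mul_apply, ← pow_succ, ← pow_succ']
    -- kernel of the restriction has finrank ≤ 1
    have hle : finrank K (LinearMap.ker (N.domRestrict S)) ≤ 1 := by
      rw [← hk]
      let f : LinearMap.ker (N.domRestrict S) →ₗ[K] LinearMap.ker N :=
        { toFun := fun x => ⟨(x.1 : V), by
            have h := x.2
            rw [LinearMap.mem_ker] at h ⊢
            exact h⟩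
          map_add' := fun _ _ => rfl
          map_smul' := fun _ _ => rfl }
      apply LinearMap.finrank_le_finrank_of_injective (f := f)
      intro a b hab
      apply Subtype.ext
      apply Subtype.ext
      exact congrArg (fun z : LinearMap.ker N => (z : V)) hab
    by_cases hS0 : S = ⊥
    · have h0 : finrank K S = 0 := by rw [hS0]; exact finrank_bot K V
      rw [ih] at h0
      have : finrank K (LinearMap.range (N.domRestrict S)) = 0 := by omega
      omega
    · obtain ⟨x, hx, hx0⟩ := (Submodule.ne_bot_iff S).mp hS0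
      obtain ⟨y, hy, hy0, hNy⟩ := exists_ker_mem_of_nilp N hN S hinv x hx hx0
      have hge : 1 ≤ finrank K (LinearMap.ker (N.domRestrict S)) := by
        rw [Nat.one_le_iff_ne_zero]
        intro h0
        have hbot := Submodule.finrank_eq_zero.mp h0
        have hmem : (⟨y, hy⟩ : S) ∈ LinearMap.ker (N.domRestrict S) := by
          rw [LinearMap.mem_ker]
          simpa using hNy
        rw [hbot, Submodule.mem_bot] at hmem
        exact hy0 (congrArg Subtype.val hmem)
      omega

end RegUnip





section Schur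

variable {K : Type*} [Field K] {V : Type*} [AddCommGroup V] [Module K V]

/-- the factorization statement with side conditions -/
def Q (g : V →ₗ[K] V) (c₀ : V) (r₀ : Module.Dual K V) : Prop :=
  ∃ u w : V →ₗ[K] V, RegUnip u ∧ RegUnip w ∧ g = u ∘ₗ w ∧ c₀ ∉ LinearMap.range (u - 1) ∧
    ∃ x ∈ LinearMap.ker (w - 1), r₀ x ≠ 0

/-- the map `x ↦ g x - ε (g x) • g e` -/
def hhat (g : V →ₗ[K] V) (e : V) (ε : Module.Dual K V) : V →ₗ[K] V :=
  g - (ε ∘ₗ g).smulRight (g e)

theorem hhat_apply (g : V →ₗ[K] V) (e : V) (ε : Module.Dual K V) (x : V) :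
    hhat g e ε x = g x - ε (g x) • g e := rfl

theorem hhat_mem (g : V →ₗ[K] V) (e : V) (ε : Module.Dual K V) (h1 : ε (g e) = 1) (x : V) :
    hhat g e ε x ∈ LinearMap.ker ε := by
  rw [LinearMap.mem_ker, hhat_apply, map_sub, map_smul, h1, smul_eq_mul, mul_one, sub_self]

/-- Schur complement on `ker ε` -/
def schur (g : V →ₗ[K] V) (e : V) (ε : Module.Dual K V) (h1 : ε (g e) = 1) :
    LinearMap.ker ε →ₗ[K] LinearMap.ker ε :=
  (hhat g e ε).restrict (fun x _ => hhat_mem g e ε h1 x)

theorem schur_coe (g : V →ₗ[K] V) (e : V) (ε : Module.Dual K V) (h1 : ε (g e) = 1)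
    (y : LinearMap.ker ε) :
    ((schur g e ε h1 y : LinearMap.ker ε) : V) = g y - ε (g y) • g e := rfl

/-- projection onto `ker ε` along `e` -/
def proj (e : V) (ε : Module.Dual K V) (h0 : ε e = 1) : V →ₗ[K] LinearMap.ker ε :=
  LinearMap.codRestrict (LinearMap.ker ε) (LinearMap.id - ε.smulRight e) (fun x => by
    rw [LinearMap.mem_ker, LinearMap.sub_apply, LinearMap.id_apply, LinearMap.smulRight_apply,
      map_sub, map_smul, h0, smul_eq_mul, mul_one, sub_self])

theorem proj_coe (e : V) (ε : Module.Dual K V) (h0 : ε e = 1) (x : V) :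
    (proj e ε h0 x : V) = x - ε x • e := rfl

theorem proj_self (e : V) (ε : Module.Dual K V) (h0 : ε e = 1) : proj e ε h0 e = 0 := by
  apply Subtype.ext
  rw [proj_coe, h0, one_smul, sub_self]
  rfl

theorem proj_ker (e : V) (ε : Module.Dual K V) (h0 : ε e = 1) (y : LinearMap.ker ε) :
    proj e ε h0 (y : V) = y := by
  apply Subtype.ext
  rw [proj_coe, LinearMap.mem_ker.mp y.2, zero_smul, sub_zero]

theorem decomp (e : V) (ε : Module.Dual K V) (h0 : ε e = 1) (x : V) :
    x = ε x • e + (proj e ε h0 x : V) := by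
  rw [proj_coe]; abel

theorem eps_ker (ε : Module.Dual K V) (y : LinearMap.ker ε) : ε (y : V) = 0 :=
  LinearMap.mem_ker.mp y.2

/-- the splitting `V ≃ K × ker ε` -/
def split (e : V) (ε : Module.Dual K V) (h0 : ε e = 1) : V ≃ₗ[K] (K × LinearMap.ker ε) :=
  { toFun := fun x => (ε x, proj e ε h0 x)
    map_add' := by intro x y; simp
    map_smul' := by intro c x; simp
    invFun := fun p => p.1 • e + (p.2 : V)
    left_inv := fun x => (decomp e ε h0 x).symm
    right_inv := by
      rintro ⟨t, y⟩
      refine Prod.ext ?_ ?_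
      · show ε (t • e + (y : V)) = t
        rw [map_add, map_smul, h0, eps_ker]; simp
      · show proj e ε h0 (t • e + (y : V)) = y
        rw [map_add, map_smul, proj_self, proj_ker]; simp }

theorem split_apply (e : V) (ε : Module.Dual K V) (h0 : ε e = 1) (x : V) :
    split e ε h0 x = (ε x, proj e ε h0 x) := rfl

theorem split_symm_apply (e : V) (ε : Module.Dual K V) (h0 : ε e = 1) (t : K)
    (y : LinearMap.ker ε) :
    (split e ε h0).symm (t, y) = t • e + (y : V) := rfl

theorem det_schur [FiniteDimensional K V] (g : V →ₗ[K] V) (e : V) (ε : Module.Dual K V)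
    (h0 : ε e = 1) (h1 : ε (g e) = 1) :
    LinearMap.det (schur g e ε h1) = LinearMap.det g := by
  set φ := split e ε h0 with hφ
  set ρ : Module.Dual K V := (ε ∘ₗ g) ∘ₗ (LinearMap.ker ε).subtype ∘ₗ proj e ε h0 with hρ
  set D : V →ₗ[K] V := (φ.symm : (K × LinearMap.ker ε) →ₗ[K] V) ∘ₗ
    (LinearMap.prodMap (LinearMap.id : K →ₗ[K] K) (schur g e ε h1)) ∘ₗ
      (φ.symm.symm : V →ₗ[K] (K × LinearMap.ker ε)) with hD
  have hg : g = LinearMap.transvection ε (g e - e) ∘ₗ D ∘ₗ LinearMap.transvection ρ e := by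
    apply LinearMap.ext
    intro x
    have hρx : ρ x = ε (g (proj e ε h0 x : V)) := rfl
    have hρe : ρ e = 0 := by
      show ε (g (proj e ε h0 e : V)) = 0
      rw [proj_self]; simp
    have h2 : (φ.symm.symm : V →ₗ[K] (K × LinearMap.ker ε)) (x + ρ x • e) =
        (ε x + ρ x, proj e ε h0 x) := by
      rw [LinearEquiv.symm_symm]
      show split e ε h0 (x + ρ x • e) = _
      rw [split_apply, map_add, map_smul, h0, map_add, map_smul, proj_self]
      simp
    simp only [LinearMap.coe_comp, Function.comp_apply, LinearMap.transvection.apply]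
    rw [hD]
    simp only [LinearMap.coe_comp, Function.comp_apply]
    rw [h2]
    simp only [LinearMap.prodMap_apply, LinearMap.id_apply]
    have h3 : (φ.symm : (K × LinearMap.ker ε) →ₗ[K] V) (ε x + ρ x, schur g e ε h1 (proj e ε h0 x)) =
        (ε x + ρ x) • e + (g (proj e ε h0 x : V) - ρ x • g e) := by
      show (split e ε h0).symm _ = _
      rw [split_symm_apply, schur_coe, hρx]
    rw [h3]
    have h4 : ε ((ε x + ρ x) • e + (g (proj e ε h0 x : V) - ρ x • g e)) = ε x + ρ x := by
      rw [map_add, map_smul, h0, map_sub, map_smul, h1, ← hρx]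
      simp
    rw [h4]
    have h5 : g x = ε x • g e + g (proj e ε h0 x : V) := by
      conv_lhs => rw [decomp e ε h0 x, map_add, map_smul]
    rw [h5]
    simp only [smul_sub, add_smul]
    abel
  have hdet1 : LinearMap.det (LinearMap.transvection ε (g e - e)) = 1 := by
    rw [LinearMap.transvection.det, map_sub, h1, h0]; ring
  have hdet2 : LinearMap.det (LinearMap.transvection ρ e) = 1 := by
    rw [LinearMap.transvection.det]
    have hρe : ρ e = 0 := by
      show ε (g (proj e ε h0 e : V)) = 0
      rw [proj_self]; simp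
    rw [hρe, add_zero]
  have hdetD : LinearMap.det D = LinearMap.det (schur g e ε h1) := by
    rw [hD, LinearMap.det_conj, LinearMap.det_prodMap, LinearMap.det_id, one_mul]
  conv_rhs => rw [hg]
  rw [LinearMap.det_comp, LinearMap.det_comp, hdet1, hdet2, hdetD, one_mul, mul_one]


theorem sub_mem_ker (g : V →ₗ[K] V) (e : V) (ε : Module.Dual K V) (h0 : ε e = 1)
    (h1 : ε (g e) = 1) : g e - e ∈ LinearMap.ker ε := by
  rw [LinearMap.mem_ker, map_sub, h0, h1, sub_self]

theorem comp_pow_succ {W : Type*} [AddCommGroup W] [Module K W] (ι : W →ₗ[K] V)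
    (A : V →ₗ[K] W) (k : ℕ) :
    (ι ∘ₗ A) ^ (k + 1) = ι ∘ₗ ((A ∘ₗ ι) ^ k) ∘ₗ A := by
  induction k with
  | zero => simp [Module.End.one_eq_id]
  | succ k ih =>
    rw [pow_succ, ih, pow_succ]
    apply LinearMap.ext
    intro x
    simp [Module.End.mul_apply]

theorem assemble [FiniteDimensional K V] (g : V →ₗ[K] V) (e : V) (ε : Module.Dual K V)
    (h0 : ε e = 1) (h1 : ε (g e) = 1) (c₀ : V) (r₀ : Module.Dual K V) (hr : r₀ e ≠ 0)
    (hc : ε c₀ ≠ 0)
    (hQ : Q (schur g e ε h1) (⟨g e - e, sub_mem_ker g e ε h0 h1⟩ : LinearMap.ker ε)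
      ((ε ∘ₗ g) ∘ₗ (LinearMap.ker ε).subtype)) :
    Q g c₀ r₀ := by
  obtain ⟨u', w', ⟨hu'n, hu'k⟩, ⟨hw'n, hw'k⟩, hfac, hc', x', hx', hrx'⟩ := hQ
  set ι := (LinearMap.ker ε).subtype with hι
  set π := proj e ε h0 with hπ
  set c' : LinearMap.ker ε := ⟨g e - e, sub_mem_ker g e ε h0 h1⟩ with hc'def
  have he0 : e ≠ 0 := by
    intro h; rw [h, map_zero] at h0; exact zero_ne_one h0
  have hπι : ∀ y : LinearMap.ker ε, π (ι y) = y := fun y => proj_ker e ε h0 y
  have hει : ∀ y : LinearMap.ker ε, ε (ι y) = 0 := fun y => eps_ker ε y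
  have hπe : π e = 0 := proj_self e ε h0
  have hdec : ∀ x : V, x = ε x • e + ι (π x) := fun x => decomp e ε h0 x
  -- the two factors
  let A : V →ₗ[K] LinearMap.ker ε := ε.smulRight c' + (u' - 1) ∘ₗ π
  let B : LinearMap.ker ε →ₗ[K] V := ((ε ∘ₗ g) ∘ₗ ι).smulRight e + ι ∘ₗ (w' - 1)
  let u : V →ₗ[K] V := ε.smulRight (g e) + ι ∘ₗ u' ∘ₗ π
  let w : V →ₗ[K] V := (ε + ((ε ∘ₗ g) ∘ₗ ι) ∘ₗ π).smulRight e + ι ∘ₗ w' ∘ₗ π
  have hu1 : u - 1 = ι ∘ₗ A := by
    apply LinearMap.ext
    intro x
    show ε x • g e + ι (u' (π x)) - x = ι (ε x • c' + (u' (π x) - π x))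
    have e1 : ι (ε x • c' + (u' (π x) - π x)) = ε x • (g e - e) + (ι (u' (π x)) - ι (π x)) := by
      rw [map_add, map_smul, map_sub]; rfl
    rw [e1]
    have e2 := hdec x
    generalize ι (π x) = p at e2 ⊢
    generalize ι (u' (π x)) = q
    generalize ε x = a at e2 ⊢
    rw [e2, smul_sub]; abel
  have hAι : A ∘ₗ ι = u' - 1 := by
    apply LinearMap.ext
    intro y
    show ε (ι y) • c' + (u' (π (ι y)) - π (ι y)) = u' y - y
    rw [hει, hπι, zero_smul, zero_add]
  have hw1 : w - 1 = B ∘ₗ π := by
    apply LinearMap.ext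
    intro x
    show (ε x + ε (g (ι (π x)))) • e + ι (w' (π x)) - x = ε (g (ι (π x))) • e + ι (w' (π x) - π x)
    rw [map_sub]
    have e2 := hdec x
    generalize ε (g (ι (π x))) = b
    generalize ι (w' (π x)) = q
    generalize ι (π x) = p at e2 ⊢
    generalize ε x = a at e2 ⊢
    rw [e2, add_smul]; abel
  have hπB : π ∘ₗ B = w' - 1 := by
    apply LinearMap.ext
    intro y
    show π (ε (g (ι y)) • e + ι (w' y - y)) = w' y - y
    rw [map_add, map_smul, hπe, smul_zero, zero_add, hπι]
  have hg : g = u ∘ₗ w := by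
    apply LinearMap.ext
    intro x
    have hwx : w x = (ε x + ε (g (ι (π x)))) • e + ι (w' (π x)) := rfl
    have h2 : π (w x) = w' (π x) := by
      rw [hwx, map_add, map_smul, hπe, smul_zero, zero_add, hπι]
    have h3 : ε (w x) = ε x + ε (g (ι (π x))) := by
      rw [hwx, map_add, map_smul, h0, hει]; simp
    show g x = ε (w x) • g e + ι (u' (π (w x)))
    rw [h2, h3]
    have h4 : u' (w' (π x)) = schur g e ε h1 (π x) := by rw [hfac]; rfl
    rw [h4]
    have h5 : ι (schur g e ε h1 (π x)) = g (ι (π x)) - ε (g (ι (π x))) • g e := schur_coe g e ε h1 _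
    rw [h5]
    conv_lhs => rw [hdec x, map_add, map_smul]
    simp only [add_smul]
    abel
  refine ⟨u, w, ⟨?_, ?_⟩, ⟨?_, ?_⟩, hg, ?_, e, ?_, hr⟩
  · -- u - 1 nilpotent
    obtain ⟨m, hm⟩ := hu'n
    refine ⟨m + 1, ?_⟩
    rw [hu1, comp_pow_succ, hAι, hm]
    simp
  · -- kernel of u - 1
    rw [hu1]
    have hker : LinearMap.ker (ι ∘ₗ A) = (LinearMap.ker (u' - 1)).map ι := by
      ext x
      simp only [LinearMap.mem_ker, LinearMap.coe_comp, Function.comp_apply, Submodule.mem_map]
      constructor
      · intro hx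
        have hAx : A x = 0 := by
          apply Subtype.ext
          simpa [hι] using hx
        have hAx' : ε x • c' + (u' - 1) (π x) = 0 := hAx
        have hεx : ε x = 0 := by
          by_contra hne
          apply hc'
          refine ⟨-(ε x)⁻¹ • π x, ?_⟩
          rw [map_smul]
          have : (u' - 1) (π x) = -(ε x • c') := by
            rw [eq_neg_iff_add_eq_zero, add_comm]; exact hAx'
          rw [this, smul_neg, neg_smul, neg_neg, smul_smul, inv_mul_cancel₀ hne, one_smul]
        refine ⟨π x, ?_, ?_⟩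
        · rw [hεx, zero_smul, zero_add] at hAx'
          exact hAx'
        · have := hdec x
          rw [hεx, zero_smul, zero_add] at this
          exact this.symm
      · rintro ⟨y, hy, rfl⟩
        have : A (ι y) = (u' - 1) y := by rw [← hAι]; rfl
        rw [this, hy, map_zero]
    rw [hker, hι, Submodule.finrank_map_subtype_eq]
    exact hu'k
  · obtain ⟨m, hm⟩ := hw'n
    refine ⟨m + 1, ?_⟩
    rw [hw1, comp_pow_succ, hπB, hm]
    simp
  · -- kernel of w - 1
    have hker : LinearMap.ker (w - 1) = Submodule.span K {e} := by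
      rw [hw1]
      ext x
      simp only [LinearMap.mem_ker, LinearMap.coe_comp, Function.comp_apply]
      rw [Submodule.mem_span_singleton]
      constructor
      · intro hx
        have h1' : (w' - 1) (π x) = 0 := by
          have := congrArg π hx
          rw [map_zero] at this
          have h2 : π (B (π x)) = (w' - 1) (π x) := by rw [← hπB]; rfl
          rw [h2] at this
          exact this
        have hBx : B (π x) = ε (g (ι (π x))) • e + ι ((w' - 1) (π x)) := rfl
        rw [hBx, h1', map_zero, add_zero] at hx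
        have hr0 : ε (g (ι (π x))) = 0 := by
          rcases smul_eq_zero.mp hx with h | h
          · exact h
          · exact absurd h he0
        -- π x is a multiple of x'
        have hx'0 : (⟨x', hx'⟩ : LinearMap.ker (w' - 1)) ≠ 0 := by
          intro h
          have : x' = 0 := congrArg Subtype.val h
          apply hrx'
          rw [this, map_zero]
        obtain ⟨t, ht⟩ := (finrank_eq_one_iff_of_nonzero' _ hx'0).mp hw'k ⟨π x, h1'⟩
        have ht' : t • x' = π x := congrArg Subtype.val ht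
        have ht0 : t = 0 := by
          by_contra hne
          apply hrx'
          have h6 : ε (g (ι (t • x'))) = 0 := by rw [ht']; exact hr0
          rw [map_smul, map_smul, map_smul, smul_eq_mul] at h6
          rcases mul_eq_zero.mp h6 with h | h
          · exact absurd h hne
          · exact h
        have hπx : π x = 0 := by rw [← ht', ht0, zero_smul]
        refine ⟨ε x, ?_⟩
        have := hdec x
        rw [hπx, map_zero, add_zero] at this
        exact this.symm
      · rintro ⟨t, rfl⟩
        rw [map_smul, hπe, smul_zero, map_zero]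
    rw [hker, finrank_span_singleton he0]
  · -- c₀ not in range
    rintro ⟨x, hx⟩
    apply hc
    rw [← hx, hu1]
    show ε (ι (A x)) = 0
    exact hει _
  · -- e fixed by w
    rw [LinearMap.mem_ker, hw1]
    show B (π e) = 0
    rw [hπe, map_zero]

end Schur


end Cfsg.Agent.H97.Lev
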