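import Mathlib
import Cfsg.Agent.H97.Lev1

/-!
# Products of two regular unipotents: choice of the pivot vector and functional
-/

set_option autoImplicit false
set_option linter.unusedSectionVars false
open Module

namespace Cfsg.Agent.H97.Lev



section ESide

variable {K : Type*} [Field K] {V : Type*} [AddCommGroup V] [Module K V]

/-- `e` is an eigenvector (or zero) -/
def IsEig (g : V →ₗ[K] V) (e : V) : Prop := ∃ κ : K, g e = κ • e

theorem ne_zero_of_not_isEig (g : V →ₗ[K] V) (e : V) (h : ¬ IsEig g e) : e ≠ 0 := by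
  intro h0
  exact h ⟨0, by rw [h0, map_zero, smul_zero]⟩

theorem not_isEig_of_span (g : V →ₗ[K] V) (x v : V) (hx : ¬ IsEig g x) (hv : IsEig g v) :
    x ∉ Submodule.span K {v} := by
  intro hmem
  obtain ⟨t, rfl⟩ := Submodule.mem_span_singleton.mp hmem
  obtain ⟨κ, hκ⟩ := hv
  exact hx ⟨κ, by rw [map_smul, hκ, smul_comm]⟩

theorem top_not_le {S : Submodule K V} (h : S ≠ ⊤) : ¬ (⊤ : Submodule K V) ≤ S :=
  fun hle => h (top_le_iff.mp hle)

/-- sum of eigenvectors for distinct eigenvalues with nonzero coefficients is not an eigenvector -/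
theorem not_isEig_add (g : V →ₗ[K] V) (x y : V) (κ κ' : K) (hx : g x = κ • x) (hy : g y = κ' • y)
    (hne : κ ≠ κ') (a b : K) (ha : a ≠ 0) (hb : b ≠ 0) (hx0 : x ≠ 0) (hy0 : y ≠ 0) :
    ¬ IsEig g (a • x + b • y) := by
  rintro ⟨μ, hμ⟩
  rw [map_add, map_smul, map_smul, hx, hy, smul_add] at hμ
  have h1 : (a * (κ - μ)) • x + (b * (κ' - μ)) • y = 0 := by
    have e1 : (a * (κ - μ)) • x + (b * (κ' - μ)) • y
        = (a • κ • x + b • κ' • y) - (μ • a • x + μ • b • y) := by module
    rw [e1, hμ, sub_self]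
  have h1g : (a * (κ - μ)) • κ • x + (b * (κ' - μ)) • κ' • y = 0 := by
    have := congrArg g h1
    rw [map_add, map_smul, map_smul, hx, hy, map_zero] at this
    exact this
  have h2 : (a * (κ - μ) * (κ - κ')) • x = 0 := by
    have e1 : (a * (κ - μ) * (κ - κ')) • x =
        ((a * (κ - μ)) • κ • x + (b * (κ' - μ)) • κ' • y)
          - κ' • ((a * (κ - μ)) • x + (b * (κ' - μ)) • y) := by module
    rw [e1, h1g, h1, smul_zero, sub_zero]
  have h4 : (b * (κ' - μ) * (κ' - κ)) • y = 0 := by
    have e1 : (b * (κ' - μ) * (κ' - κ)) • y =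
        ((a * (κ - μ)) • κ • x + (b * (κ' - μ)) • κ' • y)
          - κ • ((a * (κ - μ)) • x + (b * (κ' - μ)) • y) := by module
    rw [e1, h1g, h1, smul_zero, sub_zero]
  have h5 : κ - μ = 0 := by
    rcases smul_eq_zero.mp h2 with h | h
    · rcases mul_eq_zero.mp h with h | h
      · rcases mul_eq_zero.mp h with h | h
        · exact absurd h ha
        · exact h
      · exact absurd (sub_eq_zero.mp h) hne
    · exact absurd h hx0
  have h6 : κ' - μ = 0 := by
    rcases smul_eq_zero.mp h4 with h | h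
    · rcases mul_eq_zero.mp h with h | h
      · rcases mul_eq_zero.mp h with h | h
        · exact absurd h hb
        · exact h
      · exact absurd (sub_eq_zero.mp h).symm hne
    · exact absurd h hy0
  exact hne (by rw [sub_eq_zero.mp h5, sub_eq_zero.mp h6])

theorem exists_nonEig (hK : 4 ≤ Cardinal.mk K) (g : V →ₗ[K] V)
    (hns : ¬ ∃ c : K, g = c • (1 : V →ₗ[K] V)) (S₁ S₂ : Submodule K V) (h₁ : S₁ ≠ ⊤)
    (h₂ : S₂ ≠ ⊤) : ∃ x, ¬ IsEig g x ∧ x ∉ S₁ ∧ x ∉ S₂ := by
  obtain ⟨x₀, -, hx1, hx2⟩ := avoid2 hK ⊤ S₁ S₂ (top_not_le h₁) (top_not_le h₂)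
  by_cases hx₀ : IsEig g x₀
  · obtain ⟨κ, hκ⟩ := hx₀
    have hE : LinearMap.ker (g - κ • (1 : V →ₗ[K] V)) ≠ ⊤ := by
      intro h
      apply hns
      refine ⟨κ, ?_⟩
      apply LinearMap.ext
      intro x
      have : x ∈ LinearMap.ker (g - κ • (1 : V →ₗ[K] V)) := by rw [h]; trivial
      rw [LinearMap.mem_ker, LinearMap.sub_apply, sub_eq_zero] at this
      exact this
    obtain ⟨y₀, -, hy0, hy1, hy2⟩ := avoid3 hK ⊤ _ S₁ S₂ (top_not_le hE) (top_not_le h₁)
      (top_not_le h₂)
    by_cases hy₀ : IsEig g y₀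
    · obtain ⟨κ', hκ'⟩ := hy₀
      have hne : κ ≠ κ' := by
        intro h
        apply hy0
        rw [LinearMap.mem_ker, LinearMap.sub_apply, hκ', h]
        simp
      have hx00 : x₀ ≠ 0 := fun h => hx1 (by rw [h]; exact S₁.zero_mem)
      have hy00 : y₀ ≠ 0 := fun h => hy1 (by rw [h]; exact S₁.zero_mem)
      have hxy : x₀ ∉ Submodule.span K {y₀} := by
        intro hmem
        obtain ⟨t, rfl⟩ := Submodule.mem_span_singleton.mp hmem
        rw [map_smul, hκ', smul_smul, smul_smul] at hκ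
        have := sub_eq_zero.mpr hκ
        rw [← sub_smul] at this
        rcases smul_eq_zero.mp this with h | h
        · have ht : t ≠ 0 := fun h0 => hx00 (by rw [h0, zero_smul])
          have : t * (κ' - κ) = 0 := by rw [← h]; ring
          rcases mul_eq_zero.mp this with h | h
          · exact ht h
          · exact hne (sub_eq_zero.mp h).symm
        · exact hy00 h
      have hyx : y₀ ∉ Submodule.span K {x₀} := by
        intro hmem
        obtain ⟨t, rfl⟩ := Submodule.mem_span_singleton.mp hmem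
        apply hy0
        rw [LinearMap.mem_ker, LinearMap.sub_apply, LinearMap.smul_apply, Module.End.one_apply,
          map_smul, hκ, smul_comm, sub_self]
      set P := Submodule.span K {x₀, y₀} with hP
      have hxP : x₀ ∈ P := Submodule.subset_span (by simp)
      have hyP : y₀ ∈ P := Submodule.subset_span (by simp)
      obtain ⟨v, hvP, hv1, hv2, hv3, hv4⟩ := avoid4 hK P (Submodule.span K {x₀})
        (Submodule.span K {y₀}) S₁ S₂ (fun h => hyx (h hyP)) (fun h => hxy (h hxP))
        (fun h => hx1 (h hxP)) (fun h => hx2 (h hxP))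
      obtain ⟨a, b, rfl⟩ := Submodule.mem_span_pair.mp hvP
      have ha : a ≠ 0 := by
        intro h
        apply hv2
        rw [h, zero_smul, zero_add]
        exact Submodule.smul_mem _ _ (Submodule.mem_span_singleton_self _)
      have hb : b ≠ 0 := by
        intro h
        apply hv1
        rw [h, zero_smul, add_zero]
        exact Submodule.smul_mem _ _ (Submodule.mem_span_singleton_self _)
      exact ⟨_, not_isEig_add g x₀ y₀ κ κ' hκ hκ' hne a b ha hb hx00 hy00, hv3, hv4⟩
    · exact ⟨y₀, hy₀, hy1, hy2⟩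
  · exact ⟨x₀, hx₀, hx1, hx2⟩


theorem range_pair (v₁ v₂ : V) : Set.range ![v₁, v₂] = {v₁, v₂} := by
  ext z
  simp only [Set.mem_range, Set.mem_insert_iff, Set.mem_singleton_iff]
  constructor
  · rintro ⟨i, rfl⟩
    fin_cases i
    · left; rfl
    · right; rfl
  · rintro (rfl | rfl)
    · exact ⟨0, rfl⟩
    · exact ⟨1, rfl⟩

theorem finrank_span_pair_le (x y : V) : finrank K (Submodule.span K ({x, y} : Set V)) ≤ 2 := by
  classical
  have h := finrank_span_finset_le_card (R := K) ({x, y} : Finset V)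
  have h2 : (({x, y} : Finset V) : Set V) = {x, y} := by simp
  rw [Set.finrank, h2] at h
  exact le_trans h Finset.card_le_two

theorem finrank_span_pair_eq (v₁ v₂ : V) (h : v₂ ∉ Submodule.span K {v₁}) (h0 : v₁ ≠ 0) :
    finrank K (Submodule.span K ({v₁, v₂} : Set V)) = 2 := by
  have hli : LinearIndependent K ![v₁, v₂] := by
    rw [LinearIndependent.pair_iff' h0]
    intro a ha
    exact h (Submodule.mem_span_singleton.mpr ⟨a, ha⟩)
  have := finrank_span_eq_card hli
  rw [range_pair] at this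
  rw [this]; rfl

theorem eig_lines [FiniteDimensional K V] (g : V →ₗ[K] V) (x y : V) (hx : ¬ IsEig g x) :
    ∃ L₁ L₂ : Submodule K V, ¬ Submodule.span K {x, y} ≤ L₁ ∧ ¬ Submodule.span K {x, y} ≤ L₂ ∧
      ∀ v ∈ Submodule.span K {x, y}, IsEig g v → v ∈ L₁ ∨ v ∈ L₂ := by
  set P := Submodule.span K ({x, y} : Set V) with hP
  have hxP : x ∈ P := Submodule.subset_span (by simp)
  have hx0 := ne_zero_of_not_isEig g x hx
  by_cases h1 : ∃ v₁ ∈ P, v₁ ≠ 0 ∧ IsEig g v₁
  · obtain ⟨v₁, hv₁P, hv₁0, hv₁⟩ := h1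
    by_cases h2 : ∃ v₂ ∈ P, v₂ ∉ Submodule.span K {v₁} ∧ IsEig g v₂
    · obtain ⟨v₂, hv₂P, hv₂n, hv₂⟩ := h2
      refine ⟨Submodule.span K {v₁}, Submodule.span K {v₂},
        fun h => not_isEig_of_span g x v₁ hx hv₁ (h hxP),
        fun h => not_isEig_of_span g x v₂ hx hv₂ (h hxP), ?_⟩
      intro v hvP hv
      have hle : Submodule.span K ({v₁, v₂} : Set V) ≤ P := by
        rw [Submodule.span_le]
        rintro z (rfl | rfl)
        · exact hv₁P
        · exact hv₂P
      have heq : Submodule.span K ({v₁, v₂} : Set V) = P := by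
        apply Submodule.eq_of_le_of_finrank_le hle
        rw [finrank_span_pair_eq v₁ v₂ hv₂n hv₁0]
        exact finrank_span_pair_le x y
      have hv₂0 : v₂ ≠ 0 := fun h => hv₂n (by rw [h]; exact Submodule.zero_mem _)
      obtain ⟨κ₁, hκ₁⟩ := hv₁
      obtain ⟨κ₂, hκ₂⟩ := hv₂
      rw [← heq] at hvP hxP
      obtain ⟨a, b, rfl⟩ := Submodule.mem_span_pair.mp hvP
      by_cases hκ : κ₁ = κ₂
      · exfalso
        obtain ⟨a', b', rfl⟩ := Submodule.mem_span_pair.mp hxP
        apply hx
        refine ⟨κ₁, ?_⟩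
        rw [map_add, map_smul, map_smul, hκ₁, hκ₂, hκ, smul_add, smul_comm a', smul_comm b']
      · by_cases ha : a = 0
        · right
          rw [ha, zero_smul, zero_add]
          exact Submodule.smul_mem _ _ (Submodule.mem_span_singleton_self _)
        · by_cases hb : b = 0
          · left
            rw [hb, zero_smul, add_zero]
            exact Submodule.smul_mem _ _ (Submodule.mem_span_singleton_self _)
          · exact absurd hv (not_isEig_add g v₁ v₂ κ₁ κ₂ hκ₁ hκ₂ hκ a b ha hb hv₁0 hv₂0)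
    · refine ⟨Submodule.span K {v₁}, Submodule.span K {v₁},
        fun h => not_isEig_of_span g x v₁ hx hv₁ (h hxP),
        fun h => not_isEig_of_span g x v₁ hx hv₁ (h hxP), ?_⟩
      intro v hvP hv
      left
      by_contra hvn
      exact h2 ⟨v, hvP, hvn, hv⟩
  · refine ⟨⊥, ⊥, fun h => hx0 ((Submodule.mem_bot K).mp (h hxP)),
      fun h => hx0 ((Submodule.mem_bot K).mp (h hxP)), ?_⟩
    intro v hvP hv
    left
    rw [Submodule.mem_bot]
    by_contra hv0
    exact h1 ⟨v, hvP, hv0, hv⟩

theorem exists_e [FiniteDimensional K V] (hK : 4 ≤ Cardinal.mk K) (g : V →ₗ[K] V)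
    (hns : ¬ ∃ c : K, g = c • (1 : V →ₗ[K] V))
    (hrk : 2 ≤ finrank K (LinearMap.range (g - 1)))
    (c₀ : V) (r₀ : Module.Dual K V) (hr₀ : r₀ ≠ 0) (S₄ : Submodule K V)
    (hS4 : S₄ = ⊥ ∨ (finrank K S₄ = 2 ∧ 3 ≤ finrank K V)) (hV : 2 ≤ finrank K V) :
    ∃ e, ¬ IsEig g e ∧ r₀ e ≠ 0 ∧ (g - 1) e ∉ Submodule.span K {c₀} ∧ e ∉ S₄ ∧
      (LinearMap.range (g - 1) ≠ ⊤ → e ∉ LinearMap.range (g - 1)) := by
  have hS4top : S₄ ≠ ⊤ := by
    intro h
    have h1 : finrank K S₄ = finrank K V := by rw [h, finrank_top]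
    rcases hS4 with h2 | ⟨h2, h3⟩
    · rw [h2, finrank_bot] at h1; omega
    · omega
  have hker : LinearMap.ker r₀ ≠ ⊤ := by
    intro h
    apply hr₀
    apply LinearMap.ext
    intro x
    have : x ∈ LinearMap.ker r₀ := by rw [h]; trivial
    simpa using this
  have hcomap : Submodule.comap (g - 1) (Submodule.span K {c₀}) ≠ ⊤ := by
    intro h
    have hle : LinearMap.range (g - 1) ≤ Submodule.span K {c₀} := by
      rintro z ⟨x, rfl⟩
      have : x ∈ Submodule.comap (g - 1) (Submodule.span K {c₀}) := by rw [h]; trivial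
      exact this
    have h1 := Submodule.finrank_mono hle
    have h2 := finrank_span_le_card (R := K) ({c₀} : Set V)
    simp at h2
    omega
  by_cases hI : LinearMap.range (g - 1) = ⊤
  · -- N injective
    have hinj : Function.Injective ⇑(g - 1) :=
      LinearMap.injective_iff_surjective.mpr (LinearMap.range_eq_top.mp hI)
    obtain ⟨x, hx, hx1, hx2⟩ := exists_nonEig hK g hns (LinearMap.ker r₀) S₄ hker hS4top
    have hx0 := ne_zero_of_not_isEig g x hx
    have hrx : r₀ x ≠ 0 := fun h => hx1 (LinearMap.mem_ker.mpr h)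
    obtain ⟨y, hy0, hy1, hy2⟩ : ∃ y : V, y ≠ 0 ∧ r₀ y = 0 ∧ (S₄ ≠ ⊥ → y ∈ S₄) := by
      have hkr : finrank K V ≤ finrank K (LinearMap.ker r₀) + 1 := by
        have h1 := LinearMap.finrank_range_add_finrank_ker r₀
        have h2 : finrank K (LinearMap.range r₀) ≤ 1 := by
          have := Submodule.finrank_le (LinearMap.range r₀)
          rwa [finrank_self] at this
        omega
      rcases hS4 with h2 | ⟨h2, h3⟩
      · have hpos : 0 < finrank K (LinearMap.ker r₀) := by omega
        obtain ⟨y, hy⟩ := Module.finrank_pos_iff_exists_ne_zero.mp hpos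
        refine ⟨y, fun h => hy (Subtype.ext h), LinearMap.mem_ker.mp y.2, fun h => absurd h2 h⟩
      · have h4 := Submodule.finrank_sup_add_finrank_inf_eq (LinearMap.ker r₀) S₄
        have h5 := Submodule.finrank_le (LinearMap.ker r₀ ⊔ S₄)
        have hpos : 0 < finrank K ↥(LinearMap.ker r₀ ⊓ S₄) := by omega
        obtain ⟨y, hy⟩ := Module.finrank_pos_iff_exists_ne_zero.mp hpos
        refine ⟨y, fun h => hy (Subtype.ext h), LinearMap.mem_ker.mp y.2.1, fun _ => y.2.2⟩
    set P := Submodule.span K ({x, y} : Set V) with hP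
    have hxP : x ∈ P := Submodule.subset_span (by simp)
    have hyP : y ∈ P := Submodule.subset_span (by simp)
    obtain ⟨L₁, L₂, hL₁, hL₂, hL⟩ := eig_lines g x y hx
    have hxy : x ∉ Submodule.span K {y} := by
      intro h
      obtain ⟨t, rfl⟩ := Submodule.mem_span_singleton.mp h
      apply hrx
      rw [map_smul, hy1, smul_zero]
    have hPc : ¬ P ≤ Submodule.comap (g - 1) (Submodule.span K {c₀}) := by
      intro h
      have h1 : (g - 1) x ∈ Submodule.span K {c₀} := h hxP
      have h2 : (g - 1) y ∈ Submodule.span K {c₀} := h hyP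
      obtain ⟨a, ha⟩ := Submodule.mem_span_singleton.mp h1
      obtain ⟨b, hb⟩ := Submodule.mem_span_singleton.mp h2
      have hb0 : b ≠ 0 := by
        intro h0
        rw [h0, zero_smul] at hb
        exact hy0 (hinj (by rw [← hb, map_zero]))
      apply hxy
      rw [Submodule.mem_span_singleton]
      refine ⟨a * b⁻¹, ?_⟩
      apply hinj
      rw [map_smul, ← hb, ← ha, smul_smul, mul_assoc, inv_mul_cancel₀ hb0, mul_one]
    obtain ⟨e, heP, he1, he2, he3, he4⟩ := avoid4 hK P (Submodule.span K {y})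
      (Submodule.comap (g - 1) (Submodule.span K {c₀})) L₁ L₂ (fun h => hxy (h hxP)) hPc hL₁ hL₂
    obtain ⟨a, b, rfl⟩ := Submodule.mem_span_pair.mp heP
    have ha : a ≠ 0 := by
      intro h
      apply he1
      rw [h, zero_smul, zero_add]
      exact Submodule.smul_mem _ _ (Submodule.mem_span_singleton_self _)
    refine ⟨a • x + b • y, ?_, ?_, he2, ?_, fun h => absurd hI h⟩
    · intro h
      rcases hL _ heP h with h | h
      · exact he3 h
      · exact he4 h
    · rw [map_add, map_smul, map_smul, hy1, smul_zero, add_zero]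
      exact mul_ne_zero ha hrx
    · intro hmem
      by_cases hS : S₄ = ⊥
      · rw [hS, Submodule.mem_bot] at hmem
        apply he1
        rw [hmem]
        exact Submodule.zero_mem _
      · apply hx2
        have h1 : a • x ∈ S₄ := by
          have := S₄.sub_mem hmem (S₄.smul_mem b (hy2 hS))
          simpa using this
        have := S₄.smul_mem a⁻¹ h1
        rwa [smul_smul, inv_mul_cancel₀ ha, one_smul] at this
  · obtain ⟨e, -, he1, he2, he3, he4⟩ := avoid4 hK ⊤ (LinearMap.ker r₀)
      (Submodule.comap (g - 1) (Submodule.span K {c₀})) (LinearMap.range (g - 1)) S₄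
      (top_not_le hker) (top_not_le hcomap) (top_not_le hI) (top_not_le hS4top)
    refine ⟨e, ?_, fun h => he1 (LinearMap.mem_ker.mpr h), he2, he4, fun _ => he3⟩
    rintro ⟨κ, hκ⟩
    by_cases h1 : κ = 1
    · apply he2
      show (g - 1) e ∈ Submodule.span K {c₀}
      rw [LinearMap.sub_apply, hκ, h1]
      simp
    · apply he3
      refine ⟨(κ - 1)⁻¹ • e, ?_⟩
      rw [map_smul, LinearMap.sub_apply, hκ, Module.End.one_apply]
      have e1 : κ • e - e = (κ - 1) • e := by module
      rw [e1, smul_smul, inv_mul_cancel₀ (sub_ne_zero.mpr h1), one_smul]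

end ESide


end Cfsg.Agent.H97.Lev
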