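import Mathlib
import Cfsg.Agent.H97.Lev2

set_option autoImplicit false
set_option linter.unusedSectionVars false
open Module

namespace Cfsg.Agent.H97.Lev

section EpsSide

variable {K : Type*} [Field K] {V : Type*} [AddCommGroup V] [Module K V]

theorem exists_eps [FiniteDimensional K V] (hK : 4 ≤ Cardinal.mk K) (g : V →ₗ[K] V)
    (hrk : 2 ≤ finrank K (LinearMap.range (g - 1)))
    (c₀ : V) (hc₀ : c₀ ≠ 0) (e : V) (he : ¬ IsEig g e)
    (hec : (g - 1) e ∉ Submodule.span K {c₀}) :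
    ∃ ε : Module.Dual K V, ε e = 1 ∧ ε (g e) = 1 ∧ ε c₀ ≠ 0 ∧ (∃ y, ε ((g - 1) y) ≠ 0) ∧
      ((∃ v ∈ Submodule.comap (g - 1) (Submodule.span K {g e}),
          v ∉ Submodule.span K {(g - 1) e}) →
        ∃ v ∈ Submodule.comap (g - 1) (Submodule.span K {g e}), ε v ≠ 0) := by
  have he0 := ne_zero_of_not_isEig g e he
  set z := (g - 1) e with hz
  have hzdef : z = g e - e := rfl
  have h1 : e ∉ Submodule.span K {z} := by
    intro hmem
    obtain ⟨t, ht⟩ := Submodule.mem_span_singleton.mp hmem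
    have ht0 : t ≠ 0 := by
      intro h
      rw [h, zero_smul] at ht
      exact he0 ht.symm
    apply he
    refine ⟨t⁻¹ * (1 + t), ?_⟩
    rw [hzdef, smul_sub] at ht
    have h2 : t • g e = (1 + t) • e := by
      rw [add_smul, one_smul]
      rw [sub_eq_iff_eq_add] at ht
      exact ht
    rw [← smul_smul, ← h2, smul_smul, inv_mul_cancel₀ ht0, one_smul]
  have h2 : c₀ ∉ Submodule.span K {z} := by
    intro hmem
    obtain ⟨t, ht⟩ := Submodule.mem_span_singleton.mp hmem
    have ht0 : t ≠ 0 := by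
      intro h
      rw [h, zero_smul] at ht
      exact hc₀ ht.symm
    apply hec
    rw [Submodule.mem_span_singleton]
    refine ⟨t⁻¹, ?_⟩
    rw [← ht, smul_smul, inv_mul_cancel₀ ht0, one_smul]
  have h3 : ∃ y₃, (g - 1) y₃ ∉ Submodule.span K {z} := by
    by_contra hcon
    push Not at hcon
    have hle : LinearMap.range (g - 1) ≤ Submodule.span K {z} := by
      rintro _ ⟨x, rfl⟩
      exact hcon x
    have h4 := Submodule.finrank_mono hle
    have h5 := finrank_span_le_card (R := K) ({z} : Set V)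
    simp at h5
    omega
  obtain ⟨y₃, hy₃⟩ := h3
  by_cases hT : ∃ v ∈ Submodule.comap (g - 1) (Submodule.span K {g e}),
      v ∉ Submodule.span K {(g - 1) e}
  · obtain ⟨v₄, hv₄T, hv₄⟩ := hT
    obtain ⟨ε', hz', a, b, c, d⟩ := dual_avoid4 hK z e c₀ ((g - 1) y₃) v₄ h1 h2 hy₃ hv₄
    refine ⟨(ε' e)⁻¹ • ε', ?_, ?_, ?_, ⟨y₃, ?_⟩, fun _ => ⟨v₄, hv₄T, ?_⟩⟩
    · rw [LinearMap.smul_apply, smul_eq_mul, inv_mul_cancel₀ a]
    · have hge : g e = e + z := by rw [hzdef]; abel
      rw [hge, map_add, LinearMap.smul_apply, LinearMap.smul_apply, hz', smul_zero, add_zero,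
        smul_eq_mul, inv_mul_cancel₀ a]
    · rw [LinearMap.smul_apply, smul_eq_mul]
      exact mul_ne_zero (inv_ne_zero a) b
    · rw [LinearMap.smul_apply, smul_eq_mul]
      exact mul_ne_zero (inv_ne_zero a) c
    · rw [LinearMap.smul_apply, smul_eq_mul]
      exact mul_ne_zero (inv_ne_zero a) d
  · obtain ⟨ε', hz', a, b, c, -⟩ := dual_avoid4 hK z e c₀ ((g - 1) y₃) e h1 h2 hy₃ h1
    refine ⟨(ε' e)⁻¹ • ε', ?_, ?_, ?_, ⟨y₃, ?_⟩, fun h => absurd h hT⟩
    · rw [LinearMap.smul_apply, smul_eq_mul, inv_mul_cancel₀ a]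
    · have hge : g e = e + z := by rw [hzdef]; abel
      rw [hge, map_add, LinearMap.smul_apply, LinearMap.smul_apply, hz', smul_zero, add_zero,
        smul_eq_mul, inv_mul_cancel₀ a]
    · rw [LinearMap.smul_apply, smul_eq_mul]
      exact mul_ne_zero (inv_ne_zero a) b
    · rw [LinearMap.smul_apply, smul_eq_mul]
      exact mul_ne_zero (inv_ne_zero a) c

open Classical in
/-- the exceptional subspace: the range of `g - l` for a chosen `l ≠ 1` with `l ^ n = 1` such
that this range is a plane (or zero if there is no such `l`) -/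
noncomputable def S4 (g : V →ₗ[K] V) (n : ℕ) : Submodule K V :=
  if h : ∃ l : K, l ≠ 1 ∧ l ^ n = 1 ∧
      finrank K (LinearMap.range (g - l • (1 : V →ₗ[K] V))) = 2
    then LinearMap.range (g - h.choose • (1 : V →ₗ[K] V)) else ⊥

theorem S4_cases (g : V →ₗ[K] V) (n : ℕ) (hn : 1 ≤ n) :
    S4 g n = ⊥ ∨ (finrank K (S4 g n) = 2 ∧ 2 ≤ n) := by
  classical
  by_cases h : ∃ l : K, l ≠ 1 ∧ l ^ n = 1 ∧
      finrank K (LinearMap.range (g - l • (1 : V →ₗ[K] V))) = 2
  · right
    rw [S4, dif_pos h]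
    refine ⟨h.choose_spec.2.2, ?_⟩
    obtain ⟨l, hl1, hln, -⟩ := h
    by_contra hlt
    have : n = 1 := by omega
    rw [this, pow_one] at hln
    exact hl1 hln
  · left
    rw [S4, dif_neg h]

theorem S4_spec (g : V →ₗ[K] V) (n : ℕ) (l : K) (hl1 : l ≠ 1) (hln : l ^ n = 1)
    (hr : finrank K (LinearMap.range (g - l • (1 : V →ₗ[K] V))) = 2) :
    ∃ l₀ : K, l₀ ≠ 1 ∧ l₀ ^ n = 1 ∧
      finrank K (LinearMap.range (g - l₀ • (1 : V →ₗ[K] V))) = 2 ∧
      S4 g n = LinearMap.range (g - l₀ • (1 : V →ₗ[K] V)) := by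
  classical
  have h : ∃ l : K, l ≠ 1 ∧ l ^ n = 1 ∧
      finrank K (LinearMap.range (g - l • (1 : V →ₗ[K] V))) = 2 := ⟨l, hl1, hln, hr⟩
  refine ⟨h.choose, h.choose_spec.1, h.choose_spec.2.1, h.choose_spec.2.2, ?_⟩
  unfold S4
  rw [dif_pos h]

theorem finrank_ker_eps [FiniteDimensional K V] (e : V) (ε : Module.Dual K V) (h0 : ε e = 1) :
    finrank K V = finrank K (LinearMap.ker ε) + 1 := by
  rw [(split e ε h0).finrank_eq, Module.finrank_prod, finrank_self, add_comm]

theorem eq_one_of_finrank_one {W : Type*} [AddCommGroup W] [Module K W] (h : W →ₗ[K] W)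
    (hW : finrank K W = 1) (hdet : LinearMap.det h = 1) : h = 1 := by
  obtain ⟨v, hv0, hv⟩ := finrank_eq_one_iff'.mp hW
  obtain ⟨c, hc⟩ := hv (h v)
  have hh : h = c • (1 : W →ₗ[K] W) := by
    apply LinearMap.ext
    intro w
    obtain ⟨d, rfl⟩ := hv w
    rw [map_smul, ← hc, LinearMap.smul_apply, Module.End.one_apply, smul_comm]
  have hc1 : c = 1 := by
    rw [hh, LinearMap.det_smul, hW, pow_one, map_one, mul_one] at hdet
    exact hdet
  rw [hh, hc1, one_smul]

theorem two_by_two {W : Type*} [AddCommGroup W] [Module K W] (h : W →ₗ[K] W)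
    (hW : finrank K W = 2) (hdet : LinearMap.det h = 1) (v : W) (hv0 : v ≠ 0) (hv : h v = v) :
    ∀ y, ∃ t : K, h y - y = t • v := by
  have : FiniteDimensional K W := Module.finite_of_finrank_eq_succ hW
  have hex : ∃ v', v' ∉ Submodule.span K {v} := by
    by_contra hcon
    push Not at hcon
    have hle : (⊤ : Submodule K W) ≤ Submodule.span K {v} := fun x _ => hcon x
    have h1 := Submodule.finrank_mono hle
    rw [finrank_top, hW, finrank_span_singleton hv0] at h1
    omega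
  obtain ⟨v', hv'⟩ := hex
  have hli : LinearIndependent K ![v, v'] := by
    rw [LinearIndependent.pair_iff' hv0]
    intro a ha
    exact hv' (Submodule.mem_span_singleton.mpr ⟨a, ha⟩)
  let b := basisOfLinearIndependentOfCardEqFinrank hli (by simp [hW])
  have hb0 : b 0 = v := by simp [b]
  have hb1 : b 1 = v' := by simp [b]
  have hdet' := LinearMap.det_toMatrix b h
  rw [Matrix.det_fin_two, hdet] at hdet'
  have h00 : LinearMap.toMatrix b b h 0 0 = 1 := by
    rw [LinearMap.toMatrix_apply, hb0, hv, ← hb0]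
    simp
  have h10 : LinearMap.toMatrix b b h 1 0 = 0 := by
    rw [LinearMap.toMatrix_apply, hb0, hv, ← hb0]
    simp
  rw [h00, h10, mul_zero, sub_zero, one_mul] at hdet'
  have hv'eq : h v' = (LinearMap.toMatrix b b h 0 1) • v + v' := by
    have h1 := b.sum_repr (h v')
    rw [Fin.sum_univ_two, hb0, hb1] at h1
    have h2 : b.repr (h v') 0 = LinearMap.toMatrix b b h 0 1 := by
      rw [LinearMap.toMatrix_apply, hb1]
    have h3 : b.repr (h v') 1 = 1 := by
      rw [← hdet', LinearMap.toMatrix_apply, hb1]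
    rw [h2, h3, one_smul] at h1
    exact h1.symm
  intro y
  have hy := b.sum_repr y
  rw [Fin.sum_univ_two, hb0, hb1] at hy
  refine ⟨b.repr y 1 * LinearMap.toMatrix b b h 0 1, ?_⟩
  conv_lhs => rw [← hy]
  rw [map_add, map_smul, map_smul, hv, hv'eq]
  module

end EpsSide

end Cfsg.Agent.H97.Lev
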