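import Mathlib
import Cfsg.Agent.H97.Lev3

set_option autoImplicit false
set_option linter.unusedSectionVars false
open Module

namespace Cfsg.Agent.H97.Lev

section SchurRank

variable {K : Type*} [Field K] {V : Type*} [AddCommGroup V] [Module K V]

theorem ge_notMem_span (g : V →ₗ[K] V) (e : V) (he : ¬ IsEig g e) :
    g e ∉ Submodule.span K {e} := by
  intro h
  obtain ⟨t, ht⟩ := Submodule.mem_span_singleton.mp h
  exact he ⟨t, ht.symm⟩

theorem rescue_aux (g : V →ₗ[K] V) (e p : V) (a t b : K)
    (hp : g p - b • g e - p = t • (g e - e)) :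
    (g - 1) (a • e + p) = (a + t) • (g e - e) + b • g e := by
  rw [LinearMap.sub_apply, Module.End.one_apply, map_add, map_smul]
  have h2 : g p = t • (g e - e) + b • g e + p := by rw [← hp]; abel
  rw [h2]; module

theorem rescue [FiniteDimensional K V] (g : V →ₗ[K] V) (e : V) (ε : Module.Dual K V)
    (h0 : ε e = 1) (h1 : ε (g e) = 1) (hV : finrank K V = 3) (hdet : LinearMap.det g = 1)
    (he : ¬ IsEig g e)
    (hfix : schur g e ε h1 ⟨g e - e, sub_mem_ker g e ε h0 h1⟩ =
      ⟨g e - e, sub_mem_ker g e ε h0 h1⟩) :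
    LinearMap.range (g - 1) ≤ Submodule.span K {e, g e} := by
  have hW : finrank K (LinearMap.ker ε) = 2 := by
    have := finrank_ker_eps e ε h0
    omega
  have hc0 : (⟨g e - e, sub_mem_ker g e ε h0 h1⟩ : LinearMap.ker ε) ≠ 0 := by
    intro h
    have h2 : g e - e = 0 := congrArg Subtype.val h
    exact he ⟨1, by rw [one_smul]; exact sub_eq_zero.mp h2⟩
  have key := two_by_two (schur g e ε h1) hW (by rw [det_schur g e ε h0 h1, hdet]) _ hc0 hfix
  rintro _ ⟨x, rfl⟩
  have heP : e ∈ Submodule.span K ({e, g e} : Set V) := Submodule.subset_span (by simp)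
  have hgP : g e ∈ Submodule.span K ({e, g e} : Set V) := Submodule.subset_span (by simp)
  obtain ⟨t, ht⟩ := key (proj e ε h0 x)
  have ht' : g (proj e ε h0 x : V) - ε (g (proj e ε h0 x : V)) • g e - (proj e ε h0 x : V)
      = t • (g e - e) := congrArg Subtype.val ht
  have e1 := rescue_aux g e (proj e ε h0 x : V) (ε x) t _ ht'
  rw [← decomp e ε h0 x] at e1
  rw [e1]
  exact Submodule.add_mem _ (Submodule.smul_mem _ _ (Submodule.sub_mem _ hgP heP))
    (Submodule.smul_mem _ _ hgP)

theorem rank_schur [FiniteDimensional K V] (g : V →ₗ[K] V) (e : V) (ε : Module.Dual K V)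
    (h0 : ε e = 1) (h1 : ε (g e) = 1) (n : ℕ) (hn : 2 ≤ n) (hV : finrank K V = n + 1)
    (hdet : LinearMap.det g = 1)
    (hrk : 2 ≤ finrank K (LinearMap.range (g - 1)))
    (he : ¬ IsEig g e)
    (heR : LinearMap.range (g - 1) ≠ ⊤ → e ∉ LinearMap.range (g - 1))
    (hT : (∃ v ∈ Submodule.comap (g - 1) (Submodule.span K {g e}),
          v ∉ Submodule.span K {(g - 1) e}) →
        ∃ v ∈ Submodule.comap (g - 1) (Submodule.span K {g e}), ε v ≠ 0) :
    2 ≤ finrank K (LinearMap.range (schur g e ε h1 - 1)) := by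
  have hW0 : finrank K (LinearMap.ker ε) = n := by
    have := finrank_ker_eps e ε h0
    omega
  set W := LinearMap.ker ε with hWdef
  have hW : finrank K W = n := hW0
  set T := Submodule.comap (g - 1) (Submodule.span K {g e}) with hTdef
  have he0 := ne_zero_of_not_isEig g e he
  -- Step 1
  have hT1 : finrank K T ≤ n - 1 := by
    by_cases hI : LinearMap.range (g - 1) = ⊤
    · have hinj : Function.Injective ⇑(g - 1) :=
        LinearMap.injective_iff_surjective.mpr (LinearMap.range_eq_top.mp hI)
      have h2 : finrank K T = finrank K (T.map (g - 1)) :=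
        (Submodule.equivMapOfInjective (g - 1) hinj T).finrank_eq
      have h3 : T.map (g - 1) ≤ Submodule.span K {g e} := by
        rintro _ ⟨v, hv, rfl⟩
        exact hv
      have h4 := Submodule.finrank_mono h3
      have h5 := finrank_span_le_card (R := K) ({g e} : Set V)
      simp at h5
      omega
    · have heR' := heR hI
      have h2 : T ≤ LinearMap.ker (g - 1) := by
        intro v hv
        obtain ⟨t, ht⟩ := Submodule.mem_span_singleton.mp hv
        rw [LinearMap.mem_ker]
        by_contra hne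
        have ht0 : t ≠ 0 := by
          intro h
          rw [h, zero_smul] at ht
          exact hne ht.symm
        apply heR'
        have hge : g e ∈ LinearMap.range (g - 1) := by
          refine ⟨t⁻¹ • v, ?_⟩
          rw [map_smul, ← ht, smul_smul, inv_mul_cancel₀ ht0, one_smul]
        have h3 : e = g e - (g - 1) e := by
          rw [LinearMap.sub_apply, Module.End.one_apply]; abel
        rw [h3]
        exact Submodule.sub_mem _ hge ⟨e, rfl⟩
      have h3 := Submodule.finrank_mono h2
      have h4 := LinearMap.finrank_range_add_finrank_ker (g - 1)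
      omega
  -- Step 2
  set Kr := LinearMap.ker (schur g e ε h1 - 1) with hKr
  have hmap : Kr.map W.subtype ≤ W ⊓ T := by
    rintro _ ⟨y, hy, rfl⟩
    refine ⟨y.2, ?_⟩
    show (g - 1) (y : V) ∈ Submodule.span K {g e}
    have hy2 : schur g e ε h1 y = y := by
      have := LinearMap.mem_ker.mp hy
      rwa [LinearMap.sub_apply, sub_eq_zero] at this
    have hy' : g (y : V) - ε (g (y : V)) • g e = (y : V) := by
      have := congrArg Subtype.val hy2
      rwa [schur_coe] at this
    rw [Submodule.mem_span_singleton]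
    refine ⟨ε (g (y : V)), ?_⟩
    rw [LinearMap.sub_apply, Module.End.one_apply, eq_comm, sub_eq_iff_eq_add, add_comm]
    exact (sub_eq_iff_eq_add.mp hy')
  -- Step 3
  have hKr_le : finrank K Kr ≤ n - 2 := by
    rw [← Submodule.finrank_map_subtype_eq W Kr]
    by_cases hA : ∃ v ∈ T, v ∉ Submodule.span K {(g - 1) e}
    · obtain ⟨v, hvT, hεv⟩ := hT hA
      have hlt : W ⊓ T < T := by
        refine lt_of_le_of_ne inf_le_right ?_
        intro heq
        have : v ∈ W ⊓ T := by rw [heq]; exact hvT
        exact hεv (LinearMap.mem_ker.mp this.1)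
      have h2 := Submodule.finrank_lt_finrank_of_lt hlt
      have h3 := Submodule.finrank_mono hmap
      omega
    · push Not at hA
      have hle : Kr.map W.subtype ≤ Submodule.span K {(g - 1) e} :=
        fun v hv => hA v (hmap hv).2
      have h2 := Submodule.finrank_mono hle
      have h3 : finrank K (Submodule.span K {(g - 1) e}) ≤ 1 := by
        have := finrank_span_le_card (R := K) ({(g - 1) e} : Set V)
        simpa using this
      by_cases hn3 : 3 ≤ n
      · omega
      · have hn2 : n = 2 := by omega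
        by_contra hcon
        have hKr0 : Kr ≠ ⊥ := by
          intro h
          apply hcon
          rw [h, Submodule.map_bot, finrank_bot]
          omega
        obtain ⟨y, hyK, hy0⟩ := (Submodule.ne_bot_iff Kr).mp hKr0
        have hyz : (y : V) ∈ Submodule.span K {(g - 1) e} := hle ⟨y, hyK, rfl⟩
        obtain ⟨t, ht⟩ := Submodule.mem_span_singleton.mp hyz
        have ht0 : t ≠ 0 := by
          intro h
          rw [h, zero_smul] at ht
          exact hy0 (Subtype.ext ht.symm)
        have hc' : (⟨g e - e, sub_mem_ker g e ε h0 h1⟩ : LinearMap.ker ε) = t⁻¹ • y := by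
          apply Subtype.ext
          show g e - e = t⁻¹ • (y : V)
          rw [← ht, smul_smul, inv_mul_cancel₀ ht0, one_smul]
          rfl
        have hfix : schur g e ε h1 ⟨g e - e, sub_mem_ker g e ε h0 h1⟩ =
            ⟨g e - e, sub_mem_ker g e ε h0 h1⟩ := by
          have hmem : (⟨g e - e, sub_mem_ker g e ε h0 h1⟩ : LinearMap.ker ε) ∈ Kr := by
            rw [hc']
            exact Kr.smul_mem _ hyK
          have := LinearMap.mem_ker.mp hmem
          rwa [LinearMap.sub_apply, sub_eq_zero] at this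
        have hres := rescue g e ε h0 h1 (by omega) hdet he hfix
        have h5 := Submodule.finrank_mono hres
        have h6 := finrank_span_pair_le (K := K) e (g e)
        by_cases hI : LinearMap.range (g - 1) = ⊤
        · rw [hI, finrank_top] at h5
          omega
        · apply heR hI
          have heq : LinearMap.range (g - 1) = Submodule.span K {e, g e} :=
            Submodule.eq_of_le_of_finrank_le hres (by omega)
          rw [heq]
          exact Submodule.subset_span (by simp)
  have h7 : finrank K (LinearMap.range (schur g e ε h1 - 1)) + finrank K Kr = finrank K W :=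
    LinearMap.finrank_range_add_finrank_ker (schur g e ε h1 - 1)
  omega

theorem nonscalar_schur [FiniteDimensional K V] (g : V →ₗ[K] V) (e : V) (ε : Module.Dual K V)
    (h0 : ε e = 1) (h1 : ε (g e) = 1) (n : ℕ) (hn : 2 ≤ n) (hV : finrank K V = n + 1)
    (hdet : LinearMap.det g = 1) (he : ¬ IsEig g e) (heS : e ∉ S4 g n)
    (hy : ∃ y : LinearMap.ker ε, ε (g (y : V)) ≠ 0)
    (hrk2 : 2 ≤ finrank K (LinearMap.range (schur g e ε h1 - 1))) :
    ¬ ∃ c : K, schur g e ε h1 = c • (1 : LinearMap.ker ε →ₗ[K] LinearMap.ker ε) := by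
  rintro ⟨l, hl⟩
  have hW : finrank K (LinearMap.ker ε) = n := by
    have := finrank_ker_eps e ε h0
    omega
  have he0 := ne_zero_of_not_isEig g e he
  have hl1 : l ≠ 1 := by
    intro h
    rw [hl, h, one_smul, sub_self, LinearMap.range_zero, finrank_bot] at hrk2
    omega
  have hln : l ^ n = 1 := by
    have := det_schur g e ε h0 h1
    rw [hl, LinearMap.det_smul, hW, map_one, mul_one, hdet] at this
    exact this
  have hl0 : l ≠ 0 := by
    intro h
    rw [h, zero_pow (by omega)] at hln
    exact zero_ne_one hln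
  have hWy : ∀ y : LinearMap.ker ε,
      (g - l • (1 : V →ₗ[K] V)) (y : V) = ε (g (y : V)) • g e := by
    intro y
    have h2 : ((schur g e ε h1 y : LinearMap.ker ε) : V) = l • (y : V) := by
      rw [hl]; rfl
    rw [schur_coe] at h2
    rw [LinearMap.sub_apply, LinearMap.smul_apply, Module.End.one_apply, ← h2]
    abel
  have heP : e ∈ Submodule.span K ({e, g e} : Set V) := Submodule.subset_span (by simp)
  have hgP : g e ∈ Submodule.span K ({e, g e} : Set V) := Submodule.subset_span (by simp)
  have hR_le : LinearMap.range (g - l • (1 : V →ₗ[K] V)) ≤ Submodule.span K {e, g e} := by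
    rintro _ ⟨x, rfl⟩
    have e1 : (g - l • (1 : V →ₗ[K] V)) (ε x • e + (proj e ε h0 x : V)) =
        ε x • (g e - l • e) + ε (g (proj e ε h0 x : V)) • g e := by
      rw [map_add, map_smul, hWy]
      rfl
    rw [← decomp e ε h0 x] at e1
    rw [e1]
    exact Submodule.add_mem _ (Submodule.smul_mem _ _
      (Submodule.sub_mem _ hgP (Submodule.smul_mem _ _ heP))) (Submodule.smul_mem _ _ hgP)
  obtain ⟨y₁, hy₁⟩ := hy
  have hge : g e ∈ LinearMap.range (g - l • (1 : V →ₗ[K] V)) := by
    refine ⟨(ε (g (y₁ : V)))⁻¹ • (y₁ : V), ?_⟩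
    rw [map_smul, hWy, smul_smul, inv_mul_cancel₀ hy₁, one_smul]
  have hee : e ∈ LinearMap.range (g - l • (1 : V →ₗ[K] V)) := by
    have h2 : (g - l • (1 : V →ₗ[K] V)) e ∈ LinearMap.range (g - l • (1 : V →ₗ[K] V)) :=
      ⟨e, rfl⟩
    have h3 : e = l⁻¹ • (g e - (g - l • (1 : V →ₗ[K] V)) e) := by
      rw [LinearMap.sub_apply, LinearMap.smul_apply, Module.End.one_apply, sub_sub_cancel,
        smul_smul, inv_mul_cancel₀ hl0, one_smul]
    rw [h3]
    exact Submodule.smul_mem _ _ (Submodule.sub_mem _ hge h2)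
  have hReq : LinearMap.range (g - l • (1 : V →ₗ[K] V)) = Submodule.span K {e, g e} := by
    apply le_antisymm hR_le
    rw [Submodule.span_le]
    rintro z (rfl | rfl)
    · exact hee
    · exact hge
  have hfin : finrank K (LinearMap.range (g - l • (1 : V →ₗ[K] V))) = 2 := by
    rw [hReq]
    exact finrank_span_pair_eq e (g e) (ge_notMem_span g e he) he0
  obtain ⟨l₀, hl₀1, hl₀n, hl₀r, hS⟩ := S4_spec g n l hl1 hln hfin
  by_cases hll : l = l₀
  · apply heS
    rw [hS, ← hll]
    exact hee
  · have hEf : finrank K (LinearMap.ker (g - l • (1 : V →ₗ[K] V))) = n - 1 := by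
      have := LinearMap.finrank_range_add_finrank_ker (g - l • (1 : V →ₗ[K] V))
      omega
    have hE₀f : finrank K (LinearMap.ker (g - l₀ • (1 : V →ₗ[K] V))) = n - 1 := by
      have := LinearMap.finrank_range_add_finrank_ker (g - l₀ • (1 : V →ₗ[K] V))
      omega
    have hmemE : ∀ (c : K) (x : V), x ∈ LinearMap.ker (g - c • (1 : V →ₗ[K] V)) → g x = c • x := by
      intro c x hx
      have := LinearMap.mem_ker.mp hx
      rwa [LinearMap.sub_apply, LinearMap.smul_apply, Module.End.one_apply, sub_eq_zero] at this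
    have hdisj : LinearMap.ker (g - l • (1 : V →ₗ[K] V)) ⊓
        LinearMap.ker (g - l₀ • (1 : V →ₗ[K] V)) = ⊥ := by
      rw [eq_bot_iff]
      rintro x ⟨hx1, hx2⟩
      have hx1' := hmemE l x hx1
      have hx2' := hmemE l₀ x hx2
      rw [Submodule.mem_bot]
      have h3 : (l - l₀) • x = 0 := by rw [sub_smul, ← hx1', ← hx2', sub_self]
      rcases smul_eq_zero.mp h3 with h | h
      · exact absurd (sub_eq_zero.mp h) hll
      · exact h
    have hsum := Submodule.finrank_sup_add_finrank_inf_eq
      (LinearMap.ker (g - l • (1 : V →ₗ[K] V))) (LinearMap.ker (g - l₀ • (1 : V →ₗ[K] V)))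
    rw [hdisj, finrank_bot, add_zero, hEf, hE₀f] at hsum
    have hle := Submodule.finrank_le (LinearMap.ker (g - l • (1 : V →ₗ[K] V)) ⊔
        LinearMap.ker (g - l₀ • (1 : V →ₗ[K] V)))
    rw [hV] at hle
    have hn23 : n = 2 ∨ n = 3 := by omega
    rcases hn23 with hn2 | hn3
    · rw [hn2] at hln hl₀n
      have hm : ∀ a : K, a ^ 2 = 1 → a ≠ 1 → a = -1 := by
        intro a ha ha1
        have h5 : (a - 1) * (a + 1) = 0 := by
          have : (a - 1) * (a + 1) = a ^ 2 - 1 := by ring
          rw [this, ha, sub_self]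
        rcases mul_eq_zero.mp h5 with h | h
        · exact absurd (sub_eq_zero.mp h) ha1
        · exact eq_neg_of_add_eq_zero_left h
      exact hll (by rw [hm l hln hl1, hm l₀ hl₀n hl₀1])
    · have htop : LinearMap.ker (g - l • (1 : V →ₗ[K] V)) ⊔
          LinearMap.ker (g - l₀ • (1 : V →ₗ[K] V)) = ⊤ := by
        apply Submodule.eq_top_of_finrank_eq
        rw [hV]
        omega
      obtain ⟨x, hx⟩ := hee
      have hxmem : x ∈ LinearMap.ker (g - l • (1 : V →ₗ[K] V)) ⊔
          LinearMap.ker (g - l₀ • (1 : V →ₗ[K] V)) := by rw [htop]; trivial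
      obtain ⟨a, ha, b, hb, rfl⟩ := Submodule.mem_sup.mp hxmem
      rw [map_add, LinearMap.mem_ker.mp ha, zero_add] at hx
      have hb' := hmemE l₀ b hb
      apply he
      refine ⟨l₀, ?_⟩
      rw [← hx, LinearMap.sub_apply, LinearMap.smul_apply, Module.End.one_apply, hb', map_sub,
        map_smul, map_smul, hb']
      module

end SchurRank

section Induction

universe u

variable {K : Type*} [Field K]

/-- the inductive hypothesis on the operator -/
def Good {V : Type*} [AddCommGroup V] [Module K V] (n : ℕ) (g : V →ₗ[K] V) : Prop :=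
  (n = 1 ∧ g = 1) ∨ (2 ≤ n ∧ LinearMap.det g = 1 ∧ (¬ ∃ c : K, g = c • (1 : V →ₗ[K] V)) ∧
    2 ≤ finrank K (LinearMap.range (g - 1)))

theorem Q_of_good (hK : 4 ≤ Cardinal.mk K) : ∀ (n : ℕ), 1 ≤ n → ∀ (V : Type u) [AddCommGroup V]
    [Module K V] [FiniteDimensional K V], finrank K V = n → ∀ (g : V →ₗ[K] V), Good n g →
    ∀ (c₀ : V) (r₀ : Module.Dual K V), c₀ ≠ 0 → r₀ ≠ 0 → Q g c₀ r₀ := by
  intro n hn
  induction n, hn using Nat.le_induction with
  | base =>
    intro V _ _ _ hV g hg c₀ r₀ hc₀ hr₀
    have hg1 : g = 1 := by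
      rcases hg with ⟨-, h⟩ | ⟨h, -⟩
      · exact h
      · omega
    have hreg : RegUnip (1 : V →ₗ[K] V) := by
      refine ⟨by rw [sub_self]; exact IsNilpotent.zero, ?_⟩
      rw [sub_self, LinearMap.ker_zero, finrank_top, hV]
    obtain ⟨x, hx⟩ : ∃ x, r₀ x ≠ 0 := by
      by_contra hcon
      push Not at hcon
      exact hr₀ (LinearMap.ext hcon)
    refine ⟨1, 1, hreg, hreg, by rw [hg1]; rfl, ?_, x, ?_, hx⟩
    · rw [sub_self, LinearMap.range_zero, Submodule.mem_bot]
      exact hc₀
    · rw [sub_self, LinearMap.ker_zero]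
      trivial
  | succ n hn ih =>
    intro V _ _ _ hV g hg c₀ r₀ hc₀ hr₀
    obtain ⟨-, hdet, hns, hrk⟩ : 2 ≤ n + 1 ∧ LinearMap.det g = 1 ∧
        (¬ ∃ c : K, g = c • (1 : V →ₗ[K] V)) ∧ 2 ≤ finrank K (LinearMap.range (g - 1)) := by
      rcases hg with ⟨h, -⟩ | h
      · omega
      · exact h
    have hS4 : S4 g n = ⊥ ∨ (finrank K (S4 g n) = 2 ∧ 3 ≤ finrank K V) := by
      rcases S4_cases g n hn with h | ⟨h, h'⟩
      · left; exact h
      · right; exact ⟨h, by omega⟩
    obtain ⟨e, he, hre, hec, heS, heR⟩ := exists_e hK g hns hrk c₀ r₀ hr₀ (S4 g n) hS4 (by omega)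
    obtain ⟨ε, h0, h1, hεc, ⟨y, hy⟩, hT⟩ := exists_eps hK g hrk c₀ hc₀ e he hec
    have hW : finrank K (LinearMap.ker ε) = n := by
      have := finrank_ker_eps e ε h0
      omega
    have hy' : ∃ y : LinearMap.ker ε, ε (g (y : V)) ≠ 0 := by
      refine ⟨proj e ε h0 y, ?_⟩
      rw [proj_coe, map_sub, map_smul, map_sub, map_smul, h1, smul_eq_mul, mul_one]
      rw [LinearMap.sub_apply, Module.End.one_apply, map_sub] at hy
      exact hy
    have hgood : Good n (schur g e ε h1) := by
      by_cases hn1 : n = 1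
      · left
        exact ⟨hn1, eq_one_of_finrank_one _ (by rw [hW, hn1])
          (by rw [det_schur g e ε h0 h1, hdet])⟩
      · right
        have hn2 : 2 ≤ n := by omega
        have hrk2 := rank_schur g e ε h0 h1 n hn2 hV hdet hrk he heR hT
        exact ⟨hn2, by rw [det_schur g e ε h0 h1, hdet],
          nonscalar_schur g e ε h0 h1 n hn2 hV hdet he heS hy' hrk2, hrk2⟩
    have hc' : (⟨g e - e, sub_mem_ker g e ε h0 h1⟩ : LinearMap.ker ε) ≠ 0 := by
      intro h
      have h2 : g e - e = 0 := congrArg Subtype.val h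
      exact he ⟨1, by rw [one_smul]; exact sub_eq_zero.mp h2⟩
    have hr' : (ε ∘ₗ g) ∘ₗ (LinearMap.ker ε).subtype ≠ 0 := by
      intro h
      obtain ⟨y₁, hy₁⟩ := hy'
      apply hy₁
      have := congrArg (fun f => f y₁) h
      exact this
    have hQ := ih (LinearMap.ker ε) hW (schur g e ε h1) hgood _ _ hc' hr'
    exact assemble g e ε h0 h1 c₀ r₀ hre hεc hQ

end Induction

end Cfsg.Agent.H97.Lev
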