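import Mathlib
import Cfsg.Agent.H65.JordanRank

set_option autoImplicit false

namespace Cfsg.Agent.H97.Nilp

open Cfsg.Agent.H65.JordanRank

section Cyc

variable {F : Type*} [Field F] {V : Type*} [AddCommGroup V] [Module F V]

theorem pow_apply_eq_zero_of_le (N : V →ₗ[F] V) (e k : ℕ) (hN : N ^ e = 0) (hk : e ≤ k) (x : V) :
    (N ^ k) x = 0 := by
  obtain ⟨d, rfl⟩ := Nat.exists_eq_add_of_le hk
  rw [pow_add, hN, zero_mul, LinearMap.zero_apply]

/-- triangular lemma -/
theorem coeff_zero (N : V →ₗ[F] V) (e : ℕ) (hN : N ^ e = 0) (v : V) (f : Module.Dual F V)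
    (hf : f ((N ^ (e - 1)) v) ≠ 0) (c : Fin e → F) (x : V)
    (hx : ∑ j : Fin e, c j • (N ^ (j : ℕ)) v = x) (hfx : ∀ i, i < e → f ((N ^ i) x) = 0) :
    c = 0 := by
  have key : ∀ m : ℕ, ∀ j : Fin e, (j : ℕ) = m → c j = 0 := by
    intro m
    induction m using Nat.strong_induction_on with
    | _ m ih =>
      intro j hj
      have h1 : (N ^ (e - 1 - m)) x = c j • (N ^ (e - 1)) v := by
        rw [← hx, map_sum]
        rw [Finset.sum_eq_single j]
        · rw [map_smul, ← Module.End.mul_apply, ← pow_add]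
          congr 3
          have := j.2
          omega
        · intro i _ hij
          rw [map_smul]
          rcases lt_or_gt_of_ne (fun h => hij (Fin.ext h) : (i : ℕ) ≠ (j : ℕ)) with h | h
          · rw [ih i (by omega) i rfl, zero_smul]
          · rw [← Module.End.mul_apply, ← pow_add,
              pow_apply_eq_zero_of_le N e _ hN (by have := j.2; omega), smul_zero]
        · intro h; exact absurd (Finset.mem_univ j) h
      have h2 := hfx (e - 1 - m) (by have := j.2; omega)
      rw [h1, map_smul, smul_eq_mul] at h2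
      exact (mul_eq_zero.mp h2).resolve_right hf
  funext j
  exact key j j rfl

theorem cyc_indep (N : V →ₗ[F] V) (e : ℕ) (hN : N ^ e = 0) (v : V) (hv : (N ^ (e - 1)) v ≠ 0) :
    LinearIndependent F (fun j : Fin e => (N ^ (j : ℕ)) v) := by
  obtain ⟨f, hf⟩ : ∃ f : Module.Dual F V, f ((N ^ (e - 1)) v) ≠ 0 := by
    by_contra h
    push Not at h
    exact hv ((Module.forall_dual_apply_eq_zero_iff F _).mp h)
  rw [Fintype.linearIndependent_iff]
  intro c hc i
  have := coeff_zero N e hN v f hf c 0 hc (fun i _ => by simp)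
  rw [this]; rfl

/-- the coordinate map dual to the cyclic subspace -/
noncomputable def cycMap (N : V →ₗ[F] V) (e : ℕ) (f : Module.Dual F V) : V →ₗ[F] (Fin e → F) :=
  LinearMap.pi (fun j : Fin e => f ∘ₗ (N ^ (j : ℕ)))

theorem cycMap_apply (N : V →ₗ[F] V) (e : ℕ) (f : Module.Dual F V) (x : V) (j : Fin e) :
    cycMap N e f x j = f ((N ^ (j : ℕ)) x) := rfl

theorem cyc_ker_inv (N : V →ₗ[F] V) (e : ℕ) (hN : N ^ e = 0) (f : Module.Dual F V) :
    ∀ x ∈ LinearMap.ker (cycMap N e f), N x ∈ LinearMap.ker (cycMap N e f) := by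
  intro x hx
  rw [LinearMap.mem_ker] at hx ⊢
  funext j
  rw [cycMap_apply, Pi.zero_apply, ← Module.End.mul_apply, ← pow_succ]
  by_cases h : (j : ℕ) + 1 < e
  · have := congrFun hx ⟨j + 1, h⟩
    rw [cycMap_apply] at this
    exact this
  · rw [pow_apply_eq_zero_of_le N e _ hN (by omega), map_zero]

/-- the cyclic subspace -/
def cyc (N : V →ₗ[F] V) (e : ℕ) (v : V) : Submodule F V :=
  Submodule.span F (Set.range (fun j : Fin e => (N ^ (j : ℕ)) v))

theorem cyc_inv (N : V →ₗ[F] V) (e : ℕ) (hN : N ^ e = 0) (v : V) :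
    ∀ x ∈ cyc N e v, N x ∈ cyc N e v := by
  intro x hx
  have : cyc N e v ≤ (cyc N e v).comap N := by
    refine Submodule.span_le.mpr ?_
    rintro _ ⟨j, rfl⟩
    show N ((N ^ (j : ℕ)) v) ∈ cyc N e v
    rw [← Module.End.mul_apply, ← pow_succ']
    by_cases h : (j : ℕ) + 1 < e
    · exact Submodule.subset_span ⟨⟨j + 1, h⟩, rfl⟩
    · rw [pow_apply_eq_zero_of_le N e _ hN (by omega)]; exact Submodule.zero_mem _
  exact this hx

theorem cyc_finrank (N : V →ₗ[F] V) (e : ℕ) (hN : N ^ e = 0) (v : V) (hv : (N ^ (e - 1)) v ≠ 0) :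
    Module.finrank F (cyc N e v) = e := by
  unfold cyc
  rw [finrank_span_eq_card (cyc_indep N e hN v hv), Fintype.card_fin]

theorem cyc_compl [FiniteDimensional F V] (N : V →ₗ[F] V) (e : ℕ) (hN : N ^ e = 0) (v : V)
    (f : Module.Dual F V) (hf : f ((N ^ (e - 1)) v) ≠ 0) :
    IsCompl (cyc N e v) (LinearMap.ker (cycMap N e f)) := by
  have hv : (N ^ (e - 1)) v ≠ 0 := fun h => hf (by rw [h, map_zero])
  have hdisj : cyc N e v ⊓ LinearMap.ker (cycMap N e f) = ⊥ := by
    rw [Submodule.eq_bot_iff]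
    rintro x ⟨hxC, hxV⟩
    obtain ⟨c, hc⟩ := (Submodule.mem_span_range_iff_exists_fun F).mp hxC
    have hc0 := coeff_zero N e hN v f hf c x hc (fun i hi => by
      have := congrFun (LinearMap.mem_ker.mp hxV) ⟨i, hi⟩
      exact this)
    rw [← hc, hc0]
    simp
  have hdimC : Module.finrank F (cyc N e v) = e := cyc_finrank N e hN v hv
  have hdimV' : Module.finrank F V ≤ Module.finrank F (LinearMap.ker (cycMap N e f)) + e := by
    have h1 := (cycMap N e f).finrank_range_add_finrank_ker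
    have h2 : Module.finrank F (LinearMap.range (cycMap N e f)) ≤ e := by
      calc _ ≤ Module.finrank F (Fin e → F) := Submodule.finrank_le _
        _ = e := by simp
    omega
  have hsup : cyc N e v ⊔ LinearMap.ker (cycMap N e f) = ⊤ := by
    apply Submodule.eq_top_of_finrank_eq
    have := Submodule.finrank_sup_add_finrank_inf_eq (cyc N e v) (LinearMap.ker (cycMap N e f))
    rw [hdisj, finrank_bot] at this
    have h3 := Submodule.finrank_le (cyc N e v ⊔ LinearMap.ker (cycMap N e f))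
    omega
  exact ⟨disjoint_iff.mpr hdisj, codisjoint_iff.mpr hsup⟩

theorem restrict_pow_coe (N : V →ₗ[F] V) (U : Submodule F V) (hU : ∀ u ∈ U, N u ∈ U) (k : ℕ)
    (z : U) : ((((N.restrict hU) ^ k) z : U) : V) = (N ^ k) (z : V) := by
  induction k generalizing z with
  | zero => simp
  | succ k ih =>
    rw [pow_succ, Module.End.mul_apply, ih, pow_succ, Module.End.mul_apply]
    rfl

theorem finrank_range_restrict_pow [FiniteDimensional F V] (N : V →ₗ[F] V) (U : Submodule F V)
    (hU : ∀ u ∈ U, N u ∈ U) (k : ℕ) :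
    Module.finrank F (LinearMap.range ((N.restrict hU) ^ k)) = rk N U k := by
  have h : (LinearMap.range ((N.restrict hU) ^ k)).map U.subtype = U.map (N ^ k) := by
    ext y
    simp only [Submodule.mem_map, LinearMap.mem_range, Submodule.subtype_apply]
    constructor
    · rintro ⟨_, ⟨z, rfl⟩, rfl⟩
      exact ⟨z, z.2, (restrict_pow_coe N U hU k z).symm⟩
    · rintro ⟨u, hu, rfl⟩
      exact ⟨_, ⟨⟨u, hu⟩, rfl⟩, restrict_pow_coe N U hU k ⟨u, hu⟩⟩
  unfold rk
  rw [← Submodule.finrank_map_subtype_eq U (LinearMap.range ((N.restrict hU) ^ k)), h]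

end Cyc

section Equiv

universe u v w

variable {F : Type u} [Field F] {V : Type v} [AddCommGroup V] [Module F V]
  {W : Type w} [AddCommGroup W] [Module F W]

theorem cyc_equiv (N : V →ₗ[F] V) (M : W →ₗ[F] W) (e : ℕ) (hN : N ^ e = 0) (hM : M ^ e = 0)
    (v : V) (w : W) (hv : (N ^ (e - 1)) v ≠ 0) (hw : (M ^ (e - 1)) w ≠ 0) :
    ∃ ψ : cyc N e v ≃ₗ[F] cyc M e w, ∀ z : cyc N e v,
      ψ (N.restrict (cyc_inv N e hN v) z) = M.restrict (cyc_inv M e hM w) (ψ z) := by
  have hiv := cyc_indep N e hN v hv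
  have hiw := cyc_indep M e hM w hw
  let bV : Module.Basis (Fin e) F (cyc N e v) := Module.Basis.span hiv
  let bW : Module.Basis (Fin e) F (cyc M e w) := Module.Basis.span hiw
  let ψ : cyc N e v ≃ₗ[F] cyc M e w := bV.equiv bW (Equiv.refl _)
  refine ⟨ψ, ?_⟩
  have hbV : ∀ j : Fin e, ((bV j : cyc N e v) : V) = (N ^ (j : ℕ)) v :=
    fun j => congrArg Subtype.val (Module.Basis.span_apply hiv j)
  have hbW : ∀ j : Fin e, ((bW j : cyc M e w) : W) = (M ^ (j : ℕ)) w :=
    fun j => congrArg Subtype.val (Module.Basis.span_apply hiw j)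
  have hψ : ∀ j, ψ (bV j) = bW j := fun j => by simp [ψ]
  have key : (ψ : cyc N e v →ₗ[F] cyc M e w) ∘ₗ (N.restrict (cyc_inv N e hN v)) =
      (M.restrict (cyc_inv M e hM w)) ∘ₗ (ψ : cyc N e v →ₗ[F] cyc M e w) := by
    apply bV.ext
    intro j
    simp only [LinearMap.comp_apply, LinearEquiv.coe_coe]
    rw [hψ j]
    by_cases h : (j : ℕ) + 1 < e
    · have h1 : N.restrict (cyc_inv N e hN v) (bV j) = bV ⟨j + 1, h⟩ := by
        apply Subtype.ext
        rw [LinearMap.coe_restrict_apply, hbV, hbV, ← Module.End.mul_apply, ← pow_succ']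
      have h2 : M.restrict (cyc_inv M e hM w) (bW j) = bW ⟨j + 1, h⟩ := by
        apply Subtype.ext
        rw [LinearMap.coe_restrict_apply, hbW, hbW, ← Module.End.mul_apply, ← pow_succ']
      rw [h1, h2, hψ]
    · have h1 : N.restrict (cyc_inv N e hN v) (bV j) = 0 := by
        apply Subtype.ext
        rw [LinearMap.coe_restrict_apply, hbV, ← Module.End.mul_apply, ← pow_succ',
          pow_apply_eq_zero_of_le N e _ hN (by omega)]
        rfl
      have h2 : M.restrict (cyc_inv M e hM w) (bW j) = 0 := by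
        apply Subtype.ext
        rw [LinearMap.coe_restrict_apply, hbW, ← Module.End.mul_apply, ← pow_succ',
          pow_apply_eq_zero_of_le M e _ hM (by omega)]
        rfl
      rw [h1, h2, map_zero]
  intro z
  exact LinearMap.congr_fun key z

theorem glue (N : V →ₗ[F] V) (M : W →ₗ[F] W) (C V' : Submodule F V) (C' W' : Submodule F W)
    (hC : ∀ x ∈ C, N x ∈ C) (hV' : ∀ x ∈ V', N x ∈ V') (hC' : ∀ x ∈ C', M x ∈ C')
    (hW' : ∀ x ∈ W', M x ∈ W') (h1 : IsCompl C V') (h2 : IsCompl C' W')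
    (ψ : C ≃ₗ[F] C') (hψ : ∀ z, ψ (N.restrict hC z) = M.restrict hC' (ψ z))
    (φ' : V' ≃ₗ[F] W') (hφ' : ∀ z, φ' (N.restrict hV' z) = M.restrict hW' (φ' z)) :
    ∃ φ : V ≃ₗ[F] W, ∀ x, φ (N x) = M (φ x) := by
  let E1 := Submodule.prodEquivOfIsCompl C V' h1
  let E2 := Submodule.prodEquivOfIsCompl C' W' h2
  refine ⟨E1.symm.trans ((ψ.prodCongr φ').trans E2), ?_⟩
  intro x
  obtain ⟨⟨c, v'⟩, rfl⟩ := E1.surjective x
  have hN : N (E1 (c, v')) = E1 (N.restrict hC c, N.restrict hV' v') := by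
    simp only [E1, Submodule.coe_prodEquivOfIsCompl', map_add, LinearMap.coe_restrict_apply]
  rw [hN]
  simp only [LinearEquiv.trans_apply, LinearEquiv.symm_apply_apply, LinearEquiv.prodCongr_apply,
    hψ, hφ']
  simp only [E2, Submodule.coe_prodEquivOfIsCompl', map_add, LinearMap.coe_restrict_apply]

theorem eq_zero_of_finrank_range [FiniteDimensional F V] (L : V →ₗ[F] V)
    (h : Module.finrank F (LinearMap.range L) = 0) : L = 0 :=
  LinearMap.range_eq_bot.mp (Submodule.finrank_eq_zero.mp h)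

theorem nilp_equiv_aux (F : Type u) [Field F] : ∀ d : ℕ, ∀ (V : Type v) (W : Type w)
    [AddCommGroup V] [Module F V] [FiniteDimensional F V] [AddCommGroup W] [Module F W]
    [FiniteDimensional F W] (N : V →ₗ[F] V) (M : W →ₗ[F] W), Module.finrank F V = d →
    (∃ e, N ^ e = 0) →
    (∀ k, Module.finrank F (LinearMap.range (N ^ k)) = Module.finrank F (LinearMap.range (M ^ k))) →
    ∃ φ : V ≃ₗ[F] W, ∀ x, φ (N x) = M (φ x) := by
  intro d
  induction d using Nat.strong_induction_on with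
  | _ d ih =>
    intro V W _ _ _ _ _ _ N M hd hN hr
    classical
    have he : N ^ (Nat.find hN) = 0 := Nat.find_spec hN
    have hmin : ∀ m, m < Nat.find hN → N ^ m ≠ 0 := fun m hm => Nat.find_min hN hm
    generalize Nat.find hN = e at he hmin
    have hMe : M ^ e = 0 :=
      eq_zero_of_finrank_range _ (by rw [← hr e, he, LinearMap.range_zero, finrank_bot])
    rcases Nat.eq_zero_or_pos e with h0 | hpos
    · subst h0
      have hV0 : Module.finrank F V = 0 := by
        have h1 : Module.finrank F (LinearMap.range (N ^ 0)) = 0 := by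
          rw [he, LinearMap.range_zero, finrank_bot]
        rw [pow_zero, Module.End.one_eq_id, LinearMap.range_id, finrank_top] at h1
        exact h1
      have hW0 : Module.finrank F W = 0 := by
        have h1 : Module.finrank F (LinearMap.range (M ^ 0)) = 0 := by
          rw [hMe, LinearMap.range_zero, finrank_bot]
        rw [pow_zero, Module.End.one_eq_id, LinearMap.range_id, finrank_top] at h1
        exact h1
      have : Subsingleton W := Module.finrank_zero_iff.mp hW0
      exact ⟨LinearEquiv.ofFinrankEq V W (by rw [hV0, hW0]), fun x => Subsingleton.elim _ _⟩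
    · have hNe1 : N ^ (e - 1) ≠ 0 := hmin (e - 1) (by omega)
      have hMe1 : M ^ (e - 1) ≠ 0 := by
        intro h
        apply hNe1
        exact eq_zero_of_finrank_range _ (by rw [hr (e - 1), h, LinearMap.range_zero, finrank_bot])
      obtain ⟨v, hv⟩ : ∃ v, (N ^ (e - 1)) v ≠ 0 := by
        by_contra h
        push Not at h
        exact hNe1 (LinearMap.ext h)
      obtain ⟨w, hw⟩ : ∃ w, (M ^ (e - 1)) w ≠ 0 := by
        by_contra h
        push Not at h
        exact hMe1 (LinearMap.ext h)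
      obtain ⟨f, hf⟩ : ∃ f : Module.Dual F V, f ((N ^ (e - 1)) v) ≠ 0 := by
        by_contra h
        push Not at h
        exact hv ((Module.forall_dual_apply_eq_zero_iff F _).mp h)
      obtain ⟨g, hg⟩ : ∃ g : Module.Dual F W, g ((M ^ (e - 1)) w) ≠ 0 := by
        by_contra h
        push Not at h
        exact hw ((Module.forall_dual_apply_eq_zero_iff F _).mp h)
      have hc1 := cyc_compl N e he v f hf
      have hc2 := cyc_compl M e hMe w g hg
      have hiC := cyc_inv N e he v
      have hiC' := cyc_inv M e hMe w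
      have hiV' := cyc_ker_inv N e he f
      have hiW' := cyc_ker_inv M e hMe g
      obtain ⟨ψ, hψ⟩ := cyc_equiv N M e he hMe v w hv hw
      have hrC : ∀ k, rk N (cyc N e v) k = rk M (cyc M e w) k := by
        intro k
        rw [← finrank_range_restrict_pow N _ hiC k, ← finrank_range_restrict_pow M _ hiC' k]
        have hconj : M.restrict hiC' = ψ.conj (N.restrict hiC) := by
          apply LinearMap.ext
          intro z
          rw [LinearEquiv.conj_apply_apply, hψ, LinearEquiv.apply_symm_apply]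
        rw [hconj, finrank_range_conj_pow]
      have hrV : ∀ k, rk N (LinearMap.ker (cycMap N e f)) k =
          rk M (LinearMap.ker (cycMap M e g)) k := by
        intro k
        have h1 := rk_sup N _ _ hiC hiV' hc1.disjoint k
        have h2 := rk_sup M _ _ hiC' hiW' hc2.disjoint k
        rw [hc1.sup_eq_top, rk_top] at h1
        rw [hc2.sup_eq_top, rk_top] at h2
        have h3 := hr k
        have h4 := hrC k
        omega
      have hdim : Module.finrank F (LinearMap.ker (cycMap N e f)) < d := by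
        have h1 := Submodule.finrank_add_eq_of_isCompl hc1
        rw [cyc_finrank N e he v hv] at h1
        omega
      obtain ⟨φ', hφ'⟩ := ih _ hdim (LinearMap.ker (cycMap N e f)) (LinearMap.ker (cycMap M e g))
        (N.restrict hiV') (M.restrict hiW') rfl
        ⟨e, by
          apply LinearMap.ext
          intro z
          apply Subtype.ext
          rw [restrict_pow_coe, he]
          rfl⟩
        (fun k => by rw [finrank_range_restrict_pow, finrank_range_restrict_pow, hrV k])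
      exact glue N M _ _ _ _ hiC hiV' hiC' hiW' hc1 hc2 ψ hψ φ' hφ'

/-- two nilpotent operators with the same rank sequences are conjugate -/
theorem nilp_equiv [FiniteDimensional F V] [FiniteDimensional F W] (N : V →ₗ[F] V)
    (M : W →ₗ[F] W) (hN : ∃ e, N ^ e = 0)
    (hr : ∀ k, Module.finrank F (LinearMap.range (N ^ k)) =
      Module.finrank F (LinearMap.range (M ^ k))) :
    ∃ φ : V ≃ₗ[F] W, ∀ x, φ (N x) = M (φ x) :=
  nilp_equiv_aux F _ V W N M rfl hN hr

end Equiv

section Mset

variable {F : Type*} [Field F] {V : Type*} [AddCommGroup V] [Module F V] [FiniteDimensional F V]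

theorem sum_map_sum_replicate (s : Finset ℕ) (m : ℕ → ℕ) (g : ℕ → ℕ) :
    ((∑ j ∈ s, Multiset.replicate (m j) (j + 1)).map g).sum = ∑ j ∈ s, m j * g (j + 1) := by
  classical
  induction s using Finset.induction_on with
  | empty => simp
  | insert a s ha ih =>
    rw [Finset.sum_insert ha, Finset.sum_insert ha, Multiset.map_add, Multiset.sum_add, ih,
      Multiset.map_replicate, Multiset.sum_replicate, smul_eq_mul]

/-- the Jordan type of a nilpotent operator, read off its rank sequence -/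
theorem exists_mset (N : V →ₗ[F] V) (E : ℕ) (hN : N ^ E = 0) :
    ∃ μ : Multiset ℕ, (∀ b ∈ μ, 0 < b) ∧ (∀ b ∈ μ, b ≤ E) ∧
      ∀ k, (μ.map (fun b => b - k)).sum = Module.finrank F (LinearMap.range (N ^ k)) := by
  classical
  have hconv : ∀ k, 2 * rk N ⊤ (k + 1) ≤ rk N ⊤ k + rk N ⊤ (k + 2) :=
    fun k => rk_convex N ⊤ (fun _ _ => Submodule.mem_top) k
  have hzero : ∀ k, E ≤ k → rk N ⊤ k = 0 := by
    intro k hk
    apply rk_eq_zero_of_pow_eq_zero
    obtain ⟨d, rfl⟩ := Nat.exists_eq_add_of_le hk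
    rw [pow_add, hN, zero_mul]
  set m : ℕ → ℕ := fun k => rk N ⊤ k + rk N ⊤ (k + 2) - 2 * rk N ⊤ (k + 1) with hm
  have hmZ : ∀ k, (m k : ℤ) = (rk N ⊤ k : ℤ) - 2 * rk N ⊤ (k + 1) + rk N ⊤ (k + 2) := by
    intro k
    have := hconv k
    simp only [hm]
    omega
  refine ⟨∑ j ∈ Finset.range E, Multiset.replicate (m j) (j + 1), ?_, ?_, ?_⟩
  · intro b hb
    rw [Multiset.mem_sum] at hb
    obtain ⟨j, _, hj⟩ := hb
    rw [Multiset.eq_of_mem_replicate hj]
    omega
  · intro b hb
    rw [Multiset.mem_sum] at hb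
    obtain ⟨j, hj1, hj⟩ := hb
    rw [Multiset.eq_of_mem_replicate hj]
    have := Finset.mem_range.mp hj1
    omega
  · intro k
    rw [← rk_top, sum_map_sum_replicate]
    rcases le_or_gt k E with hk | hk
    · obtain ⟨K, rfl⟩ := Nat.exists_eq_add_of_le hk
      rw [Finset.sum_range_add]
      have h1 : ∑ x ∈ Finset.range k, m x * (x + 1 - k) = 0 := by
        apply Finset.sum_eq_zero
        intro x hx
        have := Finset.mem_range.mp hx
        rw [show x + 1 - k = 0 by omega, mul_zero]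
      rw [h1, zero_add]
      have h2 := telescope (fun i => (rk N ⊤ (k + i) : ℤ)) K
      beta_reduce at h2
      rw [hzero (k + K) le_rfl, hzero (k + (K + 1)) (by omega)] at h2
      simp only [Nat.cast_zero, mul_zero, sub_zero, add_zero] at h2
      have h3 : ((∑ x ∈ Finset.range K, m (k + x) * (k + x + 1 - k) : ℕ) : ℤ) = (rk N ⊤ k : ℤ) := by
        rw [← h2]
        push_cast
        apply Finset.sum_congr rfl
        intro i _
        rw [hmZ (k + i), show k + i + 1 - k = i + 1 by omega]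
        push_cast
        ring_nf
      exact_mod_cast h3
    · rw [hzero k hk.le]
      apply Finset.sum_eq_zero
      intro x hx
      have := Finset.mem_range.mp hx
      rw [show x + 1 - k = 0 by omega, mul_zero]

theorem mset_eq_of_sums (μ ν : Multiset ℕ) (hμ : ∀ b ∈ μ, 0 < b) (hν : ∀ b ∈ ν, 0 < b)
    (h : ∀ k, (μ.map (fun b => b - k)).sum = (ν.map (fun b => b - k)).sum) : μ = ν := by
  ext a
  rcases a with _ | a
  · rw [Multiset.count_eq_zero_of_notMem (fun h0 => absurd (hμ 0 h0) (lt_irrefl 0)),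
      Multiset.count_eq_zero_of_notMem (fun h0 => absurd (hν 0 h0) (lt_irrefl 0))]
  · have h1 := mset_second_diff μ a
    have h2 := mset_second_diff ν a
    rw [h a, h (a + 1), h (a + 2)] at h1
    have : (μ.count (a + 1) : ℤ) = ν.count (a + 1) := by rw [← h1, ← h2]
    exact_mod_cast this

end Mset

section Mat

variable {F : Type*} [Field F] {n : ℕ}

theorem finrank_range_toLin'_pow (A : Matrix (Fin n) (Fin n) F) (k : ℕ) :
    Module.finrank F (LinearMap.range ((Matrix.toLin' A) ^ k)) = (A ^ k).rank := by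
  rw [← Matrix.toLin'_pow, Matrix.toLin'_apply']
  rfl

theorem mat_conj_of_rank (A B : Matrix (Fin n) (Fin n) F) (hA : ∃ e, A ^ e = 0)
    (h : ∀ k, (A ^ k).rank = (B ^ k).rank) :
    ∃ P Q : Matrix (Fin n) (Fin n) F, P * Q = 1 ∧ Q * P = 1 ∧ P * A = B * P := by
  obtain ⟨e, he⟩ := hA
  obtain ⟨φ, hφ⟩ := nilp_equiv (Matrix.toLin' A) (Matrix.toLin' B)
    ⟨e, by rw [← Matrix.toLin'_pow, he, map_zero]⟩
    (fun k => by rw [finrank_range_toLin'_pow, finrank_range_toLin'_pow, h k])
  refine ⟨LinearMap.toMatrix' (φ : (Fin n → F) →ₗ[F] (Fin n → F)),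
    LinearMap.toMatrix' (φ.symm : (Fin n → F) →ₗ[F] (Fin n → F)), ?_, ?_, ?_⟩
  · rw [← LinearMap.toMatrix'_comp, LinearEquiv.comp_symm, LinearMap.toMatrix'_id]
  · rw [← LinearMap.toMatrix'_comp, LinearEquiv.symm_comp, LinearMap.toMatrix'_id]
  · have h1 : (φ : (Fin n → F) →ₗ[F] (Fin n → F)) ∘ₗ Matrix.toLin' A =
        Matrix.toLin' B ∘ₗ (φ : (Fin n → F) →ₗ[F] (Fin n → F)) := LinearMap.ext hφ
    have h2 := congrArg LinearMap.toMatrix' h1
    rw [LinearMap.toMatrix'_comp, LinearMap.toMatrix'_comp, LinearMap.toMatrix'_toLin',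
      LinearMap.toMatrix'_toLin'] at h2
    exact h2

theorem gl_conj_of_rank (g h : GL (Fin n) F)
    (hg : ∃ e, ((g : Matrix (Fin n) (Fin n) F) - 1) ^ e = 0)
    (hr : ∀ k, (((g : Matrix (Fin n) (Fin n) F) - 1) ^ k).rank =
      (((h : Matrix (Fin n) (Fin n) F) - 1) ^ k).rank) :
    IsConj g h := by
  obtain ⟨P, Q, hPQ, hQP, hPA⟩ := mat_conj_of_rank _ _ hg hr
  rw [isConj_iff]
  refine ⟨⟨P, Q, hPQ, hQP⟩, ?_⟩
  rw [mul_inv_eq_iff_eq_mul]
  apply Units.ext
  rw [Units.val_mul, Units.val_mul]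
  show P * (g : Matrix _ _ F) = (h : Matrix _ _ F) * P
  rw [mul_sub, sub_mul, mul_one, one_mul] at hPA
  exact sub_left_inj.mp hPA

theorem rank_of_gl_conj (g h : GL (Fin n) F) (hc : IsConj g h) (k : ℕ) :
    (((g : Matrix (Fin n) (Fin n) F) - 1) ^ k).rank =
      (((h : Matrix (Fin n) (Fin n) F) - 1) ^ k).rank := by
  obtain ⟨c, rfl⟩ := isConj_iff.mp hc
  have h1 : ((c * g * c⁻¹ : GL (Fin n) F) : Matrix (Fin n) (Fin n) F) - 1 =
      (c : Matrix _ _ F) * ((g : Matrix _ _ F) - 1) * ((c⁻¹ : GL (Fin n) F) : Matrix _ _ F) := by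
    rw [Units.val_mul, Units.val_mul, mul_sub, sub_mul, mul_one, Units.mul_inv]
  rw [h1, Units.conj_pow, Matrix.rank_mul_eq_left_of_isUnit_det _ _ (Matrix.isUnits_det_units _),
    Matrix.rank_mul_eq_right_of_isUnit_det _ _ (Matrix.isUnits_det_units _)]

theorem sub_one_pow_char_pow (p : ℕ) [Fact p.Prime] [CharP F p] (A : Matrix (Fin n) (Fin n) F)
    (k : ℕ) : (A - 1) ^ (p ^ k) = A ^ (p ^ k) - 1 := by
  rcases subsingleton_or_nontrivial (Matrix (Fin n) (Fin n) F) with hs | hnt
  · exact Subsingleton.elim _ _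
  · have : CharP (Matrix (Fin n) (Fin n) F) p :=
      charP_of_injective_algebraMap (algebraMap F (Matrix (Fin n) (Fin n) F)).injective p
    rw [sub_pow_char_pow_of_commute p k (Commute.one_right A), one_pow]

theorem nilp_of_order (p : ℕ) [Fact p.Prime] [CharP F p] (g : GL (Fin n) F) (k : ℕ)
    (h : g ^ (p ^ k) = 1) : ((g : Matrix (Fin n) (Fin n) F) - 1) ^ (p ^ k) = 0 := by
  rw [sub_one_pow_char_pow, ← Units.val_pow_eq_pow_val, h, Units.val_one, sub_self]

theorem order_of_nilp (p : ℕ) [Fact p.Prime] [CharP F p] (g : GL (Fin n) F) (k : ℕ)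
    (h : ((g : Matrix (Fin n) (Fin n) F) - 1) ^ (p ^ k) = 0) : g ^ (p ^ k) = 1 := by
  apply Units.ext
  rw [sub_one_pow_char_pow, sub_eq_zero] at h
  rw [Units.val_pow_eq_pow_val, h, Units.val_one]

theorem ppow_iff (p : ℕ) [Fact p.Prime] [CharP F p] (g : GL (Fin n) F) :
    (∃ k : ℕ, orderOf g = p ^ k) ↔ ∃ e, ((g : Matrix (Fin n) (Fin n) F) - 1) ^ e = 0 := by
  constructor
  · rintro ⟨k, hk⟩
    exact ⟨p ^ k, nilp_of_order p g k (by rw [← hk]; exact pow_orderOf_eq_one g)⟩
  · rintro ⟨e, he⟩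
    have hp : p.Prime := Fact.out
    have h1 : ((g : Matrix (Fin n) (Fin n) F) - 1) ^ (p ^ e) = 0 := by
      obtain ⟨d, hd⟩ := Nat.exists_eq_add_of_le (Nat.lt_pow_self hp.one_lt (n := e)).le
      rw [hd, pow_add, he, zero_mul]
    have h2 := orderOf_dvd_of_pow_eq_one (order_of_nilp p g e h1)
    obtain ⟨j, _, hj⟩ := (Nat.dvd_prime_pow hp).1 h2
    exact ⟨j, hj⟩

theorem mat_eq_zero_of_rank (A : Matrix (Fin n) (Fin n) F) (h : A.rank = 0) : A = 0 := by
  have h1 : Matrix.toLin' A = 0 :=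
    eq_zero_of_finrank_range _ (by rw [Matrix.toLin'_apply']; exact h)
  have h2 := congrArg LinearMap.toMatrix' h1
  rwa [LinearMap.toMatrix'_toLin', map_zero] at h2

/-- a unipotent element with prescribed Jordan type -/
theorem exists_gl_model (μ : Multiset ℕ) (hμ : μ.sum = n) (E : ℕ) (hE : ∀ b ∈ μ, b ≤ E) :
    ∃ g : GL (Fin n) F, ((g : Matrix (Fin n) (Fin n) F) - 1) ^ E = 0 ∧
      ∀ k, (((g : Matrix (Fin n) (Fin n) F) - 1) ^ k).rank = (μ.map (fun b => b - k)).sum := by
  obtain ⟨N, hN⟩ := exists_nilpotent (F := F) μ n hμ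
  have hrank : ∀ k, ((LinearMap.toMatrix' N) ^ k).rank = (μ.map (fun b => b - k)).sum := by
    intro k
    rw [← hN k, ← finrank_range_toLin'_pow, Matrix.toLin'_toMatrix']
  have hnil : (LinearMap.toMatrix' N) ^ E = 0 := by
    apply mat_eq_zero_of_rank
    rw [hrank E]
    exact mset_sum_sub_eq_zero μ E E hE le_rfl
  obtain ⟨u, hu⟩ := (IsNilpotent.isUnit_add_one ⟨E, hnil⟩ : IsUnit (LinearMap.toMatrix' N + 1))
  refine ⟨u, ?_, fun k => ?_⟩
  · rw [hu, add_sub_cancel_right]; exact hnil
  · rw [hu, add_sub_cancel_right]; exact hrank k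

/-- the Jordan type of a unipotent element, as a partition -/
theorem exists_partition_of_nilp (g : GL (Fin n) F) (E : ℕ)
    (hg : ((g : Matrix (Fin n) (Fin n) F) - 1) ^ E = 0) :
    ∃ μ : Nat.Partition n, (∀ b ∈ μ.parts, b ≤ E) ∧
      ∀ k, (((g : Matrix (Fin n) (Fin n) F) - 1) ^ k).rank = (μ.parts.map (fun b => b - k)).sum := by
  obtain ⟨μ, h1, h2, h3⟩ := exists_mset (Matrix.toLin' ((g : Matrix (Fin n) (Fin n) F) - 1)) E
    (by rw [← Matrix.toLin'_pow, hg, map_zero])
  have hsum : μ.sum = n := by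
    have := h3 0
    rw [finrank_range_toLin'_pow, pow_zero, Matrix.rank_one, Fintype.card_fin] at this
    simpa using this
  exact ⟨⟨μ, fun {i} hi => h1 i hi, hsum⟩, h2, fun k => by rw [h3 k, finrank_range_toLin'_pow]⟩

/-- the partition with all parts equal to one -/
def ones (n : ℕ) : Nat.Partition n :=
  ⟨Multiset.replicate n 1, fun {i} hi => by rw [Multiset.eq_of_mem_replicate hi]; exact Nat.one_pos,
    by rw [Multiset.sum_replicate, smul_eq_mul, mul_one]⟩

theorem exists_two_le (μ : Nat.Partition n) (h : μ ≠ ones n) : ∃ b ∈ μ.parts, 2 ≤ b := by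
  by_contra hcon
  push Not at hcon
  apply h
  apply Nat.Partition.ext
  have h1 : ∀ b ∈ μ.parts, b = 1 := by
    intro b hb
    have := hcon b hb
    have := μ.parts_pos hb
    omega
  have h2 : μ.parts = Multiset.replicate (Multiset.card μ.parts) 1 :=
    Multiset.eq_replicate.mpr ⟨rfl, h1⟩
  have h3 := μ.parts_sum
  rw [h2, Multiset.sum_replicate, smul_eq_mul, mul_one] at h3
  rw [h2, h3]
  rfl

theorem ones_sum_sub_one : ((ones n).parts.map (fun b => b - 1)).sum = 0 := by
  show ((Multiset.replicate n 1).map (fun b => b - 1)).sum = 0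
  rw [Multiset.map_replicate, Multiset.sum_replicate, smul_eq_mul, Nat.sub_self, mul_zero]

end Mat

end Cfsg.Agent.H97.Nilp
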