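import Mathlib
import Cfsg.Agent.H97.Lev4
import Cfsg.Agent.H97.Nilp

set_option autoImplicit false
set_option linter.unusedSectionVars false
open Module

namespace Cfsg.Agent.H97.Lev

section Mat

variable {K : Type*} [Field K] {n : ℕ}

theorem shift_apply (N₀ : Matrix (Fin n) (Fin n) K)
    (hN₀ : ∀ i j : Fin n, N₀ i j = if j.val = i.val + 1 then 1 else 0) (v : Fin n → K)
    (i : Fin n) :
    Matrix.toLin' N₀ v i = if h : i.val + 1 < n then v ⟨i.val + 1, h⟩ else 0 := by
  rw [Matrix.toLin'_apply, Matrix.mulVec, dotProduct]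
  by_cases h : i.val + 1 < n
  · rw [dif_pos h, Finset.sum_eq_single ⟨i.val + 1, h⟩]
    · rw [hN₀]; simp
    · intro j _ hj
      rw [hN₀, if_neg, zero_mul]
      intro h'
      exact hj (Fin.ext h')
    · intro h'
      exact absurd (Finset.mem_univ _) h'
  · rw [dif_neg h]
    apply Finset.sum_eq_zero
    intro j _
    rw [hN₀, if_neg, zero_mul]
    intro h'
    have := j.2
    omega

theorem shift_pow_apply (N₀ : Matrix (Fin n) (Fin n) K)
    (hN₀ : ∀ i j : Fin n, N₀ i j = if j.val = i.val + 1 then 1 else 0) (k : ℕ) :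
    ∀ (v : Fin n → K) (i : Fin n),
    ((Matrix.toLin' N₀) ^ k) v i = if h : i.val + k < n then v ⟨i.val + k, h⟩ else 0 := by
  induction k with
  | zero =>
    intro v i
    simp
  | succ k ih =>
    intro v i
    rw [pow_succ, Module.End.mul_apply, ih]
    by_cases h : i.val + k < n
    · rw [dif_pos h, shift_apply N₀ hN₀]
      by_cases h' : i.val + (k + 1) < n
      · rw [dif_pos h', dif_pos (by show i.val + k + 1 < n; omega)]
        rfl
      · rw [dif_neg h', dif_neg (by show ¬ i.val + k + 1 < n; omega)]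
    · rw [dif_neg h, dif_neg (by omega)]

theorem regUnip_J (hn : 1 ≤ n) (J : Matrix (Fin n) (Fin n) K)
    (hJ : ∀ i j : Fin n, J i j = if i = j then 1 else if j.val = i.val + 1 then 1 else 0) :
    RegUnip (Matrix.toLin' J) := by
  have hN₀ : ∀ i j : Fin n, (J - 1) i j = if j.val = i.val + 1 then 1 else 0 := by
    intro i j
    rw [Matrix.sub_apply, hJ, Matrix.one_apply]
    by_cases hij : i = j
    · rw [if_pos hij, if_pos hij, sub_self, if_neg]
      rw [hij]
      omega
    · rw [if_neg hij, if_neg hij, sub_zero]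
  have hlin : Matrix.toLin' J - 1 = Matrix.toLin' (J - 1) := by
    rw [map_sub, Matrix.toLin'_one]
    rfl
  refine ⟨?_, ?_⟩
  · rw [hlin]
    refine ⟨n, ?_⟩
    apply LinearMap.ext
    intro v
    funext i
    rw [shift_pow_apply (J - 1) hN₀, dif_neg (by omega)]
    rfl
  · rw [hlin, finrank_eq_one_iff']
    have hmem : (Pi.single (⟨0, hn⟩ : Fin n) (1 : K)) ∈ LinearMap.ker (Matrix.toLin' (J - 1)) := by
      rw [LinearMap.mem_ker]
      funext i
      rw [shift_apply (J - 1) hN₀]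
      by_cases h : i.val + 1 < n
      · rw [dif_pos h, Pi.single_apply, if_neg]
        · rfl
        · intro h'
          have := congrArg Fin.val h'
          simp at this
      · rw [dif_neg h]
        rfl
    refine ⟨⟨_, hmem⟩, ?_, ?_⟩
    · intro h
      have := congrFun (congrArg Subtype.val h) ⟨0, hn⟩
      simp at this
    · rintro ⟨w, hw⟩
      refine ⟨w ⟨0, hn⟩, ?_⟩
      apply Subtype.ext
      funext j
      show w ⟨0, hn⟩ • (Pi.single (⟨0, hn⟩ : Fin n) (1 : K) : Fin n → K) j = w j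
      by_cases hj : j = ⟨0, hn⟩
      · rw [hj]
        simp
      · rw [Pi.single_apply, if_neg hj, smul_zero]
        have hj1 : 1 ≤ j.val := by
          by_contra hlt
          apply hj
          apply Fin.ext
          show j.val = 0
          omega
        have hw' := congrFun (LinearMap.mem_ker.mp hw) ⟨j.val - 1, by have := j.2; omega⟩
        rw [shift_apply (J - 1) hN₀, dif_pos (by show j.val - 1 + 1 < n; have := j.2; omega)] at hw'
        have hjj : (⟨j.val - 1 + 1, by have := j.2; omega⟩ : Fin n) = j := by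
          apply Fin.ext
          show j.val - 1 + 1 = j.val
          omega
        rw [hjj] at hw'
        exact hw'.symm

theorem toLin'_sub_one (A : Matrix (Fin n) (Fin n) K) :
    Matrix.toLin' (A - 1) = Matrix.toLin' A - 1 := by
  rw [map_sub, Matrix.toLin'_one]
  rfl

theorem rank_of_regUnip (A : Matrix (Fin n) (Fin n) K) (h : RegUnip (Matrix.toLin' A)) (k : ℕ) :
    ((A - 1) ^ k).rank = n - k := by
  rw [← Cfsg.Agent.H97.Nilp.finrank_range_toLin'_pow, toLin'_sub_one,
    finrank_range_pow_of_ker _ h.1 h.2 k, Module.finrank_fin_fun]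

theorem nilp_of_regUnip (A : Matrix (Fin n) (Fin n) K) (h : RegUnip (Matrix.toLin' A)) :
    ∃ e, (A - 1) ^ e = 0 := by
  obtain ⟨m, hm⟩ := h.1
  refine ⟨m, ?_⟩
  apply Matrix.toLin'.injective
  rw [Matrix.toLin'_pow, toLin'_sub_one, hm, map_zero]

theorem conj_J (J g' : GL (Fin n) K)
    (hJr : RegUnip (Matrix.toLin' (J : Matrix (Fin n) (Fin n) K)))
    (hg' : RegUnip (Matrix.toLin' (g' : Matrix (Fin n) (Fin n) K))) :
    ∃ x : GL (Fin n) K, g' = x * J * x⁻¹ := by
  have hc := Cfsg.Agent.H97.Nilp.gl_conj_of_rank g' J (nilp_of_regUnip _ hg')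
    (fun k => by rw [rank_of_regUnip _ hg', rank_of_regUnip _ hJr])
  obtain ⟨c, hc⟩ := isConj_iff.mp hc
  refine ⟨c⁻¹, ?_⟩
  rw [← hc]
  group

theorem sq_zero_of_rank_one {V : Type*} [AddCommGroup V] [Module K V] [FiniteDimensional K V]
    (G : V →ₗ[K] V) (hdet : LinearMap.det G = 1)
    (hr : finrank K (LinearMap.range (G - 1)) = 1) : (G - 1) ^ 2 = 0 := by
  obtain ⟨⟨a, haR⟩, ha0, ha⟩ := finrank_eq_one_iff'.mp hr
  have ha0' : a ≠ 0 := fun h => ha0 (Subtype.ext h)
  obtain ⟨f₀, hf₀⟩ : ∃ f₀ : Module.Dual K V, f₀ a ≠ 0 := by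
    by_contra hcon
    push Not at hcon
    exact ha0' ((Module.forall_dual_apply_eq_zero_iff K a).mp hcon)
  set f : Module.Dual K V := (f₀ a)⁻¹ • f₀ with hf
  have hfa : f a = 1 := by
    rw [hf, LinearMap.smul_apply, smul_eq_mul, inv_mul_cancel₀ hf₀]
  have key : ∀ x, (G - 1) x = f ((G - 1) x) • a := by
    intro x
    obtain ⟨c, hc⟩ := ha ⟨(G - 1) x, ⟨x, rfl⟩⟩
    have hc' : c • a = (G - 1) x := congrArg Subtype.val hc
    rw [← hc', map_smul, hfa, smul_eq_mul, mul_one]
  have hG : G = LinearMap.transvection (f ∘ₗ (G - 1)) a := by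
    apply LinearMap.ext
    intro x
    rw [LinearMap.transvection.apply, LinearMap.comp_apply, ← key x, LinearMap.sub_apply,
      Module.End.one_apply]
    abel
  have hφa : f ((G - 1) a) = 0 := by
    have h1 := LinearMap.transvection.det (f ∘ₗ (G - 1)) a
    rw [← hG, hdet] at h1
    have h2 : (f ∘ₗ (G - 1)) a = 0 := by
      have : (1 : K) + (f ∘ₗ (G - 1)) a = 1 + 0 := by rw [add_zero]; exact h1.symm
      exact add_left_cancel this
    exact h2
  have hNa : (G - 1) a = 0 := by rw [key a, hφa, zero_smul]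
  apply LinearMap.ext
  intro x
  rw [pow_two, Module.End.mul_apply, key x, map_smul, hNa, smul_zero]
  rfl

theorem exists_gl_of_regUnip (u : (Fin n → K) →ₗ[K] (Fin n → K)) (hu : RegUnip u) :
    ∃ U : GL (Fin n) K, Matrix.toLin' (U : Matrix (Fin n) (Fin n) K) = u := by
  have h1 : IsUnit u := by
    have := hu.1.isUnit_add_one
    rwa [sub_add_cancel] at this
  have h2 : IsUnit (LinearMap.toMatrix' u) := by
    have := h1.map (LinearMap.toMatrixAlgEquiv' (R := K) (n := Fin n))
    exact this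
  exact ⟨h2.unit, by rw [IsUnit.unit_spec, Matrix.toLin'_toMatrix']⟩

theorem lev_main (hK : 4 ≤ Cardinal.mk K) (n : ℕ) (hn : 3 ≤ n) (J g : GL (Fin n) K)
    (hJ : ∀ i j : Fin n, (J : Matrix (Fin n) (Fin n) K) i j =
      if i = j then 1 else if j.val = i.val + 1 then 1 else 0)
    (hg : ¬ ∃ c : K, (g : Matrix (Fin n) (Fin n) K) = c • (1 : Matrix (Fin n) (Fin n) K))
    (hdet : (g : Matrix (Fin n) (Fin n) K).det = 1) :
    ∃ x y : GL (Fin n) K, g = (x * J * x⁻¹) * (y * J * y⁻¹) := by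
  have hJr : RegUnip (Matrix.toLin' (J : Matrix (Fin n) (Fin n) K)) :=
    regUnip_J (by omega) _ hJ
  have hGdet : LinearMap.det (Matrix.toLin' (g : Matrix (Fin n) (Fin n) K)) = 1 := by
    rw [LinearMap.det_toLin', hdet]
  have hGns : ¬ ∃ c : K, Matrix.toLin' (g : Matrix (Fin n) (Fin n) K) =
      c • (1 : (Fin n → K) →ₗ[K] (Fin n → K)) := by
    rintro ⟨c, hc⟩
    apply hg
    refine ⟨c, ?_⟩
    apply Matrix.toLin'.injective
    rw [map_smul, Matrix.toLin'_one]
    exact hc
  by_cases hrk : 2 ≤ finrank K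
      (LinearMap.range (Matrix.toLin' (g : Matrix (Fin n) (Fin n) K) - 1))
  · have hgood : Good n (Matrix.toLin' (g : Matrix (Fin n) (Fin n) K)) :=
      Or.inr ⟨by omega, hGdet, hGns, hrk⟩
    have hc₀ : (Pi.single (⟨0, by omega⟩ : Fin n) (1 : K) : Fin n → K) ≠ 0 := by
      intro h
      have := congrFun h ⟨0, by omega⟩
      simp at this
    have hr₀ : (LinearMap.proj (⟨0, by omega⟩ : Fin n) : Module.Dual K (Fin n → K)) ≠ 0 := by
      intro h
      have := congrArg (fun f => f (Pi.single (⟨0, by omega⟩ : Fin n) (1 : K) : Fin n → K)) h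
      simp at this
    obtain ⟨u, w, hu, hw, hfac, -, -⟩ := Q_of_good hK n (by omega) (Fin n → K)
      (Module.finrank_fin_fun K) _ hgood _ _ hc₀ hr₀
    obtain ⟨U, hU⟩ := exists_gl_of_regUnip u hu
    obtain ⟨Wm, hWm⟩ := exists_gl_of_regUnip w hw
    obtain ⟨x, hx⟩ := conj_J J U hJr (by rw [hU]; exact hu)
    obtain ⟨y, hy⟩ := conj_J J Wm hJr (by rw [hWm]; exact hw)
    refine ⟨x, y, ?_⟩
    rw [← hx, ← hy]
    apply Units.ext
    apply Matrix.toLin'.injective
    rw [Units.val_mul, Matrix.toLin'_mul, hU, hWm]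
    exact hfac
  · have hrk1 : finrank K
        (LinearMap.range (Matrix.toLin' (g : Matrix (Fin n) (Fin n) K) - 1)) = 1 := by
      by_contra hne
      have h0 : finrank K
          (LinearMap.range (Matrix.toLin' (g : Matrix (Fin n) (Fin n) K) - 1)) = 0 := by omega
      have hbot := Submodule.finrank_eq_zero.mp h0
      apply hGns
      refine ⟨1, ?_⟩
      rw [one_smul]
      have h2 : Matrix.toLin' (g : Matrix (Fin n) (Fin n) K) - 1 = 0 :=
        LinearMap.range_eq_bot.mp hbot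
      exact sub_eq_zero.mp h2
    have hsq := sq_zero_of_rank_one _ hGdet hrk1
    have hA2 : ((g : Matrix (Fin n) (Fin n) K) - 1) ^ 2 = 0 := by
      apply Matrix.toLin'.injective
      rw [Matrix.toLin'_pow, toLin'_sub_one, hsq, map_zero]
    have hA1 : ((g : Matrix (Fin n) (Fin n) K) - 1).rank = 1 := by
      have := Cfsg.Agent.H97.Nilp.finrank_range_toLin'_pow ((g : Matrix (Fin n) (Fin n) K) - 1) 1
      rw [pow_one, pow_one, toLin'_sub_one, hrk1] at this
      exact this.symm
    set N₀ := (J : Matrix (Fin n) (Fin n) K) - 1 with hN₀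
    have hN₀r : ∀ k, (N₀ ^ k).rank = n - k := fun k => rank_of_regUnip _ hJr k
    have hN₀n : ∀ m, n ≤ m → N₀ ^ m = 0 := by
      intro m hm
      apply Cfsg.Agent.H97.Nilp.mat_eq_zero_of_rank
      rw [hN₀r]
      omega
    have hX2 : N₀ ^ (n - 1) * N₀ ^ (n - 1) = 0 := by
      rw [← pow_add]
      exact hN₀n _ (by omega)
    let τ₀ : GL (Fin n) K := ⟨1 + N₀ ^ (n - 1), 1 - N₀ ^ (n - 1), by
      rw [mul_sub, mul_one, add_mul, one_mul, hX2, add_zero, add_sub_cancel_right], by
      rw [mul_add, mul_one, sub_mul, one_mul, hX2, sub_zero, sub_add_cancel]⟩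
    have hτ₀ : (τ₀ : Matrix (Fin n) (Fin n) K) - 1 = N₀ ^ (n - 1) := by
      show 1 + N₀ ^ (n - 1) - 1 = _
      rw [add_sub_cancel_left]
    have hconj : IsConj g τ₀ := by
      apply Cfsg.Agent.H97.Nilp.gl_conj_of_rank g τ₀ ⟨2, hA2⟩
      intro k
      rw [hτ₀, ← pow_mul, hN₀r]
      rcases k with _ | _ | k
      · rw [pow_zero, Matrix.rank_one, Fintype.card_fin]
        simp
      · rw [zero_add, pow_one, hA1]
        omega
      · have h3 : ((g : Matrix (Fin n) (Fin n) K) - 1) ^ (k + 1 + 1) = 0 := by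
          rw [add_assoc, pow_add, hA2, mul_zero]
        rw [h3, Matrix.rank_zero]
        have h4 : (n - 1) * 2 ≤ (n - 1) * (k + 1 + 1) := Nat.mul_le_mul_left _ (by omega)
        omega
    have hYnil : IsNilpotent (N₀ ^ (n - 2)) := by
      refine ⟨n, ?_⟩
      rw [← pow_mul]
      apply hN₀n
      have : 1 * n ≤ (n - 2) * n := Nat.mul_le_mul_right _ (by omega)
      omega
    have hYu : IsUnit (N₀ ^ (n - 2) - 1) := hYnil.isUnit_sub_one
    have hYv : ((hYu.unit : GL (Fin n) K) : Matrix (Fin n) (Fin n) K) = N₀ ^ (n - 2) - 1 :=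
      IsUnit.unit_spec hYu
    have hJ'1 : ((J⁻¹ * τ₀ : GL (Fin n) K) : Matrix (Fin n) (Fin n) K) - 1 =
        ((J⁻¹ * hYu.unit : GL (Fin n) K) : Matrix (Fin n) (Fin n) K) * N₀ := by
      have hn1 : n - 2 + 1 = n - 1 := by omega
      rw [Units.val_mul, Units.val_mul, hYv, mul_assoc, sub_mul, one_mul, ← pow_succ, hn1]
      have h2 : (τ₀ : Matrix (Fin n) (Fin n) K) - (J : Matrix (Fin n) (Fin n) K) =
          N₀ ^ (n - 1) - N₀ := by
        show 1 + N₀ ^ (n - 1) - (J : Matrix (Fin n) (Fin n) K) = N₀ ^ (n - 1) - N₀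
        rw [hN₀]
        abel
      rw [← h2, mul_sub, Units.inv_mul]
    have hcomm : Commute ((J⁻¹ * hYu.unit : GL (Fin n) K) : Matrix (Fin n) (Fin n) K) N₀ := by
      rw [Units.val_mul]
      apply Commute.mul_left
      · rw [hN₀]
        apply Commute.sub_right _ (Commute.one_right _)
        show _ * _ = _ * _
        rw [Units.inv_mul, Units.mul_inv]
      · rw [hYv]
        exact Commute.sub_left (Commute.pow_left (Commute.refl _) _) (Commute.one_left _)
    have hconj' : IsConj (J⁻¹ * τ₀) J := by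
      apply Cfsg.Agent.H97.Nilp.gl_conj_of_rank (J⁻¹ * τ₀) J
      · refine ⟨n, ?_⟩
        rw [hJ'1, hcomm.mul_pow, hN₀n n le_rfl, mul_zero]
      · intro k
        rw [hJ'1, hcomm.mul_pow, ← Units.val_pow_eq_pow_val,
          Matrix.rank_mul_eq_right_of_isUnit_det _ _ (Matrix.isUnits_det_units _)]
    obtain ⟨c, hc⟩ := isConj_iff.mp hconj
    obtain ⟨d, hd⟩ := isConj_iff.mp hconj'
    refine ⟨c⁻¹, c⁻¹ * d⁻¹, ?_⟩
    have h1 : g = c⁻¹ * τ₀ * c := by
      rw [← hc]
      group
    have h2 : J⁻¹ * τ₀ = d⁻¹ * J * d := by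
      calc J⁻¹ * τ₀ = d⁻¹ * (d * (J⁻¹ * τ₀) * d⁻¹) * d := by group
        _ = d⁻¹ * J * d := by rw [hd]
    have h3 : τ₀ = J * (d⁻¹ * J * d) := by
      rw [← h2]
      group
    rw [h1, h3]
    group

end Mat

end Cfsg.Agent.H97.Lev
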