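import Mathlib

set_option autoImplicit false

namespace Cfsg.Agent.H97

open Polynomial Finset

section McConnel

variable {p : ℕ} [hp : Fact p.Prime]

theorem sum_pow_zmod (k : ℕ) :
    ∑ x : ZMod p, x ^ k = if k ≠ 0 ∧ (p - 1) ∣ k then -1 else 0 := by
  classical
  by_cases hk : k = 0
  · subst hk; simp
  · let φ : (ZMod p)ˣ ↪ ZMod p := ⟨fun x ↦ x, Units.val_injective⟩
    have hmap : univ.map φ = univ \ {(0 : ZMod p)} := by
      ext x
      simpa only [mem_map, mem_univ, Function.Embedding.coeFn_mk, true_and, mem_sdiff,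
        mem_singleton, φ] using! isUnit_iff_ne_zero
    have h1 : ∑ x : ZMod p, x ^ k = ∑ x ∈ univ \ {(0 : ZMod p)}, x ^ k := by
      rw [← sum_sdiff ({0} : Finset (ZMod p)).subset_univ, sum_singleton, zero_pow hk, add_zero]
    have h2 : ∑ x ∈ univ \ {(0 : ZMod p)}, x ^ k = ∑ x : (ZMod p)ˣ, ((x : ZMod p) ^ k) := by
      rw [← hmap, univ.sum_map φ]; rfl
    rw [h1, h2, FiniteField.sum_pow_units (ZMod p) k, ZMod.card]
    simp [hk]

theorem choose_ne_zero_zmod (d k : ℕ) (hk : k ≤ d) (hd : d < p) :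
    ((d.choose k : ℕ) : ZMod p) ≠ 0 := by
  intro h
  rw [ZMod.natCast_eq_zero_iff] at h
  have h1 : p ∣ d.factorial := by
    rw [← Nat.choose_mul_factorial_mul_factorial hk]
    exact Dvd.dvd.mul_right (Dvd.dvd.mul_right h _) _
  have := (Nat.Prime.dvd_factorial hp.out).mp h1
  omega

theorem mcconnel_aux (d : ℕ) (hd0 : 0 < d) (hd : 2 * d ≤ p - 1)
    (σ : Equiv.Perm (ZMod p)) (h : ∀ x y : ZMod p, (σ x - σ y) ^ d = (x - y) ^ d) :
    ∃ a b : ZMod p, ∀ z, σ.symm z = a * z + b := by
  classical
  have hp2 : 2 ≤ p := hp.out.two_le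
  have hdp : d < p := by omega
  let M : ℕ → ℕ → ZMod p := fun r i => ∑ x : ZMod p, x ^ r * σ x ^ i
  let Q : ℕ → (ZMod p)[X] := fun s =>
    ∑ i ∈ range (d + 1), C (M (p - 1 - d + s) i * (d.choose i : ZMod p)) * (-X) ^ (d - i)
  have hQdeg : ∀ s, (Q s).natDegree ≤ d := by
    intro s
    apply natDegree_sum_le_of_forall_le
    intro i hi
    refine (natDegree_C_mul_le _ _).trans ?_
    refine (natDegree_pow_le).trans ?_
    rw [natDegree_neg, natDegree_X, mul_one]
    omega
  have hQeval : ∀ s, 1 ≤ s → s ≤ d → ∀ y : ZMod p,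
      (Q s).eval (σ y) = -((d.choose (d - s) : ℕ) : ZMod p) * (-y) ^ s := by
    intro s hs1 hsd y
    have hL : (Q s).eval (σ y) = ∑ x : ZMod p, x ^ (p - 1 - d + s) * (σ x - σ y) ^ d := by
      simp only [Q, M, eval_finsetSum, eval_mul, eval_C, eval_pow, eval_neg, eval_X]
      have hx : ∀ x : ZMod p, (σ x - σ y) ^ d
          = ∑ i ∈ range (d + 1), σ x ^ i * (-σ y) ^ (d - i) * (d.choose i : ZMod p) := by
        intro x
        rw [sub_eq_add_neg, add_pow]
      simp_rw [hx, Finset.mul_sum, Finset.sum_mul]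
      rw [Finset.sum_comm]
      refine Finset.sum_congr rfl (fun x _ => Finset.sum_congr rfl (fun i _ => ?_))
      ring
    have hR : ∑ x : ZMod p, x ^ (p - 1 - d + s) * (x - y) ^ d
        = -((d.choose (d - s) : ℕ) : ZMod p) * (-y) ^ s := by
      have hx : ∀ x : ZMod p, x ^ (p - 1 - d + s) * (x - y) ^ d
          = ∑ i ∈ range (d + 1),
              x ^ (p - 1 - d + s + i) * ((-y) ^ (d - i) * (d.choose i : ZMod p)) := by
        intro x
        rw [sub_eq_add_neg, add_pow, Finset.mul_sum]
        refine Finset.sum_congr rfl (fun i _ => ?_)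
        rw [pow_add]; ring
      simp_rw [hx]
      rw [Finset.sum_comm]
      simp_rw [← Finset.sum_mul, sum_pow_zmod]
      rw [Finset.sum_eq_single (d - s)]
      · have h1 : p - 1 - d + s + (d - s) = p - 1 := by omega
        have h2 : d - (d - s) = s := by omega
        rw [h1, h2, if_pos ⟨by omega, dvd_rfl⟩]
        ring
      · intro i hi hne
        rw [if_neg, zero_mul]
        rintro ⟨-, hdvd⟩
        have hi' : i ≤ d := by
          have := mem_range.mp hi
          omega
        obtain ⟨c, hc⟩ := hdvd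
        have hc1 : c = 1 := by
          rcases Nat.lt_or_ge c 1 with h0 | h1
          · have hc0 : c = 0 := by omega
            subst hc0; omega
          · rcases Nat.lt_or_ge c 2 with h2 | h2
            · omega
            · exfalso
              have : (p - 1) * 2 ≤ (p - 1) * c := Nat.mul_le_mul_left _ h2
              omega
        subst hc1
        omega
      · intro hnot
        exact absurd (mem_range.mpr (by omega)) hnot
    rw [hL, ← hR]
    refine Finset.sum_congr rfl (fun x _ => ?_)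
    rw [h x y]
  have hQτ : ∀ s, 1 ≤ s → s ≤ d → ∀ z : ZMod p,
      (Q s).eval z = -((d.choose (d - s) : ℕ) : ZMod p) * (-(σ.symm z)) ^ s := by
    intro s hs1 hsd z
    have := hQeval s hs1 hsd (σ.symm z)
    rwa [Equiv.apply_symm_apply] at this
  have hd_ne : (d : ZMod p) ≠ 0 := by
    intro h0
    rw [ZMod.natCast_eq_zero_iff] at h0
    have := Nat.le_of_dvd hd0 h0
    omega
  let T : (ZMod p)[X] := C ((d : ZMod p)⁻¹) * Q 1
  have hT : ∀ z : ZMod p, T.eval z = σ.symm z := by
    intro z
    simp only [T, eval_mul, eval_C]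
    rw [hQτ 1 le_rfl hd0 z]
    have hch : d.choose (d - 1) = d := by
      rw [Nat.choose_symm hd0, Nat.choose_one_right]
    rw [hch, pow_one, neg_mul_neg, ← mul_assoc, inv_mul_cancel₀ hd_ne, one_mul]
  have hTdeg : T.natDegree ≤ d := (natDegree_C_mul_le _ _).trans (hQdeg 1)
  have hkey : ∀ s, 1 ≤ s → s ≤ d → T.natDegree * s < p → T.natDegree * s ≤ d := by
    intro s hs1 hsd hlt
    set c : ZMod p := -((d.choose (d - s) : ℕ) : ZMod p) * (-1) ^ s with hc
    have hc0 : c ≠ 0 := by
      rw [hc]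
      refine mul_ne_zero (neg_ne_zero.mpr (choose_ne_zero_zmod d (d - s) (by omega) hdp)) ?_
      exact pow_ne_zero _ (neg_ne_zero.mpr one_ne_zero)
    have hdegR : (C c * T ^ s).natDegree = T.natDegree * s := by
      rw [natDegree_C_mul hc0, natDegree_pow, mul_comm]
    have heq : Q s = C c * T ^ s := by
      rw [← sub_eq_zero]
      apply Polynomial.eq_zero_of_natDegree_lt_card_of_eval_eq_zero' _ (Finset.univ)
      · intro z _
        rw [eval_sub, eval_mul, eval_C, eval_pow, hT, hQτ s hs1 hsd z, hc, neg_pow (σ.symm z) s]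
        ring
      · rw [Finset.card_univ, ZMod.card]
        refine lt_of_le_of_lt (natDegree_sub_le _ _) ?_
        rw [hdegR]
        exact max_lt (lt_of_le_of_lt (hQdeg s) hdp) hlt
    rw [← hdegR, ← heq]
    exact hQdeg s
  have he1 : T.natDegree ≤ 1 := by
    by_contra hcon
    have he2 : 2 ≤ T.natDegree := by omega
    have h1 : d / T.natDegree ≤ d / 2 := Nat.div_le_div_left he2 (by norm_num)
    have h2 : T.natDegree * (d / T.natDegree) ≤ d := Nat.mul_div_le d T.natDegree
    have h3 : d < T.natDegree * (d / T.natDegree + 1) := Nat.lt_mul_div_succ d (by omega)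
    generalize d / T.natDegree = k at h1 h2 h3
    have h5 : T.natDegree * (k + 1) = T.natDegree * k + T.natDegree := by ring
    have h4 := hkey (k + 1) (by omega) (by omega) (by omega)
    omega
  refine ⟨T.coeff 1, T.coeff 0, fun z => ?_⟩
  rw [← hT z]
  conv_lhs => rw [Polynomial.eq_X_add_C_of_natDegree_le_one he1]
  simp

/-- McConnel's theorem over a prime field (with Carlitz's theorem as the case `d = (p - 1) / 2`):
a permutation `σ` of `ZMod p` with `(σ x - σ y) ^ d = (x - y) ^ d` for all `x, y`, where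
`2 * d ≤ p - 1`, is an affine map. -/
theorem mcconnel (d : ℕ) (hd0 : 0 < d) (hd : 2 * d ≤ p - 1)
    (σ : Equiv.Perm (ZMod p)) (h : ∀ x y : ZMod p, (σ x - σ y) ^ d = (x - y) ^ d) :
    ∃ a b : ZMod p, ∀ z, σ z = a * z + b := by
  have h' : ∀ x y : ZMod p, (σ.symm x - σ.symm y) ^ d = (x - y) ^ d := by
    intro x y
    have := h (σ.symm x) (σ.symm y)
    simp only [Equiv.apply_symm_apply] at this
    exact this.symm
  obtain ⟨a, b, hab⟩ := mcconnel_aux d hd0 hd σ.symm h'
  exact ⟨a, b, fun z => by simpa using hab z⟩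

end McConnel

end Cfsg.Agent.H97
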