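import Mathlib

set_option autoImplicit false
open scoped Pointwise

namespace Cfsg.Agent.H97.Mersenne

variable {F : Type*} [Field F]

/-- the rotation matrix -/
def rot (F : Type*) [Field F] : Matrix (Fin 2) (Fin 2) F := !![0, -1; 1, 0]

lemma rot_mul_rot : rot F * rot F = -1 := by
  ext i j; fin_cases i <;> fin_cases j <;> simp [rot, Matrix.mul_apply, Fin.sum_univ_two]

lemma commutant_rot (M : Matrix (Fin 2) (Fin 2) F) (h : M * rot F = rot F * M) :
    M = (M 0 0) • (1 : Matrix (Fin 2) (Fin 2) F) + (M 1 0) • rot F := by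
  have h00 := congrFun (congrFun h 0) 0
  have h01 := congrFun (congrFun h 0) 1
  simp [rot, Matrix.mul_apply, Fin.sum_univ_two] at h00 h01
  ext i j; fin_cases i <;> fin_cases j <;> simp [rot]
  · exact h00
  · rw [← h01]

lemma comm_eq (B : Matrix (Fin 2) (Fin 2) F) :
    rot F * B - B * rot F = !![-(B 1 0) - B 0 1, -(B 1 1) + B 0 0; B 0 0 - B 1 1, B 0 1 + B 1 0] := by
  ext i j; fin_cases i <;> fin_cases j <;>
    simp [rot, Matrix.mul_apply, Fin.sum_univ_two, Matrix.vecMul, dotProduct] <;> ring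

/-- squares to -1 implies trace zero when -1 is not a square -/
lemma sq_neg_one_entries (hns : ¬ IsSquare (-1 : F)) (B : Matrix (Fin 2) (Fin 2) F) (hB : B * B = -1) :
    B 1 1 = - B 0 0 := by
  have h00 := congrFun (congrFun hB 0) 0
  have h01 := congrFun (congrFun hB 0) 1
  have h10 := congrFun (congrFun hB 1) 0
  simp [Matrix.mul_apply, Fin.sum_univ_two] at h00 h01 h10
  by_contra hne
  have hs : B 0 0 + B 1 1 ≠ 0 := fun h => hne (by linear_combination h)
  have h01' : B 0 1 = 0 := by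
    have : B 0 1 * (B 0 0 + B 1 1) = 0 := by linear_combination h01
    rcases mul_eq_zero.mp this with h | h
    · exact h
    · exact absurd h hs
  apply hns
  refine ⟨B 0 0, ?_⟩
  rw [h01'] at h00
  linear_combination -h00

lemma comm_rot (hns : ¬ IsSquare (-1 : F)) (h2 : (2 : F) ≠ 0) (B : Matrix (Fin 2) (Fin 2) F)
    (hB : B * B = -1) :
    rot F * B = B * rot F ∨ (rot F * B - B * rot F).det ≠ 0 := by
  have h11 := sq_neg_one_entries hns B hB
  by_cases hd : (rot F * B - B * rot F).det = 0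
  · left
    rw [comm_eq, Matrix.det_fin_two] at hd
    simp [h11] at hd
    have ha : B 0 0 = 0 := by
      by_contra ha
      apply hns
      refine ⟨(B 0 1 + B 1 0) / (2 * B 0 0), ?_⟩
      field_simp
      linear_combination hd
    have hb : B 0 1 + B 1 0 = 0 := by
      have : (B 0 1 + B 1 0) ^ 2 = 0 := by rw [ha] at hd; linear_combination -hd
      exact pow_eq_zero_iff (two_ne_zero) |>.mp this
    rw [← sub_eq_zero, comm_eq]
    ext i j; fin_cases i <;> fin_cases j <;> simp [h11, ha]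
    · linear_combination -hb
    · linear_combination hb
  · right; exact hd

lemma anti_rot (B : Matrix (Fin 2) (Fin 2) F) :
    (rot F * B - B * rot F) * rot F = -(rot F * (rot F * B - B * rot F)) := by
  have h := rot_mul_rot (F := F)
  calc (rot F * B - B * rot F) * rot F = rot F * B * rot F - B * (rot F * rot F) := by
        rw [Matrix.sub_mul, Matrix.mul_assoc B]
    _ = rot F * B * rot F - (rot F * rot F) * B := by rw [h]; simp
    _ = -(rot F * (rot F * B - B * rot F)) := by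
        rw [Matrix.mul_sub, ← Matrix.mul_assoc, ← Matrix.mul_assoc]; abel

lemma anti_B (B : Matrix (Fin 2) (Fin 2) F) (hB : B * B = -1) :
    (rot F * B - B * rot F) * B = -(B * (rot F * B - B * rot F)) := by
  calc (rot F * B - B * rot F) * B = rot F * (B * B) - B * rot F * B := by
        rw [Matrix.sub_mul, Matrix.mul_assoc (rot F)]
    _ = (B * B) * rot F - B * rot F * B := by rw [hB]; simp
    _ = -(B * (rot F * B - B * rot F)) := by
        rw [Matrix.mul_sub, ← Matrix.mul_assoc B B, ← Matrix.mul_assoc]; abel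

section grp

variable {q : ℕ} [Fact q.Prime]

/-- `rot` as a unit -/
def rotU (q : ℕ) [Fact q.Prime] : GL (Fin 2) (ZMod q) :=
  Matrix.GeneralLinearGroup.mkOfDetNeZero (rot (ZMod q)) (by simp [rot, Matrix.det_fin_two])

lemma rotU_val : ((rotU q : GL (Fin 2) (ZMod q)) : Matrix (Fin 2) (Fin 2) (ZMod q)) = rot (ZMod q) := rfl

lemma inv_val_of_sq {F : Type*} [Field F] (u : GL (Fin 2) F)
    (hu : (u : Matrix (Fin 2) (Fin 2) F) * (u : Matrix (Fin 2) (Fin 2) F) = -1) :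
    ((u⁻¹ : GL (Fin 2) F) : Matrix (Fin 2) (Fin 2) F) = -(u : Matrix (Fin 2) (Fin 2) F) := by
  have h1 : ((u⁻¹ : GL (Fin 2) F) : Matrix (Fin 2) (Fin 2) F) * (u : Matrix (Fin 2) (Fin 2) F) = 1 :=
    Units.inv_mul u
  calc ((u⁻¹ : GL (Fin 2) F) : Matrix (Fin 2) (Fin 2) F)
      = ((u⁻¹ : GL (Fin 2) F) : Matrix (Fin 2) (Fin 2) F) *
          (-((u : Matrix (Fin 2) (Fin 2) F) * (u : Matrix (Fin 2) (Fin 2) F))) := by
        rw [hu]; simp
    _ = -(((u⁻¹ : GL (Fin 2) F) : Matrix (Fin 2) (Fin 2) F) * (u : Matrix (Fin 2) (Fin 2) F)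
          * (u : Matrix (Fin 2) (Fin 2) F)) := by
        rw [Matrix.mul_neg, Matrix.mul_assoc]
    _ = -(u : Matrix (Fin 2) (Fin 2) F) := by rw [h1, Matrix.one_mul]

lemma anti_conj {F : Type*} [Field F] (u x : GL (Fin 2) F)
    (hu : (u : Matrix (Fin 2) (Fin 2) F) * (u : Matrix (Fin 2) (Fin 2) F) = -1)
    (hx : (x : Matrix (Fin 2) (Fin 2) F) * (u : Matrix (Fin 2) (Fin 2) F)
      = -((u : Matrix (Fin 2) (Fin 2) F) * (x : Matrix (Fin 2) (Fin 2) F))) :
    x * u * x⁻¹ = u⁻¹ := by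
  rw [mul_inv_eq_iff_eq_mul]
  apply Units.ext
  rw [Units.val_mul, Units.val_mul, inv_val_of_sq u hu, hx, Matrix.neg_mul]

/-- the subgroup of elements commuting or anticommuting with `rot` -/
def Ntil (q : ℕ) [Fact q.Prime] : Subgroup (GL (Fin 2) (ZMod q)) where
  carrier := {g | g * rotU q * g⁻¹ = rotU q ∨ g * rotU q * g⁻¹ = (rotU q)⁻¹}
  one_mem' := by simp
  mul_mem' := by
    intro g h hg hh
    have e : (g * h) * rotU q * (g * h)⁻¹ = g * (h * rotU q * h⁻¹) * g⁻¹ := by group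
    have e' : g * (rotU q)⁻¹ * g⁻¹ = (g * rotU q * g⁻¹)⁻¹ := by group
    simp only [Set.mem_ofPred_eq] at hg hh ⊢
    rw [e]
    rcases hg with hg | hg <;> rcases hh with hh | hh
    · left; rw [hh, hg]
    · right; rw [hh, e', hg]
    · right; rw [hh, hg]
    · left; rw [hh, e', hg, inv_inv]
  inv_mem' := by
    intro g hg
    simp only [Set.mem_ofPred_eq] at hg ⊢
    rcases hg with hg | hg
    · left
      calc g⁻¹ * rotU q * g⁻¹⁻¹ = g⁻¹ * (g * rotU q * g⁻¹) * g := by rw [hg, inv_inv]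
        _ = rotU q := by group
    · right
      calc g⁻¹ * rotU q * g⁻¹⁻¹ = (g⁻¹ * (g * rotU q * g⁻¹) * g)⁻¹ := by rw [hg]; group
        _ = (rotU q)⁻¹ := by group

lemma mem_Ntil_of_comm (g : GL (Fin 2) (ZMod q))
    (h : (g : Matrix (Fin 2) (Fin 2) (ZMod q)) * rot (ZMod q) = rot (ZMod q) * g) : g ∈ Ntil q := by
  left
  rw [mul_inv_eq_iff_eq_mul]
  exact Units.ext h

lemma mem_Ntil_of_anti (g : GL (Fin 2) (ZMod q))
    (h : (g : Matrix (Fin 2) (Fin 2) (ZMod q)) * rot (ZMod q) = -(rot (ZMod q) * g)) : g ∈ Ntil q := by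
  right
  exact anti_conj (rotU q) g rot_mul_rot h

lemma comm_or_anti_of_mem (g : GL (Fin 2) (ZMod q)) (hg : g ∈ Ntil q) :
    (g : Matrix (Fin 2) (Fin 2) (ZMod q)) * rot (ZMod q) = rot (ZMod q) * g ∨
    (g : Matrix (Fin 2) (Fin 2) (ZMod q)) * rot (ZMod q) = -(rot (ZMod q) * g) := by
  rcases hg with hg | hg
  · left
    rw [mul_inv_eq_iff_eq_mul] at hg
    exact congrArg Units.val hg
  · right
    rw [mul_inv_eq_iff_eq_mul] at hg
    have := congrArg Units.val hg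
    rw [Units.val_mul, Units.val_mul, inv_val_of_sq (rotU q) rot_mul_rot, Matrix.neg_mul] at this
    exact this

lemma rot_pow (j : ℕ) : rot (ZMod q) ^ (4 * j + 3) = - rot (ZMod q) := by
  have h2 : rot (ZMod q) ^ 2 = -1 := by rw [pow_two, rot_mul_rot]
  have : 4 * j + 3 = 2 * (2 * j + 1) + 1 := by ring
  rw [this, pow_succ, pow_mul, h2, Odd.neg_one_pow ⟨j, rfl⟩]
  simp

lemma frob (j : ℕ) (hq : q = 4 * j + 3) (x y : ZMod q) :
    (x • (1 : Matrix (Fin 2) (Fin 2) (ZMod q)) + y • rot (ZMod q)) ^ (q + 1) =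
      (x ^ 2 + y ^ 2) • (1 : Matrix (Fin 2) (Fin 2) (ZMod q)) := by
  have hc : Commute (x • (1 : Matrix (Fin 2) (Fin 2) (ZMod q))) (y • rot (ZMod q)) := by
    apply Commute.smul_left
    apply Commute.smul_right
    exact Commute.one_left _
  have h1 : (x • (1 : Matrix (Fin 2) (Fin 2) (ZMod q)) + y • rot (ZMod q)) ^ q =
      x • (1 : Matrix (Fin 2) (Fin 2) (ZMod q)) - y • rot (ZMod q) := by
    rw [add_pow_char_of_commute (p := q) hc, smul_pow, smul_pow, one_pow, ZMod.pow_card, ZMod.pow_card]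
    have hr := rot_pow (q := q) j
    rw [← hq] at hr
    rw [hr]
    simp [sub_eq_add_neg]
  rw [pow_succ, h1]
  have h2 := rot_mul_rot (F := ZMod q)
  rw [Matrix.sub_mul, Matrix.mul_add, Matrix.mul_add]
  simp only [Matrix.smul_mul, Matrix.mul_smul, Matrix.one_mul, Matrix.mul_one, h2]
  ext i j
  fin_cases i <;> fin_cases j <;> simp [rot] <;> ring


lemma arith {q k : ℕ} (hk : q + 1 = 2 ^ k) (hq : 7 ≤ q) : ∃ j, q = 4 * j + 3 := by
  have hk3 : 2 ≤ k := by
    by_contra h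
    have : k ≤ 1 := by omega
    have : 2 ^ k ≤ 2 ^ 1 := Nat.pow_le_pow_right (by norm_num) this
    omega
  obtain ⟨m, rfl⟩ := Nat.exists_eq_add_of_le hk3
  refine ⟨2 ^ m - 1, ?_⟩
  have : 1 ≤ 2 ^ m := Nat.one_le_two_pow
  rw [pow_add] at hk
  omega

lemma pow_mem_center {k : ℕ} (hk : q + 1 = 2 ^ k) (hq : 7 ≤ q) (g : GL (Fin 2) (ZMod q))
    (hg : g ∈ Ntil q) : g ^ (2 ^ (k + 1)) ∈ Subgroup.center (GL (Fin 2) (ZMod q)) := by
  obtain ⟨j, hj⟩ := arith hk hq
  have hc : ((g * g : GL (Fin 2) (ZMod q)) : Matrix (Fin 2) (Fin 2) (ZMod q)) * rot (ZMod q)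
      = rot (ZMod q) * ((g * g : GL (Fin 2) (ZMod q)) : Matrix (Fin 2) (Fin 2) (ZMod q)) := by
    rw [Units.val_mul]
    rcases comm_or_anti_of_mem g hg with h | h
    · rw [Matrix.mul_assoc, h, ← Matrix.mul_assoc, h, Matrix.mul_assoc]
    · rw [Matrix.mul_assoc, h, Matrix.mul_neg, ← Matrix.mul_assoc, h, Matrix.neg_mul, neg_neg,
        Matrix.mul_assoc]
  have hM := commutant_rot _ hc
  have e : g ^ (2 ^ (k + 1)) = (g * g) ^ (q + 1) := by
    rw [pow_succ, mul_comm, pow_mul, hk, pow_two]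
  rw [e, Matrix.GeneralLinearGroup.mem_center_iff_val_mem_range_scalar]
  rw [Units.val_pow_eq_pow_val, hM, frob j hj]
  rw [Matrix.smul_one_eq_diagonal]
  exact ⟨_, rfl⟩

/-- the image of `Ntil` in `PGL` -/
def Dsub (q : ℕ) [Fact q.Prime] :
    Subgroup (GL (Fin 2) (ZMod q) ⧸ Subgroup.center (GL (Fin 2) (ZMod q))) :=
  (Ntil q).map (QuotientGroup.mk' _)

lemma isPGroup_Dsub {k : ℕ} (hk : q + 1 = 2 ^ k) (hq : 7 ≤ q) : IsPGroup 2 (Dsub q) := by
  rintro ⟨d, hd⟩
  obtain ⟨g, hg, rfl⟩ := hd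
  refine ⟨k + 1, ?_⟩
  apply Subtype.ext
  simp only [Subgroup.coe_pow, Subgroup.coe_one, QuotientGroup.mk'_apply]
  rw [← QuotientGroup.mk_pow, QuotientGroup.eq_one_iff]
  exact pow_mem_center hk hq g hg

lemma key {k : ℕ} (hk : q + 1 = 2 ^ k) (hq : 7 ≤ q)
    (w : GL (Fin 2) (ZMod q) ⧸ Subgroup.center (GL (Fin 2) (ZMod q))) :
    ∃ z, z ≠ 1 ∧ z ∈ Dsub q ∧ w⁻¹ * z * w ∈ Dsub q := by
  obtain ⟨j, hj⟩ := arith hk hq
  have hns : ¬ IsSquare (-1 : ZMod q) := by
    rw [ZMod.exists_sq_eq_neg_one_iff]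
    omega
  have h2 : (2 : ZMod q) ≠ 0 := by
    intro h
    have : ((2 : ℕ) : ZMod q) = 0 := by exact_mod_cast h
    rw [ZMod.natCast_eq_zero_iff] at this
    have := Nat.le_of_dvd (by norm_num) this
    omega
  obtain ⟨wt, rfl⟩ := QuotientGroup.mk_surjective w
  set b : GL (Fin 2) (ZMod q) := wt * rotU q * wt⁻¹ with hb
  have hBB : (b : Matrix (Fin 2) (Fin 2) (ZMod q)) * (b : Matrix (Fin 2) (Fin 2) (ZMod q)) = -1 := by
    have e : b * b = wt * (rotU q * rotU q) * wt⁻¹ := by rw [hb]; group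
    rw [← Units.val_mul, e, Units.val_mul, Units.val_mul, Units.val_mul, rotU_val, rot_mul_rot,
      Matrix.mul_neg, Matrix.mul_one, Matrix.neg_mul, ← Units.val_mul, mul_inv_cancel]
    rfl
  have hrotmem : rotU q ∈ Ntil q := by left; group
  have hconj : wt⁻¹ * b * wt = rotU q := by rw [hb]; group
  rcases comm_rot hns h2 _ hBB with hc | hdet
  · refine ⟨(b : GL (Fin 2) (ZMod q) ⧸ Subgroup.center (GL (Fin 2) (ZMod q))), ?_, ?_, ?_⟩
    · intro h1
      rw [QuotientGroup.eq_one_iff] at h1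
      have h3 : rotU q ∈ Subgroup.center (GL (Fin 2) (ZMod q)) := by
        have := (inferInstance : (Subgroup.center (GL (Fin 2) (ZMod q))).Normal).conj_mem b h1 wt⁻¹
        rw [inv_inv, hconj] at this
        exact this
      rw [Matrix.GeneralLinearGroup.mem_center_iff_val_mem_range_scalar] at h3
      obtain ⟨a, ha⟩ := h3
      have := congrFun (congrFun ha 0) 1
      simp [rotU_val, rot] at this
    · exact ⟨b, mem_Ntil_of_comm b hc.symm, rfl⟩
    · refine ⟨rotU q, hrotmem, ?_⟩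
      rw [← hconj]
      rfl
  · set xu : GL (Fin 2) (ZMod q) := Matrix.GeneralLinearGroup.mkOfDetNeZero _ hdet with hxu
    have hx1 : xu * rotU q * xu⁻¹ = (rotU q)⁻¹ := anti_conj (rotU q) xu rot_mul_rot (anti_rot _)
    have hx2 : xu * b * xu⁻¹ = b⁻¹ := anti_conj b xu hBB (anti_B _ hBB)
    refine ⟨(xu : GL (Fin 2) (ZMod q) ⧸ Subgroup.center (GL (Fin 2) (ZMod q))), ?_, ?_, ?_⟩
    · intro h1
      rw [QuotientGroup.eq_one_iff] at h1
      have h3 := Subgroup.mem_center_iff.mp h1 (rotU q)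
      have h4 : rotU q = (rotU q)⁻¹ := by
        rw [← hx1, ← h3]; group
      have h5 := congrArg Units.val h4
      rw [inv_val_of_sq (rotU q) rot_mul_rot, rotU_val] at h5
      have := congrFun (congrFun h5 1) 0
      simp [rot] at this
      apply h2
      linear_combination this
    · exact ⟨xu, Or.inr hx1, rfl⟩
    · refine ⟨wt⁻¹ * xu * wt, Or.inr ?_, rfl⟩
      calc wt⁻¹ * xu * wt * rotU q * (wt⁻¹ * xu * wt)⁻¹ = wt⁻¹ * (xu * b * xu⁻¹) * wt := by
            rw [hb]; group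
        _ = (wt⁻¹ * b * wt)⁻¹ := by rw [hx2]; group
        _ = (rotU q)⁻¹ := by rw [hconj]

theorem main {q k : ℕ} [Fact q.Prime] (hk : q + 1 = 2 ^ k) (hq : 7 ≤ q)
    (H : Sylow 2 (GL (Fin 2) (ZMod q) ⧸ Subgroup.center (GL (Fin 2) (ZMod q))))
    (x : GL (Fin 2) (ZMod q) ⧸ Subgroup.center (GL (Fin 2) (ZMod q))) :
    (H : Subgroup (GL (Fin 2) (ZMod q) ⧸ Subgroup.center (GL (Fin 2) (ZMod q)))) ⊓
      MulAut.conj x • (H : Subgroup _) ≠ ⊥ := by
  obtain ⟨H0, hDH0⟩ := (isPGroup_Dsub hk hq).exists_le_sylow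
  obtain ⟨c, hc⟩ := MulAction.exists_smul_eq
    (GL (Fin 2) (ZMod q) ⧸ Subgroup.center (GL (Fin 2) (ZMod q))) H0 H
  obtain ⟨z, hz1, hzD, hzD'⟩ := key hk hq (c⁻¹ * x * c)
  have hH : ∀ d ∈ Dsub q, c * d * c⁻¹ ∈ (H : Subgroup _) := by
    intro d hd
    rw [← hc, Sylow.coe_subgroup_smul, Subgroup.mem_pointwise_smul_iff_inv_smul_mem]
    simp only [MulAut.smul_def, MulAut.conj_inv_apply]
    have : c⁻¹ * (c * d * c⁻¹) * c = d := by group
    rw [this]
    exact hDH0 hd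
  intro hbot
  have hmem : c * z * c⁻¹ ∈ (H : Subgroup _) ⊓ MulAut.conj x • (H : Subgroup _) := by
    refine Subgroup.mem_inf.mpr ⟨hH z hzD, ?_⟩
    rw [Subgroup.mem_pointwise_smul_iff_inv_smul_mem]
    simp only [MulAut.smul_def, MulAut.conj_inv_apply]
    have := hH _ hzD'
    have e : c * ((c⁻¹ * x * c)⁻¹ * z * (c⁻¹ * x * c)) * c⁻¹ = x⁻¹ * (c * z * c⁻¹) * x := by group
    rw [e] at this
    exact this
  rw [hbot, Subgroup.mem_bot] at hmem
  apply hz1
  have : z = c⁻¹ * (c * z * c⁻¹) * c := by group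
  rw [this, hmem]; group

end grp

end Cfsg.Agent.H97.Mersenne
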