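import Mathlib
import Cfsg.Agent.H45.SLGen

/-!
# Two conjugate regular unipotents generating `SL_3(F)`: matrix toolkit (helper97)

Explicit `3 × 3` matrices, the membership predicate `inH`, and the root subgroup criterion
`root_crit`.
-/

set_option autoImplicit false

namespace Cfsg.Agent.H97.RG3

open Matrix

variable {F : Type*} [Field F]

omit [Field F] in
theorem ext3 {a0 a1 a2 b0 b1 b2 c0 c1 c2 a0' a1' a2' b0' b1' b2' c0' c1' c2' : F}
    (h1 : a0 = a0') (h2 : a1 = a1') (h3 : a2 = a2') (h4 : b0 = b0') (h5 : b1 = b1')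
    (h6 : b2 = b2') (h7 : c0 = c0') (h8 : c1 = c1') (h9 : c2 = c2') :
    (!![a0, a1, a2; b0, b1, b2; c0, c1, c2] : Matrix (Fin 3) (Fin 3) F) =
      !![a0', a1', a2'; b0', b1', b2'; c0', c1', c2'] := by
  subst h1 h2 h3 h4 h5 h6 h7 h8 h9; rfl

/-- `M` has determinant one and lies in `H`. -/
def inH (H : Subgroup (SpecialLinearGroup (Fin 3) F)) (M : Matrix (Fin 3) (Fin 3) F) : Prop :=
  ∃ h : M.det = 1, (⟨M, h⟩ : SpecialLinearGroup (Fin 3) F) ∈ H

variable {H : Subgroup (SpecialLinearGroup (Fin 3) F)}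

theorem inH_coe {g : SpecialLinearGroup (Fin 3) F} (hg : g ∈ H) : inH H g.1 := ⟨g.2, hg⟩

theorem mem_of_inH {g : SpecialLinearGroup (Fin 3) F} (hg : inH H g.1) : g ∈ H := by
  obtain ⟨_, hm⟩ := hg
  exact hm

theorem inH_mul {A B : Matrix (Fin 3) (Fin 3) F} (hA : inH H A) (hB : inH H B) :
    inH H (A * B) := by
  obtain ⟨ha, hA⟩ := hA
  obtain ⟨hb, hB⟩ := hB
  exact ⟨by rw [det_mul, ha, hb, one_mul], H.mul_mem hA hB⟩

theorem inH_one : inH H (1 : Matrix (Fin 3) (Fin 3) F) := ⟨det_one, H.one_mem⟩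

theorem inH_inv {A B : Matrix (Fin 3) (Fin 3) F} (hA : inH H A) (hAB : A * B = 1) :
    inH H B := by
  obtain ⟨ha, hA⟩ := hA
  have hb : B.det = 1 := by
    have := congrArg det hAB
    rwa [det_mul, ha, one_mul, det_one] at this
  refine ⟨hb, ?_⟩
  obtain ⟨gA, hgA⟩ : ∃ g : SpecialLinearGroup (Fin 3) F, g = ⟨A, ha⟩ := ⟨_, rfl⟩
  obtain ⟨gB, hgB⟩ : ∃ g : SpecialLinearGroup (Fin 3) F, g = ⟨B, hb⟩ := ⟨_, rfl⟩
  have h1 : gA * gB = 1 := by
    apply Subtype.ext
    rw [hgA, hgB]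
    exact hAB
  have h2 : gB = gA⁻¹ := eq_inv_of_mul_eq_one_right h1
  rw [← hgB, h2, hgA]
  exact H.inv_mem hA

theorem inH_pow {A : Matrix (Fin 3) (Fin 3) F} (hA : inH H A) (n : ℕ) : inH H (A ^ n) := by
  induction n with
  | zero => rw [pow_zero]; exact inH_one
  | succ n ih => rw [pow_succ]; exact inH_mul ih hA

/-! ### The matrices -/

/-- Companion matrix of `(x - 1)^3`. -/
def Cm : Matrix (Fin 3) (Fin 3) F := !![0, 0, 1; 1, 0, -3; 0, 1, 3]

/-- Its inverse. -/
def Ci : Matrix (Fin 3) (Fin 3) F := !![3, 1, 0; -3, 0, 1; 1, 0, 0]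

/-- Row-1 root elements `x_{10}(x) x_{12}(z)`. -/
def Rel (x z : F) : Matrix (Fin 3) (Fin 3) F := !![1, 0, 0; x, 1, z; 0, 0, 1]

/-- Row-2 root elements. -/
def R2 (x y : F) : Matrix (Fin 3) (Fin 3) F := !![1, 0, 0; 0, 1, 0; x, y, 1]

/-- Row-0 root elements. -/
def R0 (y z : F) : Matrix (Fin 3) (Fin 3) F := !![1, y, z; 0, 1, 0; 0, 0, 1]

theorem Cm_det : (Cm : Matrix (Fin 3) (Fin 3) F).det = 1 := by
  rw [Cm, det_fin_three]; simp

theorem Cm_mul_Ci : (Cm : Matrix (Fin 3) (Fin 3) F) * Ci = 1 := by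
  rw [Cm, Ci, mul_fin_three, one_fin_three]; apply ext3 <;> ring

theorem Ci_mul_Cm : (Ci : Matrix (Fin 3) (Fin 3) F) * Cm = 1 := by
  rw [Cm, Ci, mul_fin_three, one_fin_three]; apply ext3 <;> ring

theorem Rel_mul (x z x' z' : F) : Rel x z * Rel x' z' = Rel (x + x') (z + z') := by
  simp only [Rel, mul_fin_three]; apply ext3 <;> ring

theorem R2_mul (x z x' z' : F) : R2 x z * R2 x' z' = R2 (x + x') (z + z') := by
  simp only [R2, mul_fin_three]; apply ext3 <;> ring

theorem R0_mul (x z x' z' : F) : R0 x z * R0 x' z' = R0 (x + x') (z + z') := by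
  simp only [R0, mul_fin_three]; apply ext3 <;> ring

theorem Rel_zero : Rel (0 : F) 0 = 1 := by
  rw [Rel, one_fin_three]

theorem R2_zero : R2 (0 : F) 0 = 1 := by
  rw [R2, one_fin_three]

theorem R0_zero : R0 (0 : F) 0 = 1 := by
  rw [R0, one_fin_three]

theorem Rel_mul_neg (x z : F) : Rel x z * Rel (-x) (-z) = 1 := by
  rw [Rel_mul, add_neg_cancel, add_neg_cancel, Rel_zero]

theorem R2_mul_neg (x z : F) : R2 x z * R2 (-x) (-z) = 1 := by
  rw [R2_mul, add_neg_cancel, add_neg_cancel, R2_zero]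

theorem R0_mul_neg (x z : F) : R0 x z * R0 (-x) (-z) = 1 := by
  rw [R0_mul, add_neg_cancel, add_neg_cancel, R0_zero]

theorem Rel_pow (x z : F) (n : ℕ) : Rel x z ^ n = Rel (n * x) (n * z) := by
  induction n with
  | zero => rw [pow_zero, Nat.cast_zero, zero_mul, zero_mul, Rel_zero]
  | succ n ih => rw [pow_succ, ih, Rel_mul, Nat.cast_succ, add_mul, add_mul, one_mul, one_mul]

theorem conj_Cm_Rel (x z : F) : Cm * Rel x z * Ci = R2 (3 * x + z) x := by
  simp only [Cm, Ci, Rel, R2, mul_fin_three]; apply ext3 <;> ring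

theorem conj_Ci_Rel (x z : F) : Ci * Rel x z * Cm = R0 z (x + 3 * z) := by
  simp only [Cm, Ci, Rel, R0, mul_fin_three]; apply ext3 <;> ring

/-- `[x_{12}(a), x_{20}(b)] = x_{10}(ab)`. -/
theorem comm_12_20 (a b : F) :
    Rel 0 a * R2 b 0 * Rel 0 (-a) * R2 (-b) 0 = Rel (a * b) 0 := by
  simp only [Rel, R2, mul_fin_three]; apply ext3 <;> ring

/-- `[x_{10}(a), x_{02}(b)] = x_{12}(ab)`. -/
theorem comm_10_02 (a b : F) :
    Rel a 0 * R0 0 b * Rel (-a) 0 * R0 0 (-b) = Rel 0 (a * b) := by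
  simp only [Rel, R0, mul_fin_three]; apply ext3 <;> ring

theorem transv_10 (c : F) : Matrix.transvection (1 : Fin 3) 0 c = Rel c 0 := by
  ext i j; fin_cases i <;> fin_cases j <;> simp [Matrix.transvection, Rel, Matrix.single]

theorem transv_12 (c : F) : Matrix.transvection (1 : Fin 3) 2 c = Rel 0 c := by
  ext i j; fin_cases i <;> fin_cases j <;> simp [Matrix.transvection, Rel, Matrix.single]

theorem transv_20 (c : F) : Matrix.transvection (2 : Fin 3) 0 c = R2 c 0 := by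
  ext i j; fin_cases i <;> fin_cases j <;> simp [Matrix.transvection, R2, Matrix.single]

theorem transv_21 (c : F) : Matrix.transvection (2 : Fin 3) 1 c = R2 0 c := by
  ext i j; fin_cases i <;> fin_cases j <;> simp [Matrix.transvection, R2, Matrix.single]

theorem transv_01 (c : F) : Matrix.transvection (0 : Fin 3) 1 c = R0 c 0 := by
  ext i j; fin_cases i <;> fin_cases j <;> simp [Matrix.transvection, R0, Matrix.single]

theorem transv_02 (c : F) : Matrix.transvection (0 : Fin 3) 2 c = R0 0 c := by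
  ext i j; fin_cases i <;> fin_cases j <;> simp [Matrix.transvection, R0, Matrix.single]

/-- Root subgroup criterion: `C`, all `x_{10}(y)` and all `x_{12}(z)` generate `SL_3(F)`. -/
theorem root_crit (H : Subgroup (SpecialLinearGroup (Fin 3) F)) (hC : inH H (Cm : Matrix (Fin 3) (Fin 3) F))
    (h10 : ∀ y : F, inH H (Rel y 0)) (h12 : ∀ z : F, inH H (Rel 0 z)) : H = ⊤ := by
  have hCi : inH H (Ci : Matrix (Fin 3) (Fin 3) F) := inH_inv hC Cm_mul_Ci
  have h20 : ∀ z : F, inH H (R2 z 0) := by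
    intro z
    have := inH_mul (inH_mul hC (h12 z)) hCi
    rwa [conj_Cm_Rel, mul_zero, zero_add] at this
  have h21 : ∀ z : F, inH H (R2 0 z) := by
    intro z
    have := inH_mul (inH_mul (inH_mul hC (h10 z)) hCi) (h20 (-(3 * z)))
    rwa [conj_Cm_Rel, R2_mul, add_zero, add_zero, add_neg_cancel] at this
  have h02 : ∀ z : F, inH H (R0 0 z) := by
    intro z
    have := inH_mul (inH_mul hCi (h10 z)) hC
    rwa [conj_Ci_Rel, mul_zero, add_zero] at this
  have h01 : ∀ z : F, inH H (R0 z 0) := by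
    intro z
    have := inH_mul (inH_mul (inH_mul hCi (h12 z)) hC) (h02 (-(3 * z)))
    rwa [conj_Ci_Rel, R0_mul, add_zero, zero_add, add_neg_cancel] at this
  have key : ∀ (i j : Fin 3) (c : F), i ≠ j → inH H (Matrix.transvection i j c) := by
    intro i j c hij
    fin_cases i <;> fin_cases j
    · exact absurd rfl hij
    · exact (transv_01 c) ▸ h01 c
    · exact (transv_02 c) ▸ h02 c
    · exact (transv_10 c) ▸ h10 c
    · exact absurd rfl hij
    · exact (transv_12 c) ▸ h12 c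
    · exact (transv_20 c) ▸ h20 c
    · exact (transv_21 c) ▸ h21 c
    · exact absurd rfl hij
  rw [eq_top_iff, ← Cfsg.Agent.H45.elemSubgroup_eq_top]
  unfold Cfsg.Agent.H45.elemSubgroup
  rw [Subgroup.closure_le]
  rintro g ⟨i, j, hij, c, rfl⟩
  exact mem_of_inH (key i j c hij)

/-! ### Consequences used in all cases -/

theorem inH_Rel_congr {x z x' z' : F} (h : inH H (Rel x z)) (hx : x = x') (hz : z = z') :
    inH H (Rel x' z') := by
  subst hx hz; exact h

theorem inH_Rel_neg {x z : F} (h : inH H (Rel x z)) : inH H (Rel (-x) (-z)) :=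
  inH_inv h (Rel_mul_neg x z)

theorem inH_R2_neg {x z : F} (h : inH H (R2 x z)) : inH H (R2 (-x) (-z)) :=
  inH_inv h (R2_mul_neg x z)

theorem inH_R0_neg {x z : F} (h : inH H (R0 x z)) : inH H (R0 (-x) (-z)) :=
  inH_inv h (R0_mul_neg x z)

theorem conj_Ci_R2 (z : F) : Ci * R2 z 0 * Cm = Rel 0 z := by
  simp only [Cm, Ci, Rel, R2, mul_fin_three]; apply ext3 <;> ring

/-- `x_{12}(b) ∈ H` gives `x_{20}(b) ∈ H`. -/
theorem inH_R2_of_Rel (hC : inH H (Cm : Matrix (Fin 3) (Fin 3) F)) {b : F}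
    (hb : inH H (Rel 0 b)) : inH H (R2 b 0) := by
  have hCi : inH H (Ci : Matrix (Fin 3) (Fin 3) F) := inH_inv hC Cm_mul_Ci
  have := inH_mul (inH_mul hC hb) hCi
  rwa [conj_Cm_Rel, mul_zero, zero_add] at this

/-- `x_{20}(b) ∈ H` gives `x_{12}(b) ∈ H`. -/
theorem inH_Rel_of_R2 (hC : inH H (Cm : Matrix (Fin 3) (Fin 3) F)) {b : F}
    (hb : inH H (R2 b 0)) : inH H (Rel 0 b) := by
  have hCi : inH H (Ci : Matrix (Fin 3) (Fin 3) F) := inH_inv hC Cm_mul_Ci
  have := inH_mul (inH_mul hCi hb) hC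
  rwa [conj_Ci_R2] at this

/-- `x_{12}(a), x_{12}(b) ∈ H` give `x_{10}(ab) ∈ H`. -/
theorem inH_Rel10_mul (hC : inH H (Cm : Matrix (Fin 3) (Fin 3) F)) {a b : F}
    (ha : inH H (Rel 0 a)) (hb : inH H (Rel 0 b)) : inH H (Rel (a * b) 0) := by
  have h20 := inH_R2_of_Rel hC hb
  have ha' : inH H (Rel 0 (-a)) := inH_Rel_congr (inH_Rel_neg ha) neg_zero rfl
  have h20' : inH H (R2 (-b) 0) := by
    have := inH_R2_neg h20
    rwa [neg_zero] at this
  have := inH_mul (inH_mul (inH_mul ha h20) ha') h20'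
  rwa [comm_12_20] at this

/-- `x_{10}(a), x_{10}(b) ∈ H` give `x_{12}(ab) ∈ H`. -/
theorem inH_Rel12_mul (hC : inH H (Cm : Matrix (Fin 3) (Fin 3) F)) {a b : F}
    (ha : inH H (Rel a 0)) (hb : inH H (Rel b 0)) : inH H (Rel 0 (a * b)) := by
  have hCi : inH H (Ci : Matrix (Fin 3) (Fin 3) F) := inH_inv hC Cm_mul_Ci
  have h02 : inH H (R0 0 b) := by
    have := inH_mul (inH_mul hCi hb) hC
    rwa [conj_Ci_Rel, mul_zero, add_zero] at this
  have ha' : inH H (Rel (-a) 0) := inH_Rel_congr (inH_Rel_neg ha) rfl neg_zero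
  have h02' : inH H (R0 0 (-b)) := by
    have := inH_R0_neg h02
    rwa [neg_zero] at this
  have := inH_mul (inH_mul (inH_mul ha h02) ha') h02'
  rwa [comm_10_02] at this

/-- The set of `a` with `x_{12}(a) ∈ H` is closed under fourfold products. -/
theorem inH_prod4 (hC : inH H (Cm : Matrix (Fin 3) (Fin 3) F)) {a b c d : F}
    (ha : inH H (Rel 0 a)) (hb : inH H (Rel 0 b)) (hc : inH H (Rel 0 c)) (hd : inH H (Rel 0 d)) :
    inH H (Rel 0 (a * b * (c * d))) :=
  inH_Rel12_mul hC (inH_Rel10_mul hC ha hb) (inH_Rel10_mul hC hc hd)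

/-- Scalars preserving an additive subgroup of an `F`-module. -/
def stab {V : Type*} [AddCommGroup V] [Module F V] (W : AddSubgroup V) : Subring F where
  carrier := {y | ∀ p ∈ W, y • p ∈ W}
  mul_mem' := fun {a b} ha hb p hp => by rw [mul_smul]; exact ha _ (hb p hp)
  one_mem' := fun p hp => by rwa [one_smul]
  add_mem' := fun {a b} ha hb p hp => by rw [add_smul]; exact W.add_mem (ha p hp) (hb p hp)
  zero_mem' := fun p hp => by rw [zero_smul]; exact W.zero_mem
  neg_mem' := fun {a} ha p hp => by rw [neg_smul]; exact W.neg_mem (ha p hp)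

theorem mem_stab {V : Type*} [AddCommGroup V] [Module F V] (W : AddSubgroup V) (y : F) :
    y ∈ stab W ↔ ∀ p ∈ W, y • p ∈ W := Iff.rfl

/-- Pairs `(x, z)` with `x_{10}(x) x_{12}(z) ∈ H`. -/
def WH (H : Subgroup (SpecialLinearGroup (Fin 3) F)) : AddSubgroup (F × F) where
  carrier := {p | inH H (Rel p.1 p.2)}
  add_mem' := fun {a b} ha hb => by
    have := inH_mul ha hb
    rwa [Rel_mul] at this
  zero_mem' := by
    show inH H (Rel 0 0)
    rw [Rel_zero]; exact inH_one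
  neg_mem' := fun {a} ha => inH_Rel_neg ha

theorem mem_WH (H : Subgroup (SpecialLinearGroup (Fin 3) F)) (p : F × F) :
    p ∈ WH H ↔ inH H (Rel p.1 p.2) := Iff.rfl

/-- Elements `a` with `x_{12}(a) ∈ H`. -/
def QH (H : Subgroup (SpecialLinearGroup (Fin 3) F)) : AddSubgroup F where
  carrier := {a | inH H (Rel 0 a)}
  add_mem' := fun {a b} ha hb => by
    have := inH_mul ha hb
    rwa [Rel_mul, add_zero] at this
  zero_mem' := by
    show inH H (Rel 0 0)
    rw [Rel_zero]; exact inH_one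
  neg_mem' := fun {a} ha => inH_Rel_congr (inH_Rel_neg ha) neg_zero rfl

theorem mem_QH (H : Subgroup (SpecialLinearGroup (Fin 3) F)) (a : F) :
    a ∈ QH H ↔ inH H (Rel 0 a) := Iff.rfl

/-- For an involution `g`, the conjugate `g u g⁻¹` is the matrix product `g u g`. -/
theorem inH_conj_invol (u g : SpecialLinearGroup (Fin 3) F) (hg : g.1 * g.1 = 1)
    (hv : g * u * g⁻¹ ∈ H) : inH H (g.1 * u.1 * g.1) := by
  have h1 : g⁻¹ = g := inv_eq_of_mul_eq_one_right (Subtype.ext hg)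
  rw [h1] at hv
  exact inH_coe hv

end Cfsg.Agent.H97.RG3
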