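import Mathlib

/-!
# A subring of a finite field containing the cube of a generator (helper97)

`subring_top_of_cube`: if `F` is a finite field with `|F| ≠ 4`, `ζ` generates `Fˣ` and a subring
`S` contains `ζ ^ 3`, then `S` is everything.
-/

set_option autoImplicit false

namespace Cfsg.Agent.H97.RG3

variable {F : Type*} [Field F] [Fintype F]

theorem subring_top_of_cube (S : Subring F) (ζ : F)
    (hζ : ∀ x : F, x ≠ 0 → ∃ k : ℕ, x = ζ ^ k) (h4 : Fintype.card F ≠ 4) (hS : ζ ^ 3 ∈ S) :
    ∀ y : F, y ∈ S := by
  classical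
  have hcube : ∀ x : F, x ^ 3 ∈ S := by
    intro x
    by_cases hx : x = 0
    · subst hx
      rw [zero_pow (by norm_num)]
      exact S.zero_mem
    · obtain ⟨k, rfl⟩ := hζ x hx
      rw [← pow_mul, mul_comm, pow_mul]
      exact S.pow_mem hS k
  have hq : 2 ≤ Fintype.card F := Fintype.one_lt_card
  have hinv : ∀ x ∈ S, x⁻¹ ∈ S := by
    intro x hx
    by_cases hx0 : x = 0
    · subst hx0
      rw [inv_zero]
      exact S.zero_mem
    · have h1 : x ^ (Fintype.card F - 1) = 1 := FiniteField.pow_card_sub_one_eq_one x hx0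
      have h2 : x⁻¹ = x ^ (Fintype.card F - 2) := by
        apply inv_eq_of_mul_eq_one_right
        rw [← pow_succ']
        have : Fintype.card F - 2 + 1 = Fintype.card F - 1 := by omega
        rw [this, h1]
      rw [h2]
      exact S.pow_mem hx _
  let K : Subfield F := { S with inv_mem' := hinv }
  have hKS : ∀ x : F, x ∈ K ↔ x ∈ S := fun x => Iff.rfl
  have hk2 : 2 ≤ Fintype.card K := Fintype.one_lt_card
  -- every nonzero element is a root of `X ^ (3 (k - 1)) - 1`
  have hroot : ∀ x : F, x ≠ 0 → x ^ (3 * (Fintype.card K - 1)) = 1 := by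
    intro x hx
    have hx3 : (⟨x ^ 3, (hKS _).mpr (hcube x)⟩ : K) ≠ 0 := by
      intro h
      have := congrArg Subtype.val h
      exact hx (pow_eq_zero_iff (by norm_num) |>.mp this)
    have := FiniteField.pow_card_sub_one_eq_one _ hx3
    have h2 := congrArg Subtype.val this
    rw [pow_mul]
    simpa using h2
  have hcount : Fintype.card F - 1 ≤ 3 * (Fintype.card K - 1) := by
    have hpos : 0 < 3 * (Fintype.card K - 1) := by omega
    have hsub : (Finset.univ.erase (0 : F)) ⊆ (Polynomial.nthRoots (3 * (Fintype.card K - 1)) (1 : F)).toFinset := by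
      intro x hx
      rw [Multiset.mem_toFinset, Polynomial.mem_nthRoots hpos]
      exact hroot x (Finset.ne_of_mem_erase hx)
    have h1 := Finset.card_le_card hsub
    rw [Finset.card_erase_of_mem (Finset.mem_univ _), Finset.card_univ] at h1
    exact h1.trans ((Multiset.toFinset_card_le _).trans (Polynomial.card_nthRoots _ _))
  have hpow : Fintype.card F = Fintype.card K ^ Module.finrank K F := Module.card_eq_pow_finrank
  obtain ⟨n, hn⟩ : ∃ n, n = Module.finrank K F := ⟨_, rfl⟩
  rw [← hn] at hpow
  obtain ⟨k, hk⟩ : ∃ k, k = Fintype.card K := ⟨_, rfl⟩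
  rw [← hk] at hpow hcount hk2
  have hcard : Fintype.card F = k := by
    rcases Nat.lt_or_ge n 2 with hn2 | hn2
    · interval_cases n
      · rw [pow_zero] at hpow; omega
      · rw [pow_one] at hpow; exact hpow
    · exfalso
      have h3 : k ^ 2 ≤ k ^ n := Nat.pow_le_pow_right (by omega) hn2
      have hc : k ^ n + 2 ≤ 3 * k := by rw [← hpow]; omega
      have h5 : k ≤ 2 := by
        by_contra hcon
        push Not at hcon
        have h9 : 3 * k ≤ k * k := Nat.mul_le_mul_right k (by omega)
        nlinarith
      have h6 : k = 2 := by omega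
      subst h6
      have h7 : Fintype.card F ≤ 4 := by omega
      have h8 : 4 ≤ Fintype.card F := by rw [hpow]; exact h3
      exact h4 (by omega)
  intro y
  have hbij : Function.Bijective (Subtype.val : K → F) :=
    (Fintype.bijective_iff_injective_and_card _).mpr ⟨Subtype.val_injective, by rw [hcard, hk]⟩
  obtain ⟨x, rfl⟩ := hbij.2 y
  exact (hKS _).mp x.2

end Cfsg.Agent.H97.RG3
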