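import Mathlib
import Cfsg.Agent.H97.RG3a

/-!
# Two conjugate regular unipotents generating `SL_3(F_4)` (helper97)

Explicit words in `u = C` and `v = g C g` giving `x_{20}(1)` and `x_{20}(ω)`.
-/

set_option autoImplicit false

namespace Cfsg.Agent.H97.RG3

open Matrix

variable {F : Type*} [Field F]

/-- The conjugating involution for `F_4`. -/
def G4 (ω : F) : Matrix (Fin 3) (Fin 3) F := !![1, 1, ω; 0, 1, 0; 0, 0, 1]

/-- `v = g C g` over `F_4`. -/
def Vm (ω : F) : Matrix (Fin 3) (Fin 3) F := !![1, 1 + ω, 0; 1, 1, 1 + ω; 0, 1, 1]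

/-- The inverse of `Vm`. -/
def Vi (ω : F) : Matrix (Fin 3) (Fin 3) F := !![ω, 1 + ω, ω; 1, 1, 1 + ω; 1, 1, ω]

theorem G4_mul_G4 (ω : F) (hω : ω ^ 2 + ω + 1 = 0) (h2 : (2 : F) = 0) :
    (G4 ω : Matrix (Fin 3) (Fin 3) F) * G4 ω = 1 := by
  rw [G4, mul_fin_three, one_fin_three]
  apply ext3
  · linear_combination (0) * hω + (0) * h2
  · linear_combination (0) * hω + (1) * h2
  · linear_combination (0) * hω + (ω) * h2
  · linear_combination (0) * hω + (0) * h2
  · linear_combination (0) * hω + (0) * h2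
  · linear_combination (0) * hω + (0) * h2
  · linear_combination (0) * hω + (0) * h2
  · linear_combination (0) * hω + (0) * h2
  · linear_combination (0) * hω + (0) * h2

theorem G4_mul_Cm (ω : F) (hω : ω ^ 2 + ω + 1 = 0) (h2 : (2 : F) = 0) :
    (G4 ω : Matrix (Fin 3) (Fin 3) F) * Cm = !![1, ω, ω; 1, 0, 1; 0, 1, 1] := by
  rw [G4, Cm, mul_fin_three]
  apply ext3
  · linear_combination (0) * hω + (0) * h2
  · linear_combination (0) * hω + (0) * h2
  · linear_combination (0) * hω + ((-1) + ω) * h2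
  · linear_combination (0) * hω + (0) * h2
  · linear_combination (0) * hω + (0) * h2
  · linear_combination (0) * hω + ((-2)) * h2
  · linear_combination (0) * hω + (0) * h2
  · linear_combination (0) * hω + (0) * h2
  · linear_combination (0) * hω + (1) * h2

theorem GC_mul_G4 (ω : F) (hω : ω ^ 2 + ω + 1 = 0) (h2 : (2 : F) = 0) :
    (!![1, ω, ω; 1, 0, 1; 0, 1, 1] : Matrix (Fin 3) (Fin 3) F) * G4 ω = Vm ω := by
  rw [G4, Vm, mul_fin_three]
  apply ext3
  · linear_combination (0) * hω + (0) * h2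
  · linear_combination (0) * hω + (0) * h2
  · linear_combination (0) * hω + (ω) * h2
  · linear_combination (0) * hω + (0) * h2
  · linear_combination (0) * hω + (0) * h2
  · linear_combination (0) * hω + (0) * h2
  · linear_combination (0) * hω + (0) * h2
  · linear_combination (0) * hω + (0) * h2
  · linear_combination (0) * hω + (0) * h2

theorem Vm_mul_Vi (ω : F) (hω : ω ^ 2 + ω + 1 = 0) (h2 : (2 : F) = 0) :
    (Vm ω : Matrix (Fin 3) (Fin 3) F) * Vi ω = 1 := by
  rw [Vm, Vi, mul_fin_three, one_fin_three]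
  apply ext3
  · linear_combination (0) * hω + (ω) * h2
  · linear_combination (0) * hω + (1 + ω) * h2
  · linear_combination (1) * hω + (ω) * h2
  · linear_combination (0) * hω + (1 + ω) * h2
  · linear_combination (0) * hω + (1 + ω) * h2
  · linear_combination (1) * hω + (ω) * h2
  · linear_combination (0) * hω + (1) * h2
  · linear_combination (0) * hω + (1) * h2
  · linear_combination (0) * hω + (ω) * h2

theorem w0_s0 (ω : F) (hω : ω ^ 2 + ω + 1 = 0) (h2 : (2 : F) = 0) :
    (Vm ω : Matrix (Fin 3) (Fin 3) F) * Cm = !![1 + ω, 0, ω; 1, 1 + ω, 1 + ω; 1, 1, 0] := by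
  rw [Vm, Cm, mul_fin_three]
  apply ext3
  · linear_combination (0) * hω + (0) * h2
  · linear_combination (0) * hω + (0) * h2
  · linear_combination (0) * hω + ((-1) + (-2)*ω) * h2
  · linear_combination (0) * hω + (0) * h2
  · linear_combination (0) * hω + (0) * h2
  · linear_combination (0) * hω + (ω) * h2
  · linear_combination (0) * hω + (0) * h2
  · linear_combination (0) * hω + (0) * h2
  · linear_combination (0) * hω + (0) * h2

theorem w0_s1 (ω : F) (hω : ω ^ 2 + ω + 1 = 0) (h2 : (2 : F) = 0) :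
    (!![1 + ω, 0, ω; 1, 1 + ω, 1 + ω; 1, 1, 0] : Matrix (Fin 3) (Fin 3) F) * Vm ω = !![1 + ω, 0, ω; ω, 1 + ω, 1; 0, ω, 1 + ω] := by
  rw [Vm, mul_fin_three]
  apply ext3
  · linear_combination (0) * hω + (0) * h2
  · linear_combination (1) * hω + (ω) * h2
  · linear_combination (0) * hω + (0) * h2
  · linear_combination (0) * hω + (1) * h2
  · linear_combination (0) * hω + (1 + ω) * h2
  · linear_combination (1) * hω + (ω) * h2
  · linear_combination (0) * hω + (1) * h2
  · linear_combination (0) * hω + (1) * h2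
  · linear_combination (0) * hω + (0) * h2

theorem w0_s2 (ω : F) (hω : ω ^ 2 + ω + 1 = 0) (h2 : (2 : F) = 0) :
    (!![1 + ω, 0, ω; ω, 1 + ω, 1; 0, ω, 1 + ω] : Matrix (Fin 3) (Fin 3) F) * Vm ω = !![1 + ω, 0, ω; 1, 1 + ω, 1 + ω; ω, 1, ω] := by
  rw [Vm, mul_fin_three]
  apply ext3
  · linear_combination (0) * hω + (0) * h2
  · linear_combination (1) * hω + (ω) * h2
  · linear_combination (0) * hω + (0) * h2
  · linear_combination (0) * hω + (ω) * h2
  · linear_combination (1) * hω + (0) * h2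
  · linear_combination (1) * hω + (0) * h2
  · linear_combination (0) * hω + (0) * h2
  · linear_combination (0) * hω + (ω) * h2
  · linear_combination (1) * hω + (0) * h2

theorem w0_s3 (ω : F) (hω : ω ^ 2 + ω + 1 = 0) (h2 : (2 : F) = 0) :
    (!![1 + ω, 0, ω; 1, 1 + ω, 1 + ω; ω, 1, ω] : Matrix (Fin 3) (Fin 3) F) * Ci = !![1, 1 + ω, 0; 1, 1, 1 + ω; 1, ω, 1] := by
  rw [Ci, mul_fin_three]
  apply ext3
  · linear_combination (0) * hω + (1 + 2*ω) * h2
  · linear_combination (0) * hω + (0) * h2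
  · linear_combination (0) * hω + (0) * h2
  · linear_combination (0) * hω + ((-1)*ω) * h2
  · linear_combination (0) * hω + (0) * h2
  · linear_combination (0) * hω + (0) * h2
  · linear_combination (0) * hω + ((-2) + 2*ω) * h2
  · linear_combination (0) * hω + (0) * h2
  · linear_combination (0) * hω + (0) * h2

theorem w0_s4 (ω : F) (hω : ω ^ 2 + ω + 1 = 0) (h2 : (2 : F) = 0) :
    (!![1, 1 + ω, 0; 1, 1, 1 + ω; 1, ω, 1] : Matrix (Fin 3) (Fin 3) F) * Vi ω = !![1, 0, 0; 0, 1, 0; 1, 0, 1] := by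
  rw [Vi, mul_fin_three]
  apply ext3
  · linear_combination (0) * hω + (ω) * h2
  · linear_combination (0) * hω + (1 + ω) * h2
  · linear_combination (1) * hω + (ω) * h2
  · linear_combination (0) * hω + (1 + ω) * h2
  · linear_combination (0) * hω + (1 + ω) * h2
  · linear_combination (1) * hω + (ω) * h2
  · linear_combination (0) * hω + (ω) * h2
  · linear_combination (0) * hω + (1 + ω) * h2
  · linear_combination (1) * hω + ((-1) + ω) * h2

theorem w1_s0 (ω : F) (hω : ω ^ 2 + ω + 1 = 0) (h2 : (2 : F) = 0) :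
    (Cm : Matrix (Fin 3) (Fin 3) F) * Cm = !![0, 1, 1; 0, 1, 0; 1, 1, 0] := by
  rw [Cm, mul_fin_three]
  apply ext3
  · linear_combination (0) * hω + (0) * h2
  · linear_combination (0) * hω + (0) * h2
  · linear_combination (0) * hω + (1) * h2
  · linear_combination (0) * hω + (0) * h2
  · linear_combination (0) * hω + ((-2)) * h2
  · linear_combination (0) * hω + ((-4)) * h2
  · linear_combination (0) * hω + (0) * h2
  · linear_combination (0) * hω + (1) * h2
  · linear_combination (0) * hω + (3) * h2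

theorem w1_s1 (ω : F) (hω : ω ^ 2 + ω + 1 = 0) (h2 : (2 : F) = 0) :
    (!![0, 1, 1; 0, 1, 0; 1, 1, 0] : Matrix (Fin 3) (Fin 3) F) * Vm ω = !![1, 0, ω; 1, 1, 1 + ω; 0, ω, 1 + ω] := by
  rw [Vm, mul_fin_three]
  apply ext3
  · linear_combination (0) * hω + (0) * h2
  · linear_combination (0) * hω + (1) * h2
  · linear_combination (0) * hω + (1) * h2
  · linear_combination (0) * hω + (0) * h2
  · linear_combination (0) * hω + (0) * h2
  · linear_combination (0) * hω + (0) * h2
  · linear_combination (0) * hω + (1) * h2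
  · linear_combination (0) * hω + (1) * h2
  · linear_combination (0) * hω + (0) * h2

theorem w1_s2 (ω : F) (hω : ω ^ 2 + ω + 1 = 0) (h2 : (2 : F) = 0) :
    (!![1, 0, ω; 1, 1, 1 + ω; 0, ω, 1 + ω] : Matrix (Fin 3) (Fin 3) F) * Cm = !![0, ω, 1 + ω; 1, 1 + ω, 1 + ω; ω, 1 + ω, 1] := by
  rw [Cm, mul_fin_three]
  apply ext3
  · linear_combination (0) * hω + (0) * h2
  · linear_combination (0) * hω + (0) * h2
  · linear_combination (0) * hω + (ω) * h2
  · linear_combination (0) * hω + (0) * h2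
  · linear_combination (0) * hω + (0) * h2
  · linear_combination (0) * hω + (ω) * h2
  · linear_combination (0) * hω + (0) * h2
  · linear_combination (0) * hω + (0) * h2
  · linear_combination (0) * hω + (1) * h2

theorem w1_s3 (ω : F) (hω : ω ^ 2 + ω + 1 = 0) (h2 : (2 : F) = 0) :
    (!![0, ω, 1 + ω; 1, 1 + ω, 1 + ω; ω, 1 + ω, 1] : Matrix (Fin 3) (Fin 3) F) * Vi ω = !![1, 1, 0; ω, 1 + ω, 1; 1, 1 + ω, 1 + ω] := by
  rw [Vi, mul_fin_three]
  apply ext3
  · linear_combination (0) * hω + (ω) * h2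
  · linear_combination (0) * hω + (ω) * h2
  · linear_combination (2) * hω + ((-1)) * h2
  · linear_combination (0) * hω + (1 + ω) * h2
  · linear_combination (0) * hω + (1 + ω) * h2
  · linear_combination (2) * hω + ((-1) + ω) * h2
  · linear_combination (1) * hω + (0) * h2
  · linear_combination (1) * hω + (0) * h2
  · linear_combination (2) * hω + ((-1)) * h2

theorem w1_s4 (ω : F) (hω : ω ^ 2 + ω + 1 = 0) (h2 : (2 : F) = 0) :
    (!![1, 1, 0; ω, 1 + ω, 1; 1, 1 + ω, 1 + ω] : Matrix (Fin 3) (Fin 3) F) * Ci = !![0, 1, 1; 0, ω, 1 + ω; 1, 1, 1 + ω] := by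
  rw [Ci, mul_fin_three]
  apply ext3
  · linear_combination (0) * hω + (0) * h2
  · linear_combination (0) * hω + (0) * h2
  · linear_combination (0) * hω + (0) * h2
  · linear_combination (0) * hω + ((-1)) * h2
  · linear_combination (0) * hω + (0) * h2
  · linear_combination (0) * hω + (0) * h2
  · linear_combination (0) * hω + ((-1)*ω) * h2
  · linear_combination (0) * hω + (0) * h2
  · linear_combination (0) * hω + (0) * h2

theorem w1_s5 (ω : F) (hω : ω ^ 2 + ω + 1 = 0) (h2 : (2 : F) = 0) :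
    (!![0, 1, 1; 0, ω, 1 + ω; 1, 1, 1 + ω] : Matrix (Fin 3) (Fin 3) F) * Vm ω = !![1, 0, ω; ω, 1, ω; 0, 1, 0] := by
  rw [Vm, mul_fin_three]
  apply ext3
  · linear_combination (0) * hω + (0) * h2
  · linear_combination (0) * hω + (1) * h2
  · linear_combination (0) * hω + (1) * h2
  · linear_combination (0) * hω + (0) * h2
  · linear_combination (0) * hω + (ω) * h2
  · linear_combination (1) * hω + (0) * h2
  · linear_combination (0) * hω + (1) * h2
  · linear_combination (0) * hω + (1 + ω) * h2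
  · linear_combination (0) * hω + (1 + ω) * h2

theorem w1_s6 (ω : F) (hω : ω ^ 2 + ω + 1 = 0) (h2 : (2 : F) = 0) :
    (!![1, 0, ω; ω, 1, ω; 0, 1, 0] : Matrix (Fin 3) (Fin 3) F) * Cm = !![0, ω, 1 + ω; 1, ω, 1; 1, 0, 1] := by
  rw [Cm, mul_fin_three]
  apply ext3
  · linear_combination (0) * hω + (0) * h2
  · linear_combination (0) * hω + (0) * h2
  · linear_combination (0) * hω + (ω) * h2
  · linear_combination (0) * hω + (0) * h2
  · linear_combination (0) * hω + (0) * h2
  · linear_combination (0) * hω + ((-2) + 2*ω) * h2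
  · linear_combination (0) * hω + (0) * h2
  · linear_combination (0) * hω + (0) * h2
  · linear_combination (0) * hω + ((-2)) * h2

theorem w1_s7 (ω : F) (hω : ω ^ 2 + ω + 1 = 0) (h2 : (2 : F) = 0) :
    (!![0, ω, 1 + ω; 1, ω, 1; 1, 0, 1] : Matrix (Fin 3) (Fin 3) F) * Vi ω = !![1, 1, 0; 1, 0, 1; 1 + ω, ω, 0] := by
  rw [Vi, mul_fin_three]
  apply ext3
  · linear_combination (0) * hω + (ω) * h2
  · linear_combination (0) * hω + (ω) * h2
  · linear_combination (2) * hω + ((-1)) * h2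
  · linear_combination (0) * hω + (ω) * h2
  · linear_combination (0) * hω + (1 + ω) * h2
  · linear_combination (1) * hω + ((-1) + ω) * h2
  · linear_combination (0) * hω + (0) * h2
  · linear_combination (0) * hω + (1) * h2
  · linear_combination (0) * hω + (ω) * h2

theorem w1_s8 (ω : F) (hω : ω ^ 2 + ω + 1 = 0) (h2 : (2 : F) = 0) :
    (!![1, 1, 0; 1, 0, 1; 1 + ω, ω, 0] : Matrix (Fin 3) (Fin 3) F) * Cm = !![1, 0, 0; 0, 1, 0; ω, 0, 1] := by
  rw [Cm, mul_fin_three]
  apply ext3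
  · linear_combination (0) * hω + (0) * h2
  · linear_combination (0) * hω + (0) * h2
  · linear_combination (0) * hω + ((-1)) * h2
  · linear_combination (0) * hω + (0) * h2
  · linear_combination (0) * hω + (0) * h2
  · linear_combination (0) * hω + (2) * h2
  · linear_combination (0) * hω + (0) * h2
  · linear_combination (0) * hω + (0) * h2
  · linear_combination (0) * hω + ((-1)*ω) * h2


theorem G4_det (ω : F) : (G4 ω).det = 1 := by
  rw [G4, det_fin_three]; simp

/-- The case `|F| = 4`. -/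
theorem four_case (h2 : (2 : F) = 0) (ω : F) (hω : ω ^ 2 + ω + 1 = 0)
    (hall : ∀ a : F, a = 0 ∨ a = 1 ∨ a = ω ∨ a = ω + 1)
    (H : Subgroup (SpecialLinearGroup (Fin 3) F)) (hC : inH H (Cm : Matrix (Fin 3) (Fin 3) F))
    (hV : inH H (G4 ω * Cm * G4 ω)) : H = ⊤ := by
  have hCi : inH H (Ci : Matrix (Fin 3) (Fin 3) F) := inH_inv hC Cm_mul_Ci
  have hv : inH H (Vm ω) := by
    rwa [G4_mul_Cm ω hω h2, GC_mul_G4 ω hω h2] at hV
  have hVi : inH H (Vi ω) := inH_inv hv (Vm_mul_Vi ω hω h2)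
  have hw0_0 : inH H (!![1 + ω, 0, ω; 1, 1 + ω, 1 + ω; 1, 1, 0] : Matrix (Fin 3) (Fin 3) F) := by
    have := inH_mul hv hC
    rwa [w0_s0 ω hω h2] at this
  have hw0_1 : inH H (!![1 + ω, 0, ω; ω, 1 + ω, 1; 0, ω, 1 + ω] : Matrix (Fin 3) (Fin 3) F) := by
    have := inH_mul hw0_0 hv
    rwa [w0_s1 ω hω h2] at this
  have hw0_2 : inH H (!![1 + ω, 0, ω; 1, 1 + ω, 1 + ω; ω, 1, ω] : Matrix (Fin 3) (Fin 3) F) := by
    have := inH_mul hw0_1 hv
    rwa [w0_s2 ω hω h2] at this
  have hw0_3 : inH H (!![1, 1 + ω, 0; 1, 1, 1 + ω; 1, ω, 1] : Matrix (Fin 3) (Fin 3) F) := by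
    have := inH_mul hw0_2 hCi
    rwa [w0_s3 ω hω h2] at this
  have hw0_4 : inH H (!![1, 0, 0; 0, 1, 0; 1, 0, 1] : Matrix (Fin 3) (Fin 3) F) := by
    have := inH_mul hw0_3 hVi
    rwa [w0_s4 ω hω h2] at this
  have hw1_0 : inH H (!![0, 1, 1; 0, 1, 0; 1, 1, 0] : Matrix (Fin 3) (Fin 3) F) := by
    have := inH_mul hC hC
    rwa [w1_s0 ω hω h2] at this
  have hw1_1 : inH H (!![1, 0, ω; 1, 1, 1 + ω; 0, ω, 1 + ω] : Matrix (Fin 3) (Fin 3) F) := by
    have := inH_mul hw1_0 hv
    rwa [w1_s1 ω hω h2] at this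
  have hw1_2 : inH H (!![0, ω, 1 + ω; 1, 1 + ω, 1 + ω; ω, 1 + ω, 1] : Matrix (Fin 3) (Fin 3) F) := by
    have := inH_mul hw1_1 hC
    rwa [w1_s2 ω hω h2] at this
  have hw1_3 : inH H (!![1, 1, 0; ω, 1 + ω, 1; 1, 1 + ω, 1 + ω] : Matrix (Fin 3) (Fin 3) F) := by
    have := inH_mul hw1_2 hVi
    rwa [w1_s3 ω hω h2] at this
  have hw1_4 : inH H (!![0, 1, 1; 0, ω, 1 + ω; 1, 1, 1 + ω] : Matrix (Fin 3) (Fin 3) F) := by
    have := inH_mul hw1_3 hCi
    rwa [w1_s4 ω hω h2] at this
  have hw1_5 : inH H (!![1, 0, ω; ω, 1, ω; 0, 1, 0] : Matrix (Fin 3) (Fin 3) F) := by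
    have := inH_mul hw1_4 hv
    rwa [w1_s5 ω hω h2] at this
  have hw1_6 : inH H (!![0, ω, 1 + ω; 1, ω, 1; 1, 0, 1] : Matrix (Fin 3) (Fin 3) F) := by
    have := inH_mul hw1_5 hC
    rwa [w1_s6 ω hω h2] at this
  have hw1_7 : inH H (!![1, 1, 0; 1, 0, 1; 1 + ω, ω, 0] : Matrix (Fin 3) (Fin 3) F) := by
    have := inH_mul hw1_6 hVi
    rwa [w1_s7 ω hω h2] at this
  have hw1_8 : inH H (!![1, 0, 0; 0, 1, 0; ω, 0, 1] : Matrix (Fin 3) (Fin 3) F) := by
    have := inH_mul hw1_7 hC
    rwa [w1_s8 ω hω h2] at this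
  have h1 : inH H (R2 (1 : F) 0) := hw0_4
  have hw : inH H (R2 ω 0) := hw1_8
  have h20 : ∀ a : F, inH H (R2 a 0) := by
    intro a
    rcases hall a with rfl | rfl | rfl | rfl
    · rw [R2_zero]; exact inH_one
    · exact h1
    · exact hw
    · have := inH_mul hw h1
      rwa [R2_mul, add_zero] at this
  have h12 : ∀ a : F, inH H (Rel 0 a) := fun a => inH_Rel_of_R2 hC (h20 a)
  have h10 : ∀ a : F, inH H (Rel a 0) := by
    intro a
    have := inH_Rel10_mul hC (h12 a) (h12 1)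
    rwa [mul_one] at this
  exact root_crit H hC h10 h12

end Cfsg.Agent.H97.RG3
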