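import Mathlib
import Cfsg.Agent.H97.RG3a
import Cfsg.Agent.H97.RG3b

/-!
# Two conjugate regular unipotents generating `SL_3(F)`: odd characteristic and the generic
characteristic two case (helper97)

`u = C` (companion matrix of `(x-1)^3`), `g = Gm t`, `v = g C g`.  `w = v C⁻¹` squares to a root
element; in odd characteristic its semisimple part `ι` and `ι₁ = C ι C⁻¹` give a torus element
whose action on the row root subgroup generates the whole field.
-/

set_option autoImplicit false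

namespace Cfsg.Agent.H97.RG3

open Matrix

variable {F : Type*} [Field F]

/-- The conjugating involution. -/
def Gm (t : F) : Matrix (Fin 3) (Fin 3) F := !![1, 0, t; 0, -1, 0; 0, 0, -1]

/-- `w = g C g C⁻¹`. -/
def Wm (t : F) : Matrix (Fin 3) (Fin 3) F := !![-1, 0, -t; -(6 + t), -1, 0; 0, 0, 1]

theorem Gm_det (t : F) : (Gm t).det = 1 := by
  rw [Gm, det_fin_three]; simp

theorem Gm_mul_Gm (t : F) : Gm t * Gm t = 1 := by
  simp only [Gm, mul_fin_three, one_fin_three]; apply ext3 <;> ring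

theorem Wm_eq (t : F) : Gm t * Cm * Gm t * Ci = Wm t := by
  simp only [Gm, Cm, Ci, Wm, mul_fin_three]; apply ext3 <;> ring

theorem Wm_sq (t : F) : Wm t * Wm t = Rel (2 * (6 + t)) (t * (6 + t)) := by
  simp only [Wm, Rel, mul_fin_three]; apply ext3 <;> ring

/-- The involution `ι` (semisimple part of `w`). -/
def Iota (e : F) : Matrix (Fin 3) (Fin 3) F :=
  !![-1, 0, -(2 * e); 0, -1, e * (6 + 2 * e); 0, 0, 1]

/-- `ι₁ = C ι C⁻¹`. -/
def Iota1 (e : F) : Matrix (Fin 3) (Fin 3) F :=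
  !![1, 0, 0; -(6 + 2 * e), -1, 0; 6 + 6 * e + 2 * e ^ 2, 0, -1]

theorem Iota_eq (e : F) :
    Wm (2 * e) * Rel (-(6 + 2 * e)) (-(e * (6 + 2 * e))) = Iota e := by
  simp only [Wm, Rel, Iota, mul_fin_three]; apply ext3 <;> ring

theorem Iota1_eq (e : F) : Cm * Iota e * Ci = Iota1 e := by
  simp only [Cm, Ci, Iota, Iota1, mul_fin_three]; apply ext3 <;> ring

theorem conjA (e x z : F) :
    Iota e * Iota1 e * Rel x z * (Iota1 e * Iota e) =
      Rel (-x - (6 + 6 * e + 2 * e ^ 2) * z)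
        (-(2 * e) * x - (1 + 12 * e + 12 * e ^ 2 + 4 * e ^ 3) * z) := by
  simp only [Iota, Iota1, Rel, mul_fin_three]; apply ext3 <;> ring

theorem conjB (e x z : F) :
    Iota1 e * Iota e * Rel x z * (Iota e * Iota1 e) =
      Rel (-(1 + 12 * e + 12 * e ^ 2 + 4 * e ^ 3) * x + (6 + 6 * e + 2 * e ^ 2) * z)
        (2 * e * x - z) := by
  simp only [Iota, Iota1, Rel, mul_fin_three]; apply ext3 <;> ring

theorem exists_half [Fintype F] (h2 : (2 : F) ≠ 0) : ∃ n : ℕ, (2 : F) * n = -1 := by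
  obtain ⟨p, hp⟩ := CharP.exists F
  have hpp : p.Prime := CharP.char_is_prime F p
  have hp2 : p ≠ 2 := by
    rintro rfl
    apply h2
    have := CharP.cast_eq_zero F 2
    simpa using this
  obtain ⟨m, hm⟩ := hpp.odd_of_ne_two hp2
  refine ⟨m, ?_⟩
  have := CharP.cast_eq_zero F p
  rw [hm] at this
  push_cast at this
  linear_combination this

/-- Odd characteristic. -/
theorem odd_case [Fintype F] (h2 : (2 : F) ≠ 0) (e : F) (he0 : e ≠ 0) (he1 : e + 1 ≠ 0)
    (hc1 : 6 + 2 * e ≠ 0) (hgen : ∀ x : F, x ≠ 0 → ∃ k : ℕ, x = (e + 1) ^ k)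
    (H : Subgroup (SpecialLinearGroup (Fin 3) F)) (hC : inH H (Cm : Matrix (Fin 3) (Fin 3) F))
    (hV : inH H (Gm (2 * e) * Cm * Gm (2 * e))) : H = ⊤ := by
  have hCi : inH H (Ci : Matrix (Fin 3) (Fin 3) F) := inH_inv hC Cm_mul_Ci
  have hW : inH H (Wm (2 * e)) := by
    have := inH_mul hV hCi
    rwa [Wm_eq] at this
  have hW2 : inH H (Rel (2 * (6 + 2 * e)) (2 * e * (6 + 2 * e))) := by
    have := inH_mul hW hW
    rwa [Wm_sq] at this
  obtain ⟨n, hn⟩ := exists_half h2
  have hRn : inH H (Rel (-(6 + 2 * e)) (-(e * (6 + 2 * e)))) := by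
    have := inH_pow hW2 n
    rw [Rel_pow] at this
    refine inH_Rel_congr this ?_ ?_
    · linear_combination (6 + 2 * e) * hn
    · linear_combination (e * (6 + 2 * e)) * hn
  have hι : inH H (Iota e) := by
    have := inH_mul hW hRn
    rwa [Iota_eq] at this
  have hι1 : inH H (Iota1 e) := by
    have := inH_mul (inH_mul hC hι) hCi
    rwa [Iota1_eq] at this
  have hs : inH H (Iota e * Iota1 e) := inH_mul hι hι1
  have hs' : inH H (Iota1 e * Iota e) := inH_mul hι1 hι
  have hA : ∀ x z : F, inH H (Rel x z) → inH H (Rel (-x - (6 + 6 * e + 2 * e ^ 2) * z)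
      (-(2 * e) * x - (1 + 12 * e + 12 * e ^ 2 + 4 * e ^ 3) * z)) := by
    intro x z h
    have := inH_mul (inH_mul hs h) hs'
    rwa [conjA] at this
  have hB : ∀ x z : F, inH H (Rel x z) →
      inH H (Rel (-(1 + 12 * e + 12 * e ^ 2 + 4 * e ^ 3) * x + (6 + 6 * e + 2 * e ^ 2) * z)
        (2 * e * x - z)) := by
    intro x z h
    have := inH_mul (inH_mul hs' h) hs
    rwa [conjB] at this
  have hκ : (2 - 4 * (e + 1) ^ 3 : F) ∈ stab (WH H) := by
    rintro ⟨x, z⟩ hp
    rw [mem_WH] at hp ⊢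
    have := inH_mul (hA x z hp) (hB x z hp)
    rw [Rel_mul] at this
    refine inH_Rel_congr this ?_ ?_
    · simp only [Prod.smul_mk, smul_eq_mul]; ring
    · simp only [Prod.smul_mk, smul_eq_mul]; ring
  have hσ : (e + 1) ^ 3 ∈ stab (WH H) := by
    have h2m : (2 : F) ∈ stab (WH H) := by
      have := natCast_mem (stab (WH H) : Subring F) 2
      simpa using this
    have hnm : (n : F) ∈ stab (WH H) := natCast_mem (stab (WH H) : Subring F) n
    have : (e + 1) ^ 3 = (n : F) * (n : F) * (2 - (2 - 4 * (e + 1) ^ 3)) := by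
      linear_combination ((e + 1) ^ 3 * (1 - 2 * (n : F))) * hn
    rw [this]
    exact Subring.mul_mem _ (Subring.mul_mem _ hnm hnm) (Subring.sub_mem _ h2m hκ)
  have h4 : Fintype.card F ≠ 4 := by
    intro h
    have h0 := Nat.cast_card_eq_zero F
    rw [h] at h0
    apply h2
    have h22 : (2 : F) * 2 = 0 := by
      rw [← h0]; norm_num
    exact mul_self_eq_zero.mp h22
  have hall := subring_top_of_cube (stab (WH H)) (e + 1) hgen h4 hσ
  have hseed : ((2 * (6 + 2 * e), 2 * e * (6 + 2 * e)) : F × F) ∈ WH H := hW2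
  have hline : ∀ y : F, inH H (Rel y (e * y)) := by
    intro y
    have := hall (y / (2 * (6 + 2 * e))) _ hseed
    rw [mem_WH] at this
    refine inH_Rel_congr this ?_ ?_
    · simp only [Prod.smul_mk, smul_eq_mul]; field_simp
    · simp only [Prod.smul_mk, smul_eq_mul]; field_simp
  have h10' : ∀ y : F, inH H (Rel (-(2 * (e + 1) ^ 3) * y) 0) := by
    intro y
    have h1 := hB _ _ (hline y)
    have h3 := inH_mul h1 (inH_Rel_neg (hline y))
    rw [Rel_mul] at h3
    refine inH_Rel_congr h3 ?_ ?_ <;> ring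
  have hσ0 : (e + 1) ^ 3 ≠ 0 := pow_ne_zero _ he1
  have h10 : ∀ y : F, inH H (Rel y 0) := by
    intro y
    refine inH_Rel_congr (h10' (y / (-(2 * (e + 1) ^ 3)))) ?_ rfl
    field_simp
  have h12 : ∀ z : F, inH H (Rel 0 z) := by
    intro z
    have := inH_mul (hline (z / e)) (inH_Rel_neg (h10 (z / e)))
    rw [Rel_mul] at this
    refine inH_Rel_congr this ?_ ?_
    · ring
    · rw [neg_zero, add_zero]; field_simp
  exact root_crit H hC h10 h12

/-- Characteristic two, `|F| ≠ 4`. -/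
theorem even_case [Fintype F] (h2 : (2 : F) = 0) (h4 : Fintype.card F ≠ 4) (t : F) (ht : t ≠ 0)
    (hgen : ∀ x : F, x ≠ 0 → ∃ k : ℕ, x = (t * t) ^ k)
    (H : Subgroup (SpecialLinearGroup (Fin 3) F)) (hC : inH H (Cm : Matrix (Fin 3) (Fin 3) F))
    (hV : inH H (Gm t * Cm * Gm t)) : H = ⊤ := by
  have hCi : inH H (Ci : Matrix (Fin 3) (Fin 3) F) := inH_inv hC Cm_mul_Ci
  have hW : inH H (Wm t) := by
    have := inH_mul hV hCi
    rwa [Wm_eq] at this
  have hζ : inH H (Rel 0 (t * t)) := by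
    have := inH_mul hW hW
    rw [Wm_sq] at this
    refine inH_Rel_congr this ?_ ?_
    · linear_combination (6 + t) * h2
    · linear_combination (3 * t) * h2
  have hS : (t * t) ^ 3 ∈ stab (QH H) := by
    intro a ha
    rw [mem_QH] at ha ⊢
    have := inH_prod4 hC hζ hζ hζ ha
    refine inH_Rel_congr this rfl ?_
    rw [smul_eq_mul]; ring
  have hall := subring_top_of_cube (stab (QH H)) (t * t) hgen h4 hS
  have h12 : ∀ z : F, inH H (Rel 0 z) := by
    intro z
    have := hall (z / (t * t)) _ hζ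
    rw [mem_QH] at this
    refine inH_Rel_congr this rfl ?_
    rw [smul_eq_mul]; field_simp
  have h10 : ∀ y : F, inH H (Rel y 0) := by
    intro y
    have := inH_Rel10_mul hC (h12 y) (h12 1)
    rwa [mul_one] at this
  exact root_crit H hC h10 h12

end Cfsg.Agent.H97.RG3
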