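import Mathlib
import Cfsg.Agent.H97.RG3a
import Cfsg.Agent.H97.RG3b
import Cfsg.Agent.H97.RG3c
import Cfsg.Agent.H97.RG3d

/-!
# `SL_3(F)` is generated by two conjugate regular unipotents (helper97)
-/

set_option autoImplicit false

namespace Cfsg.Agent.H97.RG3

open Matrix

variable {F : Type*} [Field F]

/-- `C - 1`. -/
def Nm : Matrix (Fin 3) (Fin 3) F := !![-1, 0, 1; 1, -1, -3; 0, 1, 2]

theorem Cm_sub_one : (Cm : Matrix (Fin 3) (Fin 3) F) - 1 = Nm := by
  ext i j
  fin_cases i <;> fin_cases j <;> simp [Cm, Nm]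
  norm_num

theorem Nm_sq : (Nm : Matrix (Fin 3) (Fin 3) F) * Nm = !![1, 1, 1; -2, -2, -2; 1, 1, 1] := by
  simp only [Nm, mul_fin_three]; apply ext3 <;> ring

theorem Nm_cube : (Nm : Matrix (Fin 3) (Fin 3) F) ^ 3 = 0 := by
  rw [pow_succ, pow_two, Nm_sq, Nm, mul_fin_three]
  ext i j
  fin_cases i <;> fin_cases j <;> simp <;> ring

theorem Nm_sq_ne : (Nm : Matrix (Fin 3) (Fin 3) F) ^ 2 ≠ 0 := by
  rw [pow_two, Nm_sq]
  intro h
  have := congrFun (congrFun h 0) 0
  simp at this

theorem F4_elements [Fintype F] (h2 : (2 : F) = 0) (hcard : Fintype.card F = 4) (ω : F)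
    (hω : ω ^ 2 + ω + 1 = 0) (a : F) : a = 0 ∨ a = 1 ∨ a = ω ∨ a = ω + 1 := by
  have h4 : a ^ 4 = a := by
    have := FiniteField.pow_card a
    rwa [hcard] at this
  have hprod : a * (a - 1) * (a - ω) * (a - (ω + 1)) = 0 := by
    linear_combination h4 + (a ^ 2 - a) * hω + (-(ω + 1) * a ^ 3 + ω * a ^ 2 + a) * h2
  rcases mul_eq_zero.mp hprod with h | h
  · rcases mul_eq_zero.mp h with h | h
    · rcases mul_eq_zero.mp h with h | h
      · exact Or.inl h
      · exact Or.inr (Or.inl (sub_eq_zero.mp h))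
    · exact Or.inr (Or.inr (Or.inl (sub_eq_zero.mp h)))
  · exact Or.inr (Or.inr (Or.inr (sub_eq_zero.mp h)))

/-- `SL_3(F)` is generated by two conjugate regular unipotent elements. -/
theorem sl3_two_regular [Fintype F] :
    ∃ u g : SpecialLinearGroup (Fin 3) F,
      IsNilpotent ((u : Matrix (Fin 3) (Fin 3) F) - 1) ∧
      ((u : Matrix (Fin 3) (Fin 3) F) - 1) ^ (3 - 1) ≠ 0 ∧
      Subgroup.closure ({u, g * u * g⁻¹} : Set (SpecialLinearGroup (Fin 3) F)) = ⊤ := by
  classical
  obtain ⟨u, hu⟩ : ∃ u : SpecialLinearGroup (Fin 3) F, u = ⟨Cm, Cm_det⟩ := ⟨_, rfl⟩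
  have hu1 : (u : Matrix (Fin 3) (Fin 3) F) = Cm := by rw [hu]
  have hnil : IsNilpotent ((u : Matrix (Fin 3) (Fin 3) F) - 1) := by
    rw [hu1, Cm_sub_one]
    exact ⟨3, Nm_cube⟩
  have hne : ((u : Matrix (Fin 3) (Fin 3) F) - 1) ^ (3 - 1) ≠ 0 := by
    rw [hu1, Cm_sub_one]
    exact Nm_sq_ne
  suffices hsuff : ∃ g : SpecialLinearGroup (Fin 3) F,
      Subgroup.closure ({u, g * u * g⁻¹} : Set (SpecialLinearGroup (Fin 3) F)) = ⊤ by
    obtain ⟨g, hg⟩ := hsuff
    exact ⟨u, g, hnil, hne, hg⟩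
  have hCmem : ∀ g : SpecialLinearGroup (Fin 3) F,
      inH (Subgroup.closure ({u, g * u * g⁻¹} : Set (SpecialLinearGroup (Fin 3) F))) Cm := by
    intro g
    rw [← hu1]
    exact inH_coe (Subgroup.subset_closure (Set.mem_insert _ _))
  have hVmem : ∀ g : SpecialLinearGroup (Fin 3) F, g.1 * g.1 = 1 →
      inH (Subgroup.closure ({u, g * u * g⁻¹} : Set (SpecialLinearGroup (Fin 3) F)))
        (g.1 * Cm * g.1) := by
    intro g hg
    rw [← hu1]
    exact inH_conj_invol u g hg
      (Subgroup.subset_closure (Set.mem_insert_of_mem _ (Set.mem_singleton _)))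
  obtain ⟨x, hx⟩ := IsCyclic.exists_monoid_generator (α := Fˣ)
  obtain ⟨lam, hlamx⟩ : ∃ lam : F, lam = (x : F) := ⟨_, rfl⟩
  have hlam0 : lam ≠ 0 := by rw [hlamx]; exact x.ne_zero
  have hlam : ∀ s : F, s ≠ 0 → ∃ k : ℕ, s = lam ^ k := by
    intro s hs
    obtain ⟨k, hk⟩ := (Submonoid.mem_powers_iff _ _).mp (hx (Units.mk0 s hs))
    refine ⟨k, ?_⟩
    have := congrArg (fun y : Fˣ => (y : F)) hk
    simp only [Units.val_pow_eq_pow_val, Units.val_mk0] at this
    rw [hlamx, this]
  by_cases h2 : (2 : F) = 0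
  · by_cases h4 : Fintype.card F = 4
    · -- `F_4`
      have hl3 : lam ^ 3 = 1 := by
        have := FiniteField.pow_card_sub_one_eq_one lam hlam0
        rwa [h4] at this
      have hl1 : lam ≠ 1 := by
        intro h
        have hall : ∀ a : F, a = 0 ∨ a = 1 := by
          intro a
          by_cases ha : a = 0
          · exact Or.inl ha
          · obtain ⟨k, hk⟩ := hlam a ha
            rw [h, one_pow] at hk
            exact Or.inr hk
        have hle : Fintype.card F ≤ 2 := by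
          have hsub : (Finset.univ : Finset F) ⊆ {0, 1} := by
            intro a _
            rcases hall a with h | h <;> simp [h]
          calc Fintype.card F = (Finset.univ : Finset F).card := rfl
            _ ≤ ({0, 1} : Finset F).card := Finset.card_le_card hsub
            _ ≤ 2 := Finset.card_le_two
        omega
      have hω : lam ^ 2 + lam + 1 = 0 := by
        have h : (lam - 1) * (lam ^ 2 + lam + 1) = 0 := by linear_combination hl3
        rcases mul_eq_zero.mp h with h | h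
        · exact absurd (sub_eq_zero.mp h) hl1
        · exact h
      refine ⟨⟨G4 lam, G4_det lam⟩, ?_⟩
      exact four_case h2 lam hω (F4_elements h2 h4 lam hω) _ (hCmem _)
        (hVmem _ (G4_mul_G4 lam hω h2))
    · -- characteristic two, generic
      have : CharP F 2 := CharTwo.of_one_ne_zero_of_two_eq_zero one_ne_zero h2
      have hrc : ringChar F = 2 := ringChar.eq F 2
      obtain ⟨t, ht⟩ := FiniteField.isSquare_of_char_two hrc lam
      have ht0 : t ≠ 0 := by
        rintro rfl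
        apply hlam0
        rw [ht, mul_zero]
      refine ⟨⟨Gm t, Gm_det t⟩, ?_⟩
      exact even_case h2 h4 t ht0 (by rw [← ht]; exact hlam) _ (hCmem _) (hVmem _ (Gm_mul_Gm t))
  · -- odd characteristic
    have hlam1 : lam ≠ 1 := by
      intro h
      obtain ⟨k, hk⟩ := hlam (-1) (by simp)
      rw [h, one_pow] at hk
      apply h2
      linear_combination -hk
    obtain ⟨ζ, hζ0, hζ1, hζ2, hζgen⟩ : ∃ ζ : F, ζ ≠ 0 ∧ ζ ≠ 1 ∧ ζ ≠ -2 ∧
        ∀ s : F, s ≠ 0 → ∃ k : ℕ, s = ζ ^ k := by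
      by_cases hl2 : lam = -2
      · refine ⟨lam⁻¹, inv_ne_zero hlam0, ?_, ?_, ?_⟩
        · intro h
          apply hlam1
          rwa [inv_eq_one] at h
        · intro h
          have h1 : lam * lam⁻¹ = 1 := mul_inv_cancel₀ hlam0
          rw [h, hl2] at h1
          apply hlam1
          rw [hl2]
          linear_combination (-1 : F) * h1
        · intro s hs
          obtain ⟨k, hk⟩ := hlam s⁻¹ (inv_ne_zero hs)
          exact ⟨k, by rw [inv_pow, ← hk, inv_inv]⟩
      · exact ⟨lam, hlam0, hlam1, hl2, hlam⟩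
    have he0 : ζ - 1 ≠ 0 := sub_ne_zero.mpr hζ1
    have he1 : ζ - 1 + 1 ≠ 0 := by rwa [sub_add_cancel]
    have hc1 : 6 + 2 * (ζ - 1) ≠ 0 := by
      intro h
      have h3 : (2 : F) * (ζ + 2) = 0 := by linear_combination h
      rcases mul_eq_zero.mp h3 with h | h
      · exact h2 h
      · exact hζ2 (by linear_combination h)
    refine ⟨⟨Gm (2 * (ζ - 1)), Gm_det _⟩, ?_⟩
    exact odd_case h2 (ζ - 1) he0 he1 hc1 (by rw [sub_add_cancel]; exact hζgen) _ (hCmem _)
      (hVmem _ (Gm_mul_Gm _))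

end Cfsg.Agent.H97.RG3
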