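import Mathlib
import Cfsg.Agent.H97.RG3a

/-!
# `SU_3(q)` in isotropic coordinates (helper97)

The unitary group of the form `x₀ ȳ₂ + x₁ ȳ₁ + x₂ ȳ₀` (matrix `Jm`), its upper unitriangular
elements `um a b`, lower ones `vm a b`, the torus `dm μ`, the transvections `Tm x c`, and the
basic membership lemmas for a subgroup `H` of `SL_3(F)`.
-/

set_option autoImplicit false

namespace Cfsg.Agent.H97.SU3

open Matrix Cfsg.Agent.H97.RG3

variable {F : Type*} [Field F]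

/-- The antidiagonal Gram matrix. -/
def Jm : Matrix (Fin 3) (Fin 3) F := !![0, 0, 1; 0, 1, 0; 1, 0, 0]

/-- `M` has determinant one and preserves the form with Gram matrix `Jm`. -/
def IsJ (σ : F →+* F) (M : Matrix (Fin 3) (Fin 3) F) : Prop :=
  M.det = 1 ∧ Mᵀ * Jm * M.map σ = Jm

/-- Upper unitriangular element. -/
def um (σ : F →+* F) (a b : F) : Matrix (Fin 3) (Fin 3) F := !![1, a, b; 0, 1, -σ a; 0, 0, 1]

/-- Lower unitriangular element. -/
def vm (σ : F →+* F) (a b : F) : Matrix (Fin 3) (Fin 3) F := !![1, 0, 0; σ a, 1, 0; b, -a, 1]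

/-- The Weyl element. -/
def wm : Matrix (Fin 3) (Fin 3) F := !![0, 0, 1; 0, -1, 0; 1, 0, 0]

/-- The torus element. -/
def dm (σ : F →+* F) (μ : F) : Matrix (Fin 3) (Fin 3) F :=
  !![μ, 0, 0; 0, σ μ / μ, 0; 0, 0, (σ μ)⁻¹]

theorem isJ_cond_iff (σ : F →+* F) (M : Matrix (Fin 3) (Fin 3) F) :
    Mᵀ * Jm * M.map σ = Jm ↔
      ∀ i j, M 0 i * σ (M 2 j) + M 1 i * σ (M 1 j) + M 2 i * σ (M 0 j)
        = (Jm : Matrix (Fin 3) (Fin 3) F) i j := by
  constructor
  · intro h i j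
    have := congrFun (congrFun h i) j
    rw [← this]
    simp [Matrix.mul_apply, Fin.sum_univ_three, Jm]
    ring
  · intro h
    ext i j
    rw [← h i j]
    simp [Matrix.mul_apply, Fin.sum_univ_three, Jm]
    ring

theorem isJ_one (σ : F →+* F) : IsJ σ (1 : Matrix (Fin 3) (Fin 3) F) := by
  refine ⟨det_one, ?_⟩
  rw [Matrix.map_one _ (map_zero σ) (map_one σ), transpose_one, Matrix.one_mul, Matrix.mul_one]

theorem IsJ.mul {σ : F →+* F} {M N : Matrix (Fin 3) (Fin 3) F} (hM : IsJ σ M) (hN : IsJ σ N) :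
    IsJ σ (M * N) := by
  refine ⟨by rw [det_mul, hM.1, hN.1, one_mul], ?_⟩
  rw [transpose_mul, Matrix.map_mul]
  calc Nᵀ * Mᵀ * Jm * (M.map σ * N.map σ) = Nᵀ * (Mᵀ * Jm * M.map σ) * N.map σ := by
        simp only [Matrix.mul_assoc]
    _ = Jm := by rw [hM.2, hN.2]

theorem IsJ.inv {σ : F →+* F} {M N : Matrix (Fin 3) (Fin 3) F} (hM : IsJ σ M) (h : M * N = 1) :
    IsJ σ N := by
  have hd : N.det = 1 := by
    have := congrArg det h
    rwa [det_mul, hM.1, one_mul, det_one] at this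
  refine ⟨hd, ?_⟩
  calc Nᵀ * Jm * N.map σ = Nᵀ * (Mᵀ * Jm * M.map σ) * N.map σ := by rw [hM.2]
    _ = (M * N)ᵀ * Jm * (M * N).map σ := by
        rw [transpose_mul, Matrix.map_mul]; simp only [Matrix.mul_assoc]
    _ = Jm := by
        rw [h, Matrix.map_one _ (map_zero σ) (map_one σ), transpose_one, Matrix.one_mul,
          Matrix.mul_one]

/-- The unitary group of `Jm` inside `SL_3(F)`. -/
def GJ (σ : F →+* F) : Subgroup (SpecialLinearGroup (Fin 3) F) where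
  carrier := {g | IsJ σ g.1}
  mul_mem' := by
    intro a b ha hb
    show IsJ σ (a.1 * b.1)
    exact IsJ.mul ha hb
  one_mem' := by
    show IsJ σ (1 : Matrix (Fin 3) (Fin 3) F)
    exact isJ_one σ
  inv_mem' := by
    intro a ha
    have h1 : a * a⁻¹ = 1 := mul_inv_cancel a
    have h2 : a.1 * (a⁻¹).1 = 1 := congrArg Subtype.val h1
    exact IsJ.inv ha h2

variable {H : Subgroup (SpecialLinearGroup (Fin 3) F)}

theorem inH_inf {σ : F →+* F} {M : Matrix (Fin 3) (Fin 3) F} :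
    inH (H ⊓ GJ σ) M ↔ inH H M ∧ IsJ σ M := by
  constructor
  · rintro ⟨h, hm⟩
    exact ⟨⟨h, hm.1⟩, hm.2⟩
  · rintro ⟨⟨h, hm⟩, hJ⟩
    exact ⟨h, ⟨hm, hJ⟩⟩

theorem isJ_of_inH {σ : F →+* F} (hHJ : H ≤ GJ σ) {M : Matrix (Fin 3) (Fin 3) F} (h : inH H M) :
    IsJ σ M := by
  obtain ⟨hd, hm⟩ := h
  exact hHJ hm

theorem inH_conj {g T T2 : Matrix (Fin 3) (Fin 3) F} (hg : inH H g) (hT : inH H T)
    (h : g * T = T2 * g) : inH H T2 := by
  obtain ⟨hgd, hgm⟩ := hg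
  obtain ⟨hTd, hTm⟩ := hT
  have hd : T2.det = 1 := by
    have := congrArg det h
    rw [det_mul, det_mul, hgd, hTd] at this
    simpa using this.symm
  refine ⟨hd, ?_⟩
  obtain ⟨gg, hgg⟩ : ∃ x : SpecialLinearGroup (Fin 3) F, x = ⟨g, hgd⟩ := ⟨_, rfl⟩
  obtain ⟨gT, hgT⟩ : ∃ x : SpecialLinearGroup (Fin 3) F, x = ⟨T, hTd⟩ := ⟨_, rfl⟩
  obtain ⟨gT2, hgT2⟩ : ∃ x : SpecialLinearGroup (Fin 3) F, x = ⟨T2, hd⟩ := ⟨_, rfl⟩
  have h1 : gT2 * gg = gg * gT := by
    apply Subtype.ext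
    rw [hgg, hgT, hgT2]
    exact h.symm
  have h2 : gT2 = gg * gT * gg⁻¹ := eq_mul_inv_of_mul_eq h1
  rw [← hgT2, h2, hgg, hgT]
  exact H.mul_mem (H.mul_mem hgm hTm) (H.inv_mem hgm)

/-! ### The unipotent elements -/

theorem um_mul (σ : F →+* F) (a b a' b' : F) :
    um σ a b * um σ a' b' = um σ (a + a') (b + b' - a * σ a') := by
  rw [um, um, um, mul_fin_three]
  apply ext3 <;> (try simp only [map_add]) <;> ring

theorem um_zero (σ : F →+* F) : um σ 0 0 = 1 := by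
  rw [um, one_fin_three]
  apply ext3 <;> simp

theorem um_mul_inv (σ : F →+* F) (a b : F) : um σ a b * um σ (-a) (-b - a * σ a) = 1 := by
  rw [um_mul, ← um_zero σ]
  congr 1
  · ring
  · simp only [map_neg]; ring

theorem det_um (σ : F →+* F) (a b : F) : (um σ a b).det = 1 := by
  rw [um, det_fin_three]
  simp

theorem det_vm (σ : F →+* F) (a b : F) : (vm σ a b).det = 1 := by
  rw [vm, det_fin_three]
  simp

theorem isJ_um (σ : F →+* F) (hσσ : ∀ x, σ (σ x) = x) {a b : F} (h : b + σ b + a * σ a = 0) :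
    IsJ σ (um σ a b) := by
  refine ⟨det_um σ a b, (isJ_cond_iff σ _).2 ?_⟩
  intro i j
  fin_cases i <;> fin_cases j <;> simp [um, Jm, hσσ]
  linear_combination h

theorem norm_of_isJ_um (σ : F →+* F) (hσσ : ∀ x, σ (σ x) = x) {a b : F} (h : IsJ σ (um σ a b)) :
    b + σ b + a * σ a = 0 := by
  have := (isJ_cond_iff σ _).1 h.2 2 2
  simp [um, Jm, hσσ] at this
  linear_combination this

theorem isJ_vm (σ : F →+* F) (hσσ : ∀ x, σ (σ x) = x) {a b : F} (h : b + σ b + a * σ a = 0) :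
    IsJ σ (vm σ a b) := by
  refine ⟨det_vm σ a b, (isJ_cond_iff σ _).2 ?_⟩
  intro i j
  fin_cases i <;> fin_cases j <;> simp [vm, Jm, hσσ]
  linear_combination h

theorem isJ_wm (σ : F →+* F) : IsJ σ (wm : Matrix (Fin 3) (Fin 3) F) := by
  refine ⟨by rw [wm, det_fin_three]; simp, (isJ_cond_iff σ _).2 ?_⟩
  intro i j
  fin_cases i <;> fin_cases j <;> simp [wm, Jm]

theorem isJ_dm (σ : F →+* F) (hσσ : ∀ x, σ (σ x) = x) {μ : F} (hμ : μ ≠ 0) : IsJ σ (dm σ μ) := by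
  have hσμ : σ μ ≠ 0 := (map_ne_zero σ).2 hμ
  refine ⟨by rw [dm, det_fin_three]; simp; field_simp, (isJ_cond_iff σ _).2 ?_⟩
  intro i j
  fin_cases i <;> fin_cases j <;> simp [dm, Jm, hσσ, hμ, hσμ]

theorem wm_mul_um (σ : F →+* F) (a b : F) : wm * um σ a b = vm σ a b * wm := by
  rw [wm, um, vm, mul_fin_three, mul_fin_three]
  apply ext3 <;> simp

theorem dm_mul_um (σ : F →+* F) (hσσ : ∀ x, σ (σ x) = x) {μ : F} (hμ : μ ≠ 0) (a b : F) :
    dm σ μ * um σ a b = um σ (μ ^ 2 * a / σ μ) (μ * σ μ * b) * dm σ μ := by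
  have hσμ : σ μ ≠ 0 := (map_ne_zero σ).2 hμ
  rw [dm, um, um, mul_fin_three, mul_fin_three]
  apply ext3 <;> simp [map_mul, map_div₀, map_pow, hσσ] <;> field_simp

theorem um_comm (σ : F →+* F) (s t a b : F) :
    um σ s t * um σ a b = um σ a (b + a * σ s - s * σ a) * um σ s t := by
  rw [um_mul, um_mul]
  congr 1 <;> ring

theorem upper_conj (σ : F →+* F) (w11 w12 w13 w22 w23 w33 a b : F) (h22 : w22 ≠ 0)
    (h33 : w33 ≠ 0) (h : σ (w11 / w22) * w33 = w22) :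
    (!![w11, w12, w13; 0, w22, w23; 0, 0, w33] : Matrix (Fin 3) (Fin 3) F) * um σ a b =
      um σ (w11 / w22 * a) ((w11 * b - w12 * σ a - w11 / w22 * a * w23) / w33) *
        !![w11, w12, w13; 0, w22, w23; 0, 0, w33] := by
  rw [um, um, mul_fin_three, mul_fin_three]
  apply ext3
  · simp
  · simp; field_simp; ring
  · simp; field_simp; ring
  · simp
  · simp
  · simp only [map_mul]; linear_combination (σ a) * h
  · simp
  · simp
  · simp

/-- The `a`-coordinates of the upper unitriangular elements of `H`. -/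
def Aset (σ : F →+* F) (H : Subgroup (SpecialLinearGroup (Fin 3) F)) : AddSubgroup F where
  carrier := {a | ∃ b, inH H (um σ a b)}
  add_mem' := by
    rintro a a' ⟨b, hb⟩ ⟨b', hb'⟩
    exact ⟨_, by rw [← um_mul]; exact inH_mul hb hb'⟩
  zero_mem' := ⟨0, by rw [um_zero]; exact inH_one⟩
  neg_mem' := by
    rintro a ⟨b, hb⟩
    exact ⟨_, inH_inv hb (um_mul_inv σ a b)⟩

theorem mem_Aset (σ : F →+* F) (H : Subgroup (SpecialLinearGroup (Fin 3) F)) (a : F) :
    a ∈ Aset σ H ↔ ∃ b, inH H (um σ a b) := Iff.rfl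

/-- An upper triangular element of `H` gives a scalar preserving `Aset`. -/
theorem mem_stab_of_upper (σ : F →+* F) (w11 w12 w13 w22 w23 w33 : F) (h22 : w22 ≠ 0)
    (h33 : w33 ≠ 0) (h : σ (w11 / w22) * w33 = w22)
    (hW : inH H (!![w11, w12, w13; 0, w22, w23; 0, 0, w33] : Matrix (Fin 3) (Fin 3) F)) :
    w11 / w22 ∈ (stab (Aset σ H) : Subring F) := by
  rw [mem_stab]
  rintro a ⟨b, hb⟩
  exact ⟨_, inH_conj hW hb (upper_conj σ w11 w12 w13 w22 w23 w33 a b h22 h33 h)⟩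

/-- If every `a` occurs, then all of `U` lies in `H`. -/
theorem inH_um_of_all (σ : F →+* F) (hσσ : ∀ x, σ (σ x) = x) (hHJ : H ≤ GJ σ)
    (hall : ∀ a : F, a ∈ Aset σ H) (t0 : F) (ht0 : t0 + σ t0 = 1) (a b : F)
    (hab : b + σ b + a * σ a = 0) : inH H (um σ a b) := by
  have hZ : ∀ c : F, c + σ c = 0 → inH H (um σ 0 c) := by
    intro c hc
    obtain ⟨b1, h1⟩ := hall t0
    obtain ⟨b2, h2⟩ := hall c
    have h3 := inH_conj h1 h2 (um_comm σ t0 b1 c b2)
    have h4 := inH_mul h3 (inH_inv h2 (um_mul_inv σ c b2))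
    rw [um_mul] at h4
    have e1 : c + -c = 0 := by ring
    have e2 : b2 + c * σ t0 - t0 * σ c + (-b2 - c * σ c) - c * σ (-c) = c := by
      simp only [map_neg]
      linear_combination c * ht0 - t0 * hc
    rwa [e1, e2] at h4
  obtain ⟨b1, h1⟩ := hall a
  have hn := norm_of_isJ_um σ hσσ (isJ_of_inH hHJ h1)
  have h2 := inH_mul h1 (hZ (b - b1) (by simp only [map_sub]; linear_combination hab - hn))
  rw [um_mul] at h2
  have e1 : a + 0 = a := by ring
  have e2 : b1 + (b - b1) - a * σ 0 = b := by simp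
  rwa [e1, e2] at h2

end Cfsg.Agent.H97.SU3
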