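import Mathlib
import Cfsg.Agent.H97.SU3a

/-!
# Transvections of `SU_3(q)` in isotropic coordinates (helper97)

If a subgroup contains all upper unitriangular elements and one lower unitriangular element not
fixing the point at infinity, it contains all isotropic transvections.
-/

set_option autoImplicit false

namespace Cfsg.Agent.H97.SU3

open Matrix Cfsg.Agent.H97.RG3

variable {F : Type*} [Field F]

/-- Transvection in isotropic coordinates. -/
def Tm (σ : F →+* F) (x : Fin 3 → F) (c : F) : Matrix (Fin 3) (Fin 3) F :=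
  1 + c • vecMulVec x (Jm *ᵥ (fun i => σ (x i)))

theorem Tm_eq (σ : F →+* F) (x : Fin 3 → F) (c : F) : Tm σ x c =
    !![1 + c * x 0 * σ (x 2), c * x 0 * σ (x 1), c * x 0 * σ (x 0);
       c * x 1 * σ (x 2), 1 + c * x 1 * σ (x 1), c * x 1 * σ (x 0);
       c * x 2 * σ (x 2), c * x 2 * σ (x 1), 1 + c * x 2 * σ (x 0)] := by
  ext i j
  fin_cases i <;> fin_cases j <;>
    simp [Tm, dotProduct, Fin.sum_univ_three, Jm] <;> ring

theorem map_mulVec_fun (σ : F →+* F) (g : Matrix (Fin 3) (Fin 3) F) (x : Fin 3 → F) :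
    (fun i => σ ((g *ᵥ x) i)) = g.map σ *ᵥ (fun i => σ (x i)) := by
  funext i
  simp [mulVec, dotProduct, map_sum, map_mul]

theorem Tm_conj (σ : F →+* F) {g : Matrix (Fin 3) (Fin 3) F} (hg : IsJ σ g) (x : Fin 3 → F)
    (c : F) : g * Tm σ x c = Tm σ (g *ᵥ x) c * g := by
  have key : (Jm *ᵥ (fun i => σ ((g *ᵥ x) i))) ᵥ* g = Jm *ᵥ (fun i => σ (x i)) := by
    rw [map_mulVec_fun, ← mulVec_transpose, mulVec_mulVec, mulVec_mulVec, hg.2]
  unfold Tm
  rw [Matrix.mul_add, Matrix.add_mul, Matrix.mul_one, Matrix.one_mul, Matrix.mul_smul,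
    Matrix.smul_mul, Matrix.mul_vecMulVec, Matrix.vecMulVec_mul, key]

theorem Tm_smul (σ : F →+* F) (l : F) (x : Fin 3 → F) (c : F) :
    Tm σ (l • x) c = Tm σ x (c * l * σ l) := by
  rw [Tm_eq, Tm_eq]
  apply ext3 <;> simp only [Pi.smul_apply, smul_eq_mul, map_mul] <;> ring

theorem Tm_e1 (σ : F →+* F) (c : F) : Tm σ ![1, 0, 0] c = um σ 0 c := by
  rw [Tm_eq, um]
  apply ext3 <;> simp

theorem Tm_zero (σ : F →+* F) (c : F) : Tm σ 0 c = 1 := by
  rw [Tm_eq, one_fin_three]
  apply ext3 <;> simp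

theorem Tm_zero_right (σ : F →+* F) (x : Fin 3 → F) : Tm σ x 0 = 1 := by
  rw [Tm_eq, one_fin_three]
  apply ext3 <;> simp

/-- A transvection in the unitary group has a trace-zero parameter. -/
theorem trace_zero_of_isJ_Tm (σ : F →+* F) (hσσ : ∀ x, σ (σ x) = x) (x : Fin 3 → F) (c : F)
    (hx : x 0 * σ (x 2) + x 1 * σ (x 1) + x 2 * σ (x 0) = 0) (hx0 : x ≠ 0)
    (h : IsJ σ (Tm σ x c)) : c + σ c = 0 := by
  have hcond := (isJ_cond_iff σ _).1 h.2
  rw [Tm_eq] at hcond
  have k0 : (c + σ c) * (x 0 * σ (x 0)) = 0 := by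
    have h22 := hcond 2 2
    simp [Jm, map_add, map_mul, hσσ] at h22
    linear_combination h22 - c * σ c * (x 0) * σ (x 0) * hx
  have k1 : (c + σ c) * (x 1 * σ (x 1)) = 0 := by
    have h11 := hcond 1 1
    simp [Jm, map_add, map_mul, hσσ] at h11
    linear_combination h11 - c * σ c * (x 1) * σ (x 1) * hx
  have k2 : (c + σ c) * (x 2 * σ (x 2)) = 0 := by
    have h00 := hcond 0 0
    simp [Jm, map_add, map_mul, hσσ] at h00
    linear_combination h00 - c * σ c * (x 2) * σ (x 2) * hx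
  by_contra hne
  have hz : ∀ y : F, (c + σ c) * (y * σ y) = 0 → y = 0 := by
    intro y hy
    rcases mul_eq_zero.1 hy with h1 | h1
    · exact absurd h1 hne
    · rcases mul_eq_zero.1 h1 with h2 | h2
      · exact h2
      · exact (map_eq_zero σ).1 h2
  apply hx0
  funext i
  fin_cases i
  · exact hz _ k0
  · exact hz _ k1
  · exact hz _ k2

variable {H : Subgroup (SpecialLinearGroup (Fin 3) F)}

/-- All isotropic transvections lie in `H`. -/
theorem inH_Tm (σ : F →+* F) (hσσ : ∀ x, σ (σ x) = x)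
    (hU : ∀ a b : F, b + σ b + a * σ a = 0 → inH H (um σ a b))
    (a' b' : F) (hb' : b' ≠ 0) (hn' : b' + σ b' + a' * σ a' = 0) (hv : inH H (vm σ a' b'))
    (x : Fin 3 → F) (c : F) (hx : x 0 * σ (x 2) + x 1 * σ (x 1) + x 2 * σ (x 0) = 0)
    (hc : c + σ c = 0) : inH H (Tm σ x c) := by
  have hσb' : σ b' ≠ 0 := (map_ne_zero σ).2 hb'
  by_cases h2 : x 2 = 0
  · have h1 : x 1 = 0 := by
      rw [h2] at hx
      have : x 1 * σ (x 1) = 0 := by simpa using hx
      rcases mul_eq_zero.1 this with h | h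
      · exact h
      · exact (map_eq_zero σ).1 h
    have e : Tm σ x c = um σ 0 (c * x 0 * σ (x 0)) := by
      rw [Tm_eq, um, h1, h2]
      apply ext3 <;> simp
    rw [e]
    apply hU
    simp only [map_mul, hσσ, map_zero]
    linear_combination (x 0 * σ (x 0)) * hc
  · -- the point is `x 2 • (b, -σ a, 1)`
    have hσ2 : σ (x 2) ≠ 0 := (map_ne_zero σ).2 h2
    obtain ⟨a, ha⟩ : ∃ a : F, a = -σ (x 1 / x 2) := ⟨_, rfl⟩
    obtain ⟨b, hb⟩ : ∃ b : F, b = x 0 / x 2 := ⟨_, rfl⟩
    have hσa : σ a = -(x 1 / x 2) := by rw [ha, map_neg, hσσ]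
    have hab : b + σ b + a * σ a = 0 := by
      rw [hσa, ha, hb]
      simp only [map_div₀]
      field_simp
      linear_combination hx
    obtain ⟨a4, ha4⟩ : ∃ a4 : F, a4 = a' / σ b' := ⟨_, rfl⟩
    obtain ⟨b4, hb4⟩ : ∃ b4 : F, b4 = 1 / σ b' := ⟨_, rfl⟩
    have hσa4 : σ a4 = σ a' / b' := by rw [ha4, map_div₀, hσσ]
    have hσb4 : σ b4 = 1 / b' := by rw [hb4, map_div₀, hσσ, map_one]
    have h4 : b4 + σ b4 + a4 * σ a4 = 0 := by
      rw [hσa4, hσb4, ha4, hb4]
      field_simp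
      linear_combination hn'
    have hg1 : inH H (um σ a b * (um σ a4 b4 * vm σ a' b')) :=
      inH_mul (hU a b hab) (inH_mul (hU a4 b4 h4) hv)
    have hgJ : IsJ σ (um σ a b * (um σ a4 b4 * vm σ a' b')) :=
      (isJ_um σ hσσ hab).mul ((isJ_um σ hσσ h4).mul (isJ_vm σ hσσ hn'))
    have e1 : vm σ a' b' *ᵥ ![1, 0, 0] = ![1, σ a', b'] := by
      funext i
      fin_cases i <;> simp [vm, mulVec, dotProduct, Fin.sum_univ_three]
    have e2 : um σ a4 b4 *ᵥ ![1, σ a', b'] = ![0, 0, b'] := by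
      funext i
      fin_cases i
      · simp [um, mulVec, dotProduct, Fin.sum_univ_three]
        rw [ha4, hb4]
        field_simp
        linear_combination hn'
      · simp [um, mulVec, dotProduct, Fin.sum_univ_three]
        rw [hσa4]
        field_simp
        ring
      · simp [um, mulVec, dotProduct, Fin.sum_univ_three]
    have e3 : um σ a b *ᵥ ![0, 0, b'] = ![b * b', -σ a * b', b'] := by
      funext i
      fin_cases i <;> simp [um, mulVec, dotProduct, Fin.sum_univ_three]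
    have e4 : (um σ a b * (um σ a4 b4 * vm σ a' b')) *ᵥ ![1, 0, 0] = ![b * b', -σ a * b', b'] := by
      rw [← mulVec_mulVec, ← mulVec_mulVec, e1, e2, e3]
    have e5 : x = (x 2 / b') • ((um σ a b * (um σ a4 b4 * vm σ a' b')) *ᵥ ![1, 0, 0]) := by
      rw [e4, hσa, hb]
      funext i
      fin_cases i
      · simp; field_simp
      · simp; field_simp
      · simp; field_simp
    have hc' : c * (x 2 / b') * σ (x 2 / b') + σ (c * (x 2 / b') * σ (x 2 / b')) = 0 := by
      simp only [map_mul, hσσ]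
      linear_combination ((x 2 / b') * σ (x 2 / b')) * hc
    have h5 : inH H (Tm σ ![1, 0, 0] (c * (x 2 / b') * σ (x 2 / b'))) := by
      rw [Tm_e1]
      apply hU
      simp only [map_zero, mul_zero, add_zero]
      exact hc'
    have h6 := inH_conj hg1 h5 (Tm_conj σ hgJ _ _)
    rw [← Tm_smul, ← e5] at h6
    exact h6

end Cfsg.Agent.H97.SU3
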