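import Mathlib
import Cfsg.Prelude.Def_Classical
import Cfsg.Prelude.Def_ClassicalGeometry
import Cfsg.Agent.H97.SU3b

/-!
# Transport from isotropic coordinates to the standard Hermitian form (helper97)
-/

set_option autoImplicit false

namespace Cfsg.Agent.H97.SU3

open Matrix Cfsg.Agent.H97.RG3

variable {F : Type*} [Field F]

theorem herm_of_unitary (q : ℕ) (σ : F →+* F) (hσ : ∀ x, σ x = x ^ q)
    (M : Matrix (Fin 3) (Fin 3) F) (hM : Mᵀ * M.map σ = 1) (u v : Fin 3 → F) :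
    Cfsg.hermForm 3 F q (M *ᵥ u) (M *ᵥ v) = Cfsg.hermForm 3 F q u v := by
  have e2 : (fun k => (M *ᵥ v) k ^ q) = M.map σ *ᵥ (fun k => v k ^ q) := by
    have e3 : (fun k => v k ^ q) = fun k => σ (v k) := by
      funext k
      rw [hσ]
    rw [e3, ← map_mulVec_fun]
    funext k
    rw [hσ]
  show (M *ᵥ u) ⬝ᵥ (fun k => (M *ᵥ v) k ^ q) = u ⬝ᵥ (fun k => v k ^ q)
  rw [e2, ← Matrix.vecMul_transpose, ← Matrix.dotProduct_mulVec, Matrix.mulVec_mulVec, hM,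
    Matrix.one_mulVec]

theorem unitary_of_herm (q : ℕ) (hq0 : q ≠ 0) (σ : F →+* F) (hσ : ∀ x, σ x = x ^ q)
    (M : Matrix (Fin 3) (Fin 3) F)
    (h : ∀ u v, Cfsg.hermForm 3 F q (M *ᵥ u) (M *ᵥ v) = Cfsg.hermForm 3 F q u v) :
    Mᵀ * M.map σ = 1 := by
  ext j k
  have e := h (Pi.single j 1) (Pi.single k 1)
  simp only [Cfsg.hermForm, Matrix.mulVec_single_one] at e
  rw [Matrix.mul_apply, Matrix.one_apply]
  simp only [Matrix.transpose_apply, Matrix.map_apply, hσ]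
  simp only [Matrix.col_apply] at e
  rw [e]
  fin_cases j <;> fin_cases k <;> simp [Pi.single_apply, hq0]

theorem transport (q : ℕ) (hq0 : q ≠ 0) (σ : F →+* F) (hσ : ∀ x, σ x = x ^ q)
    (hgen : Subgroup.closure {A : ↥(Cfsg.SU 3 F q) | ∃ (v : Fin 3 → F) (c : F),
      Cfsg.hermForm 3 F q v v = 0 ∧
        ((A : Matrix.SpecialLinearGroup (Fin 3) F) : Matrix (Fin 3) (Fin 3) F)
          = Cfsg.unitaryTransvection 3 q v c} = ⊤)
    (P : Matrix (Fin 3) (Fin 3) F) (hPJ : Pᵀ * P.map σ = Jm)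
    (u u' g : Matrix (Fin 3) (Fin 3) F) (hu : IsJ σ u) (hg : IsJ σ g) (hconj : g * u = u' * g)
    (hn3 : (u - 1) * (u - 1) * (u - 1) = 0) (hn2 : (u - 1) * (u - 1) ≠ 0)
    (hT : ∀ H : Subgroup (SpecialLinearGroup (Fin 3) F), inH H u → inH H u' →
      ∀ (x : Fin 3 → F) (c : F), x 0 * σ (x 2) + x 1 * σ (x 1) + x 2 * σ (x 0) = 0 →
        IsJ σ (Tm σ x c) → inH H (Tm σ x c)) :
    ∃ u₁ g₁ : ↥(Cfsg.SU 3 F q),
      (IsNilpotent (((u₁ : Matrix.SpecialLinearGroup (Fin 3) F) : Matrix (Fin 3) (Fin 3) F) - 1) ∧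
        (((u₁ : Matrix.SpecialLinearGroup (Fin 3) F) : Matrix (Fin 3) (Fin 3) F) - 1) ^ (3 - 1) ≠ 0) ∧
      Subgroup.closure ({u₁, g₁ * u₁ * g₁⁻¹} : Set ↥(Cfsg.SU 3 F q)) = ⊤ := by
  obtain ⟨Pi, hPi⟩ : ∃ Pi : Matrix (Fin 3) (Fin 3) F, Pi = Jm * (P.map σ)ᵀ := ⟨_, rfl⟩
  have hJJ : (Jm : Matrix (Fin 3) (Fin 3) F) * Jm = 1 := by
    rw [Jm, mul_fin_three, one_fin_three]
    apply ext3 <;> simp
  have hJt : (Jm : Matrix (Fin 3) (Fin 3) F)ᵀ = Jm := by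
    ext i j
    fin_cases i <;> fin_cases j <;> simp [Jm]
  have hPiP : Pi * P = 1 := by
    have h1 : (P.map σ)ᵀ * P = Jm := by
      have := congrArg transpose hPJ
      rwa [transpose_mul, transpose_transpose, hJt] at this
    rw [hPi, Matrix.mul_assoc, h1, hJJ]
  have hPPi : P * Pi = 1 := mul_eq_one_comm.mp hPiP
  have hPiJ : Piᵀ * Jm * Pi.map σ = 1 := by
    rw [← hPJ]
    calc Piᵀ * (Pᵀ * P.map σ) * Pi.map σ = (P * Pi)ᵀ * (P * Pi).map σ := by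
          rw [transpose_mul, Matrix.map_mul]; simp only [Matrix.mul_assoc]
      _ = 1 := by
          rw [hPPi, Matrix.map_one _ (map_zero σ) (map_one σ), transpose_one, Matrix.one_mul]
  -- from isotropic to standard coordinates
  have hdetP : P.det * Pi.det = 1 := by rw [← det_mul, hPPi, det_one]
  have hA1 : ∀ M : Matrix (Fin 3) (Fin 3) F, IsJ σ M → (P * M * Pi).det = 1 := by
    intro M hM
    rw [det_mul, det_mul, hM.1, mul_one, hdetP]
  have hA2 : ∀ M : Matrix (Fin 3) (Fin 3) F, IsJ σ M →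
      (P * M * Pi)ᵀ * (P * M * Pi).map σ = 1 := by
    intro M hM
    calc (P * M * Pi)ᵀ * (P * M * Pi).map σ
        = Piᵀ * (Mᵀ * (Pᵀ * P.map σ) * M.map σ) * Pi.map σ := by
          rw [transpose_mul, transpose_mul, Matrix.map_mul, Matrix.map_mul]
          simp only [Matrix.mul_assoc]
      _ = 1 := by rw [hPJ, hM.2, hPiJ]
  have hmulP : ∀ M N : Matrix (Fin 3) (Fin 3) F, P * M * Pi * (P * N * Pi) = P * (M * N) * Pi := by
    intro M N
    calc P * M * Pi * (P * N * Pi) = P * M * (Pi * P) * N * Pi := by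
          simp only [Matrix.mul_assoc]
      _ = P * (M * N) * Pi := by rw [hPiP]; simp only [Matrix.mul_assoc, Matrix.mul_one]
  obtain ⟨u₁, hu₁⟩ : ∃ u₁ : ↥(Cfsg.SU 3 F q), u₁.1.1 = P * u * Pi :=
    ⟨⟨⟨P * u * Pi, hA1 u hu⟩, fun a b => herm_of_unitary q σ hσ _ (hA2 u hu) a b⟩, rfl⟩
  obtain ⟨g₁, hg₁⟩ : ∃ g₁ : ↥(Cfsg.SU 3 F q), g₁.1.1 = P * g * Pi :=
    ⟨⟨⟨P * g * Pi, hA1 g hg⟩, fun a b => herm_of_unitary q σ hσ _ (hA2 g hg) a b⟩, rfl⟩
  have hcoe_mul : ∀ A B : ↥(Cfsg.SU 3 F q), (A * B).1.1 = A.1.1 * B.1.1 := fun A B => rfl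
  have hcoe_one : (1 : ↥(Cfsg.SU 3 F q)).1.1 = (1 : Matrix (Fin 3) (Fin 3) F) := rfl
  have hcoe_inv : ∀ A : ↥(Cfsg.SU 3 F q), A.1.1 * (A⁻¹).1.1 = 1 := by
    intro A
    rw [← hcoe_mul, mul_inv_cancel, hcoe_one]
  have hcoe_inv' : ∀ A : ↥(Cfsg.SU 3 F q), (A⁻¹).1.1 * A.1.1 = 1 := by
    intro A
    rw [← hcoe_mul, inv_mul_cancel, hcoe_one]
  refine ⟨u₁, g₁, ⟨?_, ?_⟩, ?_⟩
  · refine ⟨3, ?_⟩
    have e : u₁.1.1 - 1 = P * (u - 1) * Pi := by
      rw [hu₁, Matrix.mul_sub, Matrix.sub_mul, Matrix.mul_one, hPPi]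
    rw [e, pow_three', hmulP, hmulP, hn3, Matrix.mul_zero, Matrix.zero_mul]
  · have e : u₁.1.1 - 1 = P * (u - 1) * Pi := by
      rw [hu₁, Matrix.mul_sub, Matrix.sub_mul, Matrix.mul_one, hPPi]
    have e2 : (3 - 1 : ℕ) = 2 := by norm_num
    rw [e, e2, pow_two, hmulP]
    intro h0
    apply hn2
    calc (u - 1) * (u - 1) = Pi * (P * ((u - 1) * (u - 1)) * Pi) * P := by
          calc (u - 1) * (u - 1) = (Pi * P) * ((u - 1) * (u - 1)) * (Pi * P) := by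
                rw [hPiP, Matrix.one_mul, Matrix.mul_one]
            _ = Pi * (P * ((u - 1) * (u - 1)) * Pi) * P := by simp only [Matrix.mul_assoc]
      _ = 0 := by rw [h0, Matrix.mul_zero, Matrix.zero_mul]
  · obtain ⟨K, hK⟩ : ∃ K : Subgroup ↥(Cfsg.SU 3 F q),
        K = Subgroup.closure ({u₁, g₁ * u₁ * g₁⁻¹} : Set ↥(Cfsg.SU 3 F q)) := ⟨_, rfl⟩
    rw [← hK]
    have hu₁K : u₁ ∈ K := by
      rw [hK]; exact Subgroup.subset_closure (Set.mem_insert _ _)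
    have hu₂K : g₁ * u₁ * g₁⁻¹ ∈ K := by
      rw [hK]; exact Subgroup.subset_closure (Set.mem_insert_of_mem _ rfl)
    let H : Subgroup (SpecialLinearGroup (Fin 3) F) :=
      { carrier := {M | ∃ A ∈ K, A.1.1 = P * M.1 * Pi}
        mul_mem' := by
          rintro M N ⟨A, hA, hAM⟩ ⟨B, hB, hBN⟩
          refine ⟨A * B, K.mul_mem hA hB, ?_⟩
          rw [hcoe_mul, hAM, hBN, hmulP]
          rfl
        one_mem' := by
          refine ⟨1, K.one_mem, ?_⟩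
          rw [hcoe_one]
          show (1 : Matrix (Fin 3) (Fin 3) F) = P * 1 * Pi
          rw [Matrix.mul_one, hPPi]
        inv_mem' := by
          rintro M ⟨A, hA, hAM⟩
          refine ⟨A⁻¹, K.inv_mem hA, ?_⟩
          have h1 : M.1 * (M⁻¹).1 = 1 := by
            have : M * M⁻¹ = 1 := mul_inv_cancel M
            exact congrArg Subtype.val this
          have h2 : A.1.1 * (P * (M⁻¹).1 * Pi) = 1 := by
            rw [hAM, hmulP, h1, Matrix.mul_one, hPPi]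
          calc (A⁻¹).1.1 = (A⁻¹).1.1 * (A.1.1 * (P * (M⁻¹).1 * Pi)) := by rw [h2, Matrix.mul_one]
            _ = ((A⁻¹).1.1 * A.1.1) * (P * (M⁻¹).1 * Pi) := (Matrix.mul_assoc _ _ _).symm
            _ = P * (M⁻¹).1 * Pi := by rw [hcoe_inv', Matrix.one_mul] }
    have hHmem : ∀ (M : Matrix (Fin 3) (Fin 3) F), inH H M → ∃ A ∈ K, A.1.1 = P * M * Pi := by
      rintro M ⟨hd, A, hA, hAM⟩
      exact ⟨A, hA, hAM⟩
    have hHu : inH H u := ⟨hu.1, u₁, hu₁K, hu₁⟩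
    have hdu' : u'.det = 1 := by
      have := congrArg det hconj
      rw [det_mul, det_mul, hu.1, hg.1] at this
      simpa using this.symm
    have hHu' : inH H u' := by
      refine ⟨hdu', g₁ * u₁ * g₁⁻¹, hu₂K, ?_⟩
      show (g₁ * u₁ * g₁⁻¹).1.1 = P * u' * Pi
      have h1 : (g₁ * u₁ * g₁⁻¹).1.1 * g₁.1.1 = (P * u' * Pi) * g₁.1.1 := by
        rw [← hcoe_mul, inv_mul_cancel_right, hcoe_mul, hg₁, hu₁, hmulP, hmulP, hconj]
      calc (g₁ * u₁ * g₁⁻¹).1.1 = (g₁ * u₁ * g₁⁻¹).1.1 * g₁.1.1 * (g₁⁻¹).1.1 := by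
            rw [Matrix.mul_assoc, hcoe_inv, Matrix.mul_one]
        _ = P * u' * Pi := by rw [h1, Matrix.mul_assoc, hcoe_inv, Matrix.mul_one]
    rw [eq_top_iff, ← hgen, Subgroup.closure_le]
    rintro A ⟨v, c, hv, hA⟩
    show A ∈ K
    have hAu : A.1.1ᵀ * A.1.1.map σ = 1 := unitary_of_herm q hq0 σ hσ _ (fun a b => A.2 a b)
    obtain ⟨x, hx⟩ : ∃ x : Fin 3 → F, x = Pi *ᵥ v := ⟨_, rfl⟩
    have hvx : v = P *ᵥ x := by
      rw [hx, mulVec_mulVec, hPPi, one_mulVec]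
    have hw : (fun j => v j ^ q) = P.map σ *ᵥ (fun i => σ (x i)) := by
      rw [← map_mulVec_fun, ← hvx]
      funext j
      rw [hσ]
    have hw2 : (fun j => v j ^ q) ᵥ* P = Jm *ᵥ (fun i => σ (x i)) := by
      rw [← mulVec_transpose, hw, mulVec_mulVec, hPJ]
    have hM : Pi * A.1.1 * P = Tm σ x c := by
      have hA' : A.1.1 = Cfsg.unitaryTransvection 3 q v c := hA
      rw [hA', Cfsg.unitaryTransvection, Tm, Matrix.mul_add, Matrix.add_mul, Matrix.mul_one, hPiP,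
        Matrix.mul_smul, Matrix.smul_mul, Matrix.mul_vecMulVec, Matrix.vecMulVec_mul, hw2, ← hx]
    have hiso : x 0 * σ (x 2) + x 1 * σ (x 1) + x 2 * σ (x 0) = 0 := by
      have h1 : x ⬝ᵥ (Jm *ᵥ (fun i => σ (x i))) = 0 := by
        rw [← hw2, ← mulVec_transpose, Matrix.dotProduct_mulVec, vecMul_transpose, ← hvx]
        exact hv
      rw [← h1]
      simp [dotProduct, mulVec, Fin.sum_univ_three, Jm]
    have hMJ : IsJ σ (Tm σ x c) := by
      rw [← hM]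
      refine ⟨?_, ?_⟩
      · have hdA : A.1.1.det = 1 := A.1.2
        rw [det_mul, det_mul, hdA, mul_one, mul_comm, hdetP]
      · calc (Pi * A.1.1 * P)ᵀ * Jm * (Pi * A.1.1 * P).map σ
            = Pᵀ * (A.1.1ᵀ * (Piᵀ * Jm * Pi.map σ) * A.1.1.map σ) * P.map σ := by
              rw [transpose_mul, transpose_mul, Matrix.map_mul, Matrix.map_mul]
              simp only [Matrix.mul_assoc]
          _ = Jm := by rw [hPiJ, Matrix.mul_one, hAu, Matrix.mul_one, hPJ]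
    obtain ⟨A', hA'K, hA'⟩ := hHmem _ (hT H hHu hHu' x c hiso hMJ)
    have hAA' : A' = A := by
      apply Subtype.ext
      apply Subtype.ext
      rw [hA', ← hM]
      calc P * (Pi * A.1.1 * P) * Pi = (P * Pi) * A.1.1 * (P * Pi) := by
            simp only [Matrix.mul_assoc]
        _ = A.1.1 := by rw [hPPi, Matrix.one_mul, Matrix.mul_one]
    rw [← hAA']
    exact hA'K

end Cfsg.Agent.H97.SU3
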