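import Mathlib
import Cfsg.Agent.H97.SU3c

/-!
# The generic pair of conjugate regular unipotents in `SU_3(q)` (helper97)

`u' = vm 1 β`, `u = um a₀ b₀` with `u' u u'` upper triangular with diagonal `(ν, ν⁻², ν)`.
-/

set_option autoImplicit false

namespace Cfsg.Agent.H97.SU3

open Matrix Cfsg.Agent.H97.RG3

variable {F : Type*} [Field F]

/-- From "all scalars stabilise `Aset`" to all isotropic transvections. -/
theorem main_of_stab (σ : F →+* F) (hσσ : ∀ x, σ (σ x) = x) (a b a' b' : F) (ha : a ≠ 0)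
    (hab : b + σ b + a * σ a = 0) (hb' : b' ≠ 0) (hn' : b' + σ b' + a' * σ a' = 0)
    (t0 : F) (ht0 : t0 + σ t0 = 1)
    (hstab : ∀ H : Subgroup (SpecialLinearGroup (Fin 3) F), H ≤ GJ σ → inH H (um σ a b) →
      inH H (vm σ a' b') → ∀ y : F, y ∈ (stab (Aset σ H) : Subring F))
    (H : Subgroup (SpecialLinearGroup (Fin 3) F)) (hu : inH H (um σ a b))
    (hu' : inH H (vm σ a' b')) (x : Fin 3 → F) (c : F)
    (hx : x 0 * σ (x 2) + x 1 * σ (x 1) + x 2 * σ (x 0) = 0) (hJ : IsJ σ (Tm σ x c)) :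
    inH H (Tm σ x c) := by
  have hu1 : inH (H ⊓ GJ σ) (um σ a b) := inH_inf.2 ⟨hu, isJ_um σ hσσ hab⟩
  have hu1' : inH (H ⊓ GJ σ) (vm σ a' b') := inH_inf.2 ⟨hu', isJ_vm σ hσσ hn'⟩
  have hst := hstab (H ⊓ GJ σ) inf_le_right hu1 hu1'
  have hall : ∀ y : F, y ∈ Aset σ (H ⊓ GJ σ) := by
    intro y
    have h1 := (mem_stab _ _).1 (hst (y / a)) a ⟨b, hu1⟩
    have h2 : (y / a) • a = y := by
      rw [smul_eq_mul]
      field_simp
    rwa [h2] at h1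
  have hU := inH_um_of_all σ hσσ (inf_le_right : H ⊓ GJ σ ≤ GJ σ) hall t0 ht0
  by_cases hx0 : x = 0
  · rw [hx0, Tm_zero]
    exact inH_one
  · have hc := trace_zero_of_isJ_Tm σ hσσ x c hx hx0 hJ
    exact (inH_inf.1 (inH_Tm σ hσσ hU a' b' hb' hn' hu1' x c hx hc)).1

theorem um_sub_one (σ : F →+* F) (a b : F) :
    um σ a b - 1 = !![0, a, b; 0, 0, -σ a; 0, 0, 0] := by
  ext i j
  fin_cases i <;> fin_cases j <;> simp [um]

theorem um_nil3 (σ : F →+* F) (a b : F) :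
    (um σ a b - 1) * (um σ a b - 1) * (um σ a b - 1) = 0 := by
  rw [um_sub_one, mul_fin_three, mul_fin_three]
  ext i j
  fin_cases i <;> fin_cases j <;> simp

theorem um_nil2 (σ : F →+* F) {a : F} (ha : a ≠ 0) (b : F) :
    (um σ a b - 1) * (um σ a b - 1) ≠ 0 := by
  rw [um_sub_one, mul_fin_three]
  intro h
  have h1 := congrFun (congrFun h 0) 2
  simp at h1
  exact ha h1

/-- The conjugating element `w · u(s,t) · d(μ)`. -/
theorem conj_elt (σ : F →+* F) (hσσ : ∀ x, σ (σ x) = x) {μ : F} (hμ : μ ≠ 0) (s t a b : F) :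
    (wm * (um σ s t * dm σ μ)) * um σ a b =
      vm σ (μ ^ 2 * a / σ μ)
        (μ * σ μ * b + (μ ^ 2 * a / σ μ) * σ s - s * σ (μ ^ 2 * a / σ μ)) *
        (wm * (um σ s t * dm σ μ)) := by
  calc (wm * (um σ s t * dm σ μ)) * um σ a b
      = wm * (um σ s t * (dm σ μ * um σ a b)) := by simp only [Matrix.mul_assoc]
    _ = wm * (um σ s t * (um σ (μ ^ 2 * a / σ μ) (μ * σ μ * b) * dm σ μ)) := by
        rw [dm_mul_um σ hσσ hμ]
    _ = wm * ((um σ s t * um σ (μ ^ 2 * a / σ μ) (μ * σ μ * b)) * dm σ μ) := by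
        simp only [Matrix.mul_assoc]
    _ = wm * ((um σ (μ ^ 2 * a / σ μ)
          (μ * σ μ * b + (μ ^ 2 * a / σ μ) * σ s - s * σ (μ ^ 2 * a / σ μ)) * um σ s t) *
          dm σ μ) := by rw [um_comm]
    _ = (wm * um σ (μ ^ 2 * a / σ μ)
          (μ * σ μ * b + (μ ^ 2 * a / σ μ) * σ s - s * σ (μ ^ 2 * a / σ μ))) *
          (um σ s t * dm σ μ) := by simp only [Matrix.mul_assoc]
    _ = _ := by rw [wm_mul_um]; simp only [Matrix.mul_assoc]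

theorem isJ_conj_elt (σ : F →+* F) (hσσ : ∀ x, σ (σ x) = x) {μ : F} (hμ : μ ≠ 0) {s t : F}
    (hst : t + σ t + s * σ s = 0) : IsJ σ (wm * (um σ s t * dm σ μ)) :=
  (isJ_wm σ).mul ((isJ_um σ hσσ hst).mul (isJ_dm σ hσσ hμ))

/-! ### The generic family -/

/-- `a₀`. -/
def ga (ν : F) : F := -(1 + ν) ^ 2 / ν

/-- `b₀`. -/
def gb (ν : F) : F := -(1 + ν) * (2 * ν ^ 2 + ν + 1) / ν ^ 2

/-- `β`. -/
def gβ (ν : F) : F := -ν / (1 + ν)

theorem ga_ne (ν : F) (hν0 : ν ≠ 0) (hν1 : 1 + ν ≠ 0) : ga ν ≠ 0 := by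
  unfold ga
  exact div_ne_zero (neg_ne_zero.2 (pow_ne_zero 2 hν1)) hν0

theorem gβ_ne (ν : F) (hν0 : ν ≠ 0) (hν1 : 1 + ν ≠ 0) : gβ ν ≠ 0 := by
  unfold gβ
  exact div_ne_zero (neg_ne_zero.2 hν0) hν1

section generic

variable (σ : F →+* F) (ν : F) (hν0 : ν ≠ 0) (hν1 : 1 + ν ≠ 0) (hσν : σ ν = ν⁻¹)

include hν0 hν1 hσν

theorem σ_ga : σ (ga ν) = ga ν := by
  have hν1' : ν + 1 ≠ 0 := by rwa [add_comm]
  unfold ga
  simp only [map_div₀, map_neg, map_pow, map_add, map_one, hσν]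
  field_simp
  ring

theorem σ_gb : σ (gb ν) = -(1 + ν) * (ν ^ 2 + ν + 2) / ν := by
  have hν1' : ν + 1 ≠ 0 := by rwa [add_comm]
  unfold gb
  simp only [map_div₀, map_neg, map_pow, map_add, map_mul, map_one, map_ofNat, hσν]
  field_simp
  ring

theorem σ_gβ : σ (gβ ν) = -1 / (1 + ν) := by
  have hν1' : ν + 1 ≠ 0 := by rwa [add_comm]
  unfold gβ
  simp only [map_div₀, map_neg, map_add, map_one, hσν]
  field_simp
  ring

theorem g_norm_u : gb ν + σ (gb ν) + ga ν * σ (ga ν) = 0 := by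
  rw [σ_gb σ ν hν0 hν1 hσν, σ_ga σ ν hν0 hν1 hσν]
  unfold ga gb
  field_simp
  ring

theorem g_norm_v : gβ ν + σ (gβ ν) + 1 * σ 1 = 0 := by
  rw [σ_gβ σ ν hν0 hν1 hσν, map_one]
  unfold gβ
  field_simp
  ring

theorem g_h : vm σ 1 (gβ ν) * um σ (ga ν) (gb ν) * vm σ 1 (gβ ν) =
    !![ν, ga ν - gb ν, gb ν; 0, (ν ^ 2)⁻¹, gb ν - ga ν; 0, 0, ν] := by
  rw [vm, um, σ_ga σ ν hν0 hν1 hσν, map_one, mul_fin_three, mul_fin_three]
  unfold ga gb gβ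
  apply ext3
  · field_simp; ring
  · field_simp; ring
  · field_simp; ring
  · field_simp; ring
  · field_simp; ring
  · field_simp; ring
  · field_simp; ring
  · field_simp; ring
  · field_simp; ring

theorem generic_stab {H : Subgroup (SpecialLinearGroup (Fin 3) F)}
    (hu : inH H (um σ (ga ν) (gb ν))) (hu' : inH H (vm σ 1 (gβ ν))) :
    ν ^ 3 ∈ (stab (Aset σ H) : Subring F) := by
  have hW := inH_mul (inH_mul hu' hu) hu'
  rw [g_h σ ν hν0 hν1 hσν] at hW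
  have h22 : (ν ^ 2)⁻¹ ≠ 0 := inv_ne_zero (pow_ne_zero 2 hν0)
  have hk : ν / (ν ^ 2)⁻¹ = ν ^ 3 := by field_simp
  have hc : σ (ν / (ν ^ 2)⁻¹) * ν = (ν ^ 2)⁻¹ := by
    rw [hk, map_pow, hσν]
    field_simp
  have := mem_stab_of_upper σ ν (ga ν - gb ν) (gb ν) (ν ^ 2)⁻¹ (gb ν - ga ν) ν h22 hν0 hc hW
  rwa [hk] at this

/-- The conjugating element for the generic family. -/
theorem generic_conj (hσσ : ∀ x, σ (σ x) = x) :
    ∃ g : Matrix (Fin 3) (Fin 3) F, IsJ σ g ∧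
      g * um σ (ga ν) (gb ν) = vm σ 1 (gβ ν) * g := by
  have hν1' : ν + 1 ≠ 0 := by rwa [add_comm]
  have hga := ga_ne ν hν0 hν1
  have hμ : (ga ν)⁻¹ ≠ 0 := inv_ne_zero hga
  have hσμ : σ (ga ν)⁻¹ = (ga ν)⁻¹ := by rw [map_inv₀, σ_ga σ ν hν0 hν1 hσν]
  obtain ⟨s, hs⟩ : ∃ s : F, s = -1 / (1 + ν) ^ 3 := ⟨_, rfl⟩
  obtain ⟨t, ht⟩ : ∃ t : F, t = -ν ^ 3 / (1 + ν) ^ 7 := ⟨_, rfl⟩
  have hσs : σ s = -ν ^ 3 / (1 + ν) ^ 3 := by
    rw [hs]
    simp only [map_div₀, map_neg, map_pow, map_add, map_one, hσν]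
    field_simp
    ring
  have hσt : σ t = -ν ^ 4 / (1 + ν) ^ 7 := by
    rw [ht]
    simp only [map_div₀, map_neg, map_pow, map_add, map_one, hσν]
    field_simp
    ring
  have hst : t + σ t + s * σ s = 0 := by
    rw [hσs, hσt, hs, ht]
    field_simp
    ring
  refine ⟨wm * (um σ s t * dm σ (ga ν)⁻¹), isJ_conj_elt σ hσσ hμ hst, ?_⟩
  rw [conj_elt σ hσσ hμ]
  have e1 : (ga ν)⁻¹ ^ 2 * ga ν / σ (ga ν)⁻¹ = 1 := by
    rw [hσμ]
    field_simp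
  rw [e1]
  have e2 : (ga ν)⁻¹ * σ (ga ν)⁻¹ * gb ν + 1 * σ s - s * σ 1 = gβ ν := by
    rw [hσμ, hσs, hs, map_one]
    unfold ga gb gβ
    field_simp
    ring
  rw [e2]

end generic

end Cfsg.Agent.H97.SU3
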