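import Mathlib
import Cfsg.Agent.H97.SU3d

/-!
# Field-theoretic input for `SU_3(q)` generation (helper97)
-/

set_option autoImplicit false

namespace Cfsg.Agent.H97.SU3

open Matrix Cfsg.Agent.H97.RG3

variable {F : Type*} [Field F]

/-- A subring of a finite field is a subfield: its cardinality data. -/
theorem subring_card [Fintype F] (S : Subring F) :
    ∃ k n : ℕ, 2 ≤ k ∧ Fintype.card F = k ^ n ∧ (∀ x ∈ S, x ^ k = x) ∧
      (n = 1 → ∀ y : F, y ∈ S) := by
  classical
  have hq : 2 ≤ Fintype.card F := Fintype.one_lt_card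
  have hinv : ∀ x ∈ S, x⁻¹ ∈ S := by
    intro x hx
    by_cases hx0 : x = 0
    · subst hx0
      rw [_root_.inv_zero]
      exact S.zero_mem
    · have h1 : x ^ (Fintype.card F - 1) = 1 := FiniteField.pow_card_sub_one_eq_one x hx0
      have h2 : x⁻¹ = x ^ (Fintype.card F - 2) := by
        apply inv_eq_of_mul_eq_one_right
        rw [← pow_succ']
        have : Fintype.card F - 2 + 1 = Fintype.card F - 1 := by omega
        rw [this, h1]
      rw [h2]
      exact S.pow_mem hx _
  let K : Subfield F := { S with inv_mem' := hinv }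
  have hKS : ∀ x : F, x ∈ K ↔ x ∈ S := fun x => Iff.rfl
  have hpow : Fintype.card F = Fintype.card K ^ Module.finrank K F := Module.card_eq_pow_finrank
  refine ⟨Fintype.card K, Module.finrank K F, Fintype.one_lt_card, hpow, ?_, ?_⟩
  · intro x hx
    have h1 := FiniteField.pow_card (⟨x, (hKS x).2 hx⟩ : K)
    have h2 := congrArg Subtype.val h1
    simpa using h2
  · intro hn y
    rw [hn, pow_one] at hpow
    have hbij : Function.Bijective (Subtype.val : K → F) :=
      (Fintype.bijective_iff_injective_and_card _).mpr ⟨Subtype.val_injective, hpow.symm⟩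
    obtain ⟨x, rfl⟩ := hbij.2 y
    exact (hKS _).mp x.2

/-- The subring generated by `ν³`, `ν` of order `q + 1`, is everything unless `q ∈ {5, 8}`. -/
theorem subring_top_generic [Fintype F] (q : ℕ) (hq : 3 ≤ q) (hF : Fintype.card F = q ^ 2)
    (hq5 : q ≠ 5) (hq8 : q ≠ 8) (z : F) (hz0 : z ≠ 0)
    (hz : ∀ N : ℕ, z ^ N = 1 → (q ^ 2 - 1) ∣ N) (S : Subring F)
    (hS : (z ^ (q - 1)) ^ 3 ∈ S) : ∀ y : F, y ∈ S := by
  obtain ⟨k, n, hk2, hkn, hfix, htop⟩ := subring_card S
  rw [hF] at hkn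
  have h1 := hfix _ hS
  have h2 : z ^ ((q - 1) * (3 * (k - 1))) = 1 := by
    have hw0 : (z ^ (q - 1)) ^ 3 ≠ 0 := pow_ne_zero _ (pow_ne_zero _ hz0)
    have h3 : ((z ^ (q - 1)) ^ 3) ^ (k - 1) * (z ^ (q - 1)) ^ 3 = 1 * (z ^ (q - 1)) ^ 3 := by
      rw [← pow_succ, one_mul]
      have : k - 1 + 1 = k := by omega
      rw [this, h1]
    have h4 := mul_right_cancel₀ hw0 h3
    rw [← h4, ← pow_mul, ← pow_mul]
  have h3 := hz _ h2
  have hq1 : q ^ 2 - 1 = (q - 1) * (q + 1) := by
    have h4 : 1 ≤ q := by omega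
    zify [h4, Nat.one_le_pow 2 q (by omega)]
    ring
  rw [hq1] at h3
  have h4 : (q + 1) ∣ 3 * (k - 1) := Nat.dvd_of_mul_dvd_mul_left (by omega) h3
  have h5 : q + 1 ≤ 3 * (k - 1) := Nat.le_of_dvd (by omega) h4
  rcases Nat.lt_or_ge n 3 with hn | hn
  · interval_cases n
    · rw [pow_zero] at hkn
      nlinarith
    · exact htop rfl
    · exfalso
      have hqk : q = k := by
        have := Nat.pow_left_injective (n := 2) (by norm_num) hkn
        exact this
      subst hqk
      obtain ⟨m, hm⟩ := h4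
      have hm2 : m ≤ 2 := by
        by_contra hcon
        push Not at hcon
        have : (q + 1) * 3 ≤ (q + 1) * m := Nat.mul_le_mul_left _ hcon
        omega
      interval_cases m
      · omega
      · omega
      · omega
  · exfalso
    have h6 : k ^ 3 ≤ q ^ 2 := by
      rw [hkn]
      exact Nat.pow_le_pow_right (by omega) hn
    have h7 : q + 4 ≤ 3 * k := by omega
    have h8 : (q + 4) ^ 3 ≤ (3 * k) ^ 3 := Nat.pow_le_pow_left h7 3
    have h9 : ((q : ℤ) - 8) ^ 2 * ((q : ℤ) + 1) ≤ 0 := by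
      have h10 : ((q : ℤ) + 4) ^ 3 ≤ (3 * (k : ℤ)) ^ 3 := by exact_mod_cast h8
      have h11 : (k : ℤ) ^ 3 ≤ (q : ℤ) ^ 2 := by exact_mod_cast h6
      nlinarith
    have h10 : ((q : ℤ) - 8) ^ 2 ≤ 0 := by
      by_contra hcon
      push Not at hcon
      have : (0 : ℤ) < ((q : ℤ) - 8) ^ 2 * ((q : ℤ) + 1) := by positivity
      omega
    have h11 : ((q : ℤ) - 8) ^ 2 = 0 := le_antisymm h10 (sq_nonneg _)
    have h12 : (q : ℤ) - 8 = 0 := by
      exact pow_eq_zero_iff (by norm_num) |>.mp h11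
    apply hq8
    omega

/-- The semilinear data of a field with `q²` elements. -/
theorem field_setup [Fintype F] (q : ℕ) (hq : 3 ≤ q) (hF : Fintype.card F = q ^ 2) :
    ∃ (σ : F →+* F) (z ε : F), (∀ x, σ x = x ^ q) ∧ (∀ x, σ (σ x) = x) ∧ z ≠ 0 ∧
      (∀ N : ℕ, z ^ N = 1 → (q ^ 2 - 1) ∣ N) ∧ ε * σ ε = -1 := by
  classical
  obtain ⟨p, hp⟩ := CharP.exists F
  have := hp
  obtain ⟨n, hpr, hcard⟩ := FiniteField.card F p
  have : Fact p.Prime := ⟨hpr⟩
  have hqdvd : q ∣ p ^ (n : ℕ) := by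
    rw [← hcard, hF]
    exact Dvd.intro_left (q ^ 1) (by ring)
  obtain ⟨m, -, hqm⟩ := (Nat.dvd_prime_pow hpr).1 hqdvd
  have hσ : ∀ x : F, iterateFrobenius F p m x = x ^ q := by
    intro x
    rw [iterateFrobenius_def, hqm]
  have hσσ : ∀ x : F, iterateFrobenius F p m (iterateFrobenius F p m x) = x := by
    intro x
    rw [hσ, hσ, ← pow_mul, ← pow_two, ← hF, FiniteField.pow_card]
  obtain ⟨x, hx⟩ := IsCyclic.exists_monoid_generator (α := Fˣ)
  have hord : orderOf x = q ^ 2 - 1 := by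
    have h1 : orderOf x = Nat.card Fˣ := by
      apply orderOf_eq_card_of_forall_mem_zpowers
      intro y
      obtain ⟨k, hk⟩ := (Submonoid.mem_powers_iff _ _).mp (hx y)
      rw [← hk]
      exact Subgroup.npow_mem_zpowers x k
    rw [h1, Nat.card_eq_fintype_card, Fintype.card_units, hF]
  have hz : ∀ N : ℕ, (x : F) ^ N = 1 → (q ^ 2 - 1) ∣ N := by
    intro N hN
    rw [← hord]
    apply orderOf_dvd_of_pow_eq_one
    apply Units.ext
    rw [Units.val_pow_eq_pow_val, hN, Units.val_one]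
  have hzq : (x : F) ^ (q ^ 2 - 1) = 1 := by
    have := FiniteField.pow_card_sub_one_eq_one (x : F) x.ne_zero
    rwa [hF] at this
  have hε : ∃ ε : F, ε * iterateFrobenius F p m ε = -1 := by
    by_cases h2 : p = 2
    · refine ⟨1, ?_⟩
      rw [map_one, mul_one]
      have h3 : ((2 : ℕ) : F) = 0 := by
        have := CharP.cast_eq_zero F p
        rwa [h2] at this
      have h4 : (2 : F) = 0 := by exact_mod_cast h3
      linear_combination h4
    · have hodd : Odd q := by
        rw [hqm]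
        exact Odd.pow (hpr.odd_of_ne_two h2)
      obtain ⟨r, hr⟩ := hodd
      refine ⟨(x : F) ^ r, ?_⟩
      rw [hσ, ← pow_succ']
      have h3 : ((x : F) ^ r) ^ (q + 1) = (x : F) ^ (r * (q + 1)) := by rw [← pow_mul]
      rw [h3]
      have h4 : 2 * (r * (q + 1)) = q ^ 2 - 1 := by
        have h5 : 1 ≤ q ^ 2 := Nat.one_le_pow 2 q (by omega)
        zify [h5]
        rw [hr]
        push_cast
        ring
      have h5 : ((x : F) ^ (r * (q + 1))) ^ 2 = 1 := by
        rw [← pow_mul, mul_comm, h4, hzq]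
      rcases sq_eq_one_iff.1 h5 with h6 | h6
      · exfalso
        have h7 := hz _ h6
        have h8 : q ^ 2 - 1 ≤ r * (q + 1) := Nat.le_of_dvd (by
          have : 0 < r := by omega
          positivity) h7
        have h9 : 0 < r * (q + 1) := by
          have : 0 < r := by omega
          positivity
        omega
      · exact h6
  obtain ⟨ε, hε⟩ := hε
  exact ⟨iterateFrobenius F p m, (x : F), ε, hσ, hσσ, x.ne_zero, hz, hε⟩

end Cfsg.Agent.H97.SU3
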