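import Mathlib
import Cfsg.Agent.H97.SU3e

/-!
# `SU_3(q)`: base change and the generic case (helper97)
-/

set_option autoImplicit false

namespace Cfsg.Agent.H97.SU3

open Matrix Cfsg.Agent.H97.RG3

variable {F : Type*} [Field F]

/-- Base change from isotropic to orthonormal coordinates. -/
def Pm (ν ε : F) : Matrix (Fin 3) (Fin 3) F :=
  !![1, 0, ν / (1 + ν); ε, 0, -ε / (1 + ν); 0, 1, 0]

theorem Pm_J (σ : F →+* F) (ν ε : F) (hν0 : ν ≠ 0) (hν1 : 1 + ν ≠ 0) (hσν : σ ν = ν⁻¹)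
    (hε : ε * σ ε = -1) : (Pm ν ε)ᵀ * (Pm ν ε).map σ = Jm := by
  have hν1' : ν + 1 ≠ 0 := by rwa [add_comm]
  have hε0 : ε ≠ 0 := by
    rintro rfl
    simp at hε
  have hσε : σ ε = -ε⁻¹ := by
    field_simp
    linear_combination hε
  ext i j
  fin_cases i <;> fin_cases j <;>
    simp [Pm, Jm, Matrix.mul_apply, Fin.sum_univ_three, map_div₀, map_neg, map_add, hσν, hσε] <;>
    field_simp <;> ring

theorem nu_facts [Fintype F] (q : ℕ) (hq : 3 ≤ q) (hF : Fintype.card F = q ^ 2) (σ : F →+* F)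
    (hσ : ∀ x, σ x = x ^ q) (z : F) (hz0 : z ≠ 0)
    (hz : ∀ N : ℕ, z ^ N = 1 → (q ^ 2 - 1) ∣ N) :
    z ^ (q - 1) ≠ 0 ∧ 1 + z ^ (q - 1) ≠ 0 ∧ σ (z ^ (q - 1)) = (z ^ (q - 1))⁻¹ := by
  have hq1 : q ^ 2 - 1 = (q - 1) * (q + 1) := by
    have h4 : 1 ≤ q := by omega
    zify [h4, Nat.one_le_pow 2 q (by omega)]
    ring
  refine ⟨pow_ne_zero _ hz0, ?_, ?_⟩
  · intro h
    have h1 : z ^ (q - 1) = -1 := by linear_combination h
    have h2 : z ^ ((q - 1) * 2) = 1 := by rw [pow_mul, h1]; norm_num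
    have h3 := hz _ h2
    rw [hq1] at h3
    have h4 : (q - 1) * (q + 1) ≤ (q - 1) * 2 := Nat.le_of_dvd (by omega) h3
    have h5 : q + 1 ≤ 2 := Nat.le_of_mul_le_mul_left h4 (by omega)
    omega
  · apply eq_inv_of_mul_eq_one_left
    rw [hσ, ← pow_succ, ← pow_mul, ← hq1]
    have := FiniteField.pow_card_sub_one_eq_one z hz0
    rwa [hF] at this

theorem family_case (q : ℕ) (hq0 : q ≠ 0) (σ : F →+* F) (hσ : ∀ x, σ x = x ^ q)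
    (hσσ : ∀ x, σ (σ x) = x)
    (hgen : Subgroup.closure {A : ↥(Cfsg.SU 3 F q) | ∃ (v : Fin 3 → F) (c : F),
      Cfsg.hermForm 3 F q v v = 0 ∧
        ((A : Matrix.SpecialLinearGroup (Fin 3) F) : Matrix (Fin 3) (Fin 3) F)
          = Cfsg.unitaryTransvection 3 q v c} = ⊤)
    (P : Matrix (Fin 3) (Fin 3) F) (hPJ : Pᵀ * P.map σ = Jm)
    (ν : F) (hν0 : ν ≠ 0) (hν1 : 1 + ν ≠ 0) (hσν : σ ν = ν⁻¹)
    (hS : ∀ H : Subgroup (SpecialLinearGroup (Fin 3) F), inH H (um σ (ga ν) (gb ν)) →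
      inH H (vm σ 1 (gβ ν)) → ∀ y : F, y ∈ (stab (Aset σ H) : Subring F)) :
    ∃ u₁ g₁ : ↥(Cfsg.SU 3 F q),
      (IsNilpotent (((u₁ : Matrix.SpecialLinearGroup (Fin 3) F) : Matrix (Fin 3) (Fin 3) F) - 1) ∧
        (((u₁ : Matrix.SpecialLinearGroup (Fin 3) F) : Matrix (Fin 3) (Fin 3) F) - 1) ^ (3 - 1) ≠ 0) ∧
      Subgroup.closure ({u₁, g₁ * u₁ * g₁⁻¹} : Set ↥(Cfsg.SU 3 F q)) = ⊤ := by
  have hν1' : ν + 1 ≠ 0 := by rwa [add_comm]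
  obtain ⟨g, hgJ, hconj⟩ := generic_conj σ ν hν0 hν1 hσν hσσ
  have hnu := g_norm_u σ ν hν0 hν1 hσν
  have hnv := g_norm_v σ ν hν0 hν1 hσν
  have ht0 : 1 / (1 + ν) + σ (1 / (1 + ν)) = 1 := by
    simp only [map_div₀, map_add, map_one, hσν]
    field_simp
    ring
  refine transport q hq0 σ hσ hgen P hPJ (um σ (ga ν) (gb ν)) (vm σ 1 (gβ ν)) g
    (isJ_um σ hσσ hnu) hgJ hconj (um_nil3 σ _ _) (um_nil2 σ (ga_ne ν hν0 hν1) _) ?_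
  intro H hu hu'
  exact main_of_stab σ hσσ (ga ν) (gb ν) 1 (gβ ν) (ga_ne ν hν0 hν1) hnu (gβ_ne ν hν0 hν1) hnv
    (1 / (1 + ν)) ht0 (fun H' _ hu1 hu1' => hS H' hu1 hu1') H hu hu'

end Cfsg.Agent.H97.SU3
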