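import Mathlib
import Cfsg.Agent.H97.SU3f

/-!
# `SU_3(5)`: an explicit pair of conjugate regular unipotents (helper97)

Generated certificates: `F_25 = F_5[ν]`, `ν² - ν + 1 = 0`; `u = um (3 + 4ν) (1 + ν)`,
`u' = vm 1 (4ν)`, and `u' u u' u'` is upper triangular with `κ = 2 + ν ∉ F_5`.
-/

set_option autoImplicit false
set_option linter.unusedSectionVars false
set_option linter.unusedVariables false
set_option linter.unusedSimpArgs false

namespace Cfsg.Agent.H97.SU3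

open Matrix Cfsg.Agent.H97.RG3

variable {F : Type*} [Field F]

section q5

variable (σ : F →+* F) (ν : F) (hν : ν ^ 2 - ν + 1 = 0) (hp : (5 : F) = 0) (hσν : σ ν = 1 - ν)

include hν hp hσν

theorem q5_σa : σ (3 + 4*ν) = 2 + ν := by
  simp only [map_add, map_mul, map_pow, map_ofNat, map_one, map_neg, map_sub, hσν]
  linear_combination (0) * hν + (1 + (-1)*ν) * hp

theorem q5_um : um σ (3 + 4*ν) (1 + ν) = !![1, 3 + 4*ν, 1 + ν; 0, 1, -(2 + ν); 0, 0, 1] := by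
  rw [um, q5_σa σ ν hν hp hσν]

theorem q5_vm : vm σ 1 (4*ν) = !![1, 0, 0; 1, 1, 0; 4*ν, -1, 1] := by
  rw [vm, map_one]

theorem q5_norm_u : 1 + ν + σ (1 + ν) + (3 + 4*ν) * (σ (3 + 4*ν)) = 0 := by
  simp only [map_add, map_mul, map_pow, map_ofNat, map_one, map_neg, map_sub, hσν]
  linear_combination ((-16)) * hν + (8) * hp

theorem q5_norm_v : 4*ν + σ (4*ν) + 1 * (σ 1) = 0 := by
  simp only [map_add, map_mul, map_pow, map_ofNat, map_one, map_neg, map_sub, hσν]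
  linear_combination (0) * hν + (1) * hp

theorem q5_norm_st : ν + σ ν + (2*ν) * (σ (2*ν)) = 0 := by
  simp only [map_add, map_mul, map_pow, map_ofNat, map_one, map_neg, map_sub, hσν]
  linear_combination ((-4)) * hν + (1) * hp

theorem q5_s1 :
    (!![1, 0, 0; 1, 1, 0; 4*ν, -1, 1] : Matrix (Fin 3) (Fin 3) F) * !![1, 3 + 4*ν, 1 + ν; 0, 1, -(2 + ν); 0, 0, 1] =
      !![1, 3 + 4*ν, 1 + ν; 1, 4 + 4*ν, 4; 4*ν, 3 + 3*ν, 4 + 4*ν] := by
  rw [mul_fin_three]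
  apply ext3
  · linear_combination (0) * hν + (0) * hp
  · linear_combination (0) * hν + (0) * hp
  · linear_combination (0) * hν + (0) * hp
  · linear_combination (0) * hν + (0) * hp
  · linear_combination (0) * hν + (0) * hp
  · linear_combination (0) * hν + ((-1)) * hp
  · linear_combination (0) * hν + (0) * hp
  · linear_combination (16) * hν + ((-4) + 5*ν) * hp
  · linear_combination (4) * hν + ((-1) + ν) * hp

theorem q5_s2 :
    (!![1, 3 + 4*ν, 1 + ν; 1, 4 + 4*ν, 4; 4*ν, 3 + 3*ν, 4 + 4*ν] : Matrix (Fin 3) (Fin 3) F) * !![1, 0, 0; 1, 1, 0; 4*ν, -1, 1] =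
      !![2*ν, 2 + 3*ν, 1 + ν; 0, 4*ν, 4; 2 + 4*ν, 4 + 4*ν, 4 + 4*ν] := by
  rw [mul_fin_three]
  apply ext3
  · linear_combination (4) * hν + (2*ν) * hp
  · linear_combination (0) * hν + (0) * hp
  · linear_combination (0) * hν + (0) * hp
  · linear_combination (0) * hν + (1 + 4*ν) * hp
  · linear_combination (0) * hν + (0) * hp
  · linear_combination (0) * hν + (0) * hp
  · linear_combination (16) * hν + ((-3) + 7*ν) * hp
  · linear_combination (0) * hν + ((-1) + (-1)*ν) * hp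
  · linear_combination (0) * hν + (0) * hp

theorem q5_s3 :
    (!![2*ν, 2 + 3*ν, 1 + ν; 0, 4*ν, 4; 2 + 4*ν, 4 + 4*ν, 4 + 4*ν] : Matrix (Fin 3) (Fin 3) F) * !![1, 0, 0; 1, 1, 0; 4*ν, -1, 1] =
      !![3 + 3*ν, 1 + 2*ν, 1 + ν; 0, 1 + 4*ν, 4; 0, 0, 4 + 4*ν] := by
  rw [mul_fin_three]
  apply ext3
  · linear_combination (4) * hν + ((-1) + 2*ν) * hp
  · linear_combination (0) * hν + (0) * hp
  · linear_combination (0) * hν + (0) * hp
  · linear_combination (0) * hν + (4*ν) * hp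
  · linear_combination (0) * hν + ((-1)) * hp
  · linear_combination (0) * hν + (0) * hp
  · linear_combination (16) * hν + ((-2) + 8*ν) * hp
  · linear_combination (0) * hν + (0) * hp
  · linear_combination (0) * hν + (0) * hp

theorem q5_w22 : 1 + 4*ν ≠ 0 := by
  intro h0
  have h1 : (1 : F) = 0 := by
    linear_combination (ν) * h0 + ((-4)) * hν + (1 + (-1)*ν) * hp
  exact one_ne_zero h1

theorem q5_w33 : 4 + 4*ν ≠ 0 := by
  intro h0
  have h1 : (1 : F) = 0 := by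
    linear_combination (1 + 2*ν) * h0 + ((-8)) * hν + (1 + (-4)*ν) * hp
  exact one_ne_zero h1

theorem q5_a_ne : 3 + 4*ν ≠ 0 := by
  intro h0
  have h1 : (1 : F) = 0 := by
    linear_combination (1 + 3*ν) * h0 + ((-12)) * hν + (2 + (-5)*ν) * hp
  exact one_ne_zero h1

theorem q5_β_ne : 4*ν ≠ 0 := by
  intro h0
  have h1 : (1 : F) = 0 := by
    linear_combination (4 + ν) * h0 + ((-4)) * hν + (1 + (-4)*ν) * hp
  exact one_ne_zero h1

theorem q5_μ_ne : 2 + 4*ν ≠ 0 := by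
  intro h0
  have h1 : (1 : F) = 0 := by
    linear_combination (2 + 2*ν) * h0 + ((-8)) * hν + (1 + (-4)*ν) * hp
  exact one_ne_zero h1

theorem q5_κ : (3 + 3*ν) / (1 + 4*ν) = 2 + ν := by
  rw [div_eq_iff (q5_w22 σ ν hν hp hσν)]
  linear_combination ((-4)) * hν + (1 + (-2)*ν) * hp

theorem q5_hc : (σ (2 + ν)) * (4 + 4*ν) = 1 + 4*ν := by
  simp only [map_add, map_mul, map_pow, map_ofNat, map_one, map_neg, map_sub, hσν]
  linear_combination ((-4)) * hν + (3) * hp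

theorem q5_e1 : (2 + 4*ν) ^ 2 * (3 + 4*ν) / σ (2 + 4*ν) = 1 := by
  rw [div_eq_one_iff_eq ((map_ne_zero σ).2 (q5_μ_ne σ ν hν hp hσν))]
  simp only [map_add, map_mul, map_pow, map_ofNat, map_one, map_neg, map_sub, hσν]
  linear_combination (176 + 64*ν) * hν + ((-34) + 36*ν) * hp

theorem q5_e2 : ((2 + 4*ν) * (σ (2 + 4*ν))) * (1 + ν) + 1 * (σ (2*ν)) - ((2*ν) * (σ 1)) = 4*ν := by
  simp only [map_add, map_mul, map_pow, map_ofNat, map_one, map_neg, map_sub, hσν]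
  linear_combination ((-16) + (-16)*ν) * hν + (6 + 4*ν) * hp

theorem q5_t0 : 3 + σ 3 = 1 := by
  simp only [map_add, map_mul, map_pow, map_ofNat, map_one, map_neg, map_sub, hσν]
  linear_combination (0) * hν + (1) * hp

theorem q5_fix (h : σ (2 + ν) = 2 + ν) : False := by
  simp only [map_add, map_mul, map_pow, map_ofNat, map_one, map_neg, map_sub, hσν] at h
  have h1 : (1 : F) = 0 := by
    linear_combination (3 + 4*ν) * h + (8) * hν + ((-2) + 2*ν) * hp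
  exact one_ne_zero h1

theorem q5_stab [Fintype F] (hF : Fintype.card F = 5 ^ 2) (hσ : ∀ x, σ x = x ^ 5)
    {H : Subgroup (SpecialLinearGroup (Fin 3) F)} (hu : inH H (um σ (3 + 4*ν) (1 + ν)))
    (hu' : inH H (vm σ 1 (4*ν))) : ∀ y : F, y ∈ (stab (Aset σ H) : Subring F) := by
  have hW := inH_mul (inH_mul (inH_mul hu' hu) hu') hu'
  rw [q5_um σ ν hν hp hσν, q5_vm σ ν hν hp hσν, q5_s1 σ ν hν hp hσν, q5_s2 σ ν hν hp hσν, q5_s3 σ ν hν hp hσν] at hW
  have hk := q5_κ σ ν hν hp hσν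
  have hc : σ ((3 + 3*ν) / (1 + 4*ν)) * (4 + 4*ν) = 1 + 4*ν := by
    rw [hk]
    exact q5_hc σ ν hν hp hσν
  have hmem := mem_stab_of_upper σ (3 + 3*ν) (1 + 2*ν) (1 + ν) (1 + 4*ν) (4) (4 + 4*ν)
    (q5_w22 σ ν hν hp hσν) (q5_w33 σ ν hν hp hσν) hc hW
  rw [hk] at hmem
  obtain ⟨k, n, hk2, hkn, hfix, htop⟩ := subring_card (stab (Aset σ H) : Subring F)
  rw [hF] at hkn
  rcases Nat.lt_or_ge n 2 with hn | hn
  · interval_cases n
    · norm_num at hkn
    · exact htop rfl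
  · exfalso
    have h1 : k ^ 2 ≤ 5 ^ 2 := by
      rw [hkn]
      exact Nat.pow_le_pow_right (by omega) hn
    have h2 : k ≤ 5 := by nlinarith
    have h3 : k ∣ 5 ^ 2 := by
      rw [hkn]
      exact dvd_pow_self k (by omega)
    have h4 : k = 5 := by
      interval_cases k <;> first | rfl | (norm_num at h3)
    subst h4
    have h5 := hfix _ hmem
    rw [← hσ] at h5
    exact q5_fix σ ν hν hp hσν h5

theorem q5_case [Fintype F] (hF : Fintype.card F = 5 ^ 2) (hσ : ∀ x, σ x = x ^ 5)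
    (hσσ : ∀ x, σ (σ x) = x)
    (hgen : Subgroup.closure {A : ↥(Cfsg.SU 3 F 5) | ∃ (v : Fin 3 → F) (c : F),
      Cfsg.hermForm 3 F 5 v v = 0 ∧
        ((A : Matrix.SpecialLinearGroup (Fin 3) F) : Matrix (Fin 3) (Fin 3) F)
          = Cfsg.unitaryTransvection 3 5 v c} = ⊤)
    (P : Matrix (Fin 3) (Fin 3) F) (hPJ : Pᵀ * P.map σ = Jm) :
    ∃ u₁ g₁ : ↥(Cfsg.SU 3 F 5),
      (IsNilpotent (((u₁ : Matrix.SpecialLinearGroup (Fin 3) F) : Matrix (Fin 3) (Fin 3) F) - 1) ∧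
        (((u₁ : Matrix.SpecialLinearGroup (Fin 3) F) : Matrix (Fin 3) (Fin 3) F) - 1) ^ (3 - 1) ≠ 0) ∧
      Subgroup.closure ({u₁, g₁ * u₁ * g₁⁻¹} : Set ↥(Cfsg.SU 3 F 5)) = ⊤ := by
  have hnu := q5_norm_u σ ν hν hp hσν
  have hnv := q5_norm_v σ ν hν hp hσν
  have hst := q5_norm_st σ ν hν hp hσν
  have hμ := q5_μ_ne σ ν hν hp hσν
  refine transport 5 (by norm_num) σ hσ hgen P hPJ (um σ (3 + 4*ν) (1 + ν)) (vm σ 1 (4*ν))
    (wm * (um σ (2*ν) (ν) * dm σ (2 + 4*ν))) (isJ_um σ hσσ hnu) (isJ_conj_elt σ hσσ hμ hst) ?_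
    (um_nil3 σ _ _) (um_nil2 σ (q5_a_ne σ ν hν hp hσν) _) ?_
  · rw [conj_elt σ hσσ hμ, q5_e1 σ ν hν hp hσν, q5_e2 σ ν hν hp hσν]
  · intro H hu hu'
    exact main_of_stab σ hσσ _ _ 1 _ (q5_a_ne σ ν hν hp hσν) hnu (q5_β_ne σ ν hν hp hσν) hnv 3 (q5_t0 σ ν hν hp hσν)
      (fun H' _ h1 h2 => q5_stab σ ν hν hp hσν hF hσ h1 h2) H hu hu'

end q5

end Cfsg.Agent.H97.SU3
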