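import Mathlib
import Cfsg.Agent.H97.SU3f

/-!
# `SU_3(8)`: an extra upper triangular word for the generic pair (helper97)

Generated certificates: `F_64 = F_2[ν]`, `ν⁶ + ν³ + 1 = 0`. The word `v U v v U v v U v U U V V`
in `u = um a₀ b₀`, `v = vm 1 β` is upper triangular and its torus part gives a scalar `κ ∉ F_4`.
-/

set_option autoImplicit false
set_option linter.unusedSectionVars false
set_option linter.unusedVariables false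
set_option linter.unusedSimpArgs false

namespace Cfsg.Agent.H97.SU3

open Matrix Cfsg.Agent.H97.RG3

variable {F : Type*} [Field F]

section q8

variable (σ : F →+* F) (ν : F) (hν0 : ν ≠ 0) (hν1 : 1 + ν ≠ 0) (hσν' : σ ν = ν⁻¹)
  (hν : ν ^ 6 + ν ^ 3 + 1 = 0) (hp : (2 : F) = 0) (hσν : σ ν = ν ^ 5 + ν ^ 2)

include hν0 hν1 hσν' hν hp hσν

theorem q8_ga : ga ν = ν + ν^2 + ν^5 := by
  unfold ga
  rw [div_eq_iff hν0]
  linear_combination ((-1)) * hν + ((-1)*ν + (-1)*ν^2) * hp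

theorem q8_gb : gb ν = 1 + ν + ν^4 := by
  unfold gb
  rw [div_eq_iff (pow_ne_zero 2 hν0)]
  linear_combination ((-1)) * hν + ((-1)*ν + (-2)*ν^2 + (-1)*ν^3) * hp

theorem q8_gβ : gβ ν = 1 + ν^3 + ν^4 + ν^5 := by
  unfold gβ
  rw [div_eq_iff hν1]
  linear_combination ((-1)) * hν + ((-1)*ν + (-1)*ν^4 + (-1)*ν^5) * hp

theorem q8_um : um σ (ga ν) (gb ν) = !![1, ν + ν^2 + ν^5, 1 + ν + ν^4; 0, 1, -(ν + ν^2 + ν^5); 0, 0, 1] := by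
  rw [um, σ_ga σ ν hν0 hν1 hσν', q8_ga σ ν hν0 hν1 hσν' hν hp hσν, q8_gb σ ν hν0 hν1 hσν' hν hp hσν]

theorem q8_vm : vm σ 1 (gβ ν) = !![1, 0, 0; 1, 1, 0; 1 + ν^3 + ν^4 + ν^5, -1, 1] := by
  rw [vm, map_one, q8_gβ σ ν hν0 hν1 hσν' hν hp hσν]

theorem q8_UUi :
    (!![1, ν + ν^2 + ν^5, 1 + ν + ν^4; 0, 1, -(ν + ν^2 + ν^5); 0, 0, 1] : Matrix (Fin 3) (Fin 3) F) * !![1, ν + ν^2 + ν^5, 1 + ν^2; 0, 1, ν + ν^2 + ν^5; 0, 0, 1] =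
      1 := by
  rw [mul_fin_three, one_fin_three]
  apply ext3
  · linear_combination (0) * hν + (0) * hp
  · linear_combination (0) * hν + (ν + ν^2 + ν^5) * hp
  · linear_combination (2 + ν + ν^4) * hν + (ν^2) * hp
  · linear_combination (0) * hν + (0) * hp
  · linear_combination (0) * hν + (0) * hp
  · linear_combination (0) * hν + (0) * hp
  · linear_combination (0) * hν + (0) * hp
  · linear_combination (0) * hν + (0) * hp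
  · linear_combination (0) * hν + (0) * hp

theorem q8_VVi :
    (!![1, 0, 0; 1, 1, 0; 1 + ν^3 + ν^4 + ν^5, -1, 1] : Matrix (Fin 3) (Fin 3) F) * !![1, 0, 0; 1, 1, 0; ν^3 + ν^4 + ν^5, 1, 1] =
      1 := by
  rw [mul_fin_three, one_fin_three]
  apply ext3
  · linear_combination (0) * hν + (0) * hp
  · linear_combination (0) * hν + (0) * hp
  · linear_combination (0) * hν + (0) * hp
  · linear_combination (0) * hν + (1) * hp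
  · linear_combination (0) * hν + (0) * hp
  · linear_combination (0) * hν + (0) * hp
  · linear_combination (0) * hν + (ν^3 + ν^4 + ν^5) * hp
  · linear_combination (0) * hν + (0) * hp
  · linear_combination (0) * hν + (0) * hp

theorem q8_w0 :
    (!![1, 0, 0; 1, 1, 0; 1 + ν^3 + ν^4 + ν^5, -1, 1] : Matrix (Fin 3) (Fin 3) F) * !![1, ν + ν^2 + ν^5, 1 + ν^2; 0, 1, ν + ν^2 + ν^5; 0, 0, 1] =
      !![1, ν + ν^2 + ν^5, 1 + ν^2; 1, 1 + ν + ν^2 + ν^5, 1 + ν + ν^5; 1 + ν^3 + ν^4 + ν^5, ν, 1 + ν^5] := by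
  rw [mul_fin_three]
  apply ext3
  · linear_combination (0) * hν + (0) * hp
  · linear_combination (0) * hν + (0) * hp
  · linear_combination (0) * hν + (0) * hp
  · linear_combination (0) * hν + (0) * hp
  · linear_combination (0) * hν + (0) * hp
  · linear_combination (0) * hν + (ν^2) * hp
  · linear_combination (0) * hν + (0) * hp
  · linear_combination (1 + ν^2 + ν^3 + ν^4) * hν + ((-1) + (-1)*ν^3 + ν^5) * hp
  · linear_combination (1 + ν) * hν + ((-1)*ν) * hp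

theorem q8_w1 :
    (!![1, ν + ν^2 + ν^5, 1 + ν^2; 1, 1 + ν + ν^2 + ν^5, 1 + ν + ν^5; 1 + ν^3 + ν^4 + ν^5, ν, 1 + ν^5] : Matrix (Fin 3) (Fin 3) F) * !![1, 0, 0; 1, 1, 0; 1 + ν^3 + ν^4 + ν^5, -1, 1] =
      !![1 + ν^5, 1 + ν + ν^5, 1 + ν^2; 1 + ν + ν^5, ν^2, 1 + ν + ν^5; 1 + ν^2, 1 + ν + ν^5, 1 + ν^5] := by
  rw [mul_fin_three]
  apply ext3
  · linear_combination (1 + ν) * hν + (ν^2 + ν^5) * hp
  · linear_combination (0) * hν + ((-1)) * hp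
  · linear_combination (0) * hν + (0) * hp
  · linear_combination ((-1)*ν + ν^2 + ν^3 + ν^4) * hν + (1 + ν + ν^4 + ν^5) * hp
  · linear_combination (0) * hν + (0) * hp
  · linear_combination (0) * hν + (0) * hp
  · linear_combination ((-1) + (-1)*ν + ν^2 + ν^3 + ν^4) * hν + (1 + ν + (-1)*ν^2 + ν^3 + ν^4 + ν^5) * hp
  · linear_combination (0) * hν + ((-1) + (-1)*ν^5) * hp
  · linear_combination (0) * hν + (0) * hp

theorem q8_w2 :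
    (!![1 + ν^5, 1 + ν + ν^5, 1 + ν^2; 1 + ν + ν^5, ν^2, 1 + ν + ν^5; 1 + ν^2, 1 + ν + ν^5, 1 + ν^5] : Matrix (Fin 3) (Fin 3) F) * !![1, 0, 0; 1, 1, 0; 1 + ν^3 + ν^4 + ν^5, -1, 1] =
      !![ν^2, ν + ν^2 + ν^5, 1 + ν^2; ν + ν^5, 1 + ν + ν^2 + ν^5, 1 + ν + ν^5; ν^3 + ν^4, ν, 1 + ν^5] := by
  rw [mul_fin_three]
  apply ext3
  · linear_combination (1 + ν) * hν + (1 + 2*ν^5) * hp
  · linear_combination (0) * hν + ((-1)*ν^2) * hp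
  · linear_combination (0) * hν + (0) * hp
  · linear_combination ((-1)*ν + ν^2 + ν^3 + ν^4) * hν + (1 + ν + ν^4 + ν^5) * hp
  · linear_combination (0) * hν + ((-1) + (-1)*ν + (-1)*ν^5) * hp
  · linear_combination (0) * hν + (0) * hp
  · linear_combination ((-1) + (-1)*ν + ν^2 + ν^3 + ν^4) * hν + (2 + ν + ν^5) * hp
  · linear_combination (0) * hν + (0) * hp
  · linear_combination (0) * hν + (0) * hp

theorem q8_w3 :
    (!![ν^2, ν + ν^2 + ν^5, 1 + ν^2; ν + ν^5, 1 + ν + ν^2 + ν^5, 1 + ν + ν^5; ν^3 + ν^4, ν, 1 + ν^5] : Matrix (Fin 3) (Fin 3) F) * !![1, ν + ν^2 + ν^5, 1 + ν^2; 0, 1, ν + ν^2 + ν^5; 0, 0, 1] =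
      !![ν^2, ν^2 + ν^3 + ν^5, 1 + ν + ν^2; ν + ν^5, 1 + ν + ν^3 + ν^4 + ν^5, 1 + ν + ν^3 + ν^5; ν^3 + ν^4, ν + ν^2 + ν^3 + ν^4 + ν^5, 1 + ν^2 + ν^4] := by
  rw [mul_fin_three]
  apply ext3
  · linear_combination (0) * hν + (0) * hp
  · linear_combination (ν) * hν + (0) * hp
  · linear_combination (2 + ν + ν^4) * hν + ((-1) + (-1)*ν + ν^2) * hp
  · linear_combination (0) * hν + (0) * hp
  · linear_combination (2 + ν^4) * hν + ((-1) + ν^2 + (-1)*ν^3 + (-1)*ν^4) * hp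
  · linear_combination (2 + 2*ν + ν^4) * hν + ((-1) + ν^2 + (-1)*ν^4 + ν^5) * hp
  · linear_combination (0) * hν + (0) * hp
  · linear_combination (ν^2 + ν^3) * hν + ((-1)*ν^2 + (-1)*ν^3) * hp
  · linear_combination (2) * hν + ((-1) + ν^5) * hp

theorem q8_w4 :
    (!![ν^2, ν^2 + ν^3 + ν^5, 1 + ν + ν^2; ν + ν^5, 1 + ν + ν^3 + ν^4 + ν^5, 1 + ν + ν^3 + ν^5; ν^3 + ν^4, ν + ν^2 + ν^3 + ν^4 + ν^5, 1 + ν^2 + ν^4] : Matrix (Fin 3) (Fin 3) F) * !![1, 0, 0; 1, 1, 0; 1 + ν^3 + ν^4 + ν^5, -1, 1] =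
      !![1 + ν^2 + ν^4, 1 + ν + ν^3 + ν^5, 1 + ν + ν^2; 1 + ν + ν^3 + ν^5, ν^4, 1 + ν + ν^3 + ν^5; 1 + ν + ν^2, 1 + ν + ν^3 + ν^5, 1 + ν^2 + ν^4] := by
  rw [mul_fin_three]
  apply ext3
  · linear_combination (2 + ν) * hν + ((-1) + ν^2 + 2*ν^5) * hp
  · linear_combination (0) * hν + ((-1) + (-1)*ν) * hp
  · linear_combination (0) * hν + (0) * hp
  · linear_combination (1 + 2*ν^2 + ν^3 + ν^4) * hν + (ν + (-1)*ν^2 + ν^4 + ν^5) * hp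
  · linear_combination (0) * hν + (0) * hp
  · linear_combination (0) * hν + (0) * hp
  · linear_combination (2*ν + ν^2 + ν^3) * hν + ((-1)*ν + ν^3 + ν^4 + ν^5) * hp
  · linear_combination (0) * hν + ((-1)) * hp
  · linear_combination (0) * hν + (0) * hp

theorem q8_w5 :
    (!![1 + ν^2 + ν^4, 1 + ν + ν^3 + ν^5, 1 + ν + ν^2; 1 + ν + ν^3 + ν^5, ν^4, 1 + ν + ν^3 + ν^5; 1 + ν + ν^2, 1 + ν + ν^3 + ν^5, 1 + ν^2 + ν^4] : Matrix (Fin 3) (Fin 3) F) * !![1, 0, 0; 1, 1, 0; 1 + ν^3 + ν^4 + ν^5, -1, 1] =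
      !![1 + ν, ν^2 + ν^3 + ν^5, 1 + ν + ν^2; 1 + ν^3, 1 + ν + ν^3 + ν^4 + ν^5, 1 + ν + ν^3 + ν^5; 1 + ν^2 + ν^3, ν + ν^2 + ν^3 + ν^4 + ν^5, 1 + ν^2 + ν^4] := by
  rw [mul_fin_three]
  apply ext3
  · linear_combination (2 + ν) * hν + (ν^2 + ν^4 + 2*ν^5) * hp
  · linear_combination (0) * hν + ((-1)*ν^2) * hp
  · linear_combination (0) * hν + (0) * hp
  · linear_combination (1 + 2*ν^2 + ν^3 + ν^4) * hν + (ν + (-1)*ν^2 + ν^4 + ν^5) * hp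
  · linear_combination (0) * hν + ((-1) + (-1)*ν + (-1)*ν^3 + (-1)*ν^5) * hp
  · linear_combination (0) * hν + (0) * hp
  · linear_combination (2*ν + ν^2 + ν^3) * hν + (1 + ν^5) * hp
  · linear_combination (0) * hν + ((-1)*ν^2 + (-1)*ν^4) * hp
  · linear_combination (0) * hν + (0) * hp

theorem q8_w6 :
    (!![1 + ν, ν^2 + ν^3 + ν^5, 1 + ν + ν^2; 1 + ν^3, 1 + ν + ν^3 + ν^4 + ν^5, 1 + ν + ν^3 + ν^5; 1 + ν^2 + ν^3, ν + ν^2 + ν^3 + ν^4 + ν^5, 1 + ν^2 + ν^4] : Matrix (Fin 3) (Fin 3) F) * !![1, ν + ν^2 + ν^5, 1 + ν^2; 0, 1, ν + ν^2 + ν^5; 0, 0, 1] =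
      !![1 + ν, 1 + ν + ν^2 + ν^3, 1 + ν + ν^2 + ν^3; 1 + ν^3, 1 + ν^3, 0; 1 + ν^2 + ν^3, ν + ν^2, ν + ν^2] := by
  rw [mul_fin_three]
  apply ext3
  · linear_combination (0) * hν + (0) * hp
  · linear_combination (1) * hν + ((-1) + ν^2 + ν^5) * hp
  · linear_combination (1 + ν + ν^2 + ν^4) * hν + (0) * hp
  · linear_combination (0) * hν + (0) * hp
  · linear_combination (ν^2) * hν + (ν + ν^4 + ν^5) * hp
  · linear_combination (2 + ν^2 + ν^3 + ν^4) * hν + (ν + ν^2 + 2*ν^5) * hp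
  · linear_combination (0) * hν + (0) * hp
  · linear_combination (ν + ν^2) * hν + (ν^3 + ν^4 + ν^5) * hp
  · linear_combination (2 + ν + ν^2 + ν^3 + ν^4) * hν + ((-1)*ν + ν^2 + ν^4 + ν^5) * hp

theorem q8_w7 :
    (!![1 + ν, 1 + ν + ν^2 + ν^3, 1 + ν + ν^2 + ν^3; 1 + ν^3, 1 + ν^3, 0; 1 + ν^2 + ν^3, ν + ν^2, ν + ν^2] : Matrix (Fin 3) (Fin 3) F) * !![1, 0, 0; 1, 1, 0; 1 + ν^3 + ν^4 + ν^5, -1, 1] =
      !![ν + ν^2, 0, 1 + ν + ν^2 + ν^3; 0, 1 + ν^3, 0; 1 + ν + ν^2 + ν^3, 0, ν + ν^2] := by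
  rw [mul_fin_three]
  apply ext3
  · linear_combination (3 + 2*ν + ν^2) * hν + (ν^5) * hp
  · linear_combination (0) * hν + (0) * hp
  · linear_combination (0) * hν + (0) * hp
  · linear_combination (0) * hν + (1 + ν^3) * hp
  · linear_combination (0) * hν + (0) * hp
  · linear_combination (0) * hν + (0) * hp
  · linear_combination (2 + ν) * hν + ((-1) + ν^2 + (-1)*ν^3 + ν^5) * hp
  · linear_combination (0) * hν + (0) * hp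
  · linear_combination (0) * hν + (0) * hp

theorem q8_w8 :
    (!![ν + ν^2, 0, 1 + ν + ν^2 + ν^3; 0, 1 + ν^3, 0; 1 + ν + ν^2 + ν^3, 0, ν + ν^2] : Matrix (Fin 3) (Fin 3) F) * !![1, ν + ν^2 + ν^5, 1 + ν^2; 0, 1, ν + ν^2 + ν^5; 0, 0, 1] =
      !![ν + ν^2, 1 + ν + ν^2 + ν^3, 1 + ν^4; 0, 1 + ν^3, ν + ν^4 + ν^5; 1 + ν + ν^2 + ν^3, 1 + ν^2 + ν^3 + ν^4 + ν^5, 1 + ν^2 + ν^4 + ν^5] := by
  rw [mul_fin_three]
  apply ext3
  · linear_combination (0) * hν + (0) * hp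
  · linear_combination (1 + ν) * hν + ((-1) + (-1)*ν) * hp
  · linear_combination (0) * hν + (ν + ν^2 + ν^3) * hp
  · linear_combination (0) * hν + (0) * hp
  · linear_combination (0) * hν + (0) * hp
  · linear_combination (ν^2) * hν + (0) * hp
  · linear_combination (0) * hν + (0) * hp
  · linear_combination (1 + ν + ν^2) * hν + ((-1)) * hp
  · linear_combination (0) * hν + (ν + ν^2 + ν^3) * hp

theorem q8_w9 :
    (!![ν + ν^2, 1 + ν + ν^2 + ν^3, 1 + ν^4; 0, 1 + ν^3, ν + ν^4 + ν^5; 1 + ν + ν^2 + ν^3, 1 + ν^2 + ν^3 + ν^4 + ν^5, 1 + ν^2 + ν^4 + ν^5] : Matrix (Fin 3) (Fin 3) F) * !![1, ν + ν^2 + ν^5, 1 + ν^2; 0, 1, ν + ν^2 + ν^5; 0, 0, 1] =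
      !![ν + ν^2, 0, ν + ν^4 + ν^5; 0, 1 + ν^3, 0; 1 + ν + ν^2 + ν^3, 0, 1 + ν + ν^2 + ν^3] := by
  rw [mul_fin_three]
  apply ext3
  · linear_combination (0) * hν + (0) * hp
  · linear_combination (1 + ν) * hν + (ν^2 + ν^3) * hp
  · linear_combination (1 + ν + ν^2) * hν + (ν^2 + ν^3 + ν^4) * hp
  · linear_combination (0) * hν + (0) * hp
  · linear_combination (0) * hν + (0) * hp
  · linear_combination (ν^2) * hν + (ν + ν^4 + ν^5) * hp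
  · linear_combination (0) * hν + (0) * hp
  · linear_combination (1 + ν + ν^2) * hν + (ν^2 + ν^3 + ν^4 + ν^5) * hp
  · linear_combination (1 + ν + ν^2 + ν^3 + ν^4) * hν + (ν^2 + ν^4 + 2*ν^5) * hp

theorem q8_w10 :
    (!![ν + ν^2, 0, ν + ν^4 + ν^5; 0, 1 + ν^3, 0; 1 + ν + ν^2 + ν^3, 0, 1 + ν + ν^2 + ν^3] : Matrix (Fin 3) (Fin 3) F) * !![1, 0, 0; 1, 1, 0; ν^3 + ν^4 + ν^5, 1, 1] =
      !![1 + ν + ν^2 + ν^3 + ν^5, ν + ν^4 + ν^5, ν + ν^4 + ν^5; 1 + ν^3, 1 + ν^3, 0; ν + ν^3, 1 + ν + ν^2 + ν^3, 1 + ν + ν^2 + ν^3] := by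
  rw [mul_fin_three]
  apply ext3
  · linear_combination ((-1) + 2*ν^2 + 2*ν^3 + ν^4) * hν + ((-1)*ν^2 + (-1)*ν^3 + (-1)*ν^5) * hp
  · linear_combination (0) * hν + (0) * hp
  · linear_combination (0) * hν + (0) * hp
  · linear_combination (0) * hν + (0) * hp
  · linear_combination (0) * hν + (0) * hp
  · linear_combination (0) * hν + (0) * hp
  · linear_combination (3 + 2*ν + ν^2) * hν + ((-1) + (-1)*ν + (-1)*ν^3 + ν^5) * hp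
  · linear_combination (0) * hν + (0) * hp
  · linear_combination (0) * hν + (0) * hp

theorem q8_w11 :
    (!![1 + ν + ν^2 + ν^3 + ν^5, ν + ν^4 + ν^5, ν + ν^4 + ν^5; 1 + ν^3, 1 + ν^3, 0; ν + ν^3, 1 + ν + ν^2 + ν^3, 1 + ν + ν^2 + ν^3] : Matrix (Fin 3) (Fin 3) F) * !![1, 0, 0; 1, 1, 0; ν^3 + ν^4 + ν^5, 1, 1] =
      !![ν^2 + ν^4 + ν^5, 0, ν + ν^4 + ν^5; 0, 1 + ν^3, 0; 0, 0, 1 + ν + ν^2 + ν^3] := by
  rw [mul_fin_three]
  apply ext3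
  · linear_combination ((-1) + 2*ν^2 + 2*ν^3 + ν^4) * hν + (1 + ν + (-1)*ν^2) * hp
  · linear_combination (0) * hν + (ν + ν^4 + ν^5) * hp
  · linear_combination (0) * hν + (0) * hp
  · linear_combination (0) * hν + (1 + ν^3) * hp
  · linear_combination (0) * hν + (0) * hp
  · linear_combination (0) * hν + (0) * hp
  · linear_combination (3 + 2*ν + ν^2) * hν + ((-1) + ν^5) * hp
  · linear_combination (0) * hν + (1 + ν + ν^2 + ν^3) * hp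
  · linear_combination (0) * hν + (0) * hp

theorem q8_w22 : 1 + ν^3 ≠ 0 := by
  intro h0
  have h1 : (1 : F) = 0 := by
    linear_combination (ν^3) * h0 + ((-1)) * hν + (1) * hp
  exact one_ne_zero h1

theorem q8_w33 : 1 + ν + ν^2 + ν^3 ≠ 0 := by
  intro h0
  have h1 : (1 : F) = 0 := by
    linear_combination (ν + ν^5) * h0 + ((-1) + (-1)*ν + (-1)*ν^2) * hν + (1) * hp
  exact one_ne_zero h1

theorem q8_κ : (ν^2 + ν^4 + ν^5) / (1 + ν^3) = ν + ν^2 + ν^4 := by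
  rw [div_eq_iff (q8_w22 σ ν hν0 hν1 hσν' hν hp hσν)]
  linear_combination ((-1)*ν) * hν + (0) * hp

theorem q8_hc : (σ (ν + ν^2 + ν^4)) * (1 + ν + ν^2 + ν^3) = 1 + ν^3 := by
  simp only [map_add, map_mul, map_pow, map_ofNat, map_one, map_neg, map_sub, hσν]
  linear_combination (1 + 2*ν + 3*ν^2 + ν^3 + 2*ν^4 + ν^8 + 2*ν^9 + 2*ν^10 + 5*ν^11 + 3*ν^12 + 3*ν^13 + 4*ν^14 + ν^15 + ν^16 + ν^17) * hν + ((-1) + (-1)*ν + (-1)*ν^2 + (-1)*ν^3 + (-1)*ν^4) * hp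

theorem q8_fix2 (h : (ν^3) ^ 2 = ν^3) : False := by
  have h1 : (1 : F) = 0 := by
    linear_combination (1) * h + ((-1)) * hν + (1 + ν^3) * hp
  exact one_ne_zero h1

theorem q8_fix8 (h : (ν^3) ^ 8 = ν^3) : False := by
  have h1 : (1 : F) = 0 := by
    linear_combination (1) * h + ((-1) + ν^6 + (-1)*ν^9 + ν^15 + (-1)*ν^18) * hν + (1 + ν^3) * hp
  exact one_ne_zero h1

theorem q8_fix4 (h : (ν + ν^2 + ν^4) ^ 4 = ν + ν^2 + ν^4) : False := by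
  have h1 : (1 : F) = 0 := by
    linear_combination (1 + ν + ν^2 + ν^5) * h + (11 + 9*ν + 6*ν^2 + (-1)*ν^3 + (-8)*ν^4 + (-14)*ν^5 + (-19)*ν^6 + (-18)*ν^7 + (-19)*ν^8 + (-13)*ν^9 + (-13)*ν^10 + (-7)*ν^11 + (-4)*ν^12 + (-4)*ν^13 + (-1)*ν^15) * hν + ((-5) + (-4)*ν + (-2)*ν^2 + (-4)*ν^3 + 2*ν^5) * hp
  exact one_ne_zero h1

theorem q8_stab [Fintype F] (hF : Fintype.card F = 8 ^ 2)
    {H : Subgroup (SpecialLinearGroup (Fin 3) F)} (hu : inH H (um σ (ga ν) (gb ν)))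
    (hu' : inH H (vm σ 1 (gβ ν))) : ∀ y : F, y ∈ (stab (Aset σ H) : Subring F) := by
  have hω := generic_stab σ ν hν0 hν1 hσν' hu hu'
  have hU := hu
  have hV := hu'
  rw [q8_um σ ν hν0 hν1 hσν' hν hp hσν] at hU
  rw [q8_vm σ ν hν0 hν1 hσν' hν hp hσν] at hV
  have hUi := inH_inv hU (q8_UUi σ ν hν0 hν1 hσν' hν hp hσν)
  have hVi := inH_inv hV (q8_VVi σ ν hν0 hν1 hσν' hν hp hσν)
  have hw0 : inH H (!![1, ν + ν^2 + ν^5, 1 + ν^2; 1, 1 + ν + ν^2 + ν^5, 1 + ν + ν^5; 1 + ν^3 + ν^4 + ν^5, ν, 1 + ν^5] : Matrix (Fin 3) (Fin 3) F) := by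
    have := inH_mul hV hUi
    rwa [q8_w0 σ ν hν0 hν1 hσν' hν hp hσν] at this
  have hw1 : inH H (!![1 + ν^5, 1 + ν + ν^5, 1 + ν^2; 1 + ν + ν^5, ν^2, 1 + ν + ν^5; 1 + ν^2, 1 + ν + ν^5, 1 + ν^5] : Matrix (Fin 3) (Fin 3) F) := by
    have := inH_mul hw0 hV
    rwa [q8_w1 σ ν hν0 hν1 hσν' hν hp hσν] at this
  have hw2 : inH H (!![ν^2, ν + ν^2 + ν^5, 1 + ν^2; ν + ν^5, 1 + ν + ν^2 + ν^5, 1 + ν + ν^5; ν^3 + ν^4, ν, 1 + ν^5] : Matrix (Fin 3) (Fin 3) F) := by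
    have := inH_mul hw1 hV
    rwa [q8_w2 σ ν hν0 hν1 hσν' hν hp hσν] at this
  have hw3 : inH H (!![ν^2, ν^2 + ν^3 + ν^5, 1 + ν + ν^2; ν + ν^5, 1 + ν + ν^3 + ν^4 + ν^5, 1 + ν + ν^3 + ν^5; ν^3 + ν^4, ν + ν^2 + ν^3 + ν^4 + ν^5, 1 + ν^2 + ν^4] : Matrix (Fin 3) (Fin 3) F) := by
    have := inH_mul hw2 hUi
    rwa [q8_w3 σ ν hν0 hν1 hσν' hν hp hσν] at this
  have hw4 : inH H (!![1 + ν^2 + ν^4, 1 + ν + ν^3 + ν^5, 1 + ν + ν^2; 1 + ν + ν^3 + ν^5, ν^4, 1 + ν + ν^3 + ν^5; 1 + ν + ν^2, 1 + ν + ν^3 + ν^5, 1 + ν^2 + ν^4] : Matrix (Fin 3) (Fin 3) F) := by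
    have := inH_mul hw3 hV
    rwa [q8_w4 σ ν hν0 hν1 hσν' hν hp hσν] at this
  have hw5 : inH H (!![1 + ν, ν^2 + ν^3 + ν^5, 1 + ν + ν^2; 1 + ν^3, 1 + ν + ν^3 + ν^4 + ν^5, 1 + ν + ν^3 + ν^5; 1 + ν^2 + ν^3, ν + ν^2 + ν^3 + ν^4 + ν^5, 1 + ν^2 + ν^4] : Matrix (Fin 3) (Fin 3) F) := by
    have := inH_mul hw4 hV
    rwa [q8_w5 σ ν hν0 hν1 hσν' hν hp hσν] at this
  have hw6 : inH H (!![1 + ν, 1 + ν + ν^2 + ν^3, 1 + ν + ν^2 + ν^3; 1 + ν^3, 1 + ν^3, 0; 1 + ν^2 + ν^3, ν + ν^2, ν + ν^2] : Matrix (Fin 3) (Fin 3) F) := by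
    have := inH_mul hw5 hUi
    rwa [q8_w6 σ ν hν0 hν1 hσν' hν hp hσν] at this
  have hw7 : inH H (!![ν + ν^2, 0, 1 + ν + ν^2 + ν^3; 0, 1 + ν^3, 0; 1 + ν + ν^2 + ν^3, 0, ν + ν^2] : Matrix (Fin 3) (Fin 3) F) := by
    have := inH_mul hw6 hV
    rwa [q8_w7 σ ν hν0 hν1 hσν' hν hp hσν] at this
  have hw8 : inH H (!![ν + ν^2, 1 + ν + ν^2 + ν^3, 1 + ν^4; 0, 1 + ν^3, ν + ν^4 + ν^5; 1 + ν + ν^2 + ν^3, 1 + ν^2 + ν^3 + ν^4 + ν^5, 1 + ν^2 + ν^4 + ν^5] : Matrix (Fin 3) (Fin 3) F) := by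
    have := inH_mul hw7 hUi
    rwa [q8_w8 σ ν hν0 hν1 hσν' hν hp hσν] at this
  have hw9 : inH H (!![ν + ν^2, 0, ν + ν^4 + ν^5; 0, 1 + ν^3, 0; 1 + ν + ν^2 + ν^3, 0, 1 + ν + ν^2 + ν^3] : Matrix (Fin 3) (Fin 3) F) := by
    have := inH_mul hw8 hUi
    rwa [q8_w9 σ ν hν0 hν1 hσν' hν hp hσν] at this
  have hw10 : inH H (!![1 + ν + ν^2 + ν^3 + ν^5, ν + ν^4 + ν^5, ν + ν^4 + ν^5; 1 + ν^3, 1 + ν^3, 0; ν + ν^3, 1 + ν + ν^2 + ν^3, 1 + ν + ν^2 + ν^3] : Matrix (Fin 3) (Fin 3) F) := by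
    have := inH_mul hw9 hVi
    rwa [q8_w10 σ ν hν0 hν1 hσν' hν hp hσν] at this
  have hw11 : inH H (!![ν^2 + ν^4 + ν^5, 0, ν + ν^4 + ν^5; 0, 1 + ν^3, 0; 0, 0, 1 + ν + ν^2 + ν^3] : Matrix (Fin 3) (Fin 3) F) := by
    have := inH_mul hw10 hVi
    rwa [q8_w11 σ ν hν0 hν1 hσν' hν hp hσν] at this
  have hk := q8_κ σ ν hν0 hν1 hσν' hν hp hσν
  have hc : σ ((ν^2 + ν^4 + ν^5) / (1 + ν^3)) * (1 + ν + ν^2 + ν^3) = 1 + ν^3 := by
    rw [hk]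
    exact q8_hc σ ν hν0 hν1 hσν' hν hp hσν
  have hmem := mem_stab_of_upper σ (ν^2 + ν^4 + ν^5) (0) (ν + ν^4 + ν^5) (1 + ν^3) (0) (1 + ν + ν^2 + ν^3)
    (q8_w22 σ ν hν0 hν1 hσν' hν hp hσν) (q8_w33 σ ν hν0 hν1 hσν' hν hp hσν) hc hw11
  rw [hk] at hmem
  obtain ⟨k, n, hk2, hkn, hfix, htop⟩ := subring_card (stab (Aset σ H) : Subring F)
  rw [hF] at hkn
  rcases Nat.lt_or_ge n 2 with hn | hn
  · interval_cases n
    · norm_num at hkn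
    · exact htop rfl
  · exfalso
    have h1 : k ^ 2 ≤ 8 ^ 2 := by
      rw [hkn]
      exact Nat.pow_le_pow_right (by omega) hn
    have h2 : k ≤ 8 := by nlinarith
    have h3 : k ∣ 8 ^ 2 := by
      rw [hkn]
      exact dvd_pow_self k (by omega)
    have h4 : k = 2 ∨ k = 4 ∨ k = 8 := by
      interval_cases k
      · left; rfl
      · exfalso; norm_num at h3
      · right; left; rfl
      · exfalso; norm_num at h3
      · exfalso; norm_num at h3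
      · exfalso; norm_num at h3
      · right; right; rfl
    rcases h4 with rfl | rfl | rfl
    · exact q8_fix2 σ ν hν0 hν1 hσν' hν hp hσν (hfix _ hω)
    · exact q8_fix4 σ ν hν0 hν1 hσν' hν hp hσν (hfix _ hmem)
    · exact q8_fix8 σ ν hν0 hν1 hσν' hν hp hσν (hfix _ hω)

end q8

end Cfsg.Agent.H97.SU3
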