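import Mathlib
import Cfsg.Agent.H97.SU3g
import Cfsg.Agent.H97.SU3h

/-!
# `SU_3(q)`, `q ≥ 3`, is generated by two conjugate regular unipotents (helper97)

Assembly, given the generation of `SU_3(q)` by unitary transvections.
-/

set_option autoImplicit false

namespace Cfsg.Agent.H97.SU3

open Matrix Cfsg.Agent.H97.RG3

variable {F : Type*} [Field F]

theorem su3_main [Fintype F] (q : ℕ) (hq : 3 ≤ q) (hF : Fintype.card F = q ^ 2)
    (hgen : Subgroup.closure {A : ↥(Cfsg.SU 3 F q) | ∃ (v : Fin 3 → F) (c : F),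
      Cfsg.hermForm 3 F q v v = 0 ∧
        ((A : Matrix.SpecialLinearGroup (Fin 3) F) : Matrix (Fin 3) (Fin 3) F)
          = Cfsg.unitaryTransvection 3 q v c} = ⊤) :
    ∃ u₁ g₁ : ↥(Cfsg.SU 3 F q),
      (IsNilpotent (((u₁ : Matrix.SpecialLinearGroup (Fin 3) F) : Matrix (Fin 3) (Fin 3) F) - 1) ∧
        (((u₁ : Matrix.SpecialLinearGroup (Fin 3) F) : Matrix (Fin 3) (Fin 3) F) - 1) ^ (3 - 1) ≠ 0) ∧
      Subgroup.closure ({u₁, g₁ * u₁ * g₁⁻¹} : Set ↥(Cfsg.SU 3 F q)) = ⊤ := by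
  obtain ⟨σ, z, ε, hσ, hσσ, hz0, hz, hε⟩ := field_setup q hq hF
  obtain ⟨hν0, hν1, hσν⟩ := nu_facts q hq hF σ hσ z hz0 hz
  have hzq : z ^ (q ^ 2 - 1) = 1 := by
    have := FiniteField.pow_card_sub_one_eq_one z hz0
    rwa [hF] at this
  have hcard0 : ((q ^ 2 : ℕ) : F) = 0 := by
    rw [← hF]
    exact Nat.cast_card_eq_zero F
  obtain ⟨ν, hνz⟩ : ∃ ν : F, ν = z ^ (q - 1) := ⟨_, rfl⟩
  rw [← hνz] at hν0 hν1 hσν
  have hPJ := Pm_J σ ν ε hν0 hν1 hσν hε
  by_cases h5 : q = 5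
  · subst h5
    have hp : (5 : F) = 0 := by
      have h1 : (5 : F) ^ 2 = 0 := by exact_mod_cast hcard0
      exact pow_eq_zero_iff (by norm_num) |>.mp h1
    have h6 : ν ^ 6 = 1 := by
      rw [hνz, ← pow_mul]
      exact hzq
    have h3 : ν ^ 3 ≠ 1 := by
      intro h
      rw [hνz, ← pow_mul] at h
      have := hz _ h
      omega
    have hν : ν ^ 2 - ν + 1 = 0 := by
      have h7 : (ν ^ 3 - 1) * ((1 + ν) * (ν ^ 2 - ν + 1)) = 0 := by linear_combination h6
      rcases mul_eq_zero.1 h7 with h8 | h8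
      · exact absurd (sub_eq_zero.1 h8) h3
      · rcases mul_eq_zero.1 h8 with h9 | h9
        · exact absurd h9 hν1
        · exact h9
    have hσν5 : σ ν = 1 - ν := by
      rw [hσν]
      exact inv_eq_of_mul_eq_one_right (by linear_combination -hν)
    exact q5_case σ ν hν hp hσν5 hF hσ hσσ hgen _ hPJ
  by_cases h8 : q = 8
  · subst h8
    have hp : (2 : F) = 0 := by
      have h1 : (2 : F) ^ 6 = 0 := by
        have : ((8 ^ 2 : ℕ) : F) = (2 : F) ^ 6 := by norm_num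
        rw [← this]
        exact hcard0
      exact pow_eq_zero_iff (by norm_num) |>.mp h1
    have h9 : ν ^ 9 = 1 := by
      rw [hνz, ← pow_mul]
      exact hzq
    have h3 : ν ^ 3 ≠ 1 := by
      intro h
      rw [hνz, ← pow_mul] at h
      have := hz _ h
      omega
    have hν : ν ^ 6 + ν ^ 3 + 1 = 0 := by
      have h7 : (ν ^ 3 - 1) * (ν ^ 6 + ν ^ 3 + 1) = 0 := by linear_combination h9
      rcases mul_eq_zero.1 h7 with h8 | h8
      · exact absurd (sub_eq_zero.1 h8) h3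
      · exact h8
    have hσν8 : σ ν = ν ^ 5 + ν ^ 2 := by
      rw [hσν]
      exact inv_eq_of_mul_eq_one_right (by linear_combination hν - hp)
    exact family_case 8 (by norm_num) σ hσ hσσ hgen _ hPJ ν hν0 hν1 hσν
      (fun H hu hu' => q8_stab σ ν hν0 hν1 hσν hν hp hσν8 hF hu hu')
  · refine family_case q (by omega) σ hσ hσσ hgen _ hPJ ν hν0 hν1 hσν (fun H hu hu' => ?_)
    apply subring_top_generic q hq hF h5 h8 z hz0 hz
    rw [← hνz]
    exact generic_stab σ ν hν0 hν1 hσν hu hu'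

end Cfsg.Agent.H97.SU3
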