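import Mathlib
import Cfsg.Agent.H97.Sp4Defs
import Cfsg.Agent.H6.Sp4K1A
import Cfsg.Agent.H6.Sp4K6B
import Cfsg.Agent.H81.Sp4K1B
import Cfsg.Agent.H81.Sp4K3
import Cfsg.Agent.H89.Sp4K4
import Cfsg.Agent.H89.Sp4K5A
import Cfsg.Agent.H3.Sp4K5B
import Cfsg.Agent.H3.Sp4K6A
import Cfsg.Agent.H62.Sp4C1A
import Cfsg.Agent.H62.Sp4C1B
import Cfsg.Agent.H18.Sp4C1C
import Cfsg.Agent.H18.Sp4F1
import Cfsg.Agent.H18.Sp4F2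
import Cfsg.Agent.H18.Sp4F3
import Cfsg.Agent.H64.Sp4Params
import Cfsg.Agent.H69.Sp4C1D
import Cfsg.Agent.H69.Sp4C2A

/-!
# The pieces of the S2460 team project, under one namespace (helper97)

Proved by helper3, helper6, helper18, helper62, helper64, helper69, helper81, helper89.
-/

set_option autoImplicit false

namespace Cfsg.Agent.H97.Sp4P

open Matrix Cfsg.Agent.H97.Sp4

variable {F : Type*} [Field F]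

section Abstract

variable {V : Type*} [AddCommGroup V] [Module F V]

/-- K1A (helper6) -/
theorem cyclic_or_cubic (hd : Module.finrank F V = 4) (f : Module.End F V) :
    (∃ v, LinearIndependent F ![v, f v, f (f v), f (f (f v))]) ∨
    ∃ p q r : F, f * f * f + p • (f * f) + q • f + r • 1 = 0 :=
  Cfsg.Agent.H6.Sp4K1A.cyclic_or_cubic hd f

/-- K1B (helper81) -/
theorem disc_ne_zero {B : LinearMap.BilinForm F V} {g : Module.End F V} (h : SpData B g) (v : V)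
    (hv : LinearIndependent F ![v, g v, g (g v), g (g (g v))]) :
    B v (g v) * (B v (g v) + B v (g (g (g v)))) - B v (g (g v)) ^ 2 ≠ 0 :=
  Cfsg.Agent.H81.Sp4.disc_ne_zero h v hv

/-- K3 (helper81) -/
theorem trichotomy {B : LinearMap.BilinForm F V} {g : Module.End F V} (h : SpData B g)
    (p q r : F) (hrel : g * g * g + p • (g * g) + q • g + r • 1 = 0) :
    g * g = 1 ∨ (∃ c : F, g * g - c • g + 1 = 0) ∨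
      ∃ κ c : F, κ * κ = 1 ∧ (g - κ • 1) * (g * g - c • g + 1) = 0 :=
  Cfsg.Agent.H81.Sp4.trichotomy h p q r hrel

/-- K4 (helper89) -/
theorem invol_data (h2 : (2 : F) ≠ 0) {B : LinearMap.BilinForm F V} {g : Module.End F V}
    (h : SpData B g) (hgg : g * g = 1) (hns : ∀ c : F, g ≠ c • 1) :
    ∃ w₁ w₂ : V, B w₁ w₂ = 0 ∧ B w₁ (g w₁) = 0 ∧ B w₂ (g w₂) = 0 ∧ B w₁ (g w₂) ≠ 0 ∧
      B w₂ (g w₁) = - B w₁ (g w₂) :=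
  Cfsg.Agent.H89.Sp4.invol_data h2 h hgg hns

/-- K5A (helper89) -/
theorem para_of_sq_zero {B : LinearMap.BilinForm F V} {g : Module.End F V} (h : SpData B g)
    (hN : (g - 1) * (g - 1) = 0) (hg : g ≠ 1) : Para B g :=
  Cfsg.Agent.H89.Sp4.para_of_sq_zero h hN hg

/-- K5B (helper3) -/
theorem quad_data {B : LinearMap.BilinForm F V} {g : Module.End F V} (h : SpData B g) (c : F)
    (hrel : g * g - c • g + 1 = 0) (hc : c ≠ 2) (hc' : c ≠ -2) (hns : ∀ a : F, g ≠ a • 1) :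
    ∃ w₁ w₂ : V, B w₁ w₂ = 0 ∧ B w₁ (g w₁) ≠ 0 ∧ B w₂ (g w₂) ≠ 0 ∧ B w₁ (g w₂) = 0 ∧
      B w₂ (g w₁) = 0 :=
  Cfsg.Agent.H3.Sp4.quad_data h c hrel hc hc' hns

/-- K6A (helper3) -/
theorem sq_zero_of_cube_zero {B : LinearMap.BilinForm F V} {g : Module.End F V} (h : SpData B g)
    (h3 : (g - 1) * ((g - 1) * (g - 1)) = 0) : (g - 1) * (g - 1) = 0 :=
  Cfsg.Agent.H3.Sp4.sq_zero_of_cube_zero h h3

/-- K6B (helper6) -/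
theorem t3_data {B : LinearMap.BilinForm F V} {g : Module.End F V} (h : SpData B g) (c : F)
    (hc : c ≠ 2) (hrel : (g - 1) * (g * g - c • g + 1) = 0) (h2 : g * g - c • g + 1 ≠ 0)
    (h1 : g * g ≠ 1) :
    ∃ q₀ : F, q₀ ≠ 0 ∧ ∀ α : F, ∃ w₁ w₂ : V, B w₁ w₂ = 0 ∧ B w₁ (g w₁) = q₀ ∧
      B w₁ (g w₂) = q₀ * (α + c - 1) ∧ B w₂ (g w₁) = q₀ * (α + 1) ∧
      B w₂ (g w₂) = q₀ * (α ^ 2 + α * c + 1) :=
  Cfsg.Agent.H6.Sp4K6B.t3_data h c hc hrel h2 h1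

end Abstract

/-- C1A (helper62) -/
theorem isConjX_upper {τ δ : F} (hN : N1 τ δ) (M S : Matrix (Fin 2) (Fin 2) F)
    (hM : Good2 τ δ M) (hS : Sᵀ = S) : IsConjX τ δ (fromBlocks M (M * S) 0 (M⁻¹)ᵀ) :=
  Cfsg.Agent.H62.Sp4.isConjX_upper hN M S hM hS

/-- C1B (helper62) -/
theorem isConjX_lower {τ δ : F} (hN : N1 τ δ) (M S : Matrix (Fin 2) (Fin 2) F)
    (hM : Good2 τ δ M) (hS : Sᵀ = S) : IsConjX τ δ (fromBlocks M 0 (S * M) (M⁻¹)ᵀ) :=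
  Cfsg.Agent.H62.Sp4.isConjX_lower hN M S hM hS

/-- C1C (helper18) -/
theorem gauss {A B C D M₁ M₂ : Matrix (Fin 2) (Fin 2) F}
    (hb : fromBlocks A B C D ∈ symplecticGroup (Fin 2) F) (hA : A = M₁ * M₂)
    (h1 : M₁.det ≠ 0) (h2 : M₂.det ≠ 0) :
    ∃ S₁ S₂ : Matrix (Fin 2) (Fin 2) F, S₁ᵀ = S₁ ∧ S₂ᵀ = S₂ ∧
      fromBlocks A B C D =
        fromBlocks M₁ 0 (S₁ * M₁) (M₁⁻¹)ᵀ * fromBlocks M₂ (M₂ * S₂) 0 (M₂⁻¹)ᵀ :=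
  Cfsg.Agent.H18.Sp4.gauss hb hA h1 h2

/-- C1D (helper69) -/
theorem block_of_flex {g : Matrix (Fin 2 ⊕ Fin 2) (Fin 2 ⊕ Fin 2) F}
    (hg : g ∈ symplecticGroup (Fin 2) F) (w₁ w₂ : Fin 2 ⊕ Fin 2 → F) (h0 : bf w₁ w₂ = 0)
    (S : Matrix (Fin 2) (Fin 2) F) (hS : Sᵀ = S)
    (hdet : (S * !![bf w₁ (g *ᵥ w₁), bf w₁ (g *ᵥ w₂); bf w₂ (g *ᵥ w₁), bf w₂ (g *ᵥ w₂)]).det ≠ 0) :
    ∃ k ∈ symplecticGroup (Fin 2) F, ∃ B' C' D' : Matrix (Fin 2) (Fin 2) F,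
      g * k = k * fromBlocks
        (S * !![bf w₁ (g *ᵥ w₁), bf w₁ (g *ᵥ w₂); bf w₂ (g *ᵥ w₁), bf w₂ (g *ᵥ w₂)]) B' C' D' :=
  Cfsg.Agent.H69.Sp4.block_of_flex hg w₁ w₂ h0 S hS hdet

/-- C2A (helper69) -/
theorem block_of_para {g : Matrix (Fin 2 ⊕ Fin 2) (Fin 2 ⊕ Fin 2) F}
    (hg : g ∈ symplecticGroup (Fin 2) F) (w₁ w₂ : Fin 2 ⊕ Fin 2 → F)
    (hli : LinearIndependent F ![w₁, w₂]) (h0 : bf w₁ w₂ = 0) (h1 : g *ᵥ w₁ = w₁)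
    (h2 : g *ᵥ w₂ = w₂) :
    ∃ k ∈ symplecticGroup (Fin 2) F, ∃ S : Matrix (Fin 2) (Fin 2) F, Sᵀ = S ∧
      g * k = k * fromBlocks 1 S 0 1 :=
  Cfsg.Agent.H69.Sp4.block_of_para hg w₁ w₂ hli h0 h1 h2

/-- F1 (helper18) -/
theorem halt_tau_zero [Fintype F] (h2 : (2 : F) ≠ 0) {δ : F} (hδ : δ ≠ 0) : HAlt 0 δ :=
  Cfsg.Agent.H18.Sp4.halt_tau_zero h2 hδ

/-- F2 (helper18) -/
theorem halt_ht3_three (h3 : (3 : F) = 0) (hF : ∀ x : F, x = 0 ∨ x = 1 ∨ x = -1) :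
    HAlt (-1 : F) (-1) ∧ HT3 (-1 : F) (-1) :=
  Cfsg.Agent.H18.Sp4.halt_ht3_three h3 hF

/-- F3 (helper18) -/
theorem ht3_of_eps (ε τ δ : F) (hε : ε ≠ 0) (hε2 : ε ^ 2 ≠ 1) : HT3 τ δ :=
  Cfsg.Agent.H18.Sp4.ht3_of_eps ε τ δ hε hε2

/-- PARAMS (helper64) -/
theorem exists_params [Fintype F] (p : ℕ) [Fact p.Prime] [CharP F p] (h3 : 3 ≤ Fintype.card F)
    (hA0 : (2 : F) ≠ 0 → ∀ δ : F, δ ≠ 0 → HAlt 0 δ)
    (hE : ∀ ε τ δ : F, ε ≠ 0 → ε ^ 2 ≠ 1 → HT3 τ δ)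
    (h3A : Fintype.card F = 3 → HAlt (-1 : F) (-1) ∧ HT3 (-1 : F) (-1)) :
    ∃ (τ δ : F) (n : ℕ), N1 τ δ ∧ ((2 : F) ≠ 0 → HAlt τ δ) ∧ HT3 τ δ ∧ Cm τ δ ^ n = 1 ∧
      ¬ p ∣ n :=
  Cfsg.Agent.H64.Sp4.exists_params p h3 hA0 hE h3A

end Cfsg.Agent.H97.Sp4P
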