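import Mathlib
import Cfsg.Agent.H97.Sp4Defs
import Cfsg.Agent.H97.Sp4P

/-!
# Classification of the elements of `Sp_4` by `Flex` / `Para` data (helper97, S2460)
-/

set_option autoImplicit false

namespace Cfsg.Agent.H97.Sp4

open Matrix Cfsg.Agent.H97.Sp4P

variable {F : Type*} [Field F]

theorem good2_Cm (τ δ : F) : Good2 τ δ (Cm τ δ) := by
  refine ⟨by simp [Cm, Matrix.trace_fin_two], by simp [Cm, Matrix.det_fin_two], fun c hc => ?_⟩
  have := congrFun (congrFun hc 1) 0
  simp [Cm] at this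

theorem good2_Cm' (τ δ : F) : Good2 τ δ !![τ, δ; -1, 0] := by
  refine ⟨by simp [Matrix.trace_fin_two], by simp [Matrix.det_fin_two], fun c hc => ?_⟩
  have := congrFun (congrFun hc 1) 0
  simp at this

theorem target_sym (τ δ : F) (Ω : Matrix (Fin 2) (Fin 2) F) (hs : Ωᵀ = Ω) (hd : Ω.det ≠ 0) :
    Target τ δ Ω := by
  refine ⟨δ • Ω⁻¹, Cm τ δ, !![τ, δ; -1, 0], ?_, ?_, good2_Cm τ δ, good2_Cm' τ δ⟩
  · rw [transpose_smul, transpose_nonsing_inv, hs]
  · rw [smul_mul_assoc, nonsing_inv_mul _ (isUnit_iff_ne_zero.mpr hd)]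
    ext i j
    fin_cases i <;> fin_cases j <;> simp [Cm, Matrix.mul_apply, Fin.sum_univ_two, Matrix.one_apply]

section Abstract

variable {V : Type*} [AddCommGroup V] [Module F V]

theorem SpData.neg {B : LinearMap.BilinForm F V} {g : Module.End F V} (h : SpData B g) :
    SpData B (-g) :=
  ⟨h.alt, h.nondeg, h.dim, fun u v => by simp [h.isom]⟩

theorem SpData.antisymm {B : LinearMap.BilinForm F V} {g : Module.End F V} (h : SpData B g)
    (u v : V) : B u v = - B v u := by
  have := h.alt (u + v)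
  simp only [map_add, LinearMap.add_apply, h.alt, zero_add, add_zero] at this
  linear_combination this

/-- K2 -/
theorem flex_of_disc {τ δ : F} {B : LinearMap.BilinForm F V} {g : Module.End F V}
    (h : SpData B g) (v : V)
    (hv : B v (g v) * (B v (g v) + B v (g (g (g v)))) - B v (g (g v)) ^ 2 ≠ 0) :
    Flex B g τ δ := by
  refine ⟨g v, g (g v) + v, ?_, ?_⟩
  · rw [map_add, h.isom, h.antisymm (g v) v]; ring
  · have e1 : B (g v) (g (g v)) = B v (g v) := h.isom _ _
    have e2 : B (g v) (g (g (g v) + v)) = B v (g (g v)) := by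
      rw [map_add, map_add, h.isom, h.alt, add_zero]
    have e3 : B (g (g v) + v) (g (g v)) = B v (g (g v)) := by
      rw [map_add, LinearMap.add_apply, h.alt, zero_add]
    have e4 : B (g (g v) + v) (g (g (g v) + v)) = B v (g v) + B v (g (g (g v))) := by
      rw [map_add, map_add, map_add, LinearMap.add_apply, LinearMap.add_apply, h.isom, h.isom,
        h.antisymm (g (g v)) (g v), h.isom]
      ring
    rw [e1, e2, e3, e4]
    apply target_sym
    · ext i j; fin_cases i <;> fin_cases j <;> rfl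
    · rw [Matrix.det_fin_two_of]
      intro h0; apply hv; linear_combination h0

theorem cls_quad {τ δ : F} {B : LinearMap.BilinForm F V} {g : Module.End F V} (h : SpData B g)
    (c : F) (hrel : g * g - c • g + 1 = 0) (hns : ∀ a : F, g ≠ a • 1) :
    Flex B g τ δ ∨ Para B g ∨ Para B (-g) := by
  by_cases hc : c = 2
  · right; left
    apply para_of_sq_zero h
    · rw [← hrel, hc]; simp only [mul_sub, sub_mul, mul_one, one_mul, ofNat_smul_eq_nsmul]; abel
    · intro h1; exact hns 1 (by rw [one_smul]; exact h1)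
  by_cases hc' : c = -2
  · right; right
    apply para_of_sq_zero h.neg
    · rw [← hrel, hc']
      simp only [mul_sub, sub_mul, mul_one, one_mul, neg_mul, mul_neg, neg_neg, neg_smul,
        ofNat_smul_eq_nsmul]
      abel
    · intro h1; exact hns (-1) (by rw [neg_smul, one_smul, ← h1, neg_neg])
  left
  obtain ⟨w₁, w₂, h0, ha, hb, h12, h21⟩ := quad_data h c hrel hc hc' hns
  refine ⟨w₁, w₂, h0, ?_⟩
  rw [h12, h21]
  apply target_sym
  · ext i j; fin_cases i <;> fin_cases j <;> rfl
  · rw [Matrix.det_fin_two_of]; simp [ha, hb]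

theorem cls_invol {τ δ : F} (hA : (2 : F) ≠ 0 → HAlt τ δ) {B : LinearMap.BilinForm F V}
    {g : Module.End F V} (h : SpData B g) (hgg : g * g = 1) (hns : ∀ a : F, g ≠ a • 1) :
    Flex B g τ δ ∨ Para B g ∨ Para B (-g) := by
  by_cases h2 : (2 : F) = 0
  · apply cls_quad h 0 _ hns
    rw [hgg, zero_smul, sub_zero]
    have : (2 : F) • (1 : Module.End F V) = 0 := by rw [h2, zero_smul]
    rw [← this, two_smul]
  · left
    obtain ⟨w₁, w₂, h0, h11, h22, h12, h21⟩ := invol_data h2 h hgg hns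
    refine ⟨w₁, w₂, h0, ?_⟩
    rw [h11, h22, h21]
    exact hA h2 _ h12

theorem cls_t3 {τ δ : F} (hA : (2 : F) ≠ 0 → HAlt τ δ) (hT : HT3 τ δ)
    {B : LinearMap.BilinForm F V} {g : Module.End F V} (h : SpData B g) (c : F)
    (hrel : (g - 1) * (g * g - c • g + 1) = 0) (hns : ∀ a : F, g ≠ a • 1) :
    Flex B g τ δ ∨ Para B g ∨ Para B (-g) := by
  by_cases h2 : g * g - c • g + 1 = 0
  · exact cls_quad h c h2 hns
  by_cases h1 : g * g = 1
  · exact cls_invol hA h h1 hns
  by_cases hc : c = 2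
  · exfalso
    apply h2
    have h3 : (g - 1) * ((g - 1) * (g - 1)) = 0 := by
      rw [← hrel, hc]; congr 1
      simp only [mul_sub, sub_mul, mul_one, one_mul, ofNat_smul_eq_nsmul]; abel
    have := sq_zero_of_cube_zero h h3
    rw [← this, hc]
    simp only [mul_sub, sub_mul, mul_one, one_mul, ofNat_smul_eq_nsmul]; abel
  left
  obtain ⟨q₀, hq₀, hα⟩ := t3_data h c hc hrel h2 h1
  obtain ⟨α, hTar⟩ := hT c q₀ hc hq₀
  obtain ⟨w₁, w₂, h0, h11, h12, h21, h22⟩ := hα α
  refine ⟨w₁, w₂, h0, ?_⟩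
  rw [h11, h12, h21, h22]
  exact hTar

/-- the classification: every non-scalar isometry has `Flex` or `Para` data, up to sign -/
theorem classify {τ δ : F} (hA : (2 : F) ≠ 0 → HAlt τ δ) (hT : HT3 τ δ)
    {B : LinearMap.BilinForm F V} {g : Module.End F V} (h : SpData B g)
    (hns : ∀ c : F, g ≠ c • 1) :
    Flex B g τ δ ∨ Flex B (-g) τ δ ∨ Para B g ∨ Para B (-g) := by
  have key : Flex B g τ δ ∨ (Flex B (-g) τ δ ∨ Para B g ∨ Para B (-g)) ∨ Para B g ∨ Para B (-g) →
      Flex B g τ δ ∨ Flex B (-g) τ δ ∨ Para B g ∨ Para B (-g) := by tauto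
  rcases cyclic_or_cubic h.dim g with ⟨v, hv⟩ | ⟨p, q, r, hrel⟩
  · left; exact flex_of_disc h v (disc_ne_zero h v hv)
  rcases trichotomy h p q r hrel with h1 | ⟨c, h2⟩ | ⟨κ, c, hκ, h3⟩
  · rcases cls_invol hA h h1 hns with h' | h' | h' <;> tauto
  · rcases cls_quad (τ := τ) (δ := δ) h c h2 hns with h' | h' | h' <;> tauto
  · have hκ' : κ = 1 ∨ κ = -1 := by
      have : (κ - 1) * (κ + 1) = 0 := by linear_combination hκ
      rcases mul_eq_zero.mp this with h' | h'
      · left; linear_combination h'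
      · right; linear_combination h'
    rcases hκ' with rfl | rfl
    · rw [one_smul] at h3
      rcases cls_t3 hA hT h c h3 hns with h' | h' | h' <;> tauto
    · have hns' : ∀ a : F, -g ≠ a • 1 := fun a ha => hns (-a) (by rw [neg_smul, ← ha, neg_neg])
      have h3' : (-g - 1) * (-g * -g - (-c) • (-g) + 1) = 0 := by
        have : (-g - 1) * (-g * -g - (-c) • (-g) + 1) = -((g - (-1 : F) • 1) * (g * g - c • g + 1)) := by
          simp only [neg_smul, one_smul, smul_neg, neg_neg, neg_mul, mul_neg, sub_neg_eq_add]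
          rw [← neg_mul]; congr 1; abel
        rw [this, h3, neg_zero]
      rcases cls_t3 hA hT h.neg (-c) h3' hns' with h' | h' | h'
      · tauto
      · tauto
      · rw [neg_neg] at h'; tauto

end Abstract

end Cfsg.Agent.H97.Sp4
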