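import Mathlib
import Cfsg.Agent.H97.Sp4Defs
import Cfsg.Agent.H97.Sp4P
import Cfsg.Agent.H97.Sp4Cls

/-!
# From `Flex` / `Para` data to products of two conjugates in `Sp_4(F)` (helper97, S2460)
-/

set_option autoImplicit false

namespace Cfsg.Agent.H97.Sp4

open Matrix Cfsg.Agent.H97.Sp4P

variable {F : Type*} [Field F]

theorem bf_self (v : Fin 2 ⊕ Fin 2 → F) : bf v v = 0 := by
  simp only [bf, J, dotProduct, mulVec, Fintype.sum_sum_type, Fin.sum_univ_two, fromBlocks_apply₁₁,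
    fromBlocks_apply₁₂, fromBlocks_apply₂₁, fromBlocks_apply₂₂, Matrix.zero_apply,
    Matrix.neg_apply, Matrix.one_apply]
  simp
  ring

theorem toBilin_eq_bf (u v : Fin 2 ⊕ Fin 2 → F) : Matrix.toBilin' (J (Fin 2) F) u v = bf u v :=
  Matrix.toBilin'_apply' _ _ _

theorem bf_mulVec {g : Matrix (Fin 2 ⊕ Fin 2) (Fin 2 ⊕ Fin 2) F}
    (hg : g ∈ symplecticGroup (Fin 2) F) (u v : Fin 2 ⊕ Fin 2 → F) :
    bf (g *ᵥ u) (g *ᵥ v) = bf u v := by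
  unfold bf
  rw [← vecMul_transpose, ← dotProduct_mulVec, mulVec_mulVec, mulVec_mulVec,
    SymplecticGroup.mem_iff'.mp hg]

theorem spData_of_mem {g : Matrix (Fin 2 ⊕ Fin 2) (Fin 2 ⊕ Fin 2) F}
    (hg : g ∈ symplecticGroup (Fin 2) F) :
    SpData (Matrix.toBilin' (J (Fin 2) F)) (Matrix.toLin' g) where
  alt v := by rw [toBilin_eq_bf]; exact bf_self v
  nondeg := LinearMap.BilinForm.nondegenerate_toBilin'_of_det_ne_zero' _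
    (isUnit_det_J (Fin 2) F).ne_zero
  dim := by simp
  isom u v := by
    rw [toBilin_eq_bf, toBilin_eq_bf, Matrix.toLin'_apply, Matrix.toLin'_apply]
    exact bf_mulVec hg u v

theorem isUnit_det_Cm {τ δ : F} (hδ : δ ≠ 0) : IsUnit (Cm τ δ).det := by
  rw [isUnit_iff_ne_zero]; simp [Cm, Matrix.det_fin_two, hδ]

theorem xm_mem {τ δ : F} (hδ : δ ≠ 0) : xm τ δ ∈ symplecticGroup (Fin 2) F := by
  rw [SymplecticGroup.mem_iff]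
  have h1 : Cm τ δ * (Cm τ δ)⁻¹ = 1 := mul_nonsing_inv _ (isUnit_det_Cm hδ)
  have h2 : ((Cm τ δ)⁻¹)ᵀ * (Cm τ δ)ᵀ = 1 := by rw [← transpose_mul, h1, transpose_one]
  simp only [xm, J, fromBlocks_multiply, fromBlocks_transpose, transpose_zero, transpose_transpose,
    Matrix.mul_zero, Matrix.zero_mul, Matrix.mul_one, Matrix.mul_neg, Matrix.neg_mul, add_zero,
    zero_add, h1, h2, neg_zero]

/-- group form of `IsConjX` -/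
theorem conj_of_isConjX {τ δ : F} (X : symplecticGroup (Fin 2) F)
    (hX : (X : Matrix (Fin 2 ⊕ Fin 2) (Fin 2 ⊕ Fin 2) F) = xm τ δ)
    {b : Matrix (Fin 2 ⊕ Fin 2) (Fin 2 ⊕ Fin 2) F} (hb : IsConjX τ δ b) :
    ∃ k : symplecticGroup (Fin 2) F, b = ((k * X * k⁻¹ : symplecticGroup (Fin 2) F) :
      Matrix (Fin 2 ⊕ Fin 2) (Fin 2 ⊕ Fin 2) F) := by
  obtain ⟨k, hk, hbk⟩ := hb
  refine ⟨⟨k, hk⟩, ?_⟩
  have h1 : (((⟨k, hk⟩ : symplecticGroup (Fin 2) F) * (⟨k, hk⟩ : symplecticGroup (Fin 2) F)⁻¹ :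
      symplecticGroup (Fin 2) F) : Matrix (Fin 2 ⊕ Fin 2) (Fin 2 ⊕ Fin 2) F) = 1 := by
    rw [mul_inv_cancel]; rfl
  rw [Submonoid.coe_mul] at h1
  rw [Submonoid.coe_mul, Submonoid.coe_mul, hX]
  change b = k * xm τ δ * _
  rw [← hbk, Matrix.mul_assoc]
  rw [show (k * ((⟨k, hk⟩ : symplecticGroup (Fin 2) F)⁻¹ :
      symplecticGroup (Fin 2) F) : Matrix (Fin 2 ⊕ Fin 2) (Fin 2 ⊕ Fin 2) F) = 1 from h1,
    Matrix.mul_one]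

theorem coe_inv_mul_self (K : symplecticGroup (Fin 2) F) :
    ((K⁻¹ : symplecticGroup (Fin 2) F) : Matrix (Fin 2 ⊕ Fin 2) (Fin 2 ⊕ Fin 2) F) *
      (K : Matrix (Fin 2 ⊕ Fin 2) (Fin 2 ⊕ Fin 2) F) = 1 := by
  have := congrArg Subtype.val (inv_mul_cancel K)
  rwa [Submonoid.coe_mul] at this

/-- `g * k = k * b` means `b = k⁻¹ g k` -/
theorem coe_conj_eq (g K : symplecticGroup (Fin 2) F)
    {b : Matrix (Fin 2 ⊕ Fin 2) (Fin 2 ⊕ Fin 2) F}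
    (h : (g : Matrix (Fin 2 ⊕ Fin 2) (Fin 2 ⊕ Fin 2) F) * K = K * b) :
    b = ((K⁻¹ * g * K : symplecticGroup (Fin 2) F) :
      Matrix (Fin 2 ⊕ Fin 2) (Fin 2 ⊕ Fin 2) F) := by
  rw [Submonoid.coe_mul, Submonoid.coe_mul, Matrix.mul_assoc, h, ← Matrix.mul_assoc,
    coe_inv_mul_self, Matrix.one_mul]

/-- `Flex` data give a product of two conjugates of `X` -/
theorem prod_of_flex {τ δ : F} (hN : N1 τ δ) (X : symplecticGroup (Fin 2) F)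
    (hX : (X : Matrix (Fin 2 ⊕ Fin 2) (Fin 2 ⊕ Fin 2) F) = xm τ δ)
    (g : symplecticGroup (Fin 2) F) (w₁ w₂ : Fin 2 ⊕ Fin 2 → F) (h0 : bf w₁ w₂ = 0)
    (hT : Target τ δ !![bf w₁ ((g : Matrix (Fin 2 ⊕ Fin 2) (Fin 2 ⊕ Fin 2) F) *ᵥ w₁),
      bf w₁ ((g : Matrix (Fin 2 ⊕ Fin 2) (Fin 2 ⊕ Fin 2) F) *ᵥ w₂);
      bf w₂ ((g : Matrix (Fin 2 ⊕ Fin 2) (Fin 2 ⊕ Fin 2) F) *ᵥ w₁),
      bf w₂ ((g : Matrix (Fin 2 ⊕ Fin 2) (Fin 2 ⊕ Fin 2) F) *ᵥ w₂)]) :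
    ∃ u v : symplecticGroup (Fin 2) F, g = u * X * u⁻¹ * (v * X * v⁻¹) := by
  obtain ⟨S, M₁, M₂, hS, hSΩ, hM₁, hM₂⟩ := hT
  have hdet : (S * !![bf w₁ ((g : Matrix (Fin 2 ⊕ Fin 2) (Fin 2 ⊕ Fin 2) F) *ᵥ w₁),
      bf w₁ ((g : Matrix (Fin 2 ⊕ Fin 2) (Fin 2 ⊕ Fin 2) F) *ᵥ w₂);
      bf w₂ ((g : Matrix (Fin 2 ⊕ Fin 2) (Fin 2 ⊕ Fin 2) F) *ᵥ w₁),
      bf w₂ ((g : Matrix (Fin 2 ⊕ Fin 2) (Fin 2 ⊕ Fin 2) F) *ᵥ w₂)]).det ≠ 0 := by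
    rw [hSΩ, det_mul, hM₁.2.1, hM₂.2.1]; exact mul_ne_zero hN.1 hN.1
  obtain ⟨k, hk, B', C', D', hgk⟩ := block_of_flex g.2 w₁ w₂ h0 S hS hdet
  have hb := coe_conj_eq g ⟨k, hk⟩ hgk
  have hbmem : fromBlocks (S * !![bf w₁ ((g : Matrix (Fin 2 ⊕ Fin 2) (Fin 2 ⊕ Fin 2) F) *ᵥ w₁),
      bf w₁ ((g : Matrix (Fin 2 ⊕ Fin 2) (Fin 2 ⊕ Fin 2) F) *ᵥ w₂);
      bf w₂ ((g : Matrix (Fin 2 ⊕ Fin 2) (Fin 2 ⊕ Fin 2) F) *ᵥ w₁),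
      bf w₂ ((g : Matrix (Fin 2 ⊕ Fin 2) (Fin 2 ⊕ Fin 2) F) *ᵥ w₂)]) B' C' D' ∈
      symplecticGroup (Fin 2) F := by
    rw [hb]; exact Subtype.property _
  obtain ⟨S₁, S₂, hS₁, hS₂, hfac⟩ := gauss hbmem hSΩ (by rw [hM₁.2.1]; exact hN.1)
    (by rw [hM₂.2.1]; exact hN.1)
  obtain ⟨k₁, hk₁⟩ := conj_of_isConjX X hX (isConjX_lower hN M₁ S₁ hM₁ hS₁)
  obtain ⟨k₂, hk₂⟩ := conj_of_isConjX X hX (isConjX_upper hN M₂ S₂ hM₂ hS₂)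
  refine ⟨⟨k, hk⟩ * k₁, ⟨k, hk⟩ * k₂, ?_⟩
  have e : (⟨k, hk⟩ : symplecticGroup (Fin 2) F)⁻¹ * g * ⟨k, hk⟩ =
      k₁ * X * k₁⁻¹ * (k₂ * X * k₂⁻¹) := by
    apply Subtype.ext
    rw [← hb, hfac, hk₁, hk₂]; rfl
  have e' : g = ⟨k, hk⟩ * ((⟨k, hk⟩ : symplecticGroup (Fin 2) F)⁻¹ * g * ⟨k, hk⟩) *
      (⟨k, hk⟩ : symplecticGroup (Fin 2) F)⁻¹ := by group
  rw [e] at e'
  rw [e']; group

theorem good2_CmT (τ δ : F) : Good2 τ δ (Cm τ δ)ᵀ := by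
  refine ⟨by simp [Cm, Matrix.trace_fin_two], by simp [Cm, Matrix.det_fin_two], fun c hc => ?_⟩
  have := congrFun (congrFun hc 0) 1
  simp [Cm] at this

/-- `X⁻¹` is conjugate to `X` -/
theorem inv_conj {τ δ : F} (hN : N1 τ δ) (X : symplecticGroup (Fin 2) F)
    (hX : (X : Matrix (Fin 2 ⊕ Fin 2) (Fin 2 ⊕ Fin 2) F) = xm τ δ) :
    ∃ k : symplecticGroup (Fin 2) F, X⁻¹ = k * X * k⁻¹ := by
  obtain ⟨k₂, hk₂⟩ := conj_of_isConjX X hX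
    (isConjX_upper hN (Cm τ δ)ᵀ 0 (good2_CmT τ δ) transpose_zero)
  have h1 : Cm τ δ * (Cm τ δ)⁻¹ = 1 := mul_nonsing_inv _ (isUnit_det_Cm hN.1)
  have h1' : (Cm τ δ)⁻¹ * Cm τ δ = 1 := nonsing_inv_mul _ (isUnit_det_Cm hN.1)
  have h2 : (Cm τ δ)ᵀ * ((Cm τ δ)ᵀ)⁻¹ = 1 :=
    mul_nonsing_inv _ (by rw [det_transpose]; exact isUnit_det_Cm hN.1)
  have key : (k₂ * X * k₂⁻¹) * SymplecticGroup.symJ (Fin 2) F * X = SymplecticGroup.symJ (Fin 2) F := by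
    apply Subtype.ext
    rw [Submonoid.coe_mul, Submonoid.coe_mul, ← hk₂, hX, SymplecticGroup.coe_J]
    simp only [xm, J, fromBlocks_multiply, transpose_nonsing_inv, transpose_transpose,
      Matrix.mul_zero, Matrix.zero_mul, Matrix.mul_one, Matrix.mul_neg, Matrix.neg_mul, add_zero,
      zero_add, h1', h2, neg_zero]
  refine ⟨(SymplecticGroup.symJ (Fin 2) F)⁻¹ * k₂, ?_⟩
  have h3 : (SymplecticGroup.symJ (Fin 2) F)⁻¹ * ((k₂ * X * k₂⁻¹) *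
      SymplecticGroup.symJ (Fin 2) F) * X = 1 := by
    rw [mul_assoc, key, inv_mul_cancel]
  rw [inv_eq_of_mul_eq_one_left h3]
  simp only [_root_.mul_inv_rev, inv_inv, mul_assoc]

/-- `Para` data give a product of two conjugates of `X` -/
theorem prod_of_para {τ δ : F} (hN : N1 τ δ) (X : symplecticGroup (Fin 2) F)
    (hX : (X : Matrix (Fin 2 ⊕ Fin 2) (Fin 2 ⊕ Fin 2) F) = xm τ δ)
    (g : symplecticGroup (Fin 2) F) (w₁ w₂ : Fin 2 ⊕ Fin 2 → F)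
    (hli : LinearIndependent F ![w₁, w₂]) (h0 : bf w₁ w₂ = 0)
    (h1 : (g : Matrix (Fin 2 ⊕ Fin 2) (Fin 2 ⊕ Fin 2) F) *ᵥ w₁ = w₁)
    (h2 : (g : Matrix (Fin 2 ⊕ Fin 2) (Fin 2 ⊕ Fin 2) F) *ᵥ w₂ = w₂) :
    ∃ u v : symplecticGroup (Fin 2) F, g = u * X * u⁻¹ * (v * X * v⁻¹) := by
  obtain ⟨k, hk, S, hS, hgk⟩ := block_of_para g.2 w₁ w₂ hli h0 h1 h2
  have hb := coe_conj_eq g ⟨k, hk⟩ hgk
  have hC : Cm τ δ * (Cm τ δ)⁻¹ = 1 := mul_nonsing_inv _ (isUnit_det_Cm hN.1)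
  have hsym : ((Cm τ δ)⁻¹ * S * ((Cm τ δ)⁻¹)ᵀ)ᵀ = (Cm τ δ)⁻¹ * S * ((Cm τ δ)⁻¹)ᵀ := by
    rw [transpose_mul, transpose_mul, transpose_transpose, hS, Matrix.mul_assoc]
  obtain ⟨k₁, hk₁⟩ := conj_of_isConjX X hX
    (isConjX_upper hN (Cm τ δ) ((Cm τ δ)⁻¹ * S * ((Cm τ δ)⁻¹)ᵀ) (good2_Cm τ δ) hsym)
  obtain ⟨k₂, hk₂⟩ := inv_conj hN X hX
  have e : (⟨k, hk⟩ : symplecticGroup (Fin 2) F)⁻¹ * g * ⟨k, hk⟩ * X = k₁ * X * k₁⁻¹ := by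
    apply Subtype.ext
    rw [Submonoid.coe_mul, ← hb, ← hk₁, hX]
    simp only [xm, fromBlocks_multiply, Matrix.mul_zero, Matrix.zero_mul, Matrix.one_mul,
      add_zero, zero_add]
    rw [← Matrix.mul_assoc, ← Matrix.mul_assoc, hC, Matrix.one_mul]
  refine ⟨⟨k, hk⟩ * k₁, ⟨k, hk⟩ * k₂, ?_⟩
  have e2 : (⟨k, hk⟩ : symplecticGroup (Fin 2) F)⁻¹ * g * ⟨k, hk⟩ =
      k₁ * X * k₁⁻¹ * (k₂ * X * k₂⁻¹) := by
    rw [← hk₂, ← e]; group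
  have e' : g = ⟨k, hk⟩ * ((⟨k, hk⟩ : symplecticGroup (Fin 2) F)⁻¹ * g * ⟨k, hk⟩) *
      (⟨k, hk⟩ : symplecticGroup (Fin 2) F)⁻¹ := by group
  rw [e2] at e'
  rw [e']; group

theorem prod_of_data {τ δ : F} (hN : N1 τ δ) (X : symplecticGroup (Fin 2) F)
    (hX : (X : Matrix (Fin 2 ⊕ Fin 2) (Fin 2 ⊕ Fin 2) F) = xm τ δ)
    (g : symplecticGroup (Fin 2) F)
    (h : Flex (Matrix.toBilin' (J (Fin 2) F))
        (Matrix.toLin' (g : Matrix (Fin 2 ⊕ Fin 2) (Fin 2 ⊕ Fin 2) F)) τ δ ∨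
      Para (Matrix.toBilin' (J (Fin 2) F))
        (Matrix.toLin' (g : Matrix (Fin 2 ⊕ Fin 2) (Fin 2 ⊕ Fin 2) F))) :
    ∃ u v : symplecticGroup (Fin 2) F, g = u * X * u⁻¹ * (v * X * v⁻¹) := by
  rcases h with ⟨w₁, w₂, h0, hT⟩ | ⟨w₁, w₂, hli, h0, h1, h2⟩
  · simp only [toBilin_eq_bf, Matrix.toLin'_apply] at h0 hT
    exact prod_of_flex hN X hX g w₁ w₂ h0 hT
  · simp only [toBilin_eq_bf, Matrix.toLin'_apply] at h0 h1 h2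
    exact prod_of_para hN X hX g w₁ w₂ hli h0 h1 h2

/-- the theorem in `Sp_4(F)`: every non-scalar `g` is, up to sign, a product of two conjugates
of `X` -/
theorem sp_main {τ δ : F} (hN : N1 τ δ) (hA : (2 : F) ≠ 0 → HAlt τ δ) (hT : HT3 τ δ)
    (X : symplecticGroup (Fin 2) F)
    (hX : (X : Matrix (Fin 2 ⊕ Fin 2) (Fin 2 ⊕ Fin 2) F) = xm τ δ)
    (g : symplecticGroup (Fin 2) F)
    (hns : ∀ c : F, (g : Matrix (Fin 2 ⊕ Fin 2) (Fin 2 ⊕ Fin 2) F) ≠ c • 1) :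
    ∃ g' u v : symplecticGroup (Fin 2) F,
      ((g' : Matrix (Fin 2 ⊕ Fin 2) (Fin 2 ⊕ Fin 2) F) = g ∨
        (g' : Matrix (Fin 2 ⊕ Fin 2) (Fin 2 ⊕ Fin 2) F) = -g) ∧
      g' = u * X * u⁻¹ * (v * X * v⁻¹) := by
  have hns' : ∀ c : F, Matrix.toLin' (g : Matrix (Fin 2 ⊕ Fin 2) (Fin 2 ⊕ Fin 2) F) ≠ c • 1 := by
    intro c hc
    apply hns c
    apply Matrix.toLin'.injective
    rw [hc, map_smul, Matrix.toLin'_one]; rfl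
  have hneg : Matrix.toLin' (-(g : Matrix (Fin 2 ⊕ Fin 2) (Fin 2 ⊕ Fin 2) F)) =
      -Matrix.toLin' (g : Matrix (Fin 2 ⊕ Fin 2) (Fin 2 ⊕ Fin 2) F) := map_neg _ _
  have hmem : -(g : Matrix (Fin 2 ⊕ Fin 2) (Fin 2 ⊕ Fin 2) F) ∈ symplecticGroup (Fin 2) F :=
    SymplecticGroup.neg_mem g.2
  rcases classify hA hT (spData_of_mem g.2) hns' with h | h | h | h
  · obtain ⟨u, v, huv⟩ := prod_of_data hN X hX g (Or.inl h)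
    exact ⟨g, u, v, Or.inl rfl, huv⟩
  · rw [← hneg] at h
    obtain ⟨u, v, huv⟩ := prod_of_data hN X hX ⟨_, hmem⟩ (Or.inl h)
    exact ⟨⟨_, hmem⟩, u, v, Or.inr rfl, huv⟩
  · obtain ⟨u, v, huv⟩ := prod_of_data hN X hX g (Or.inr h)
    exact ⟨g, u, v, Or.inl rfl, huv⟩
  · rw [← hneg] at h
    obtain ⟨u, v, huv⟩ := prod_of_data hN X hX ⟨_, hmem⟩ (Or.inr h)
    exact ⟨⟨_, hmem⟩, u, v, Or.inr rfl, huv⟩

end Cfsg.Agent.H97.Sp4
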