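import Mathlib
import Cfsg.Prelude.Def_Classical
import Cfsg.Agent.H97.Sp4Defs
import Cfsg.Agent.H97.Sp4P
import Cfsg.Agent.H97.Sp4Cls
import Cfsg.Agent.H97.Sp4Mat

/-!
# `PSp_4(F)`: a class of `p`-regular elements whose square covers the group (helper97, S2460)
-/

set_option autoImplicit false

namespace Cfsg.Agent.H97.Sp4

open Matrix Cfsg.Agent.H97.Sp4P

variable {F : Type*} [Field F]

theorem fromBlocks_diag_pow (A D : Matrix (Fin 2) (Fin 2) F) (n : ℕ) :
    (fromBlocks A 0 0 D) ^ n = fromBlocks (A ^ n) 0 0 (D ^ n) := by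
  induction n with
  | zero => simp [fromBlocks_one]
  | succ n ih => rw [pow_succ, ih, fromBlocks_multiply]; simp [pow_succ]

theorem xm_pow {τ δ : F} (n : ℕ) (h : Cm τ δ ^ n = 1) : xm τ δ ^ n = 1 := by
  rw [xm, fromBlocks_diag_pow, h, ← transpose_pow, Matrix.inv_pow', h, inv_one, transpose_one,
    fromBlocks_one]

theorem three_eq_zero [Fintype F] (hc : Fintype.card F = 3) : (3 : F) = 0 := by
  have := Nat.cast_card_eq_zero F
  rw [hc] at this; exact_mod_cast this

theorem elems_of_card_three [Fintype F] (hc : Fintype.card F = 3) :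
    ∀ x : F, x = 0 ∨ x = 1 ∨ x = -1 := by
  classical
  have h30 := three_eq_zero hc
  have h2 : (2 : F) ≠ 0 := by
    intro h
    have : (1 : F) = 0 := by linear_combination h30 - h
    exact one_ne_zero this
  have hcard : ({0, 1, -1} : Finset F).card = 3 := by
    rw [Finset.card_insert_of_notMem, Finset.card_insert_of_notMem, Finset.card_singleton]
    · simp only [Finset.mem_singleton]
      intro h; apply h2; linear_combination h
    · simp
  have hu : ({0, 1, -1} : Finset F) = Finset.univ :=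
    Finset.eq_univ_of_card _ (by rw [hcard, hc])
  intro x
  have hx : x ∈ ({0, 1, -1} : Finset F) := by rw [hu]; exact Finset.mem_univ x
  simpa using hx

theorem psp_main [Fintype F] (p : ℕ) [Fact p.Prime] [CharP F p] (h3 : 3 ≤ Fintype.card F) :
    ∃ x : Cfsg.PSp 2 F, ¬ p ∣ orderOf x ∧ ∀ g : Cfsg.PSp 2 F, g ≠ 1 →
      ∃ u v : Cfsg.PSp 2 F, g = (u * x * u⁻¹) * (v * x * v⁻¹) := by
  obtain ⟨τ, δ, n, hN, hA, hT, hpow, hpn⟩ := exists_params p h3
    (fun h2 δ hδ => halt_tau_zero h2 hδ) (fun ε τ δ h1 h2 => ht3_of_eps ε τ δ h1 h2)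
    (fun hc => halt_ht3_three (three_eq_zero hc) (elems_of_card_three hc))
  refine ⟨QuotientGroup.mk (⟨xm τ δ, xm_mem hN.1⟩ : symplecticGroup (Fin 2) F), ?_, ?_⟩
  · have hXn : (⟨xm τ δ, xm_mem hN.1⟩ : symplecticGroup (Fin 2) F) ^ n = 1 := by
      apply Subtype.ext
      rw [SubmonoidClass.coe_pow]; exact xm_pow n hpow
    have hx : (QuotientGroup.mk (⟨xm τ δ, xm_mem hN.1⟩ : symplecticGroup (Fin 2) F) :
        Cfsg.PSp 2 F) ^ n = 1 := by
      rw [← QuotientGroup.mk_pow, hXn]; rfl
    intro hdvd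
    exact hpn (hdvd.trans (orderOf_dvd_of_pow_eq_one hx))
  · intro g hg
    obtain ⟨g₀, rfl⟩ := QuotientGroup.mk_surjective g
    have hns : ∀ c : F, (g₀ : Matrix (Fin 2 ⊕ Fin 2) (Fin 2 ⊕ Fin 2) F) ≠ c • 1 := by
      intro c hc
      apply hg
      rw [QuotientGroup.eq_one_iff, Subgroup.mem_center_iff]
      intro h
      apply Subtype.ext
      rw [Submonoid.coe_mul, Submonoid.coe_mul, hc, Matrix.mul_smul, Matrix.smul_mul,
        Matrix.mul_one, Matrix.one_mul]
    obtain ⟨g', u, v, hg', huv⟩ := sp_main hN hA hT ⟨xm τ δ, xm_mem hN.1⟩ rfl g₀ hns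
    refine ⟨QuotientGroup.mk u, QuotientGroup.mk v, ?_⟩
    have hmk : (QuotientGroup.mk g₀ : Cfsg.PSp 2 F) = QuotientGroup.mk g' := by
      rcases hg' with h | h
      · rw [show g' = g₀ from Subtype.ext h]
      · have hz : (⟨-1, SymplecticGroup.neg_mem (one_mem _)⟩ : symplecticGroup (Fin 2) F) ∈
            Subgroup.center (symplecticGroup (Fin 2) F) := by
          rw [Subgroup.mem_center_iff]
          intro h
          apply Subtype.ext
          rw [Submonoid.coe_mul, Submonoid.coe_mul]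
          simp
        have hg'' : g' = (⟨-1, SymplecticGroup.neg_mem (one_mem _)⟩ :
            symplecticGroup (Fin 2) F) * g₀ := by
          apply Subtype.ext
          rw [Submonoid.coe_mul, h]
          simp
        rw [hg'', QuotientGroup.mk_mul, (QuotientGroup.eq_one_iff _).mpr hz, one_mul]
    rw [hmk, huv]; rfl

end Cfsg.Agent.H97.Sp4
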