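import Mathlib
import Cfsg.Agent.H97.SuLDefs
import Cfsg.Agent.H17.SUSimple

/-!
# S2334 / S2335 (team project, helper97): assembly of the Landazuri–Seitz bounds for `SU_n(q)`
from the pieces of `SuLDefs`.
-/

set_option autoImplicit false

namespace Cfsg.Agent.H97.SuL

open Module Cfsg.Agent.H17

universe u

/-- `P(n)`: every finite-dimensional representation of `SU_n(q)` in which some transvection acts
nontrivially has dimension at least `b`. -/
def PB (F : Type u) [Field F] [Fintype F] (q b n : ℕ) : Prop :=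
  ∀ {V : Type} [AddCommGroup V] [Module ℂ V] [FiniteDimensional ℂ V]
    (ρ : Representation ℂ ↥(Cfsg.SU n F q) V),
    (∃ g : ↥(Cfsg.SU n F q), IsTv g ∧ ρ g ≠ 1) → b ≤ finrank ℂ V

section Asm

variable {F : Type u} [Field F] [Fintype F] {q : ℕ}

theorem isE_ext {n : ℕ} {e a : Fin n → F} {c : F} {g g' : ↥(Cfsg.SU n F q)}
    (h : IsE e a c g) (h' : IsE e a c g') : g = g' :=
  su_ext g g' (fun z => by rw [h z, h' z])

theorem isTv_of_isE (hF : Fintype.card F = q ^ 2) {n : ℕ} {e : Fin n → F} {c : F}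
    {g : ↥(Cfsg.SU n F q)} (he : Cfsg.hermForm n F q e e = 0) (h : IsE e 0 c g) : IsTv g := by
  refine ⟨e, c, he, fun z => ?_⟩
  rw [h z, hermForm_zero_right n hF]
  simp

theorem exists_isE_root (hF : Fintype.card F = q ^ 2) {n : ℕ} (e : Fin n → F) (c : F)
    (he : Cfsg.hermForm n F q e e = 0) (hc : c ^ q = -c) :
    ∃ g : ↥(Cfsg.SU n F q), IsE e 0 c g := by
  obtain ⟨E, hE⟩ := ex_E hF e 0 c he (hermForm_zero_left n e) (by
    rw [hc, hermForm_zero_left]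
    ring)
  exact ⟨E, hE⟩

/-- Form values between plane vectors and embedded vectors. -/
theorem form_pl_emb (hF : Fintype.card F = q ^ 2) (hFE : StFormEmb.{u}) (m : ℕ)
    (e : Fin (m + 2) → F) (he : InPl m e) (x : Fin m → F) :
    Cfsg.hermForm (m + 2) F q e (emb m x) = 0 := by
  obtain ⟨w, rfl⟩ := he
  unfold emb
  rw [hFE hF, hermForm_zero_left, hermForm_zero_right 2 hF, add_zero]

theorem form_emb_emb (hF : Fintype.card F = q ^ 2) (hFE : StFormEmb.{u}) (m : ℕ)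
    (x y : Fin m → F) :
    Cfsg.hermForm (m + 2) F q (emb m x) (emb m y) = Cfsg.hermForm m F q x y := by
  unfold emb
  rw [hFE hF, hermForm_zero_left, add_zero]

/-- The common part of the induction step and of the base case `n = 4`. -/
theorem core (hF : Fintype.card F = q ^ 2) (hRC : StRootConj.{u}) (hVec : StVec.{u})
    (hFE : StFormEmb.{u}) (hTF : StTFix.{u}) (hI : StI.{u}) (m : ℕ) (hm : 2 ≤ m)
    {V : Type} [AddCommGroup V] [Module ℂ V] [FiniteDimensional ℂ V]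
    (ρ : Representation ℂ ↥(Cfsg.SU (m + 2) F q) V)
    (hρ : ∃ g : ↥(Cfsg.SU (m + 2) F q), IsTv g ∧ ρ g ≠ 1) :
    ∃ (e f : Fin (m + 2) → F) (e₂ f₂ : Fin m → F), InPl m e ∧ InPl m f ∧
      Cfsg.hermForm (m + 2) F q e e = 0 ∧ Cfsg.hermForm (m + 2) F q f f = 0 ∧
      Cfsg.hermForm (m + 2) F q e f = 1 ∧ Cfsg.hermForm m F q e₂ e₂ = 0 ∧
      Cfsg.hermForm m F q f₂ f₂ = 0 ∧ Cfsg.hermForm m F q e₂ f₂ = 1 ∧
      finrank ℂ (zEig ρ e (fun _ => 1)) + (q - 1) * q ^ m ≤ finrank ℂ V ∧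
      ∃ x : V, x ∈ zEig ρ e (fun _ => 1) ∧
        ∃ (c : F) (g : ↥(Cfsg.SU (m + 2) F q)), c ^ q = -c ∧ IsE (emb m e₂) 0 c g ∧ ρ g x ≠ x := by
  obtain ⟨e, f, he, hf, hee, hff, hef⟩ := hVec hF m
  obtain ⟨e₂, f₂, he₂, hf₂, hef₂, -, -, -⟩ :=
    exists_std_pair (n := m) hF (⟨0, by omega⟩ : Fin m) (⟨1, by omega⟩ : Fin m)
      (by intro h; simpa using congrArg Fin.val h)
  have he0 : e ≠ 0 := by
    rintro rfl
    rw [hermForm_zero_left] at hef
    exact zero_ne_one hef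
  have he₂0 : emb m e₂ ≠ 0 := by
    intro h0
    have h1 := form_emb_emb hF hFE m e₂ f₂
    rw [h0, hermForm_zero_left, hef₂] at h1
    exact zero_ne_one h1
  have hE2 : Cfsg.hermForm (m + 2) F q (emb m e₂) (emb m e₂) = 0 := by
    rw [form_emb_emb hF hFE, he₂]
  have hR1 : RootNT ρ e := hRC hF (by omega) ρ hρ e he0 hee
  have hR2 : RootNT ρ (emb m e₂) := hRC hF (by omega) ρ hρ (emb m e₂) he₂0 hE2
  have hfe2 : Cfsg.hermForm (m + 2) F q f (emb m e₂) = 0 := form_pl_emb hF hFE m f hf e₂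
  have hee2 : Cfsg.hermForm (m + 2) F q e (emb m e₂) = 0 := form_pl_emb hF hFE m e he e₂
  obtain ⟨x, hx, c, g, hc, hg, hgx⟩ :=
    hTF hF e (emb m e₂) f hee hE2 hee2 hff hef hfe2 ρ hR2
  exact ⟨e, f, e₂, f₂, he, hf, hee, hff, hef, he₂, hf₂, hef₂,
    hI hF m (by omega) e he he0 hee ρ hR1, x, hx, c, g, hc, hg, hgx⟩

/-- The induction step `P(m) → P(m + 2)`. -/
theorem step (hF : Fintype.card F = q ^ 2) (hRC : StRootConj.{u}) (hVec : StVec.{u})
    (hFE : StFormEmb.{u}) (hTF : StTFix.{u}) (hI : StI.{u}) (hEmb : StEmb.{u})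
    (hEmbE : StEmbE.{u}) (hEC : StEConj.{u}) (m : ℕ) (hm : 2 ≤ m) (b : ℕ)
    (hP : PB F q b m) : PB F q (b + (q - 1) * q ^ m) (m + 2) := by
  intro V _ _ _ ρ hρ
  obtain ⟨e, f, e₂, f₂, he, hf, hee, hff, hef, he₂, hf₂, hef₂, hcount, x, hx, c, g, hc, hg, hgx⟩ :=
    core hF hRC hVec hFE hTF hI m hm ρ hρ
  obtain ⟨φ, hφ⟩ := hEmb hF m
  -- `φ g'` fixes `e`
  have hfix : ∀ g' : ↥(Cfsg.SU m F q), suAct (φ g') e = e := by
    intro g'
    obtain ⟨w, rfl⟩ := he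
    rw [hφ, suAct_zero]
  have hfix' : ∀ g' : ↥(Cfsg.SU m F q), suAct (φ g')⁻¹ e = e := by
    intro g'
    have h1 := suAct_inv_apply (φ g') e
    rw [hfix g'] at h1
    exact h1
  -- `C` is stable
  have hC : ∀ (g' : ↥(Cfsg.SU m F q)), ∀ v ∈ zEig ρ e (fun _ => (1 : ℂ)),
      ρ (φ g') v ∈ zEig ρ e (fun _ => (1 : ℂ)) := by
    intro g' v hv c' z hc' hz
    have h1 := hEC hF (φ g')⁻¹ z e 0 c' hz
    rw [hfix' g', suAct_zero, inv_inv] at h1
    have h2 := hv c' _ hc' h1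
    have h3 : z * φ g' = φ g' * ((φ g')⁻¹ * z * φ g') := by group
    have h4 : ρ z (ρ (φ g') v) = ρ (z * φ g') v := by rw [map_mul]; rfl
    rw [h4, h3, map_mul, Module.End.mul_apply, h2, map_smul]
  -- the restricted representation
  obtain ⟨τ', hτ'⟩ := exists_isE_root hF e₂ c he₂ hc
  have hτg : φ τ' = g := isE_ext (hEmbE hF m φ hφ e₂ c τ' hτ') hg
  have hnt : ∃ g' : ↥(Cfsg.SU m F q), IsTv g' ∧
      Cfsg.Agent.H44.resRep ρ φ (zEig ρ e (fun _ => (1 : ℂ))) hC g' ≠ 1 := by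
    refine ⟨τ', isTv_of_isE hF he₂ hτ', fun h1 => hgx ?_⟩
    have h2 := congrArg (fun L => ((L ⟨x, hx⟩ : zEig ρ e (fun _ => (1 : ℂ))) : V)) h1
    simp only [Cfsg.Agent.H44.resRep_apply, Module.End.one_apply] at h2
    rw [hτg] at h2
    exact h2
  have hb := hP (Cfsg.Agent.H44.resRep ρ φ (zEig ρ e (fun _ => (1 : ℂ))) hC) hnt
  omega

/-- The base case `n = 3`. -/
theorem base3 (hF : Fintype.card F = q ^ 2) (hRC : StRootConj.{u}) (hVec : StVec.{u})
    (hI : StI.{u}) : PB F q ((q - 1) * q) 3 := by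
  intro V _ _ _ ρ hρ
  obtain ⟨e, f, he, hf, hee, hff, hef⟩ := hVec hF 1
  have he0 : e ≠ 0 := by
    rintro rfl
    rw [hermForm_zero_left] at hef
    exact zero_ne_one hef
  have hR1 : RootNT ρ e := hRC hF (by omega) ρ hρ e he0 hee
  have h1 := hI hF 1 le_rfl e he he0 hee ρ hR1
  rw [pow_one] at h1
  omega

/-- The base case `n = 4`. -/
theorem base4 (hF : Fintype.card F = q ^ 2) (hRC : StRootConj.{u}) (hVec : StVec.{u})
    (hFE : StFormEmb.{u}) (hTF : StTFix.{u}) (hI : StI.{u}) (hCT : StCT.{u}) :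
    PB F q ((q - 1) + (q - 1) * q ^ 2) 4 := by
  intro V _ _ _ ρ hρ
  obtain ⟨e, f, e₂, f₂, he, hf, hee, hff, hef, he₂, hf₂, hef₂, hcount, x, hx, c, g, hc, hg, hgx⟩ :=
    core hF hRC hVec hFE hTF hI 2 le_rfl ρ hρ
  have h1 := hCT hF e f (emb 2 e₂) (emb 2 f₂) hee hff hef
    (by rw [form_emb_emb hF hFE, he₂]) (by rw [form_emb_emb hF hFE, hf₂])
    (by rw [form_emb_emb hF hFE, hef₂]) (form_pl_emb hF hFE 2 e he e₂)
    (form_pl_emb hF hFE 2 e he f₂) (form_pl_emb hF hFE 2 f hf e₂)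
    (form_pl_emb hF hFE 2 f hf f₂) ρ ⟨x, hx, c, g, hc, hg, hgx⟩
  omega

/-- All odd `n`. -/
theorem all_odd (hF : Fintype.card F = q ^ 2) (hRC : StRootConj.{u}) (hVec : StVec.{u})
    (hFE : StFormEmb.{u}) (hTF : StTFix.{u}) (hI : StI.{u}) (hEmb : StEmb.{u})
    (hEmbE : StEmbE.{u}) (hEC : StEConj.{u}) (hAr : StArith) :
    ∀ j : ℕ, PB F q ((q ^ (2 * j + 3) - q) / (q + 1)) (2 * j + 3) := by
  have hq : 1 ≤ q := by
    have := two_le_of_card_sq hF
    omega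
  intro j
  induction j with
  | zero =>
    have h1 := (hAr q 1 hq le_rfl).2.2.1
    show PB F q ((q ^ 3 - q) / (q + 1)) 3
    rw [h1]
    intro V _ _ _ ρ hρ
    exact base3 hF hRC hVec hI ρ hρ
  | succ j ih =>
    have h1 := (hAr q (2 * j + 3) hq (by omega)).1
    have e1 : 2 * (j + 1) + 3 = 2 * j + 3 + 2 := by ring
    rw [e1, h1]
    intro V _ _ _ ρ hρ
    exact step hF hRC hVec hFE hTF hI hEmb hEmbE hEC (2 * j + 3) (by omega) _ (@ih) ρ hρ

/-- All even `n`. -/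
theorem all_even (hF : Fintype.card F = q ^ 2) (hRC : StRootConj.{u}) (hVec : StVec.{u})
    (hFE : StFormEmb.{u}) (hTF : StTFix.{u}) (hI : StI.{u}) (hEmb : StEmb.{u})
    (hEmbE : StEmbE.{u}) (hEC : StEConj.{u}) (hCT : StCT.{u}) (hAr : StArith) :
    ∀ j : ℕ, PB F q ((q ^ (2 * j + 4) - 1) / (q + 1)) (2 * j + 4) := by
  have hq : 1 ≤ q := by
    have := two_le_of_card_sq hF
    omega
  intro j
  induction j with
  | zero =>
    have h1 := (hAr q 1 hq le_rfl).2.2.2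
    show PB F q ((q ^ 4 - 1) / (q + 1)) 4
    rw [h1]
    intro V _ _ _ ρ hρ
    exact base4 hF hRC hVec hFE hTF hI hCT ρ hρ
  | succ j ih =>
    have h1 := (hAr q (2 * j + 4) hq (by omega)).2.1
    have e1 : 2 * (j + 1) + 4 = 2 * j + 4 + 2 := by ring
    rw [e1, h1]
    intro V _ _ _ ρ hρ
    exact step hF hRC hVec hFE hTF hI hEmb hEmbE hEC (2 * j + 4) (by omega) _ (@ih) ρ hρ

/-- An irreducible representation of degree at least 2 has a transvection acting nontrivially. -/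
theorem exists_tv (hF : Fintype.card F = q ^ 2) (n : ℕ) (hn : 3 ≤ n) (h32 : ¬ (n = 3 ∧ q = 2))
    (k : ℕ) (ρ : Representation ℂ ↥(Cfsg.SU n F q) (Fin k → ℂ)) (hirr : ρ.IsIrreducible)
    (hk : 2 ≤ k) : ∃ g : ↥(Cfsg.SU n F q), IsTv g ∧ ρ g ≠ 1 := by
  by_contra hcon
  push Not at hcon
  have hall : ∀ g : ↥(Cfsg.SU n F q), ρ g = 1 := by
    intro g
    have hg : g ∈ suT n F q := by
      rw [su_gen hF hn h32]
      trivial
    unfold suT at hg
    induction hg using Subgroup.closure_induction with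
    | mem x hx =>
      obtain ⟨v, c, hv, hx⟩ := hx
      refine hcon x ⟨v, c, hv, fun z => ?_⟩
      unfold suAct
      rw [hx, unitaryTransvection_mulVec]
    | one => exact map_one ρ
    | mul x y _ _ hx hy => rw [map_mul, hx, hy, mul_one]
    | inv x _ hx =>
      have h1 : ρ x⁻¹ * ρ x = 1 := by rw [← map_mul, inv_mul_cancel, map_one]
      rw [hx, mul_one] at h1
      exact h1
  have h1 := Cfsg.Agent.H44.finrank_le_one_of_trivial ρ hirr hall
  rw [Module.finrank_fin_fun] at h1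
  omega

/-- S2334 from the pieces. -/
theorem final_odd (hRC : StRootConj.{u}) (hVec : StVec.{u})
    (hFE : StFormEmb.{u}) (hTF : StTFix.{u}) (hI : StI.{u}) (hEmb : StEmb.{u})
    (hEmbE : StEmbE.{u}) (hEC : StEConj.{u}) (hAr : StArith)
    (n q : ℕ) (hn : 3 ≤ n) (hodd : Odd n) (hF : Fintype.card F = q ^ 2)
    (hex : (n, q) ≠ (3, 2)) :
    ∀ (k : ℕ) (ρ : Representation ℂ (Cfsg.SU n F q) (Fin k → ℂ)), ρ.IsIrreducible → 2 ≤ k →
      (q ^ n - q) / (q + 1) ≤ k := by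
  have h32 : ¬ (n = 3 ∧ q = 2) := by
    rintro ⟨h1, h2⟩
    exact hex (by rw [h1, h2])
  obtain ⟨j, rfl⟩ : ∃ j, n = 2 * j + 3 := by
    obtain ⟨i, hi⟩ := hodd
    exact ⟨i - 1, by omega⟩
  intro k ρ hirr hk
  have h1 := all_odd hF hRC hVec hFE hTF hI hEmb hEmbE hEC hAr j ρ
    (exists_tv hF _ hn h32 k ρ hirr hk)
  rw [Module.finrank_fin_fun] at h1
  exact h1

/-- S2335 from the pieces. -/
theorem final_even (hRC : StRootConj.{u}) (hVec : StVec.{u})
    (hFE : StFormEmb.{u}) (hTF : StTFix.{u}) (hI : StI.{u}) (hEmb : StEmb.{u})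
    (hEmbE : StEmbE.{u}) (hEC : StEConj.{u}) (hCT : StCT.{u}) (hAr : StArith)
    (n q : ℕ) (hn : 4 ≤ n) (heven : Even n) (hF : Fintype.card F = q ^ 2) :
    ∀ (k : ℕ) (ρ : Representation ℂ (Cfsg.SU n F q) (Fin k → ℂ)), ρ.IsIrreducible → 2 ≤ k →
      (q ^ n - 1) / (q + 1) ≤ k := by
  have h32 : ¬ (n = 3 ∧ q = 2) := by
    rintro ⟨h1, -⟩
    omega
  obtain ⟨j, rfl⟩ : ∃ j, n = 2 * j + 4 := by
    obtain ⟨i, hi⟩ := heven
    exact ⟨i - 2, by omega⟩
  intro k ρ hirr hk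
  have h1 := all_even hF hRC hVec hFE hTF hI hEmb hEmbE hEC hCT hAr j ρ
    (exists_tv hF _ (by omega) h32 k ρ hirr hk)
  rw [Module.finrank_fin_fun] at h1
  exact h1

end Asm

end Cfsg.Agent.H97.SuL
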