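import Mathlib
import Cfsg.Agent.H97.SuRDefs

/-!
# S2282-PURE (helper97): pure Levi elements and lower unipotents in `H`
-/

set_option autoImplicit false

namespace Cfsg.Agent.H97.SuR

open Matrix Cfsg.Agent.H45.U

variable {F : Type*} [Field F]

theorem pure_inv_mul {k : ℕ} (g : Matrix.SpecialLinearGroup (Fin k) F) :
    ((g⁻¹ : Matrix.SpecialLinearGroup (Fin k) F) : Matrix (Fin k) (Fin k) F) *
      (g : Matrix (Fin k) (Fin k) F) = 1 := by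
  rw [← Matrix.SpecialLinearGroup.coe_mul, inv_mul_cancel, Matrix.SpecialLinearGroup.coe_one]

theorem pure_mul_inv {k : ℕ} (g : Matrix.SpecialLinearGroup (Fin k) F) :
    (g : Matrix (Fin k) (Fin k) F) *
      ((g⁻¹ : Matrix.SpecialLinearGroup (Fin k) F) : Matrix (Fin k) (Fin k) F) = 1 := by
  rw [← Matrix.SpecialLinearGroup.coe_mul, mul_inv_cancel, Matrix.SpecialLinearGroup.coe_one]

/-- The Levi element of `g` as an element of `UH`. -/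
theorem pure_exists_d (σ : F →+* F) (hσ : ∀ a, σ (σ a) = a) {k : ℕ}
    (g : Matrix.SpecialLinearGroup (Fin k) F) :
    ∃ x : ↥(UH σ (Fin k) (Fin 1)), x.1.1 = dU σ (g : Matrix (Fin k) (Fin k) F)
      ((g⁻¹ : Matrix.SpecialLinearGroup (Fin k) F) : Matrix (Fin k) (Fin k) F)
      (1 : Matrix (Fin 1) (Fin 1) F) := by
  refine ⟨mkUH σ _ ?_ (dU_pres σ hσ _ _ _ (pure_inv_mul g) (by rw [ct_one, one_mul])), rfl⟩
  rw [det_dU, g.det_coe, (g⁻¹).det_coe]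
  simp

/-- An upper unipotent in `UH` satisfies the unitarity condition. -/
theorem pure_cond (σ : F →+* F) (hσ : ∀ a, σ (σ a) = a) {k : ℕ}
    (x : ↥(UH σ (Fin k) (Fin 1))) (c : Matrix (Fin k) (Fin 1) F) (S : Matrix (Fin k) (Fin k) F)
    (h : x.1.1 = eU σ c S) : S + ct σ S + c * ct σ c = 0 := by
  ext i j
  have hp := UH_pres x (tri 0 (Pi.single j 1) 0) (tri 0 (Pi.single i 1) 0)
  rw [h, eU_mulVec, eU_mulVec, hH_tri, hH_tri] at hp
  simp only [Matrix.add_apply, Matrix.zero_apply, Matrix.mul_apply, ct_apply]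
  simp [Pi.single_apply, ct_apply, hσ] at hp
  rw [← hp, Fin.sum_univ_one]
  ring

theorem dF_zero (σ : F →+* F) {k : ℕ} (g : Matrix.SpecialLinearGroup (Fin k) F) :
    dF σ g 0 0 = dU σ (g : Matrix (Fin k) (Fin k) F)
      ((g⁻¹ : Matrix.SpecialLinearGroup (Fin k) F) : Matrix (Fin k) (Fin k) F)
      (1 : Matrix (Fin 1) (Fin 1) F) := by
  unfold dF
  rw [eL_zero, mul_one]

/-- S2282-PURE (1) -/
theorem pure_levi (σ : F →+* F) (hσ : ∀ a, σ (σ a) = a) {k : ℕ}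
    (H : Subgroup ↥(UH σ (Fin k) (Fin 1))) (T : Set (Matrix.SpecialLinearGroup (Fin k) F))
    (hQ : Qin σ H) (hd : LiftsU σ H T) :
    ∀ g ∈ T, ∃ x ∈ H, x.1.1 = dF σ g 0 0 := by
  intro g hg
  obtain ⟨c, S, x, hx, hx1⟩ := hd g hg
  obtain ⟨d, hd1⟩ := pure_exists_d σ hσ g
  have hy1 : (d⁻¹ * x).1.1 = eU σ c S := by
    have e1 : (d * (d⁻¹ * x)).1.1 = d.1.1 * eU σ c S := by
      rw [mul_inv_cancel_left, hx1, hd1]; rfl
    rw [UH_mul_coe] at e1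
    have e2 : (d⁻¹ * d).1.1 = 1 := by rw [inv_mul_cancel]; rfl
    rw [UH_mul_coe] at e2
    calc (d⁻¹ * x).1.1 = (d⁻¹.1.1 * d.1.1) * (d⁻¹ * x).1.1 := by rw [e2, one_mul]
      _ = d⁻¹.1.1 * (d.1.1 * (d⁻¹ * x).1.1) := by rw [Matrix.mul_assoc]
      _ = d⁻¹.1.1 * (d.1.1 * eU σ c S) := by rw [e1]
      _ = (d⁻¹.1.1 * d.1.1) * eU σ c S := by rw [Matrix.mul_assoc]
      _ = eU σ c S := by rw [e2, one_mul]
  have hy : d⁻¹ * x ∈ H := hQ _ c S (pure_cond σ hσ _ c S hy1) hy1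
  refine ⟨d, ?_, by rw [hd1, dF_zero]⟩
  have : d = x * (d⁻¹ * x)⁻¹ := by group
  rw [this]
  exact H.mul_mem hx (H.inv_mem hy)

/-- S2282-PURE (2) -/
theorem lower_ne (σ : F →+* F) {k : ℕ} (H : Subgroup ↥(UH σ (Fin k) (Fin 1)))
    (g : Matrix.SpecialLinearGroup (Fin k) F) (c : Matrix (Fin k) (Fin 1) F)
    (S : Matrix (Fin k) (Fin k) F) (x y : ↥(UH σ (Fin k) (Fin 1))) (hx : x ∈ H) (hy : y ∈ H)
    (hx1 : x.1.1 = dF σ g 0 0) (hy1 : y.1.1 = dF σ g⁻¹ c S) :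
    ∃ z ∈ H, z.1.1 = eL σ c S := by
  refine ⟨x * y, H.mul_mem hx hy, ?_⟩
  rw [UH_mul_coe, hx1, hy1, dF_zero]
  unfold dF
  rw [← Matrix.mul_assoc, dU_mul_dU, inv_inv, pure_mul_inv, one_mul, dU_one, one_mul]

end Cfsg.Agent.H97.SuR
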