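import Mathlib

set_option autoImplicit false

namespace Cfsg.Agent.H97

open Polynomial

section ThreeOrbLin

variable {p q : ℕ} [hp : Fact p.Prime] [hq : Fact q.Prime]

theorem cyclotomic_irreducible_of_orderOf (hpq : p ≠ q) (hord : orderOf (p : ZMod q) = q - 1) :
    Irreducible (cyclotomic q (ZMod p)) := by
  have hpn : ¬ p ∣ q := fun h => hpq ((Nat.prime_dvd_prime_iff_eq hp.out hq.out).mp h)
  refine ZMod.irreducible_of_dvd_cyclotomic_of_natDegree hpn dvd_rfl ?_
  rw [natDegree_cyclotomic, Nat.totient_prime hq.out, ← hord, ← orderOf_units,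
    ZMod.coe_unitOfCoprime]

/-- A fixed-point-free endomorphism of order dividing the prime `q` is killed by the `q`-th
cyclotomic polynomial. -/
theorem aeval_cyclotomic_eq_zero {A : Type*} [AddCommGroup A] [Module (ZMod p) A]
    (Xl : Module.End (ZMod p) A) (hXlq : Xl ^ q = 1) (hfix : ∀ a, Xl a = a → a = 0) :
    aeval Xl (cyclotomic q (ZMod p)) = 0 := by
  have h := cyclotomic_prime_mul_X_sub_one (ZMod p) q
  have h' : (X - 1 : (ZMod p)[X]) * cyclotomic q (ZMod p) = X ^ q - 1 := by
    rw [mul_comm]; exact h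
  have h2 : (Xl - 1) * aeval Xl (cyclotomic q (ZMod p)) = 0 := by
    have := congrArg (aeval Xl) h'
    simp only [map_mul, map_sub, aeval_X, map_one, map_pow] at this
    rw [this, hXlq, sub_self]
  refine LinearMap.ext fun a => ?_
  have h3 := LinearMap.congr_fun h2 a
  simp only [Module.End.mul_apply, LinearMap.sub_apply, Module.End.one_apply,
    LinearMap.zero_apply] at h3
  exact hfix _ (sub_eq_zero.mp h3)

theorem lin_back (hpq : p ≠ q) (hord : orderOf (p : ZMod q) = q - 1)
    {A : Type*} [AddCommGroup A] [Finite A] (hpA : ∀ a : A, p • a = 0)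
    (X : A →+ A) (hXq : ∀ a, X^[q] a = a) (hfix : ∀ a, X a = a → a = 0) :
    (∀ v w : A, v ≠ 0 → w ≠ 0 → ∃ T : A ≃+ A, (∀ a, T (X a) = X (T a)) ∧ T v = w) ∧
    (∀ k : ℕ, ¬ q ∣ k → ∃ T : A ≃+ A, ∀ a, T (X a) = X^[k] (T a)) := by
  classical
  haveI : Module (ZMod p) A := AddCommGroup.zmodModule hpA
  let Xl : Module.End (ZMod p) A := X.toZModLinearMap p
  have hXlq : Xl ^ q = 1 := by
    refine LinearMap.ext fun a => ?_
    rw [Module.End.pow_apply]
    exact hXq a
  have hcyc : aeval Xl (cyclotomic q (ZMod p)) = 0 :=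
    aeval_cyclotomic_eq_zero Xl hXlq (fun a ha => hfix a ha)
  haveI hirr : Fact (Irreducible (cyclotomic q (ZMod p))) :=
    ⟨cyclotomic_irreducible_of_orderOf hpq hord⟩
  let φ : AdjoinRoot (cyclotomic q (ZMod p)) →+* Module.End (ZMod p) A :=
    Ideal.Quotient.lift (Ideal.span {cyclotomic q (ZMod p)}) (aeval Xl).toRingHom
      (by
        intro g hg
        obtain ⟨h, rfl⟩ := Ideal.mem_span_singleton.mp hg
        show aeval Xl (cyclotomic q (ZMod p) * h) = 0
        rw [map_mul, hcyc, zero_mul])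
  have hφroot : φ (AdjoinRoot.root (cyclotomic q (ZMod p))) = Xl := by
    show (Ideal.Quotient.lift (Ideal.span {cyclotomic q (ZMod p)}) (aeval Xl).toRingHom _)
      ((Ideal.Quotient.mk (Ideal.span {cyclotomic q (ZMod p)})) (Polynomial.X : (ZMod p)[X])) = Xl
    rw [Ideal.Quotient.lift_mk]
    exact aeval_X Xl
  obtain ⟨instK, hsmul⟩ : ∃ _ : Module (AdjoinRoot (cyclotomic q (ZMod p))) A,
      ∀ (r : AdjoinRoot (cyclotomic q (ZMod p))) (a : A), r • a = φ r a :=
    ⟨Module.compHom A φ, fun _ _ => rfl⟩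
  have hroot : ∀ a : A, (AdjoinRoot.root (cyclotomic q (ZMod p))) • a = X a := by
    intro a
    rw [hsmul, hφroot]
    rfl
  constructor
  · intro v w hv hw
    let f : (Submodule.span (AdjoinRoot (cyclotomic q (ZMod p))) {v}) ≃ₗ[AdjoinRoot (cyclotomic q (ZMod p))]
        (Submodule.span (AdjoinRoot (cyclotomic q (ZMod p))) {w}) :=
      (LinearEquiv.toSpanNonzeroSingleton (AdjoinRoot (cyclotomic q (ZMod p))) A v hv).symm ≪≫ₗ
        (LinearEquiv.toSpanNonzeroSingleton (AdjoinRoot (cyclotomic q (ZMod p))) A w hw)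
    obtain ⟨g, hg⟩ := Submodule.exists_linearEquiv_restrict_eq f
    refine ⟨g.toAddEquiv, fun a => ?_, ?_⟩
    · show g (X a) = X (g a)
      rw [← hroot, ← hroot, map_smul]
    · have h1 := hg ⟨v, Submodule.mem_span_singleton_self v⟩
      have h2 : f ⟨v, Submodule.mem_span_singleton_self v⟩
          = ⟨w, Submodule.mem_span_singleton_self w⟩ := by
        show (LinearEquiv.toSpanNonzeroSingleton _ A w hw)
          ((LinearEquiv.toSpanNonzeroSingleton _ A v hv).symm ⟨v, _⟩) = _
        rw [← LinearEquiv.toSpanNonzeroSingleton_one _ A v hv, LinearEquiv.symm_apply_apply,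
          LinearEquiv.toSpanNonzeroSingleton_one]
      rw [h2] at h1
      exact h1.symm
  · intro k hk
    set ζ : AdjoinRoot (cyclotomic q (ZMod p)) := AdjoinRoot.root (cyclotomic q (ZMod p)) with hζdef
    haveI : NeZero ((q : ℕ) : AdjoinRoot (cyclotomic q (ZMod p))) := by
      refine ⟨fun h0 => ?_⟩
      have h1 : (AdjoinRoot.of (cyclotomic q (ZMod p))) ((q : ℕ) : ZMod p) = 0 := by
        rw [map_natCast]; exact h0
      have h2 : ((q : ℕ) : ZMod p) = 0 :=
        (AdjoinRoot.of (cyclotomic q (ZMod p))).injective (by rw [h1, map_zero])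
      rw [ZMod.natCast_eq_zero_iff] at h2
      exact hpq ((Nat.prime_dvd_prime_iff_eq hp.out hq.out).mp h2)
    have hζ : IsPrimitiveRoot ζ q := by
      rw [← isRoot_cyclotomic_iff, ← map_cyclotomic q (AdjoinRoot.of (cyclotomic q (ZMod p)))]
      exact AdjoinRoot.isRoot_root _
    have hζk' : IsPrimitiveRoot (ζ ^ k) q :=
      hζ.pow_of_coprime k ((Nat.Prime.coprime_iff_not_dvd hq.out).mpr hk).symm
    have hζk : eval₂ (AdjoinRoot.of (cyclotomic q (ZMod p))) (ζ ^ k) (cyclotomic q (ZMod p)) = 0 := by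
      have h1 : (cyclotomic q (AdjoinRoot (cyclotomic q (ZMod p)))).IsRoot (ζ ^ k) :=
        isRoot_cyclotomic_iff.mpr hζk'
      rw [← map_cyclotomic q (AdjoinRoot.of (cyclotomic q (ZMod p))), IsRoot.def, eval_map] at h1
      exact h1
    let σ : AdjoinRoot (cyclotomic q (ZMod p)) →+* AdjoinRoot (cyclotomic q (ZMod p)) :=
      AdjoinRoot.lift (AdjoinRoot.of _) (ζ ^ k) hζk
    have hσζ : σ ζ = ζ ^ k := AdjoinRoot.lift_root hζk
    have hmonic : (cyclotomic q (ZMod p)).Monic := cyclotomic.monic q (ZMod p)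
    haveI := hmonic.finite_adjoinRoot
    haveI : Finite (AdjoinRoot (cyclotomic q (ZMod p))) := Module.finite_of_finite (ZMod p)
    have hσinj : Function.Injective σ := σ.injective
    have hσbij : Function.Bijective σ := ⟨hσinj, Finite.injective_iff_surjective.mp hσinj⟩
    let σe : AdjoinRoot (cyclotomic q (ZMod p)) ≃+ AdjoinRoot (cyclotomic q (ZMod p)) :=
      (RingEquiv.ofBijective σ hσbij).toAddEquiv
    have hσe : ∀ c, σe c = σ c := fun c => rfl
    let B := Module.Basis.ofVectorSpace (AdjoinRoot (cyclotomic q (ZMod p))) A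
    let T : A ≃+ A :=
      B.repr.toAddEquiv.trans ((Finsupp.mapRange.addEquiv σe).trans B.repr.symm.toAddEquiv)
    have hT : ∀ a, T a = B.repr.symm (Finsupp.mapRange.addEquiv σe (B.repr a)) := fun a => rfl
    have h1 : ∀ (c : AdjoinRoot (cyclotomic q (ZMod p))) (a : A), T (c • a) = σ c • T a := by
      intro c a
      have e1 : B.repr (c • a) = c • B.repr a := map_smul _ _ _
      have e2 : Finsupp.mapRange.addEquiv σe (c • B.repr a)
          = σ c • Finsupp.mapRange.addEquiv σe (B.repr a) := by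
        ext i
        simp [hσe]
      rw [hT, hT, e1, e2, map_smul]
    have h2 : ∀ (j : ℕ) (a : A), ζ ^ j • a = X^[j] a := by
      intro j
      induction j with
      | zero => intro a; simp
      | succ j ih =>
        intro a
        rw [pow_succ, mul_smul, hroot, ih, Function.iterate_succ_apply]
    refine ⟨T, fun a => ?_⟩
    rw [← hroot, h1, hσζ, h2]

theorem mul_back (hpq : p ≠ q) (hord : orderOf (p : ZMod q) = q - 1)
    {M : Type*} [Group M] [Finite M] (hcomm : ∀ a b : M, a * b = b * a)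
    (hexp : ∀ v : M, v ^ p = 1) (X : MulAut M) (hXq : X ^ q = 1)
    (hfix : ∀ v, X v = v → v = 1) :
    (∀ v w : M, v ≠ 1 → w ≠ 1 → ∃ T : MulAut M, T * X = X * T ∧ T v = w) ∧
    (∀ k : ℕ, ¬ q ∣ k → ∃ T : MulAut M, T * X = X ^ k * T) := by
  letI : CommGroup M := { (inferInstance : Group M) with mul_comm := hcomm }
  let Xa : Additive M →+ Additive M := MonoidHom.toAdditive X.toMonoidHom
  have hXa : ∀ a : Additive M, Xa a = Additive.ofMul (X (Additive.toMul a)) := fun a => rfl
  have hiter : ∀ (j : ℕ) (a : Additive M),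
      Xa^[j] a = Additive.ofMul ((X ^ j) (Additive.toMul a)) := by
    intro j
    induction j with
    | zero => intro a; simp
    | succ j ih =>
      intro a
      rw [Function.iterate_succ_apply, ih, hXa, pow_succ, MulAut.mul_apply]
      rfl
  have hpA : ∀ a : Additive M, p • a = 0 := by
    intro a
    exact congrArg Additive.ofMul (hexp (Additive.toMul a))
  have hXq' : ∀ a : Additive M, Xa^[q] a = a := by
    intro a
    rw [hiter, hXq]
    rfl
  have hfix' : ∀ a : Additive M, Xa a = a → a = 0 := by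
    intro a ha
    have : X (Additive.toMul a) = Additive.toMul a := congrArg Additive.toMul ha
    exact congrArg Additive.ofMul (hfix _ this)
  obtain ⟨h1, h2⟩ := lin_back hpq hord hpA Xa hXq' hfix'
  constructor
  · intro v w hv hw
    obtain ⟨T, hT, hTv⟩ := h1 (Additive.ofMul v) (Additive.ofMul w)
      (fun h => hv (congrArg Additive.toMul h)) (fun h => hw (congrArg Additive.toMul h))
    refine ⟨MulEquiv.toAdditive.symm T, ?_, ?_⟩
    · ext x
      have := hT (Additive.ofMul x)
      exact congrArg Additive.toMul this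
    · exact congrArg Additive.toMul hTv
  · intro k hk
    obtain ⟨T, hT⟩ := h2 k hk
    refine ⟨MulEquiv.toAdditive.symm T, ?_⟩
    ext x
    have := hT (Additive.ofMul x)
    rw [hiter] at this
    exact congrArg Additive.toMul this

theorem lin_fwd (hpq : p ≠ q) {A : Type*} [AddCommGroup A] [Finite A] [Nontrivial A]
    (hpA : ∀ a : A, p • a = 0)
    (X : A →+ A) (hXq : ∀ a, X^[q] a = a) (hfix : ∀ a, X a = a → a = 0)
    (H1 : ∀ v w : A, v ≠ 0 → w ≠ 0 →
      ∃ (T : A ≃+ A) (k : ℕ), (∀ a, T (X a) = X^[k] (T a)) ∧ T v = w)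
    (H2 : ∀ k : ℕ, 0 < k → k < q → ∃ T : A ≃+ A, ∀ a, T (X a) = X^[k] (T a)) :
    orderOf (p : ZMod q) = q - 1 := by
  classical
  haveI : Module (ZMod p) A := AddCommGroup.zmodModule hpA
  let Xl : Module.End (ZMod p) A := X.toZModLinearMap p
  have hXlq : Xl ^ q = 1 := by
    refine LinearMap.ext fun a => ?_
    rw [Module.End.pow_apply]
    exact hXq a
  have hcyc : aeval Xl (cyclotomic q (ZMod p)) = 0 :=
    aeval_cyclotomic_eq_zero Xl hXlq (fun a ha => hfix a ha)
  -- conjugation by an additive automorphism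
  have hconj : ∀ (T : A ≃+ A) (k : ℕ), (∀ a, T (X a) = X^[k] (T a)) →
      ∃ C : Module.End (ZMod p) A ≃ₐ[ZMod p] Module.End (ZMod p) A,
        C Xl = Xl ^ k ∧ ∀ (s : Module.End (ZMod p) A) (a : A), C s (T a) = T (s a) := by
    intro T k hT
    let Tl : A ≃ₗ[ZMod p] A :=
      LinearEquiv.ofBijective (T.toAddMonoidHom.toZModLinearMap p) T.bijective
    have hTl : ∀ a, Tl a = T a := fun a => rfl
    refine ⟨LinearEquiv.conjAlgEquiv (ZMod p) Tl, ?_, ?_⟩
    · refine LinearMap.ext fun a => ?_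
      rw [LinearEquiv.conjAlgEquiv_apply, Module.End.pow_apply]
      show Tl (X (Tl.symm a)) = X^[k] a
      rw [hTl, hT, ← hTl, Tl.apply_symm_apply]
    · intro s a
      rw [LinearEquiv.conjAlgEquiv_apply]
      show Tl (s (Tl.symm (T a))) = T (s a)
      rw [← hTl a, Tl.symm_apply_apply, hTl]
  let ann : A → Set (Module.End (ZMod p) A) :=
    fun u => {s | (∃ g : (ZMod p)[X], aeval Xl g = s) ∧ s u = 0}
  haveI : Finite (Module.End (ZMod p) A) :=
    Finite.of_injective (fun f : Module.End (ZMod p) A => (f : A → A)) DFunLike.coe_injective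
  have hann_le : ∀ (T : A ≃+ A) (k : ℕ), (∀ a, T (X a) = X^[k] (T a)) →
      ∀ u, (ann u).ncard ≤ (ann (T u)).ncard := by
    intro T k hT u
    obtain ⟨C, hC1, hC2⟩ := hconj T k hT
    refine Set.ncard_le_ncard_of_injOn C ?_ (C.injective.injOn) (Set.toFinite _)
    rintro s ⟨⟨g, rfl⟩, hs⟩
    refine ⟨⟨g.comp (Polynomial.X ^ k), ?_⟩, ?_⟩
    · rw [aeval_comp, map_pow, aeval_X, ← hC1, aeval_algHom_apply]
    · rw [hC2, hs, map_zero]
  have hann_eq : ∀ u u' : A, u ≠ 0 → u' ≠ 0 → (ann u).ncard = (ann u').ncard := by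
    intro u u' hu hu'
    obtain ⟨T, k, hT, hTu⟩ := H1 u u' hu hu'
    obtain ⟨T', k', hT', hTu'⟩ := H1 u' u hu' hu
    have h1 := hann_le T k hT u
    rw [hTu] at h1
    have h2 := hann_le T' k' hT' u'
    rw [hTu'] at h2
    exact le_antisymm h1 h2
  have hcomm : ∀ (g h : (ZMod p)[X]) (a : A),
      aeval Xl g (aeval Xl h a) = aeval Xl h (aeval Xl g a) := by
    intro g h a
    have h1 : aeval Xl g * aeval Xl h = aeval Xl h * aeval Xl g := by
      rw [← map_mul, ← map_mul, mul_comm]
    exact LinearMap.congr_fun h1 a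
  -- a polynomial in `Xl` killing a nonzero vector is zero
  have hinj : ∀ (g : (ZMod p)[X]) (a : A), a ≠ 0 → aeval Xl g a = 0 → aeval Xl g = 0 := by
    intro g a' ha' hga
    by_contra hne
    obtain ⟨c, hc⟩ : ∃ c, aeval Xl g c ≠ 0 := by
      by_contra hcon
      push Not at hcon
      exact hne (LinearMap.ext hcon)
    have hc0 : c ≠ 0 := by
      rintro rfl
      exact hc (map_zero _)
    have hsub1 : ann c ⊆ ann (aeval Xl g c) := by
      rintro s ⟨⟨h, rfl⟩, hs⟩
      refine ⟨⟨h, rfl⟩, ?_⟩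
      rw [hcomm h g c, hs, map_zero]
    have heq1 : ann c = ann (aeval Xl g c) :=
      Set.eq_of_subset_of_ncard_le hsub1 (hann_eq _ _ hc hc0).le (Set.toFinite _)
    have hrac : aeval Xl g (a' + c) = aeval Xl g c := by rw [map_add, hga, zero_add]
    have hac : a' + c ≠ 0 := by
      intro h
      apply hc
      rw [← hrac, h, map_zero]
    have hsub2 : ann (a' + c) ⊆ ann c := by
      rw [heq1]
      rintro s ⟨⟨h, rfl⟩, hs⟩
      refine ⟨⟨h, rfl⟩, ?_⟩
      rw [← hrac, hcomm h g (a' + c), hs, map_zero]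
    have heq2 : ann (a' + c) = ann c :=
      Set.eq_of_subset_of_ncard_le hsub2 (hann_eq _ _ hc0 hac).le (Set.toFinite _)
    have hsub3 : ann c ⊆ ann a' := by
      intro s hs
      have hs' : s ∈ ann (a' + c) := heq2 ▸ hs
      refine ⟨hs.1, ?_⟩
      have h1 : s (a' + c) = 0 := hs'.2
      have h2 : s c = 0 := hs.2
      rw [map_add, h2, add_zero] at h1
      exact h1
    have heq3 : ann c = ann a' :=
      Set.eq_of_subset_of_ncard_le hsub3 (hann_eq _ _ ha' hc0).le (Set.toFinite _)
    have hmem : aeval Xl g ∈ ann c := heq3 ▸ (⟨⟨g, rfl⟩, hga⟩ : aeval Xl g ∈ ann a')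
    exact hc hmem.2
  haveI : Nontrivial (Module.End (ZMod p) A) := by
    obtain ⟨u, hu⟩ := exists_ne (0 : A)
    refine ⟨⟨0, 1, fun h => hu ?_⟩⟩
    have := LinearMap.congr_fun h u
    simpa using this.symm
  have hint : IsIntegral (ZMod p) Xl := IsIntegral.of_finite (ZMod p) Xl
  have hm0 : minpoly (ZMod p) Xl ≠ 0 := minpoly.ne_zero hint
  have hmirr : Irreducible (minpoly (ZMod p) Xl) := by
    rw [irreducible_iff]
    refine ⟨minpoly.not_isUnit (ZMod p) Xl, ?_⟩
    intro g h hgh
    have hprod : ∀ a, aeval Xl g (aeval Xl h a) = 0 := by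
      intro a
      have h1 : aeval Xl g * aeval Xl h = 0 := by
        rw [← map_mul, ← hgh]
        exact minpoly.aeval _ _
      exact LinearMap.congr_fun h1 a
    obtain ⟨u, hu⟩ := exists_ne (0 : A)
    by_cases hw : aeval Xl h u = 0
    · have hh0 : aeval Xl h = 0 := hinj h u hu hw
      obtain ⟨h', hh'⟩ := minpoly.dvd (ZMod p) Xl hh0
      left
      have e : minpoly (ZMod p) Xl * 1 = minpoly (ZMod p) Xl * (g * h') := by
        rw [mul_one]
        conv_lhs => rw [hgh, hh']
        ring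
      have e2 := mul_left_cancel₀ hm0 e
      exact IsUnit.of_mul_eq_one h' e2.symm
    · have hg0 : aeval Xl g = 0 := hinj g _ hw (hprod u)
      obtain ⟨g', hg'⟩ := minpoly.dvd (ZMod p) Xl hg0
      right
      have e : minpoly (ZMod p) Xl * 1 = minpoly (ZMod p) Xl * (h * g') := by
        rw [mul_one]
        conv_lhs => rw [hgh, hg']
        ring
      have e2 := mul_left_cancel₀ hm0 e
      exact IsUnit.of_mul_eq_one g' e2.symm
  have hmdvd : minpoly (ZMod p) Xl ∣ cyclotomic q (ZMod p) := minpoly.dvd (ZMod p) Xl hcyc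
  have hcop : p.Coprime q := (Nat.coprime_primes hp.out hq.out).mpr hpq
  have hdeg : (minpoly (ZMod p) Xl).natDegree = orderOf (p : ZMod q) := by
    have h := natDegree_of_dvd_cyclotomic_of_irreducible (K := ZMod p) (p := p) (f := 1) (n := q)
      (by simp [ZMod.card]) hcop hmdvd hmirr
    rw [h, ← orderOf_units, ZMod.coe_unitOfCoprime]
    simp
  have hlow : q - 1 ≤ (minpoly (ZMod p) Xl).natDegree := by
    haveI : Fact (Irreducible (minpoly (ZMod p) Xl)) := ⟨hmirr⟩
    haveI : NeZero ((q : ℕ) : AdjoinRoot (minpoly (ZMod p) Xl)) := by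
      refine ⟨fun h0 => ?_⟩
      have h1 : (AdjoinRoot.of (minpoly (ZMod p) Xl)) ((q : ℕ) : ZMod p) = 0 := by
        rw [map_natCast]; exact h0
      have h2 : ((q : ℕ) : ZMod p) = 0 :=
        (AdjoinRoot.of (minpoly (ZMod p) Xl)).injective (by rw [h1, map_zero])
      rw [ZMod.natCast_eq_zero_iff] at h2
      exact hpq ((Nat.prime_dvd_prime_iff_eq hp.out hq.out).mp h2)
    have hθroot : eval (AdjoinRoot.root (minpoly (ZMod p) Xl))
        (map (AdjoinRoot.of (minpoly (ZMod p) Xl)) (minpoly (ZMod p) Xl)) = 0 :=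
      AdjoinRoot.isRoot_root _
    have hθprim : IsPrimitiveRoot (AdjoinRoot.root (minpoly (ZMod p) Xl)) q := by
      rw [← isRoot_cyclotomic_iff, ← map_cyclotomic q (AdjoinRoot.of (minpoly (ZMod p) Xl))]
      obtain ⟨c, hc⟩ := hmdvd
      rw [hc, Polynomial.map_mul, IsRoot.def, eval_mul, hθroot, zero_mul]
    have hmm0 : map (AdjoinRoot.of (minpoly (ZMod p) Xl)) (minpoly (ZMod p) Xl) ≠ 0 :=
      ((minpoly.monic hint).map _).ne_zero
    have hroots : ∀ k, 0 < k → k < q → (AdjoinRoot.root (minpoly (ZMod p) Xl)) ^ k ∈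
        (map (AdjoinRoot.of (minpoly (ZMod p) Xl)) (minpoly (ZMod p) Xl)).roots := by
      intro k hk0 hkq
      obtain ⟨T, hT⟩ := H2 k hk0 hkq
      obtain ⟨C, hC1, -⟩ := hconj T k hT
      have h1 : aeval (Xl ^ k) (minpoly (ZMod p) Xl) = 0 := by
        rw [← hC1, aeval_algHom_apply, minpoly.aeval, map_zero]
      have h2 : aeval Xl ((minpoly (ZMod p) Xl).comp (Polynomial.X ^ k)) = 0 := by
        rw [aeval_comp, map_pow, aeval_X]
        exact h1
      obtain ⟨c, hc⟩ := minpoly.dvd (ZMod p) Xl h2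
      rw [mem_roots hmm0, IsRoot.def]
      have h3 : eval (AdjoinRoot.root (minpoly (ZMod p) Xl))
          (map (AdjoinRoot.of (minpoly (ZMod p) Xl))
            ((minpoly (ZMod p) Xl).comp (Polynomial.X ^ k))) = 0 := by
        rw [hc, Polynomial.map_mul, eval_mul, hθroot, zero_mul]
      rw [Polynomial.map_comp, eval_comp, Polynomial.map_pow, map_X, eval_pow, eval_X] at h3
      exact h3
    have hZcard : ((Finset.Ioo 0 q).image
        (fun k => (AdjoinRoot.root (minpoly (ZMod p) Xl)) ^ k)).card = q - 1 := by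
      rw [Finset.card_image_of_injOn, Nat.card_Ioo]
      · omega
      · intro i hi j hj hij
        simp only [Finset.coe_Ioo, Set.mem_Ioo] at hi hj
        exact hθprim.pow_inj hi.2 hj.2 hij
    have hZsub : ((Finset.Ioo 0 q).image
        (fun k => (AdjoinRoot.root (minpoly (ZMod p) Xl)) ^ k)).val ⊆
        (map (AdjoinRoot.of (minpoly (ZMod p) Xl)) (minpoly (ZMod p) Xl)).roots := by
      intro x hx
      rw [Finset.mem_val, Finset.mem_image] at hx
      obtain ⟨k, hk, rfl⟩ := hx
      rw [Finset.mem_Ioo] at hk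
      exact hroots k hk.1 hk.2
    have hfin := card_le_degree_of_subset_roots hZsub
    rw [hZcard, natDegree_map] at hfin
    exact hfin
  have hup : (minpoly (ZMod p) Xl).natDegree ≤ q - 1 := by
    have h := natDegree_le_of_dvd hmdvd (cyclotomic_ne_zero q (ZMod p))
    rwa [natDegree_cyclotomic, Nat.totient_prime hq.out] at h
  rw [← hdeg]
  omega

theorem mul_fwd (hpq : p ≠ q) {M : Type*} [Group M] [Finite M] [Nontrivial M]
    (hcomm : ∀ a b : M, a * b = b * a) (hexp : ∀ v : M, v ^ p = 1) (X : MulAut M)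
    (hXq : X ^ q = 1) (hfix : ∀ v, X v = v → v = 1)
    (H1 : ∀ v w : M, v ≠ 1 → w ≠ 1 → ∃ (T : MulAut M) (k : ℕ), T * X = X ^ k * T ∧ T v = w)
    (H2 : ∀ k : ℕ, 0 < k → k < q → ∃ T : MulAut M, T * X = X ^ k * T) :
    orderOf (p : ZMod q) = q - 1 := by
  letI : CommGroup M := { (inferInstance : Group M) with mul_comm := hcomm }
  let Xa : Additive M →+ Additive M := MonoidHom.toAdditive X.toMonoidHom
  have hXa : ∀ a : Additive M, Xa a = Additive.ofMul (X (Additive.toMul a)) := fun a => rfl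
  have hiter : ∀ (j : ℕ) (a : Additive M),
      Xa^[j] a = Additive.ofMul ((X ^ j) (Additive.toMul a)) := by
    intro j
    induction j with
    | zero => intro a; simp
    | succ j ih =>
      intro a
      rw [Function.iterate_succ_apply, ih, hXa, pow_succ, MulAut.mul_apply]
      rfl
  have hpA : ∀ a : Additive M, p • a = 0 := by
    intro a
    exact congrArg Additive.ofMul (hexp (Additive.toMul a))
  have hXq' : ∀ a : Additive M, Xa^[q] a = a := by
    intro a
    rw [hiter, hXq]
    rfl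
  have hfix' : ∀ a : Additive M, Xa a = a → a = 0 := by
    intro a ha
    have : X (Additive.toMul a) = Additive.toMul a := congrArg Additive.toMul ha
    exact congrArg Additive.ofMul (hfix _ this)
  refine lin_fwd hpq hpA Xa hXq' hfix' ?_ ?_
  · intro v w hv hw
    obtain ⟨T, k, hT, hTv⟩ := H1 (Additive.toMul v) (Additive.toMul w)
      (fun h => hv (congrArg Additive.ofMul h)) (fun h => hw (congrArg Additive.ofMul h))
    refine ⟨MulEquiv.toAdditive T, k, fun a => ?_, congrArg Additive.ofMul hTv⟩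
    rw [hiter]
    have := DFunLike.congr_fun hT (Additive.toMul a)
    exact congrArg Additive.ofMul this
  · intro k hk0 hkq
    obtain ⟨T, hT⟩ := H2 k hk0 hkq
    refine ⟨MulEquiv.toAdditive T, fun a => ?_⟩
    rw [hiter]
    have := DFunLike.congr_fun hT (Additive.toMul a)
    exact congrArg Additive.ofMul this

end ThreeOrbLin

end Cfsg.Agent.H97
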