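import Mathlib
import Cfsg.Prelude.Def_Transfer
import Cfsg.Agent.H97.ThreeOrbLin

set_option autoImplicit false

namespace Cfsg.Agent.H97

section ThreeOrbGrp

/-- Build an automorphism of `G = P ⋊ ⟨b⟩` from an automorphism `T` of `P` and a new image
`b'` of `b`. -/
theorem exists_aut {G : Type*} [Group G] [Finite G] (P : Subgroup G) [P.Normal] (b b' : G)
    (hc : P.IsComplement' (Subgroup.zpowers b)) (hb' : orderOf b' ∣ orderOf b)
    (hsup : P ⊔ Subgroup.zpowers b' = ⊤)
    (T : MulAut P) (hT : MulAut.conjNormal b' = T * MulAut.conjNormal b * T⁻¹) :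
    ∃ α : MulAut G, (∀ v : P, α v = T v) ∧ α b = b' := by
  classical
  let gen : Subgroup.zpowers b := ⟨b, Subgroup.mem_zpowers b⟩
  have hgen : ∀ x : Subgroup.zpowers b, x ∈ Subgroup.zpowers gen := by
    rintro ⟨x, hx⟩
    obtain ⟨i, rfl⟩ := Subgroup.mem_zpowers_iff.mp hx
    exact Subgroup.mem_zpowers_iff.mpr ⟨i, Subtype.ext (by simp [gen])⟩
  have hord : orderOf b' ∣ orderOf gen := by
    have : orderOf gen = orderOf b := Subgroup.orderOf_mk b (Subgroup.mem_zpowers b)
    rw [this]; exact hb'
  let f₂ : Subgroup.zpowers b →* G := monoidHomOfForallMemZpowers hgen hord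
  have hf₂ : f₂ gen = b' := monoidHomOfForallMemZpowers_apply_gen hgen hord
  have hcompat : ∀ c : Subgroup.zpowers b,
      MulAut.conjNormal (f₂ c) = T * MulAut.conjNormal (c : G) * T⁻¹ := by
    intro c
    obtain ⟨i, hi⟩ := Subgroup.mem_zpowers_iff.mp (hgen c)
    rw [← hi, map_zpow, hf₂, map_zpow, hT, conj_zpow, Subgroup.coe_zpow, map_zpow]
  have hbij : Function.Bijective (fun x : P × Subgroup.zpowers b => (x.1 : G) * x.2) := hc
  let e := Equiv.ofBijective _ hbij
  let αfun : G → G := fun g => (T (e.symm g).1 : G) * f₂ (e.symm g).2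
  have hα : ∀ (v : P) (c : Subgroup.zpowers b), αfun ((v : G) * c) = T v * f₂ c := by
    intro v c
    have : e.symm ((v : G) * c) = (v, c) := by
      rw [Equiv.symm_apply_eq]; rfl
    simp only [αfun, this]
  have hmul : ∀ g₁ g₂, αfun (g₁ * g₂) = αfun g₁ * αfun g₂ := by
    intro g₁ g₂
    obtain ⟨⟨v₁, c₁⟩, rfl⟩ := e.surjective g₁
    obtain ⟨⟨v₂, c₂⟩, rfl⟩ := e.surjective g₂
    show αfun ((v₁ : G) * c₁ * ((v₂ : G) * c₂)) = αfun ((v₁ : G) * c₁) * αfun ((v₂ : G) * c₂)
    have h1 : (v₁ : G) * c₁ * ((v₂ : G) * c₂)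
        = ((v₁ * MulAut.conjNormal (c₁ : G) v₂ : P) : G) * ((c₁ * c₂ : Subgroup.zpowers b) : G) := by
      simp only [Subgroup.coe_mul, MulAut.conjNormal_apply]; group
    have h2 : (T (MulAut.conjNormal (c₁ : G) v₂) : G) = f₂ c₁ * T v₂ * (f₂ c₁)⁻¹ := by
      have h3 := DFunLike.congr_fun (hcompat c₁) (T v₂)
      simp only [MulAut.mul_apply, MulAut.inv_apply, MulEquiv.symm_apply_apply] at h3
      rw [← h3, MulAut.conjNormal_apply]
    rw [h1, hα, hα, hα, map_mul, map_mul, Subgroup.coe_mul, h2]
    group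
  let α₀ : G →* G := MonoidHom.mk' αfun hmul
  have hαv : ∀ v : P, α₀ v = T v := by
    intro v
    have := hα v 1
    show αfun (v : G) = T v
    simpa using this
  have hαb : α₀ b = b' := by
    have := hα 1 gen
    show αfun b = b'
    simpa [hf₂, gen] using this
  have hsurj : Function.Surjective α₀ := by
    rw [← MonoidHom.range_eq_top, eq_top_iff, ← hsup, sup_le_iff]
    constructor
    · intro x hx
      refine ⟨(T.symm ⟨x, hx⟩ : G), ?_⟩
      rw [hαv]; simp
    · rw [Subgroup.zpowers_le]; exact ⟨b, hαb⟩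
  have hinj : Function.Injective α₀ := Finite.injective_iff_surjective.mpr hsurj
  exact ⟨MulEquiv.ofBijective α₀ ⟨hinj, hsurj⟩, hαv, hαb⟩

/-- A non-cyclic abelian `q`-group of exponent `q` cannot act fixed-point-freely on a nontrivial
abelian normal subgroup: here in the form "every `v` satisfies `v ^ q = 1`". -/
theorem fpf_noncyclic {G : Type*} [Group G] (D : Subgroup G) [D.Normal]
    (hcomm : ∀ x y : D, x * y = y * x) (q : ℕ) [hq : Fact q.Prime] (z y : G)
    (hzy : Commute z y) (hz : orderOf z = q) (hy : orderOf y = q)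
    (hyz : y ∉ Subgroup.zpowers z)
    (hfix : ∀ g : G, orderOf g = q → ∀ v : D, MulAut.conjNormal g v = v → v = 1) :
    ∀ v : D, v ^ q = 1 := by
  classical
  letI : CommGroup D := { (inferInstance : Group D) with mul_comm := hcomm }
  intro v
  have hq1 : q ≠ 1 := hq.out.ne_one
  -- norms vanish
  have hN : ∀ g : G, orderOf g = q →
      ∀ w : D, ∏ i ∈ Finset.range q, MulAut.conjNormal (g ^ i) w = 1 := by
    intro g hg w
    apply hfix g hg
    rw [map_prod]
    have h1 : ∀ i ∈ Finset.range q, MulAut.conjNormal g (MulAut.conjNormal (g ^ i) w)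
        = MulAut.conjNormal (g ^ (i + 1)) w := by
      intro i _
      rw [pow_succ', map_mul, MulAut.mul_apply]
    rw [Finset.prod_congr rfl h1]
    have h2 := Finset.prod_range_succ (fun i => MulAut.conjNormal (g ^ i) w) q
    have h3 := Finset.prod_range_succ' (fun i => MulAut.conjNormal (g ^ i) w) q
    have h4 : MulAut.conjNormal (g ^ q) w = MulAut.conjNormal (g ^ 0) w := by
      rw [← hg, pow_orderOf_eq_one, pow_zero]
    rw [h2, h4] at h3
    exact (mul_right_cancel h3).symm
  -- the elements z * y ^ j have order q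
  have hzyj : ∀ j : ℕ, j < q → orderOf (z * y ^ j) = q := by
    intro j hj
    have hpow : (z * y ^ j) ^ q = 1 := by
      rw [(hzy.pow_right j).mul_pow, ← hz, pow_orderOf_eq_one, hz, ← pow_mul, mul_comm j q,
        pow_mul, ← hy, pow_orderOf_eq_one, one_pow, one_mul]
    have hne : z * y ^ j ≠ 1 := by
      intro h
      have hyj : y ^ j = z⁻¹ := by
        rw [eq_inv_iff_mul_eq_one, ← (hzy.pow_right j).eq]
        exact h
      have hyjz : y ^ j ∈ Subgroup.zpowers z := by
        rw [hyj]; exact Subgroup.inv_mem _ (Subgroup.mem_zpowers z)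
      rcases Nat.eq_zero_or_pos j with h0 | hpos
      · rw [h0, pow_zero, mul_one] at h
        rw [h, orderOf_one] at hz
        exact hq1 hz.symm
      · have hcop : j.Coprime (orderOf y) := by
          rw [hy]
          exact ((Nat.Prime.coprime_iff_not_dvd hq.out).mpr
            (Nat.not_dvd_of_pos_of_lt hpos hj)).symm
        obtain ⟨m, hm⟩ := exists_pow_eq_self_of_coprime hcop
        apply hyz
        rw [← hm]
        exact Subgroup.pow_mem _ hyjz m
    exact orderOf_eq_prime hpow hne
  have hL : ∏ j ∈ Finset.range q, ∏ i ∈ Finset.range q,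
      MulAut.conjNormal ((z * y ^ j) ^ i) v = 1 := by
    apply Finset.prod_eq_one
    intro j hj
    exact hN _ (hzyj j (Finset.mem_range.mp hj)) v
  have hR : ∏ j ∈ Finset.range q, ∏ i ∈ Finset.range q,
      MulAut.conjNormal ((z * y ^ j) ^ i) v = v ^ q := by
    rw [Finset.prod_comm]
    have h1 : ∀ i ∈ Finset.range q,
        ∏ j ∈ Finset.range q, MulAut.conjNormal ((z * y ^ j) ^ i) v
          = MulAut.conjNormal (z ^ i)
              (∏ j ∈ Finset.range q, MulAut.conjNormal ((y ^ i) ^ j) v) := by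
      intro i _
      rw [map_prod]
      refine Finset.prod_congr rfl (fun j _ => ?_)
      rw [(hzy.pow_right j).mul_pow, ← pow_mul, mul_comm j i, pow_mul, map_mul,
        MulAut.mul_apply]
    rw [Finset.prod_congr rfl h1, Finset.prod_eq_single 0]
    · simp
    · intro i hi hi0
      have hiq : i < q := Finset.mem_range.mp hi
      have hcop : (orderOf y).Coprime i := by
        rw [hy]
        exact (Nat.Prime.coprime_iff_not_dvd hq.out).mpr
          (Nat.not_dvd_of_pos_of_lt (Nat.pos_of_ne_zero hi0) hiq)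
      have hord : orderOf (y ^ i) = q := by rw [hcop.orderOf_pow, hy]
      rw [hN _ hord v, map_one]
    · intro h
      exact absurd (Finset.mem_range.mpr hq.out.pos) h
  rw [← hR, hL]

/-- Restriction of an automorphism of `G` to a subgroup preserved by all automorphisms. -/
def restrictAut {G : Type*} [Group G] (D : Subgroup G)
    (hD : ∀ (α : MulAut G) (g : G), g ∈ D → α g ∈ D) (γ : MulAut G) : MulAut D where
  toFun x := ⟨γ x, hD γ x x.2⟩
  invFun x := ⟨γ⁻¹ x, hD γ⁻¹ x x.2⟩
  left_inv x := by ext; simp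
  right_inv x := by ext; simp
  map_mul' x y := by ext; simp

theorem restrictAut_apply {G : Type*} [Group G] (D : Subgroup G)
    (hD : ∀ (α : MulAut G) (g : G), g ∈ D → α g ∈ D) (γ : MulAut G) (x : D) :
    ((restrictAut D hD γ x : D) : G) = γ x := rfl

theorem restrictAut_conj {G : Type*} [Group G] (D : Subgroup G) [D.Normal]
    (hD : ∀ (α : MulAut G) (g : G), g ∈ D → α g ∈ D) (γ : MulAut G) (b : G) :
    restrictAut D hD γ * MulAut.conjNormal b = MulAut.conjNormal (γ b) * restrictAut D hD γ := by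
  ext x
  simp [restrictAut_apply, MulAut.conjNormal_apply]

theorem three_orb_back {G : Type*} [Group G] [Finite G] (p q n : ℕ) [hp : Fact p.Prime]
    [hq : Fact q.Prime] (hpq : p ≠ q) (hn : 1 ≤ n) (hcard : Nat.card G = p ^ n * q)
    (hP : ∀ P : Sylow p G, (P : Subgroup G).Normal ∧ Cfsg.IsElementaryAbelian p (P : Subgroup G))
    (hord : orderOf (p : ZMod q) = q - 1)
    (hfpf : ∀ x y : G, orderOf x = q → orderOf y = p → x * y * x⁻¹ ≠ y) :
    Nat.card (MulAction.orbitRel.Quotient (MulAut G) G) = 3 := by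
  classical
  obtain ⟨P₀⟩ : Nonempty (Sylow p G) := inferInstance
  obtain ⟨hnorm, hIsComm, hexp⟩ := hP P₀
  haveI : (P₀ : Subgroup G).Normal := hnorm
  have hcommP : ∀ x y : (P₀ : Subgroup G), x * y = y * x := fun x y => hIsComm.is_comm.comm x y
  have hexpP : ∀ v : (P₀ : Subgroup G), v ^ p = 1 := fun v => Subtype.ext (by simpa using hexp v v.2)
  have hpnq : ¬ p ∣ q := fun h => hpq ((Nat.prime_dvd_prime_iff_eq hp.out hq.out).mp h)
  have hcop : (p ^ n).Coprime q :=
    Nat.Coprime.pow_left n ((Nat.coprime_primes hp.out hq.out).mpr hpq)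
  have hcardP : Nat.card (P₀ : Subgroup G) = p ^ n := by
    rw [Sylow.card_eq_multiplicity, hcard]
    congr 1
    rw [Nat.factorization_mul (pow_ne_zero n hp.out.ne_zero) hq.out.ne_zero, Nat.factorization_pow]
    simp [hp.out.factorization_self, Nat.factorization_eq_zero_of_not_dvd hpnq]
  have hindex : (P₀ : Subgroup G).index = q := by
    have := (P₀ : Subgroup G).card_mul_index
    rw [hcardP, hcard] at this
    exact Nat.eq_of_mul_eq_mul_left (pow_pos hp.out.pos n) this
  have hpel : ∀ g : G, orderOf g = p → g ∈ (P₀ : Subgroup G) := by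
    intro g hg
    have hpg : IsPGroup p (Subgroup.zpowers g) :=
      IsPGroup.of_card (n := 1) (by rw [Nat.card_zpowers, hg, pow_one])
    obtain ⟨Q, hQ⟩ := hpg.exists_le_sylow
    obtain ⟨x, hx⟩ := MulAction.exists_smul_eq G Q P₀
    haveI := (hP Q).1
    rw [Sylow.smul_eq_of_normal] at hx
    rw [← hx]
    exact hQ (Subgroup.mem_zpowers g)
  have hordP : ∀ g : G, g ∈ (P₀ : Subgroup G) → g ≠ 1 → orderOf g = p :=
    fun g hg hg1 => orderOf_eq_prime (hexp g hg) hg1
  have hordQ : ∀ g : G, g ∉ (P₀ : Subgroup G) → orderOf g = q := by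
    intro g hg
    have hgq : g ^ q ∈ (P₀ : Subgroup G) := by
      rw [← hindex]; exact (P₀ : Subgroup G).pow_index_mem g
    have hpow : g ^ (q * p) = 1 := by rw [pow_mul]; exact hexp _ hgq
    have hdvd : orderOf g ∣ q * p := orderOf_dvd_of_pow_eq_one hpow
    have hg1 : g ≠ 1 := fun h => hg (h ▸ (P₀ : Subgroup G).one_mem)
    by_cases hqd : q ∣ orderOf g
    · obtain ⟨e, he⟩ := hqd
      have hep : e ∣ p := by
        have : q * e ∣ q * p := he ▸ hdvd
        exact Nat.dvd_of_mul_dvd_mul_left hq.out.pos this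
      rcases (Nat.dvd_prime hp.out).mp hep with h1 | h1
      · rw [he, h1, mul_one]
      · exfalso
        rw [h1] at he
        have hy : orderOf (g ^ q) = p := by
          rw [orderOf_pow_of_dvd hq.out.ne_zero ⟨p, he⟩, he,
            Nat.mul_div_cancel_left _ hq.out.pos]
        have hz : orderOf (g ^ p) = q := by
          rw [orderOf_pow_of_dvd hp.out.ne_zero ⟨q, by rw [he, mul_comm]⟩, he,
            Nat.mul_div_cancel _ hp.out.pos]
        apply hfpf (g ^ p) (g ^ q) hz hy
        rw [mul_inv_eq_iff_eq_mul]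
        exact pow_mul_comm g p q
    · exfalso
      have hcop' : (orderOf g).Coprime q :=
        ((Nat.Prime.coprime_iff_not_dvd hq.out).mpr hqd).symm
      have hdp : orderOf g ∣ p := hcop'.dvd_of_dvd_mul_left hdvd
      rcases (Nat.dvd_prime hp.out).mp hdp with h1 | h1
      · exact hg1 (orderOf_eq_one_iff.mp h1)
      · exact hg (hpel g h1)
  obtain ⟨b, hb⟩ := exists_prime_orderOf_dvd_card' (G := G) q
    (by rw [hcard]; exact dvd_mul_left q _)
  haveI : Nontrivial (P₀ : Subgroup G) := by
    rw [← Finite.one_lt_card_iff_nontrivial, hcardP]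
    exact Nat.one_lt_pow (by omega) hp.out.one_lt
  obtain ⟨a', ha'⟩ := exists_ne (1 : (P₀ : Subgroup G))
  have hcompl : ∀ g : G, orderOf g = q →
      (P₀ : Subgroup G).IsComplement' (Subgroup.zpowers g) := by
    intro g hg
    apply Subgroup.isComplement'_of_coprime
    · rw [hcardP, Nat.card_zpowers, hg, hcard]
    · rw [hcardP, Nat.card_zpowers, hg]; exact hcop
  have hXq : (MulAut.conjNormal b : MulAut (P₀ : Subgroup G)) ^ q = 1 := by
    rw [← map_pow, ← hb, pow_orderOf_eq_one, map_one]
  have hfixX : ∀ v : (P₀ : Subgroup G), MulAut.conjNormal b v = v → v = 1 := by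
    intro v hv
    by_contra hv1
    have hv1' : (v : G) ≠ 1 := fun h => hv1 (Subtype.ext h)
    apply hfpf b v hb (hordP v v.2 hv1')
    have := congrArg Subtype.val hv
    rwa [MulAut.conjNormal_apply] at this
  obtain ⟨h1, h2⟩ := mul_back hpq hord hcommP hexpP (MulAut.conjNormal b) hXq hfixX
  have htransP : ∀ v : G, v ∈ (P₀ : Subgroup G) → v ≠ 1 → ∃ α : MulAut G, α (a' : G) = v := by
    intro v hv hv1
    obtain ⟨T, hT, hTa⟩ := h1 a' ⟨v, hv⟩ ha' (fun h => hv1 (congrArg Subtype.val h))
    obtain ⟨α, hα, -⟩ := exists_aut (P₀ : Subgroup G) b b (hcompl b hb) dvd_rfl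
      (hcompl b hb).sup_eq_top T (by rw [hT, mul_inv_cancel_right])
    exact ⟨α, by rw [hα, hTa]⟩
  have htransQ : ∀ g : G, g ∉ (P₀ : Subgroup G) → ∃ α : MulAut G, α b = g := by
    intro g hg
    have hgq := hordQ g hg
    obtain ⟨⟨u, c⟩, huc⟩ := (hcompl b hb).2 g
    have huc' : (u : G) * c = g := huc
    obtain ⟨k, hk⟩ : ∃ k : ℕ, b ^ k = (c : G) := by
      have hc : (c : G) ∈ Subgroup.zpowers b := c.2
      exact (Submonoid.mem_powers_iff _ _).mp ((mem_powers_iff_mem_zpowers).mpr hc)
    have hkq : ¬ q ∣ k := by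
      intro hdiv
      apply hg
      rw [← huc', ← hk]
      obtain ⟨t, rfl⟩ := hdiv
      rw [pow_mul, ← hb, pow_orderOf_eq_one, one_pow, mul_one]
      exact u.2
    obtain ⟨T, hT⟩ := h2 k hkq
    have hconj : (MulAut.conjNormal g : MulAut (P₀ : Subgroup G)) = MulAut.conjNormal b ^ k := by
      rw [← huc', ← hk, map_mul, map_pow]
      have hu1 : (MulAut.conjNormal (u : G) : MulAut (P₀ : Subgroup G)) = 1 := by
        ext v
        rw [MulAut.conjNormal_apply, MulAut.one_apply]
        have h3 := congrArg Subtype.val (hcommP u v)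
        simp only [Subgroup.coe_mul] at h3
        rw [h3, mul_inv_cancel_right]
      rw [hu1, one_mul]
    obtain ⟨α, -, hα⟩ := exists_aut (P₀ : Subgroup G) b g (hcompl b hb) (by rw [hgq, hb])
      (hcompl g hgq).sup_eq_top T (by rw [hconj, eq_mul_inv_iff_mul_eq]; exact hT.symm)
    exact ⟨α, hα⟩
  have hmk : ∀ x y : G, (∃ α : MulAut G, α y = x) →
      (Quotient.mk'' x : MulAction.orbitRel.Quotient (MulAut G) G) = Quotient.mk'' y := by
    rintro x y ⟨α, hα⟩
    apply Quotient.sound'
    exact (MulAction.orbitRel_apply).mpr ⟨α, hα⟩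
  have hord_of_eq : ∀ x y : G,
      (Quotient.mk'' x : MulAction.orbitRel.Quotient (MulAut G) G) = Quotient.mk'' y →
      orderOf x = orderOf y := by
    intro x y h
    have h' := (MulAction.orbitRel_apply).mp (Quotient.exact' h)
    obtain ⟨α, hα⟩ := h'
    rw [← hα]
    exact MulEquiv.orderOf_eq α y
  have hoa : orderOf (a' : G) = p := hordP a' a'.2 (fun h => ha' (Subtype.ext h))
  rw [← Set.ncard_univ, Set.ncard_eq_three]
  refine ⟨Quotient.mk'' 1, Quotient.mk'' (a' : G), Quotient.mk'' b, ?_, ?_, ?_, ?_⟩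
  · intro h
    have := hord_of_eq _ _ h
    rw [orderOf_one, hoa] at this
    exact hp.out.ne_one this.symm
  · intro h
    have := hord_of_eq _ _ h
    rw [orderOf_one, hb] at this
    exact hq.out.ne_one this.symm
  · intro h
    have := hord_of_eq _ _ h
    rw [hoa, hb] at this
    exact hpq this
  · ext x
    simp only [Set.mem_univ, Set.mem_insert_iff, Set.mem_singleton_iff, true_iff]
    induction x using Quotient.inductionOn' with
    | h g =>
      by_cases hg1 : g = 1
      · left; rw [hg1]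
      · by_cases hgP : g ∈ (P₀ : Subgroup G)
        · right; left; exact hmk _ _ (htransP g hgP hg1)
        · right; right; exact hmk _ _ (htransQ g hgP)


theorem prime_ne_pow {p q : ℕ} (hp : p.Prime) (hq : q.Prime) (hpq : p ≠ q) (k : ℕ) :
    q ≠ p ^ k := by
  intro h
  rcases Nat.eq_zero_or_pos k with rfl | hk
  · rw [pow_zero] at h; exact hq.ne_one h
  · have : p ∣ q := by rw [h]; exact dvd_pow_self p hk.ne'
    exact hpq ((Nat.prime_dvd_prime_iff_eq hp hq).mp this)

theorem no_commute_of_orders {G : Type*} [Group G] (p q : ℕ) [hp : Fact p.Prime]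
    [hq : Fact q.Prime] (hpq : p ≠ q)
    (F3 : ∀ g : G, g = 1 ∨ orderOf g = p ∨ orderOf g = q) (x y : G)
    (hx : orderOf x = q) (hy : orderOf y = p) : ¬ Commute x y := by
  intro hc
  have hcop : p.Coprime q := (Nat.coprime_primes hp.out hq.out).mpr hpq
  have ho : orderOf (x * y) = q * p := by
    have := hc.orderOf_mul_eq_mul_orderOf_of_coprime (by rw [hx, hy]; exact hcop.symm)
    rw [this, hx, hy]
  rcases F3 (x * y) with h | h | h
  · rw [h, orderOf_one] at ho
    have : q ∣ 1 := ⟨p, ho⟩
    exact hq.out.ne_one (Nat.dvd_one.mp this)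
  · rw [h] at ho
    have h2 : 1 * p = q * p := by rw [one_mul]; exact ho
    exact hq.out.ne_one (Nat.eq_of_mul_eq_mul_right hp.out.pos h2).symm
  · rw [h] at ho
    have h2 : q * 1 = q * p := by rw [mul_one]; exact ho
    exact hp.out.ne_one (Nat.eq_of_mul_eq_mul_left hq.out.pos h2).symm

theorem card_eq_of_orders {G : Type*} [Group G] [Finite G] (p q : ℕ) (hp : p.Prime)
    (hq : q.Prime) (hpq : p ≠ q)
    (F3 : ∀ g : G, g = 1 ∨ orderOf g = p ∨ orderOf g = q) :
    Nat.card G = p ^ (Nat.card G).factorization p * q ^ (Nat.card G).factorization q := by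
  have hN0 : Nat.card G ≠ 0 := Nat.card_pos.ne'
  have hpnq : ¬ p ∣ q := fun h => hpq ((Nat.prime_dvd_prime_iff_eq hp hq).mp h)
  have hqnp : ¬ q ∣ p := fun h => hpq ((Nat.prime_dvd_prime_iff_eq hq hp).mp h).symm
  apply Nat.eq_of_factorization_eq hN0
    (mul_ne_zero (pow_ne_zero _ hp.ne_zero) (pow_ne_zero _ hq.ne_zero))
  intro r
  rw [Nat.factorization_mul (pow_ne_zero _ hp.ne_zero) (pow_ne_zero _ hq.ne_zero),
    Nat.factorization_pow, Nat.factorization_pow]
  simp only [Finsupp.coe_add, Finsupp.coe_smul, Pi.add_apply, Pi.smul_apply, smul_eq_mul]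
  by_cases hrp : r = p
  · rw [hrp, hp.factorization_self, mul_one, Nat.factorization_eq_zero_of_not_dvd hpnq,
      mul_zero, add_zero]
  · by_cases hrq : r = q
    · rw [hrq, hq.factorization_self, mul_one, Nat.factorization_eq_zero_of_not_dvd hqnp,
        mul_zero, zero_add]
    · have h1 : (Nat.card G).factorization r = 0 := by
        by_cases hr : r.Prime
        · apply Nat.factorization_eq_zero_of_not_dvd
          intro hdvd
          haveI := Fact.mk hr
          obtain ⟨g, hg⟩ := exists_prime_orderOf_dvd_card' (G := G) r hdvd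
          rcases F3 g with h | h | h
          · rw [h, orderOf_one] at hg; exact hr.ne_one hg.symm
          · exact hrp (hg.symm.trans h)
          · exact hrq (hg.symm.trans h)
        · exact Nat.factorization_eq_zero_of_not_prime _ hr
      have h2 : p.factorization r = 0 := by
        rw [hp.factorization, Finsupp.single_apply, if_neg (Ne.symm hrp)]
      have h3 : q.factorization r = 0 := by
        rw [hq.factorization, Finsupp.single_apply, if_neg (Ne.symm hrq)]
      rw [h1, h2, h3, mul_zero, mul_zero, add_zero]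

theorem three_orb_core {G : Type*} [Group G] [Finite G] (p q : ℕ) [hp : Fact p.Prime]
    [hq : Fact q.Prime] (hpq : p ≠ q) (a b : G) (ha : orderOf a = p) (hb : orderOf b = q)
    (F1 : ∀ g : G, orderOf g = p → ∃ α : MulAut G, α a = g)
    (F2 : ∀ g : G, orderOf g = q → ∃ α : MulAut G, α b = g)
    (F3 : ∀ g : G, g = 1 ∨ orderOf g = p ∨ orderOf g = q)
    (D : Subgroup G) [hDn : D.Normal] (hDchar : ∀ (α : MulAut G) (g : G), g ∈ D → α g ∈ D)
    (haD : a ∈ D) (hbD : b ∉ D) :
    ∃ n : ℕ, 1 ≤ n ∧ Nat.card G = p ^ n * q ∧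
      (∀ P : Sylow p G, (P : Subgroup G).Normal ∧
        Cfsg.IsElementaryAbelian p (P : Subgroup G)) ∧
      orderOf (p : ZMod q) = q - 1 ∧
      ∀ x y : G, orderOf x = q → orderOf y = p → x * y * x⁻¹ ≠ y := by
  classical
  have hp1 : p ≠ 1 := hp.out.ne_one
  have hq1 : q ≠ 1 := hq.out.ne_one
  have hcop : p.Coprime q := (Nat.coprime_primes hp.out hq.out).mpr hpq
  have ha1 : a ≠ 1 := fun h => by rw [h, orderOf_one] at ha; exact hp1 ha.symm
  have hb1 : b ≠ 1 := fun h => by rw [h, orderOf_one] at hb; exact hq1 hb.symm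
  have hDp : ∀ g : G, orderOf g = p → g ∈ D := by
    intro g hg
    obtain ⟨α, rfl⟩ := F1 g hg
    exact hDchar α a haD
  have hDq : ∀ g : G, orderOf g = q → g ∉ D := by
    intro g hg hgD
    obtain ⟨α, rfl⟩ := F2 g hg
    apply hbD
    have := hDchar α⁻¹ _ hgD
    simpa using this
  have hDord : ∀ g : G, g ∈ D → g ≠ 1 → orderOf g = p := by
    intro g hgD hg1
    rcases F3 g with h | h | h
    · exact absurd h hg1
    · exact h
    · exact absurd hgD (hDq g h)
  have hnDord : ∀ g : G, g ∉ D → orderOf g = q := by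
    intro g hgD
    rcases F3 g with h | h | h
    · exact absurd (h ▸ D.one_mem) hgD
    · exact absurd (hDp g h) hgD
    · exact h
  have hDexp : ∀ g : G, g ∈ D → g ^ p = 1 := by
    intro g hgD
    by_cases hg1 : g = 1
    · rw [hg1, one_pow]
    · rw [← hDord g hgD hg1]; exact pow_orderOf_eq_one g
  have hfpf : ∀ x y : G, orderOf x = q → orderOf y = p → x * y * x⁻¹ ≠ y := by
    intro x y hx hy hxy
    apply no_commute_of_orders p q hpq F3 x y hx hy
    rw [mul_inv_eq_iff_eq_mul] at hxy
    exact hxy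
  have hDpg : IsPGroup p D := by
    intro g
    refine ⟨1, ?_⟩
    rw [pow_one]
    exact Subtype.ext (by simpa using hDexp g g.2)
  have hSyl : ∀ P : Sylow p G, (P : Subgroup G) = D := by
    intro P
    have hPD : (P : Subgroup G) ≤ D := by
      intro g hg
      by_contra hgD
      have hgq := hnDord g hgD
      obtain ⟨k, hk⟩ := (IsPGroup.iff_orderOf.mp P.isPGroup') ⟨g, hg⟩
      rw [Subgroup.orderOf_mk, hgq] at hk
      exact prime_ne_pow hp.out hq.out hpq k hk
    exact (P.is_maximal' hDpg hPD).symm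
  haveI : Nontrivial D := ⟨⟨⟨a, haD⟩, 1, fun h => ha1 (congrArg Subtype.val h)⟩⟩
  have hDcomm : ∀ x y : D, x * y = y * x := by
    haveI := hDpg.center_nontrivial
    obtain ⟨z, hz1⟩ := exists_ne (1 : Subgroup.center D)
    have hzc : ∀ y : D, (z : D) * y = y * z :=
      fun y => (Subgroup.mem_center_iff.mp z.2 y).symm
    have hzord : orderOf ((z : D) : G) = p :=
      hDord _ (z : D).2 (fun h => hz1 (Subtype.ext (Subtype.ext h)))
    intro x y
    by_cases hx1 : x = 1
    · rw [hx1, one_mul, mul_one]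
    · have hxord : orderOf (x : G) = p := hDord _ x.2 (fun h => hx1 (Subtype.ext h))
      obtain ⟨α, hα⟩ := F1 _ hzord
      obtain ⟨β, hβ⟩ := F1 _ hxord
      have hγ : (β * α⁻¹) ((z : D) : G) = x := by
        rw [← hα, MulAut.mul_apply, MulAut.inv_apply, MulEquiv.symm_apply_apply, hβ]
      have hy' : (β * α⁻¹)⁻¹ (y : G) ∈ D := hDchar _ _ y.2
      have h1 := hzc ⟨(β * α⁻¹)⁻¹ (y : G), hy'⟩
      have h2 := congrArg (fun w : D => (β * α⁻¹) (w : G)) h1
      simp only [Subgroup.coe_mul, map_mul, hγ] at h2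
      have h3 : (β * α⁻¹) ((β * α⁻¹)⁻¹ (y : G)) = y := by
        rw [MulAut.inv_apply, MulEquiv.apply_symm_apply]
      rw [h3] at h2
      exact Subtype.ext h2
  have hfix : ∀ g : G, orderOf g = q → ∀ v : D, MulAut.conjNormal g v = v → v = 1 := by
    intro g hg v hv
    by_contra hv1
    have hvo : orderOf (v : G) = p := hDord _ v.2 (fun h => hv1 (Subtype.ext h))
    apply hfpf g v hg hvo
    have := congrArg Subtype.val hv
    rwa [MulAut.conjNormal_apply] at this
  have hpdvd : p ∣ Nat.card G := ha ▸ orderOf_dvd_natCard a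
  have hqdvd : q ∣ Nat.card G := hb ▸ orderOf_dvd_natCard b
  have hQcard : ∀ Q : Sylow q G, Nat.card (Q : Subgroup G) = q := by
    intro Q
    have hQord : ∀ g : G, g ∈ (Q : Subgroup G) → g ≠ 1 → orderOf g = q := by
      intro g hg hg1
      rcases F3 g with h | h | h
      · exact absurd h hg1
      · exfalso
        obtain ⟨k, hk⟩ := (IsPGroup.iff_orderOf.mp Q.isPGroup') ⟨g, hg⟩
        rw [Subgroup.orderOf_mk, h] at hk
        exact prime_ne_pow hq.out hp.out hpq.symm k hk
      · exact h
    obtain ⟨z, hzQ, hzcen, hz1⟩ : ∃ z : G, z ∈ (Q : Subgroup G) ∧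
        (∀ y ∈ (Q : Subgroup G), Commute z y) ∧ z ≠ 1 := by
      haveI : Nontrivial (Q : Subgroup G) :=
        (Subgroup.nontrivial_iff_ne_bot _).mpr (Q.ne_bot_of_dvd_card hqdvd)
      haveI := Q.isPGroup'.center_nontrivial
      obtain ⟨z, hz1⟩ := exists_ne (1 : Subgroup.center (Q : Subgroup G))
      refine ⟨((z : (Q : Subgroup G)) : G), (z : (Q : Subgroup G)).2, ?_, ?_⟩
      · intro y hy
        have := Subgroup.mem_center_iff.mp z.2 ⟨y, hy⟩
        exact (congrArg Subtype.val this).symm
      · exact fun h => hz1 (Subtype.ext (Subtype.ext h))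
    have hzord : orderOf z = q := hQord z hzQ hz1
    have hQz : (Q : Subgroup G) = Subgroup.zpowers z := by
      apply le_antisymm
      · intro y hy
        by_contra hyz
        have hy1 : y ≠ 1 := fun h => hyz (h ▸ Subgroup.one_mem _)
        have hyord := hQord y hy hy1
        have hall := fpf_noncyclic D hDcomm q z y (hzcen y hy) hzord hyord hyz hfix
        have haq := congrArg Subtype.val (hall ⟨a, haD⟩)
        simp only [Subgroup.coe_pow, Subgroup.coe_one] at haq
        have : p ∣ q := ha ▸ orderOf_dvd_of_pow_eq_one haq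
        exact hpq ((Nat.prime_dvd_prime_iff_eq hp.out hq.out).mp this)
      · rw [Subgroup.zpowers_le]; exact hzQ
    rw [hQz, Nat.card_zpowers, hzord]
  obtain ⟨P₀⟩ : Nonempty (Sylow p G) := inferInstance
  obtain ⟨Q₀⟩ : Nonempty (Sylow q G) := inferInstance
  have hN0 : Nat.card G ≠ 0 := Nat.card_pos.ne'
  have hn1 : 1 ≤ (Nat.card G).factorization p := hp.out.factorization_pos_of_dvd hN0 hpdvd
  have hfq : (Nat.card G).factorization q = 1 := by
    have h1 := Q₀.card_eq_multiplicity
    rw [hQcard Q₀] at h1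
    have : q ^ 1 = q ^ (Nat.card G).factorization q := by rw [pow_one]; exact h1
    exact (Nat.pow_right_injective hq.out.two_le this).symm
  have hcard : Nat.card G = p ^ (Nat.card G).factorization p * q := by
    have := card_eq_of_orders p q hp.out hq.out hpq F3
    rw [hfq, pow_one] at this
    exact this
  have hDcard : Nat.card D = p ^ (Nat.card G).factorization p := by
    rw [← hSyl P₀]; exact P₀.card_eq_multiplicity
  have hprim : orderOf (p : ZMod q) = q - 1 := by
    have hexpD : ∀ v : D, v ^ p = 1 := fun v => Subtype.ext (by simpa using hDexp v v.2)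
    have hXq : (MulAut.conjNormal b : MulAut D) ^ q = 1 := by
      rw [← map_pow, ← hb, pow_orderOf_eq_one, map_one]
    have hcompl : D.IsComplement' (Subgroup.zpowers b) := by
      apply Subgroup.isComplement'_of_coprime
      · rw [Nat.card_zpowers, hb, hDcard]; exact hcard.symm
      · rw [Nat.card_zpowers, hb, hDcard]; exact Nat.Coprime.pow_left _ hcop
    have hdecomp : ∀ g : G, ∃ (u : D) (k : ℕ), g = (u : G) * b ^ k := by
      intro g
      obtain ⟨⟨u, c⟩, huc⟩ := hcompl.2 g
      have hc : (c : G) ∈ Subgroup.zpowers b := c.2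
      obtain ⟨k, hk⟩ := (Submonoid.mem_powers_iff _ _).mp ((mem_powers_iff_mem_zpowers).mpr hc)
      exact ⟨u, k, by rw [hk]; exact huc.symm⟩
    have hconjpow : ∀ (u : D) (k : ℕ),
        (MulAut.conjNormal ((u : G) * b ^ k) : MulAut D) = MulAut.conjNormal b ^ k := by
      intro u k
      rw [map_mul, map_pow]
      have hu1 : (MulAut.conjNormal (u : G) : MulAut D) = 1 := by
        ext v
        rw [MulAut.conjNormal_apply, MulAut.one_apply]
        have h3 := congrArg Subtype.val (hDcomm u v)
        simp only [Subgroup.coe_mul] at h3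
        rw [h3, mul_inv_cancel_right]
      rw [hu1, one_mul]
    refine mul_fwd hpq hDcomm hexpD (MulAut.conjNormal b) hXq (hfix b hb) ?_ ?_
    · intro v w hv hw
      have hvo : orderOf (v : G) = p := hDord _ v.2 (fun h => hv (Subtype.ext h))
      have hwo : orderOf (w : G) = p := hDord _ w.2 (fun h => hw (Subtype.ext h))
      obtain ⟨α, hα⟩ := F1 _ hvo
      obtain ⟨β, hβ⟩ := F1 _ hwo
      have hγ : (β * α⁻¹) (v : G) = w := by
        rw [← hα, MulAut.mul_apply, MulAut.inv_apply, MulEquiv.symm_apply_apply, hβ]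
      obtain ⟨u, k, huk⟩ := hdecomp ((β * α⁻¹) b)
      refine ⟨restrictAut D hDchar (β * α⁻¹), k, ?_, Subtype.ext hγ⟩
      rw [restrictAut_conj, huk, hconjpow]
    · intro k hk0 hkq
      have hbk : orderOf (b ^ k) = q := by
        have hcop' : (orderOf b).Coprime k := by
          rw [hb]
          exact (Nat.Prime.coprime_iff_not_dvd hq.out).mpr (Nat.not_dvd_of_pos_of_lt hk0 hkq)
        rw [hcop'.orderOf_pow, hb]
      obtain ⟨γ, hγ⟩ := F2 _ hbk
      refine ⟨restrictAut D hDchar γ, ?_⟩
      rw [restrictAut_conj, hγ, map_pow]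
  refine ⟨(Nat.card G).factorization p, hn1, hcard, ?_, hprim, hfpf⟩
  intro P
  rw [hSyl P]
  exact ⟨hDn, ⟨⟨fun x y => hDcomm x y⟩⟩, hDexp⟩

theorem three_orb_fwd {G : Type*} [Group G] [Finite G] (hnpp : ¬ IsPrimePow (Nat.card G))
    (hnt : Nat.card G ≠ 1)
    (hsolv : ∀ (p q : ℕ), p.Prime → q.Prime → ∀ i j : ℕ, Nat.card G = p ^ i * q ^ j →
      Group.IsSolvable G)
    (h3 : Nat.card (MulAction.orbitRel.Quotient (MulAut G) G) = 3) :
    ∃ (p q n : ℕ) (_ : Fact p.Prime) (_ : Fact q.Prime), p ≠ q ∧ 1 ≤ n ∧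
      Nat.card G = p ^ n * q ∧
      (∀ P : Sylow p G, (P : Subgroup G).Normal ∧
        Cfsg.IsElementaryAbelian p (P : Subgroup G)) ∧
      orderOf (p : ZMod q) = q - 1 ∧
      ∀ x y : G, orderOf x = q → orderOf y = p → x * y * x⁻¹ ≠ y := by
  classical
  have hN0 : Nat.card G ≠ 0 := Nat.card_pos.ne'
  obtain ⟨p, hp, hpdvd⟩ := Nat.exists_prime_and_dvd hnt
  obtain ⟨q, hq, hqdvd, hqp⟩ : ∃ q, q.Prime ∧ q ∣ Nat.card G ∧ q ≠ p := by
    by_contra hcon
    apply hnpp
    rw [isPrimePow_iff_unique_prime_dvd]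
    exact ⟨p, ⟨hp, hpdvd⟩, fun r hr => by_contra fun hne => hcon ⟨r, hr.1, hr.2, hne⟩⟩
  have hpq : p ≠ q := fun h => hqp h.symm
  haveI hpF : Fact p.Prime := ⟨hp⟩
  haveI hqF : Fact q.Prime := ⟨hq⟩
  obtain ⟨a, ha⟩ := exists_prime_orderOf_dvd_card' (G := G) p hpdvd
  obtain ⟨b, hb⟩ := exists_prime_orderOf_dvd_card' (G := G) q hqdvd
  have hord_of_eq : ∀ x y : G,
      (Quotient.mk'' x : MulAction.orbitRel.Quotient (MulAut G) G) = Quotient.mk'' y →
      orderOf x = orderOf y := by
    intro x y h
    have h' := (MulAction.orbitRel_apply).mp (Quotient.exact' h)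
    obtain ⟨α, hα⟩ := h'
    rw [← hα]
    exact MulEquiv.orderOf_eq α y
  have hex : ∀ x y : G,
      (Quotient.mk'' x : MulAction.orbitRel.Quotient (MulAut G) G) = Quotient.mk'' y →
      ∃ α : MulAut G, α y = x := by
    intro x y h
    exact (MulAction.orbitRel_apply).mp (Quotient.exact' h)
  have h1a : (Quotient.mk'' 1 : MulAction.orbitRel.Quotient (MulAut G) G) ≠ Quotient.mk'' a := by
    intro h
    have := hord_of_eq _ _ h
    rw [orderOf_one, ha] at this
    exact hp.ne_one this.symm
  have h1b : (Quotient.mk'' 1 : MulAction.orbitRel.Quotient (MulAut G) G) ≠ Quotient.mk'' b := by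
    intro h
    have := hord_of_eq _ _ h
    rw [orderOf_one, hb] at this
    exact hq.ne_one this.symm
  have hab : (Quotient.mk'' a : MulAction.orbitRel.Quotient (MulAut G) G) ≠ Quotient.mk'' b := by
    intro h
    have := hord_of_eq _ _ h
    rw [ha, hb] at this
    exact hpq this
  have hall : ∀ c : MulAction.orbitRel.Quotient (MulAut G) G,
      c = Quotient.mk'' 1 ∨ c = Quotient.mk'' a ∨ c = Quotient.mk'' b := by
    have hs : ({Quotient.mk'' 1, Quotient.mk'' a, Quotient.mk'' b} :
        Set (MulAction.orbitRel.Quotient (MulAut G) G)).ncard = 3 :=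
      Set.ncard_eq_three.mpr ⟨_, _, _, h1a, h1b, hab, rfl⟩
    have huniv : ({Quotient.mk'' 1, Quotient.mk'' a, Quotient.mk'' b} :
        Set (MulAction.orbitRel.Quotient (MulAut G) G)) = Set.univ :=
      Set.eq_of_subset_of_ncard_le (Set.subset_univ _) (by rw [Set.ncard_univ, h3, hs])
    intro c
    have : c ∈ ({Quotient.mk'' 1, Quotient.mk'' a, Quotient.mk'' b} :
        Set (MulAction.orbitRel.Quotient (MulAut G) G)) := huniv ▸ Set.mem_univ c
    simpa using this
  have F1 : ∀ g : G, orderOf g = p → ∃ α : MulAut G, α a = g := by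
    intro g hg
    rcases hall (Quotient.mk'' g) with h | h | h
    · have := hord_of_eq _ _ h
      rw [orderOf_one, hg] at this
      exact absurd this hp.ne_one
    · exact hex _ _ h
    · have := hord_of_eq _ _ h
      rw [hb, hg] at this
      exact absurd this hpq
  have F2 : ∀ g : G, orderOf g = q → ∃ α : MulAut G, α b = g := by
    intro g hg
    rcases hall (Quotient.mk'' g) with h | h | h
    · have := hord_of_eq _ _ h
      rw [orderOf_one, hg] at this
      exact absurd this hq.ne_one
    · have := hord_of_eq _ _ h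
      rw [ha, hg] at this
      exact absurd this.symm hpq
    · exact hex _ _ h
  have F3 : ∀ g : G, g = 1 ∨ orderOf g = p ∨ orderOf g = q := by
    intro g
    rcases hall (Quotient.mk'' g) with h | h | h
    · left
      have := hord_of_eq _ _ h
      rw [orderOf_one] at this
      exact orderOf_eq_one_iff.mp this
    · right; left
      rw [hord_of_eq _ _ h, ha]
    · right; right
      rw [hord_of_eq _ _ h, hb]
  have F3' : ∀ g : G, g = 1 ∨ orderOf g = q ∨ orderOf g = p := by
    intro g
    rcases F3 g with h | h | h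
    · exact Or.inl h
    · exact Or.inr (Or.inr h)
    · exact Or.inr (Or.inl h)
  haveI : Group.IsSolvable G := hsolv p q hp hq _ _ (card_eq_of_orders p q hp hq hpq F3)
  haveI : Nontrivial G := by
    rw [← Finite.one_lt_card_iff_nontrivial]
    omega
  have hDlt : commutator G < ⊤ := Group.IsSolvable.commutator_lt_top_of_nontrivial G
  have hDchar : ∀ (α : MulAut G) (g : G), g ∈ commutator G → α g ∈ commutator G := by
    intro α g hg
    have hc : (commutator G).Characteristic := inferInstance
    exact (Subgroup.characteristic_iff_map_le.mp hc α) (Subgroup.mem_map_of_mem _ hg)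
  haveI hDn : (commutator G).Normal := inferInstance
  by_cases haD : a ∈ commutator G
  · by_cases hbD : b ∈ commutator G
    · exfalso
      apply hDlt.ne
      rw [eq_top_iff]
      intro g _
      rcases F3 g with h | h | h
      · rw [h]; exact Subgroup.one_mem _
      · obtain ⟨α, rfl⟩ := F1 g h
        exact hDchar α a haD
      · obtain ⟨α, rfl⟩ := F2 g h
        exact hDchar α b hbD
    · obtain ⟨n, hn, hcard, hP, hord, hfpf⟩ :=
        three_orb_core p q hpq a b ha hb F1 F2 F3 (commutator G) hDchar haD hbD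
      exact ⟨p, q, n, hpF, hqF, hpq, hn, hcard, hP, hord, hfpf⟩
  · by_cases hbD : b ∈ commutator G
    · obtain ⟨n, hn, hcard, hP, hord, hfpf⟩ :=
        three_orb_core q p hpq.symm b a hb ha F2 F1 F3' (commutator G) hDchar hbD haD
      exact ⟨q, p, n, hqF, hpF, hpq.symm, hn, hcard, hP, hord, hfpf⟩
    · exfalso
      have hbot : commutator G = ⊥ := by
        rw [eq_bot_iff]
        intro g hg
        rcases F3 g with h | h | h
        · rw [h]; exact Subgroup.one_mem _
        · exfalso
          obtain ⟨α, rfl⟩ := F1 g h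
          apply haD
          have := hDchar α⁻¹ _ hg
          simpa using this
        · exfalso
          obtain ⟨α, rfl⟩ := F2 g h
          apply hbD
          have := hDchar α⁻¹ _ hg
          simpa using this
      have hcen : Subgroup.center G = ⊤ := (commutator_eq_bot_iff_center_eq_top G).mp hbot
      apply no_commute_of_orders p q hpq F3 b a hb ha
      have : a ∈ Subgroup.center G := hcen ▸ Subgroup.mem_top a
      exact (Subgroup.mem_center_iff.mp this b)

end ThreeOrbGrp

end Cfsg.Agent.H97
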